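import Cfsg.Statements.S2602
import Cfsg.Agent.Lib.Aut.PSLSpec

set_option autoImplicit false
open Cfsg

namespace Cfsg.Agent.S2602

open Cfsg.Agent.Lib.Aut Cfsg.Agent.Lib.Aut.PSL SemidirectProduct in

/-- Structure of the outer automorphism group of PSL_2(q), q = p^f ≥ 4: it has a normal cyclic subgroup of order gcd(2, q − 1) (diagonal automorphisms) with cyclic quotient of order f (field automorphisms); there is no graph automorphism in dimension 2. -/
theorem result {F : Type*} [Field F] [Fintype F] {p f : ℕ} [Fact p.Prime] (hf : 1 ≤ f) (hF : Fintype.card F = p ^ f) (h4 : 4 ≤ p ^ f) : ∃ φ : Cfsg.Out (Matrix.ProjectiveSpecialLinearGroup (Fin 2) F) →* Multiplicative (ZMod f), Function.Surjective φ ∧ IsCyclic φ.ker ∧ Nat.card φ.ker = Nat.gcd 2 (p ^ f - 1) := by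
  have h2 : Fintype.card (Fin 2) = 2 := by simp
  obtain ⟨e⟩ := ringAut_equiv_zmod F hF
  let B : Subgroup (Gam (Fin 2) F) := ((MonoidHom.snd _ _).comp rightHom).ker
  have hB : ∀ b : B, b.1.right.2 = 1 := fun b => b.2
  let r : B →* Multiplicative (ZMod f) :=
    e.toMonoidHom.comp ((MonoidHom.fst _ _).comp (rightHom.comp B.subtype))
  have hr : ∀ a, r a = 1 ↔ a.1.right.1 = 1 := fun a => by
    show e a.1.right.1 = 1 ↔ _
    exact EmbeddingLike.map_eq_one_iff
  have hr' : ∀ a : r.ker, a.1.1.right = 1 := fun a => Prod.ext ((hr _).mp a.2) (hB _)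
  let l : r.ker →* GL (Fin 2) F :=
    { toFun := fun a => a.1.1.left
      map_one' := rfl
      map_mul' := fun a b => by simp [hr' a] }
  have hl : ∀ d : r.ker, d.1.1 = inl (l d) := fun d => by
    ext : 1
    · rfl
    · simp [hr' d]
  obtain ⟨φ, h1, ⟨k⟩⟩ := out_structure ((Θ (Fin 2) F).comp B.subtype)
    (fun β => by
      obtain ⟨g, σ, h⟩ := surj_two h2 β
      exact ⟨⟨⟨g, (σ, 1)⟩, rfl⟩, h.symm⟩) r
    (e.surjective.comp (fun σ => ⟨⟨inr (σ, 1), rfl⟩, rfl⟩))
    (fun a ha => (hr a).mpr (fld_eq_one_of_mem h2.ge a.1.left a.1.right.1 (by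
      have : (⟨a.1.left, (a.1.right.1, 1)⟩ : Gam (Fin 2) F) = a.1 := by
        rw [← hB a]
      rw [this]
      exact inn_le_range_ψ ha)))
    ((κ (Fin 2) F).comp l)
    (κ_surjective.comp (fun g => ⟨⟨⟨inl g, rfl⟩, (hr _).mpr rfl⟩, rfl⟩))
    (fun d => by
      show Θ (Fin 2) F d.1.1 ∈ _ ↔ _
      rw [hl d]; exact ψ_mem_inn_iff h2.ge _)
  refine ⟨φ, h1, ?_, ?_⟩
  · exact isCyclic_of_surjective k.symm.toMonoidHom k.symm.surjective
  · rw [Nat.card_congr k.toEquiv, card_quot_pow_range, Nat.card_units, Nat.card_eq_fintype_card, hF,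
      Fintype.card_fin]

end Cfsg.Agent.S2602
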