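import Cfsg.Statements.S2622
import Cfsg.Agent.Lib.Forms.QuadBasic

set_option autoImplicit false
open Cfsg

namespace Cfsg.Agent.S2622

open Cfsg.Agent.Lib.Forms Module QuadraticMap


universe u

theorem aux {F : Type*} [Field F] [Finite F] [CharP F 2] (n : ℕ) :
    ∀ (V : Type u) [AddCommGroup V] [Module F V] [FiniteDimensional F V], finrank F V = n →
      ∀ B : LinearMap.BilinForm F V, B.IsSymm → B.Nondegenerate → (n = 0 ∨ ∃ v : V, B v v ≠ 0) →
        ∃ b : Fin n → V, ∀ i j, B (b i) (b j) = if i = j then 1 else 0 := by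
  have h2 : (2 : F) = 0 := CharP.cast_eq_zero F 2
  induction n with
  | zero => intro V _ _ _ _ B _ _ _; exact ⟨Fin.elim0, fun i => i.elim0⟩
  | succ n ih =>
    intro V _ _ _ hV B hS hB hna
    obtain ⟨v, hv⟩ := hna.resolve_left (by omega)
    have hs : ∀ x y, B x y = B y x := hS.eq
    have hd : ∀ v, B v v ≠ 0 → finrank F (B.orthogonal (F ∙ v)) = n := fun v hv => by
      rw [LinearMap.BilinForm.finrank_orthogonal hB, hV, finrank_span_singleton (by rintro rfl; simp at hv)]
      simp
    have hm : ∀ v x, x ∈ B.orthogonal (F ∙ v) ↔ B v x = 0 := fun v x => by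
      refine ⟨fun h => h v (Submodule.mem_span_singleton_self v), fun h y hy => ?_⟩
      obtain ⟨a, rfl⟩ := Submodule.mem_span_singleton.mp hy
      change B (a • v) x = 0
      simp [h]
    have key : ∃ v, B v v ≠ 0 ∧ (n = 0 ∨ ∃ x, B v x = 0 ∧ B x x ≠ 0) := by
      by_cases hn : n = 0
      · exact ⟨v, hv, .inl hn⟩
      by_cases hx : ∃ x, B v x = 0 ∧ B x x ≠ 0
      · exact ⟨v, hv, .inr hx⟩
      push Not at hx
      have hW := B.restrict_nondegenerate_orthogonal_spanSingleton hB hS.isRefl hv
      have : Nontrivial (B.orthogonal (F ∙ v)) := Module.nontrivial_of_finrank_pos (R := F) (by rw [hd v hv]; omega)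
      obtain ⟨x, hx0⟩ := exists_ne (0 : B.orthogonal (F ∙ v))
      have : ∃ y : B.orthogonal (F ∙ v), B x y ≠ 0 := by
        by_contra hc
        push Not at hc
        exact hx0 (hW.1 x hc)
      obtain ⟨y, hy⟩ := this
      have hx1 := (hm v x).mp x.2
      have hy1 := (hm v y).mp y.2
      refine ⟨v + x, ?_, .inr ⟨B v v • (y : V) + B x y • v, ?_, ?_⟩⟩
      · simpa [hx1, hs x v, hx x hx1] using hv
      · simp only [map_add, map_smul, LinearMap.add_apply, smul_eq_mul, hy1, hs x v, hx1]
        linear_combination (B v v * B x y) * h2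
      · simpa [hy1, hs y v, hx y hy1, hy] using hv
    obtain ⟨v, hv, hx⟩ := key
    obtain ⟨a, ha⟩ := FiniteField.isSquare_of_char_two (ringChar.eq F 2) (B v v)⁻¹
    obtain ⟨b, hb⟩ := ih (B.orthogonal (F ∙ v)) (hd v hv) (B.restrict _) (hS.restrict _)
      (B.restrict_nondegenerate_orthogonal_spanSingleton hB hS.isRefl hv)
      (hx.imp id fun ⟨x, h1, h3⟩ => ⟨⟨x, (hm v x).mpr h1⟩, h3⟩)
    refine ⟨Fin.cons (a • v) fun i => b i, fun i j => ?_⟩
    induction i using Fin.cases with
    | zero =>
      induction j using Fin.cases with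
      | zero => simp [← mul_assoc, ← ha, hv]
      | succ j => simp [(hm v _).mp (b j).2, (Fin.succ_ne_zero j).symm]
    | succ i =>
      induction j using Fin.cases with
      | zero => simp [hs _ v, (hm v _).mp (b i).2]
      | succ j => simpa using hb i j

/-- Over a finite field of characteristic two, a non-degenerate symmetric bilinear form that is not alternating (some vector v has B(v, v) ≠ 0) admits an orthonormal basis. -/
theorem result {F V : Type*} [Field F] [Finite F] [CharP F 2] [AddCommGroup V] [Module F V] [FiniteDimensional F V] {n : ℕ} (hV : Module.finrank F V = n) (B : LinearMap.BilinForm F V) (hS : B.IsSymm) (hB : B.Nondegenerate) (hna : ∃ v : V, B v v ≠ 0) : ∃ b : Module.Basis (Fin n) F V, ∀ i j, B (b i) (b j) = if i = j then 1 else 0 := by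
  obtain ⟨b, hb⟩ := aux n V hV B hS hB (.inr hna)
  have hl : LinearIndependent F b := by
    rw [Fintype.linearIndependent_iff]
    intro g hg i
    have := congrArg (B (b i)) hg
    simpa [hb] using this
  refine ⟨basisOfLinearIndependentOfCardEqFinrank' b hl (by simp [hV]), fun i j => ?_⟩
  simpa using hb i j

end Cfsg.Agent.S2622
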