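import Cfsg.Statements.S0454
import Cfsg.Agent.Lib.Spor.Ly.All

set_option autoImplicit false
open Cfsg

namespace Cfsg.Agent.S0454

open Cfsg.Agent.Spor in
theorem main {Γ : Type} [Group Γ] [Finite Γ] {γ : ℕ → Γ} (h : Ly.Cl γ) :
    ∃ H : Subgroup (Equiv.Perm (Fin 8835156)), Cfsg.IsLy H ∧ MulAction.IsPretransitive H (Fin 8835156) ∧ Cfsg.IsG2 (MulAction.stabilizer H (0 : Fin 8835156)) ∧ ∃ t : H, orderOf t = 2 ∧ Cfsg.IsNonsplitDoubleCover (Subgroup.centralizer ({t} : Set H)) (alternatingGroup (Fin 11)) := by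
  obtain ⟨hs, hc⟩ := h.isLy
  obtain ⟨H, ⟨f⟩, h1, ⟨g⟩⟩ := exists_perm_sub
    (KG_mono γ (by norm_num : 62 ≤ 63)) (n := 8835156) (m := 5859000000)
    (hc.trans (by norm_num)) h.g2.2 (by norm_num) (by norm_num)
  obtain ⟨z, h2, h3⟩ := h.centz
  obtain ⟨h4, h5⟩ := simple_card_congr g h.g2
  refine ⟨H, simple_card_congr f ⟨hs, hc⟩, h1,
    ⟨h4, 5, (by norm_num : Nat.Prime 5).isPrimePow, by norm_num, ?_⟩, f z,
    (orderOf_injective f.toMonoidHom f.injective z).trans h2, nonsplit_congr (centCongr f z) h3⟩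
  rw [h5]; norm_num


/-- Existence of the Lyons group: there is a transitive permutation group of degree 8835156, simple of order 51765179004000000, whose point stabiliser is simple of the order of a group of type G2, and which has an involution whose centraliser is a non-split double cover of the alternating group of degree 11. -/
theorem result : ∃ H : Subgroup (Equiv.Perm (Fin 8835156)), Cfsg.IsLy H ∧ MulAction.IsPretransitive H (Fin 8835156) ∧ Cfsg.IsG2 (MulAction.stabilizer H (0 : Fin 8835156)) ∧ ∃ t : H, orderOf t = 2 ∧ Cfsg.IsNonsplitDoubleCover (Subgroup.centralizer ({t} : Set H)) (alternatingGroup (Fin 11)) := by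
  exact main Cfsg.Agent.Spor.Ly.cl

end Cfsg.Agent.S0454
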