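import Cfsg.Statements.S0447
import Cfsg.Agent.Lib.Invol.CoxeterA
import Cfsg.Agent.Lib.Transfer.Focal

set_option autoImplicit false
open Cfsg

namespace Cfsg.Agent.S0447

open Cfsg.Agent.Lib.Invol Equiv

theorem conj_even {n : ℕ} (hn : n ≤ 7) {σ τ : Perm (Fin n)} (h1 : orderOf σ = 2)
    (h2 : orderOf τ = 2) (s1 : Perm.sign σ = 1) (s2 : Perm.sign τ = 1) :
    ∃ g : Perm (Fin n), Perm.sign g = 1 ∧ g * σ * g⁻¹ = τ := by
  have key : ∀ σ : Perm (Fin n), orderOf σ = 2 → Perm.sign σ = 1 →
      σ.cycleType = Multiset.replicate 2 2 := by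
    intro σ h s
    obtain ⟨k, hk⟩ := Perm.cycleType_prime_order (σ := σ) (h ▸ Nat.prime_two)
    have h3 := σ.sum_cycleType_le
    rw [Perm.sign_of_cycleType] at s
    rw [h] at hk
    rw [hk] at h3 s ⊢
    simp only [Multiset.sum_replicate, smul_eq_mul, Fintype.card_fin, Multiset.card_replicate]
      at h3 s
    have : k ≤ 2 := by omega
    interval_cases k
    · exact absurd s (by decide)
    · rfl
    · exact absurd s (by decide)
  obtain ⟨g, hg⟩ := isConj_iff.mp (Perm.isConj_of_cycleType_eq
    ((key σ h1 s1).trans (key τ h2 s2).symm))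
  rcases Int.units_eq_one_or (Perm.sign g) with h | h
  · exact ⟨g, h, hg⟩
  · obtain ⟨a, ha⟩ : ∃ a, σ a ≠ a := by
      by_contra hall
      push Not at hall
      exact ne_one_of_orderOf_two h1 (Equiv.ext hall)
    have hσ : σ (σ a) = a := by
      rw [← Perm.mul_apply, mul_self_of_orderOf_two h1, Perm.one_apply]
    have hc : σ * swap a (σ a) * σ⁻¹ = swap a (σ a) := by
      rw [← swap_apply_apply, hσ, swap_comm]
    refine ⟨g * swap a (σ a), by rw [map_mul, h, Perm.sign_swap ha.symm]; simp, ?_⟩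
    rw [mul_inv_eq_iff_eq_mul] at hc
    rw [← hg, mul_assoc g, ← hc]
    group

theorem split_of_lifts {H K : Type*} [Group H] [Finite H] [Group K] (π : H →* K)
    (hker : π.ker = Subgroup.center H) (hZ : Nat.card (Subgroup.center H) = 2)
    (hlift : ∀ x : H, orderOf (π x) = 2 → x * x = 1) {s t : H} (hs : orderOf (π s) = 2)
    (ht : orderOf (π t) = 2) (hst : π s ≠ π t) {m q : ℕ} (hm : orderOf (π s * π t) = 2 ^ (m + 1))
    (hq : Odd q) (hH : Nat.card H = 2 ^ (m + 3) * q) :
    ∃ L : Subgroup H, (Subgroup.center H).IsComplement' L := by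
  have hs2 := hlift s hs
  have ht2 := hlift t ht
  have h1 : (s * t) ^ 2 ^ (m + 1) = 1 := by
    rw [pow_succ, pow_mul, pow_two]
    apply hlift
    have := orderOf_half_pow (r := π s * π t) (by rw [hm]; positivity)
      (by rw [hm, pow_succ]; exact even_two.mul_left _)
    rwa [hm, pow_succ, Nat.mul_div_cancel _ two_pos, ← map_mul, ← map_pow] at this
  have h2 : orderOf (s * t) = 2 ^ (m + 1) := by
    refine Nat.dvd_antisymm (orderOf_dvd_of_pow_eq_one h1) ?_
    rw [← hm, ← map_mul]
    exact orderOf_map_dvd π _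
  have hs' : orderOf s = 2 := orderOf_two_of hs2 fun h => by simp [h] at hs
  have ht' : orderOf t = 2 := orderOf_two_of ht2 fun h => by simp [h] at ht
  obtain ⟨e⟩ := nonempty_mulEquiv_dihedral hs' ht' (fun h => hst (by rw [h]))
  have hD : Nat.card (Subgroup.closure ({s, t} : Set H)) = 2 ^ (m + 2) := by
    rw [Nat.card_congr e.toEquiv, DihedralGroup.nat_card, h2]; ring
  obtain ⟨P, hP⟩ := (IsPGroup.of_card hD).exists_le_sylow
  have hPc : Nat.card (P : Subgroup H) = 2 ^ (m + 3) := by
    have := P.card_eq_multiplicity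
    rw [hH, Nat.factorization_mul (by positivity) hq.pos.ne', Nat.factorization_pow] at this
    simpa [Nat.prime_two.factorization,
      Nat.factorization_eq_zero_of_not_dvd hq.not_two_dvd_nat] using this
  have hrel : (Subgroup.closure ({s, t} : Set H)).relIndex P = 2 := by
    have := ((Subgroup.closure ({s, t} : Set H)).subgroupOf P).index_mul_card
    rw [Nat.card_congr (Subgroup.subgroupOfEquivOfLe hP).toEquiv, hD, hPc, pow_succ' 2 (m + 2)]
      at this
    exact Nat.eq_of_mul_eq_mul_right (by positivity) this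
  obtain ⟨z, hzZ, hz⟩ := exists_involution_mem_of_even (H := Subgroup.center H) (by rw [hZ]; decide)
  have hzc := Subgroup.mem_center_iff.mp hzZ
  have hπz : π z = 1 := by rw [← MonoidHom.mem_ker, hker]; exact hzZ
  have hzD : z ∉ Subgroup.closure ({s, t} : Set H) := by
    rw [mem_closure_pair_iff hs2 ht2]
    rintro ⟨k, rfl | rfl⟩
    · rw [map_zpow, ← orderOf_dvd_iff_zpow_eq_one, map_mul, hm, ← h2,
        orderOf_dvd_iff_zpow_eq_one] at hπz
      exact ne_one_of_orderOf_two hz hπz
    · rw [map_mul, map_zpow, map_mul, mul_eq_one_iff_eq_inv, ← zpow_neg] at hπz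
      exact not_mem_zpowers_mul hs ht hst ⟨_, hπz.symm⟩
  have hzP : z ∈ P := mem_sylow_of_le_centralizer P (isPGroup_zpowers_of_involution hz)
    fun x _ => Subgroup.mem_centralizer_singleton_iff.mpr (hzc x)
  obtain ⟨M, -, hM, hzM⟩ := Cfsg.Agent.Lib.Transfer.thompson_transfer P hrel
    (by rw [pow_two, mul_self_of_orderOf_two hz]) hzP hzD
    (fun g => by rwa [hzc g, mul_inv_cancel_right])
  refine ⟨M, Subgroup.isComplement'_of_card_mul_and_disjoint ?_ ?_⟩
  · rw [hZ, ← hM, M.index_mul_card]
  · rw [Subgroup.disjoint_def]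
    intro x hx hxM
    by_contra hne
    obtain ⟨y, -, hy⟩ := (Nat.card_eq_two_iff' (1 : Subgroup.center H)).mp hZ
    have e1 := hy ⟨x, hx⟩ (fun h => hne (congrArg Subtype.val h))
    have e2 := hy ⟨z, hzZ⟩ (fun h => ne_one_of_orderOf_two hz (congrArg Subtype.val h))
    have e3 : x = z := congrArg Subtype.val (e1.trans e2.symm)
    exact hzM (e3 ▸ hxM)

theorem exists_pair {n : ℕ} (h4 : 4 ≤ n) (hn : n ≤ 7) : ∃ s t : Perm (Fin n), Perm.sign s = 1 ∧
    Perm.sign t = 1 ∧ orderOf s = 2 ∧ orderOf t = 2 ∧ s ≠ t ∧ ∃ m q : ℕ,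
      orderOf (s * t) = 2 ^ (m + 1) ∧ Odd q ∧ n.factorial = 2 ^ (m + 3) * q := by
  interval_cases n
  · exact ⟨swap 0 1 * swap 2 3, swap 0 2 * swap 1 3, by decide, by decide,
      orderOf_two_of (by decide) (by decide), orderOf_two_of (by decide) (by decide), by decide,
      0, 3, orderOf_two_of (by decide) (by decide), by decide, by decide⟩
  · exact ⟨swap 0 1 * swap 2 3, swap 0 2 * swap 1 3, by decide, by decide,
      orderOf_two_of (by decide) (by decide), orderOf_two_of (by decide) (by decide), by decide,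
      0, 15, orderOf_two_of (by decide) (by decide), by decide, by decide⟩
  · exact ⟨swap 0 1 * swap 2 3, swap 1 2 * swap 4 5, by decide, by decide,
      orderOf_two_of (by decide) (by decide), orderOf_two_of (by decide) (by decide), by decide,
      1, 45, orderOf_eq_prime_pow (by decide) (by decide), by decide, by decide⟩
  · exact ⟨swap 0 1 * swap 2 3, swap 1 2 * swap 4 5, by decide, by decide,
      orderOf_two_of (by decide) (by decide), orderOf_two_of (by decide) (by decide), by decide,
      1, 315, orderOf_eq_prime_pow (by decide) (by decide), by decide, by decide⟩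

theorem part_one (n : ℕ) (H : Type) [Group H] [Finite H] (hn : n ≤ 7)
    (h : Cfsg.IsNonsplitDoubleCover H (alternatingGroup (Fin n))) (x y : H) (hx : orderOf x = 2)
    (hy : orderOf y = 2) : x = y := by
  obtain ⟨hZ, ⟨e⟩, hns⟩ := h
  let π : H →* Perm (Fin n) := (alternatingGroup (Fin n)).subtype.comp
    (e.toMonoidHom.comp (QuotientGroup.mk' _))
  have hker : π.ker = Subgroup.center H := by
    ext x
    simp [π]
  have hsign : ∀ x, Perm.sign (π x) = 1 := fun x => (e (QuotientGroup.mk x)).2
  have hsurj : ∀ σ : Perm (Fin n), Perm.sign σ = 1 → ∃ x, π x = σ := by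
    intro σ hσ
    obtain ⟨x, hx⟩ := QuotientGroup.mk_surjective (e.symm ⟨σ, hσ⟩)
    exact ⟨x, by simp [π, hx]⟩
  have key : ∀ x : H, orderOf x = 2 → x ∈ Subgroup.center H := by
    intro x hx
    by_contra hxZ
    have hπx : orderOf (π x) = 2 := orderOf_two_of
      (by rw [← map_mul, mul_self_of_orderOf_two hx, map_one])
      (by rwa [Ne, ← MonoidHom.mem_ker, hker])
    have h4 : 4 ≤ n := by
      by_contra hlt
      have h1 := orderOf_dvd_natCard
        (⟨π x, Perm.mem_alternatingGroup.mpr (hsign x)⟩ : alternatingGroup (Fin n))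
      rw [Subgroup.orderOf_mk, hπx] at h1
      have : n ≤ 3 := by omega
      interval_cases n
      · rw [Nat.card_unique] at h1; omega
      · rw [Nat.card_unique] at h1; omega
      · rw [nat_card_alternatingGroup] at h1; simp at h1
      · rw [nat_card_alternatingGroup] at h1; simp [Nat.factorial] at h1
    have hlift : ∀ y : H, orderOf (π y) = 2 → y * y = 1 := by
      intro y hy
      obtain ⟨g, hg, hgx⟩ := conj_even hn hπx hy (hsign x) (hsign y)
      obtain ⟨g, rfl⟩ := hsurj g hg
      have h1 : y * (g * x * g⁻¹)⁻¹ ∈ Subgroup.center H := by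
        rw [← hker, MonoidHom.mem_ker]
        simp only [map_mul, map_inv, hgx, mul_inv_cancel]
      have h2 := pow_card_eq_one' (x := (⟨_, h1⟩ : Subgroup.center H))
      rw [hZ, pow_two] at h2
      have h3 : (y * (g * x * g⁻¹)⁻¹) * (y * (g * x * g⁻¹)⁻¹) = 1 := congrArg Subtype.val h2
      have h4 := Subgroup.mem_center_iff.mp h1
      have h5 : (g * x * g⁻¹) * (g * x * g⁻¹) = 1 :=
        mul_self_of_orderOf_two (by rw [orderOf_conj', hx])
      generalize g * x * g⁻¹ = w at *
      calc y * y = (y * w⁻¹) * (w * (y * w⁻¹)) * w := by group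
        _ = ((y * w⁻¹) * (y * w⁻¹)) * (w * w) := by rw [h4]; group
        _ = 1 := by rw [h3, h5, one_mul]
    obtain ⟨s, t, s1, s2, o1, o2, hst, m, q, hm, hq, hf⟩ := exists_pair h4 hn
    obtain ⟨s, rfl⟩ := hsurj s s1
    obtain ⟨t, rfl⟩ := hsurj t s2
    have hH : Nat.card H = 2 ^ (m + 3) * q := by
      have : Nontrivial (Fin n) := Fin.nontrivial_iff_two_le.mpr (by omega)
      rw [Subgroup.card_eq_card_quotient_mul_card_subgroup (Subgroup.center H), hZ,
        Nat.card_congr e.toEquiv, mul_comm, two_mul_nat_card_alternatingGroup, ← hf,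
        Nat.card_eq_fintype_card, Fintype.card_perm, Fintype.card_fin]
    obtain ⟨L, hL⟩ := split_of_lifts π hker hZ hlift o1 o2 hst hm hq hH
    exact hns L hL
  obtain ⟨z, -, hz⟩ := (Nat.card_eq_two_iff' (1 : Subgroup.center H)).mp hZ
  have e1 := hz ⟨x, key x hx⟩ (fun h => ne_one_of_orderOf_two hx (congrArg Subtype.val h))
  have e2 := hz ⟨y, key y hy⟩ (fun h => ne_one_of_orderOf_two hy (congrArg Subtype.val h))
  exact congrArg Subtype.val (e1.trans e2.symm)

theorem cover_of_rel {U : Type} [Group U] (z : U) (hz : orderOf z = 2) (hzc : ∀ g, g * z = z * g)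
    (t : ℕ → U) (h1 : ∀ i, i < 7 → t i * t i = 1)
    (h2 : ∀ i j, i + 1 < j → j < 7 → t i * t j = z * (t j * t i))
    (h3 : ∀ i, i + 1 < 7 → t i * t (i + 1) * t i = t (i + 1) * t i * t (i + 1)) :
    ∃ (H : Type) (_ : Group H) (_ : Finite H),
      Cfsg.IsNonsplitDoubleCover H (alternatingGroup (Fin 8)) ∧
        ∃ x y : H, x ≠ y ∧ orderOf x = 2 ∧ orderOf y = 2 := by
  have hz2 := mul_self_of_orderOf_two hz
  have hZc : Subgroup.zpowers z ≤ Subgroup.center U :=
    Subgroup.zpowers_le.mpr (Subgroup.mem_center_iff.mpr hzc)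
  have hN : (Subgroup.zpowers z).Normal := ⟨fun x hx g => by
    rwa [Subgroup.mem_center_iff.mp (hZc hx) g, mul_inv_cancel_right]⟩
  let mk := QuotientGroup.mk' (Subgroup.zpowers z)
  have hmk : ∀ x, mk x = 1 ↔ x ∈ Subgroup.zpowers z := fun x => QuotientGroup.eq_one_iff x
  have hmkz : mk z = 1 := (hmk z).mpr (Subgroup.mem_zpowers z)
  have hsq : ∀ x ∈ Subgroup.zpowers z, x * x = 1 := by
    rintro _ ⟨k, rfl⟩
    simp only
    rw [← Commute.mul_zpow (Commute.refl z), hz2, one_zpow]
  have hrel : CoxRel (fun i => mk (t i)) 7 := by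
    refine ⟨fun i hi => ?_, fun i j hij hj => ?_, fun i hi => ?_⟩
    · rw [← map_mul, h1 i hi, map_one]
    · change mk (t i) * mk (t j) = mk (t j) * mk (t i)
      rw [← map_mul, h2 i j hij hj, map_mul, hmkz, one_mul, map_mul]
    · simp only [← map_mul, h3 i hi]
  obtain ⟨φ, hφ⟩ := exists_hom_perm_of_coxRel hrel
  let ψ := φ.comp (alternatingGroup (Fin 8)).subtype
  have hsimple : IsSimpleGroup (alternatingGroup (Fin 8)) := alternatingGroup.isSimpleGroup (by simp)
  let a : alternatingGroup (Fin 8) := ⟨swap 0 1 * swap 2 3, by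
    rw [Perm.mem_alternatingGroup]; decide⟩
  let b : alternatingGroup (Fin 8) := ⟨swap 0 1 * swap 2 3 * (swap 4 5 * swap 6 7), by
    rw [Perm.mem_alternatingGroup]; decide⟩
  have ha : ψ a = mk (t 0 * t 2) := by
    change φ (swap 0 1 * swap 2 3) = _
    rw [map_mul, map_mul]
    exact congrArg₂ (· * ·) (hφ 0) (hφ 2)
  have hb : ψ b = mk (t 0 * t 2 * (t 4 * t 6)) := by
    change φ (swap 0 1 * swap 2 3 * (swap 4 5 * swap 6 7)) = _
    simp only [map_mul]
    exact congrArg₂ (· * ·) (congrArg₂ (· * ·) (hφ 0) (hφ 2)) (congrArg₂ (· * ·) (hφ 4) (hφ 6))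
  have hsq2 : ∀ i j, i + 1 < j → j < 7 → (t i * t j) * (t i * t j) = z := by
    intro i j hij hj
    nth_rewrite 1 [h2 i j hij hj]
    calc z * (t j * t i) * (t i * t j) = z * (t j * (t i * t i) * t j) := by group
      _ = z := by rw [h1 i (by omega), mul_one, h1 j hj, mul_one]
  have hψ : Function.Injective ψ := by
    rw [← MonoidHom.ker_eq_bot_iff]
    rcases (inferInstance : ψ.ker.Normal).eq_bot_or_eq_top with h | h
    · exact h
    · have h4 : a ∈ ψ.ker := h ▸ Subgroup.mem_top a
      rw [MonoidHom.mem_ker, ha, hmk] at h4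
      exact absurd ((hsq2 0 2 (by omega) (by omega)).symm.trans (hsq _ h4))
        (ne_one_of_orderOf_two hz)
  let H : Subgroup U := ψ.range.comap mk
  let π : H →* alternatingGroup (Fin 8) := (MonoidHom.ofInjective hψ).symm.toMonoidHom.comp
    ((mk.comp H.subtype).codRestrict ψ.range fun x => x.2)
  have hπ : ∀ x : H, ψ (π x) = mk x := fun x => MonoidHom.apply_ofInjective_symm hψ _
  have hπs : Function.Surjective π := by
    intro σ
    obtain ⟨x, hx⟩ := QuotientGroup.mk'_surjective (Subgroup.zpowers z) (ψ σ)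
    exact ⟨⟨x, σ, hx.symm⟩, hψ ((hπ _).trans hx)⟩
  have hker : ∀ x : H, π x = 1 ↔ (x : U) ∈ Subgroup.zpowers z := fun x => by
    rw [← hmk, ← hπ, map_eq_one_iff ψ hψ]
  have hcenter : Subgroup.center H = π.ker := by
    apply le_antisymm
    · intro x hx
      have : π x ∈ Subgroup.center (alternatingGroup (Fin 8)) := by
        rw [Subgroup.mem_center_iff]
        intro σ
        obtain ⟨y, rfl⟩ := hπs σ
        rw [← map_mul, ← map_mul, Subgroup.mem_center_iff.mp hx y]
      rwa [alternatingGroup.center_eq_bot (by simp)] at this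
    · intro x hx
      exact Subgroup.mem_center_iff.mpr fun y =>
        Subtype.ext (Subgroup.mem_center_iff.mp (hZc ((hker x).mp hx)) y)
  have hZH : Subgroup.zpowers z ≤ H := fun x hx => ⟨1, by rw [map_one, (hmk x).mpr hx]⟩
  have hcard : Nat.card (Subgroup.center H) = 2 := by
    have : Subgroup.center H = (Subgroup.zpowers z).subgroupOf H := by
      rw [hcenter]; ext x; exact hker x
    rw [this, Nat.card_congr (Subgroup.subgroupOfEquivOfLe hZH).toEquiv, Nat.card_zpowers, hz]
  let e : H ⧸ Subgroup.center H ≃* alternatingGroup (Fin 8) :=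
    (QuotientGroup.quotientMulEquivOfEq hcenter).trans
      (QuotientGroup.quotientKerEquivOfSurjective π hπs)
  have hfin : Finite H := by
    apply Nat.finite_of_card_ne_zero
    rw [Subgroup.card_eq_card_quotient_mul_card_subgroup (Subgroup.center H), hcard,
      Nat.card_congr e.toEquiv]
    exact mul_ne_zero Nat.card_pos.ne' two_ne_zero
  let z' : H := ⟨z, hZH (Subgroup.mem_zpowers z)⟩
  have hz' : z' ∈ Subgroup.center H := hcenter ▸ (hker z').mpr (Subgroup.mem_zpowers z)
  refine ⟨H, inferInstance, hfin, ⟨hcard, ⟨e⟩, ?_⟩, z', ⟨_, b, hb⟩, ?_, by simpa [z'] using hz, ?_⟩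
  · intro L hL
    obtain ⟨⟨⟨c, hc⟩, ⟨l, hl⟩⟩, hcl⟩ := hL.2 ⟨_, a, ha⟩
    simp only at hcl
    have h5 : c * c = 1 := Subtype.ext (hsq _ ((hker c).mp (hcenter ▸ hc : c ∈ π.ker)))
    have h6 : l * l = z' := by
      have hcl' : Commute l c := Subgroup.mem_center_iff.mp hc l
      calc l * l = (c * c) * (l * l) := by rw [h5, one_mul]
        _ = (c * l) * (c * l) := (hcl'.mul_mul_mul_comm c l).symm
        _ = z' := by rw [hcl]; exact Subtype.ext (hsq2 0 2 (by omega) (by omega))
    have h7 := (Subgroup.disjoint_def.mp hL.disjoint) hz' (h6 ▸ L.mul_mem hl hl)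
    exact ne_one_of_orderOf_two hz (congrArg Subtype.val h7)
  · intro h
    have h5 : ψ b = 1 := by
      rw [hb, ← show z = t 0 * t 2 * (t 4 * t 6) from congrArg Subtype.val h, hmkz]
    rw [map_eq_one_iff ψ hψ] at h5
    exact absurd (congrArg Subtype.val h5) (by decide)
  · refine orderOf_two_of (Subtype.ext ?_) fun h => ?_
    · have key : ∀ i, i + 1 < 4 → t i * (t 4 * t 6) = (t 4 * t 6) * t i := by
        intro i hi
        calc t i * (t 4 * t 6) = z * (t 4 * (t i * t 6)) := by
              rw [← mul_assoc, h2 i 4 hi (by omega)]; group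
          _ = (t 4 * t 6) * t i := by
              rw [h2 i 6 (by omega) (by omega), ← mul_assoc (t 4) z, hzc (t 4)]
              calc z * (z * t 4 * (t 6 * t i)) = (z * z) * (t 4 * t 6) * t i := by group
                _ = _ := by rw [hz2, one_mul]
      change t 0 * t 2 * (t 4 * t 6) * (t 0 * t 2 * (t 4 * t 6)) = 1
      calc t 0 * t 2 * (t 4 * t 6) * (t 0 * t 2 * (t 4 * t 6))
          = t 0 * t 2 * ((t 4 * t 6) * t 0) * t 2 * (t 4 * t 6) := by group
        _ = t 0 * t 2 * t 0 * ((t 4 * t 6) * t 2) * (t 4 * t 6) := by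
          rw [← key 0 (by omega)]; group
        _ = ((t 0 * t 2) * (t 0 * t 2)) * ((t 4 * t 6) * (t 4 * t 6)) := by
          rw [← key 2 (by omega)]; group
        _ = 1 := by rw [hsq2 0 2 (by omega) (by omega), hsq2 4 6 (by omega) (by omega), hz2]
    · have h5 : ψ b = 1 := by
        rw [hb, show t 0 * t 2 * (t 4 * t 6) = 1 from congrArg Subtype.val h, map_one]
      rw [map_eq_one_iff ψ hψ] at h5
      exact absurd (congrArg Subtype.val h5) (by decide)

/-- The half-norm form on `ℚ⁸`. -/
noncomputable def qf : QuadraticForm ℚ (Fin 8 → ℚ) :=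
  QuadraticMap.weightedSumSquares ℚ (fun _ : Fin 8 => (1 / 2 : ℚ))

/-- The simple roots. -/
def rt (i : ℕ) : Fin 8 → ℚ := fun k => if k.val = i then 1 else if k.val = i + 1 then -1 else 0

theorem qf_rt (i : ℕ) (hi : i < 7) : qf (rt i) = 1 := by
  interval_cases i <;>
    simp [qf, rt, QuadraticMap.weightedSumSquares_apply, Fin.sum_univ_eight] <;> norm_num

theorem polar_far (i j : ℕ) (hij : i + 1 < j) (hj : j < 7) :
    QuadraticMap.polar qf (rt i) (rt j) = 0 := by
  rw [QuadraticMap.polar, qf_rt i (by omega), qf_rt j hj]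
  interval_cases j <;> (have hi : i < 5 := by omega) <;> interval_cases i <;> first | omega |
    (simp [qf, rt, QuadraticMap.weightedSumSquares_apply, Fin.sum_univ_eight]; try norm_num)

theorem polar_near (i : ℕ) (hi : i + 1 < 7) :
    QuadraticMap.polar qf (rt i) (rt (i + 1)) = -1 := by
  rw [QuadraticMap.polar, qf_rt i (by omega), qf_rt _ hi]
  have hi' : i < 6 := by omega
  interval_cases i <;>
    (simp [qf, rt, QuadraticMap.weightedSumSquares_apply, Fin.sum_univ_eight]; try norm_num)

theorem ι_sq (i : ℕ) (hi : i < 7) :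
    CliffordAlgebra.ι qf (rt i) * CliffordAlgebra.ι qf (rt i) = 1 := by
  rw [CliffordAlgebra.ι_sq_scalar, qf_rt i hi, map_one]

/-- The lifts of the simple reflections. -/
noncomputable def tt (i : ℕ) : (CliffordAlgebra qf)ˣ :=
  if h : i < 7 then ⟨_, _, ι_sq i h, ι_sq i h⟩ else 1

theorem tt_val (i : ℕ) (hi : i < 7) : (tt i : CliffordAlgebra qf) = CliffordAlgebra.ι qf (rt i) := by
  rw [tt, dif_pos hi]

/-- Involutions in double covers of alternating groups: for n ≤ 7, a finite non-split double cover of the alternating group of degree n has exactly one element of order 2 (the central one); for degree 8 there is a non-split double cover with two distinct involutions. -/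
theorem result : (∀ (n : ℕ) (H : Type) (_ : Group H) (_ : Finite H), n ≤ 7 → Cfsg.IsNonsplitDoubleCover H (alternatingGroup (Fin n)) → ∀ x y : H, orderOf x = 2 → orderOf y = 2 → x = y) ∧ ∃ (H : Type) (_ : Group H) (_ : Finite H), Cfsg.IsNonsplitDoubleCover H (alternatingGroup (Fin 8)) ∧ ∃ x y : H, x ≠ y ∧ orderOf x = 2 ∧ orderOf y = 2 := by
  refine ⟨fun n H _ _ hn h x y hx hy => part_one n H hn h x y hx hy, ?_⟩
  have : CharZero (CliffordAlgebra qf) := algebraRat.charZero _
  refine cover_of_rel (-1 : (CliffordAlgebra qf)ˣ) (orderOf_two_of (by simp) ?_) (by simp) tt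
    (fun i hi => ?_) (fun i j hij hj => ?_) (fun i hi => ?_)
  · intro h
    have h1 : (-1 : CliffordAlgebra qf) = 1 := congrArg Units.val h
    have h2 : ((2 : ℕ) : CliffordAlgebra qf) = 0 := by
      rw [Nat.cast_two, ← one_add_one_eq_two]
      nth_rewrite 1 [← h1]
      simp
    exact absurd (Nat.cast_eq_zero.mp h2) two_ne_zero
  · apply Units.ext
    rw [Units.val_mul, tt_val i hi, ι_sq i hi, Units.val_one]
  · apply Units.ext
    simp only [Units.val_mul, tt_val i (by omega), tt_val j hj, Units.val_neg, Units.val_one]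
    have := CliffordAlgebra.ι_mul_ι_add_swap (Q := qf) (rt i) (rt j)
    rw [polar_far i j hij hj, map_zero, add_eq_zero_iff_eq_neg] at this
    rw [this, neg_one_mul]
  · apply Units.ext
    simp only [Units.val_mul, tt_val i (by omega), tt_val _ hi]
    have h1 := CliffordAlgebra.ι_mul_ι_add_swap (Q := qf) (rt i) (rt (i + 1))
    rw [polar_near i hi, map_neg, map_one] at h1
    have h2 := ι_sq i (by omega)
    have h3 := ι_sq _ hi
    generalize CliffordAlgebra.ι qf (rt i) = a at *
    generalize CliffordAlgebra.ι qf (rt (i + 1)) = b at *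
    have e1 : b * a = -1 - a * b := by rw [← h1]; abel
    rw [mul_assoc a b a, e1, mul_sub, sub_mul, ← mul_assoc, mul_assoc a b b, h2, h3]
    noncomm_ring

end Cfsg.Agent.S0447
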