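import Cfsg.Statements.S0452
import Cfsg.Agent.Lib.Lyons.Iso

set_option autoImplicit false
open Cfsg

namespace Cfsg.Agent.S0452

/-- The Lyons group recognised by an involution centraliser: a finite simple group with a 2-central involution whose centraliser is a non-split central extension of a group of order 2 by the alternating group of degree 11 has order 51765179004000000. -/
theorem result {G : Type*} [Group G] [Finite G] [IsSimpleGroup G] (t : G) (ht : Cfsg.IsTwoCentralInvolution t) (hC : Cfsg.IsNonsplitDoubleCover (Subgroup.centralizer ({t} : Set G)) (alternatingGroup (Fin 11))) : Cfsg.IsLy G := by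
  obtain ⟨L, hc, h⟩ := Cfsg.Agent.Lib.Lyons.exists_ly
  obtain ⟨e⟩ := h G t ht.1 hC
  exact ⟨inferInstance, (Nat.card_congr e.toEquiv).symm.trans hc⟩

end Cfsg.Agent.S0452
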