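import Cfsg.Statements.S0453
import Cfsg.Agent.Lib.Lyons.Iso

set_option autoImplicit false
open Cfsg

namespace Cfsg.Agent.S0453

/-- Uniqueness of the Lyons group: two finite simple groups, each having an involution whose centraliser is a non-split double cover of the alternating group of degree 11, are isomorphic. -/
theorem result {G H : Type*} [Group G] [Finite G] [IsSimpleGroup G] [Group H] [Finite H] [IsSimpleGroup H] (t : G) (u : H) (ht : orderOf t = 2) (hu : orderOf u = 2) (hG : Cfsg.IsNonsplitDoubleCover (Subgroup.centralizer ({t} : Set G)) (alternatingGroup (Fin 11))) (hH : Cfsg.IsNonsplitDoubleCover (Subgroup.centralizer ({u} : Set H)) (alternatingGroup (Fin 11))) : Nonempty (G ≃* H) := by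
  exact Cfsg.Agent.Lib.Lyons.iso_two ht hu hG hH

end Cfsg.Agent.S0453
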