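import Cfsg.Statements.S0472
import Cfsg.Agent.Lib.Spor.Fi23.Link
import Cfsg.Agent.Lib.Spor.Fi23.Main

set_option autoImplicit false
open Cfsg

namespace Cfsg.Agent.S0472

open Cfsg.Agent.PG Cfsg.Agent.Spor Cfsg.Agent.Spor.Fi23 Cfsg.Agent.Spor.Fi23L

theorem hl : A.length ≤ 128 := by rw [hlen]; norm_num

theorem hl' : Fi22.A.length ≤ 128 := by rw [Fi22.hlen]; norm_num

theorem cover : IsNonsplitDoubleCover (K A 1) (K Fi22.A 0) := by
  obtain ⟨h2, ⟨e⟩⟩ := quot_last_iso hA Fi22.hA (acts_sub act1 (by decide +kernel)) (t' := 9)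
    (by norm_num) (mem_bset_ivl.2 (by norm_num)) (trans_of_cover Fi22.hA hl' cov0)
    (selfB_spec Fi22.hA self0) (last_central hl rfl tcomm)
    (last_fixes hl rfl (fix_of_planes hA (allL_spec dfix)))
    (Fi22.fixTriv0 (mem_bset_ivl.2 (by norm_num)) (mem_bset_ivl.2 (by norm_num))
      (mem_bset_ivl.2 (by norm_num)) (mem_bset_ivl.2 (by norm_num)) (mem_bset_ivl.2 (by norm_num))
      (mem_bset_ivl.2 (by norm_num)) (mem_bset_ivl.2 (by norm_num)) (mem_bset_ivl.2 (by norm_num))
      (mem_bset_ivl.2 (by norm_num))) (by rw [card1, card8, Fi22.card0])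
  exact nonsplit_K (by norm_num) h2 card8 e (by decide +kernel) (by decide +kernel)
    (by decide +kernel) tne tns

/-- The Fischer group of order 4089470473293004800 exists as a 3-transposition group: a simple group of that order generated by a conjugacy class of 31671 3-transpositions, the centraliser of each being a non-split double cover of a simple group of order 64561751654400. -/
theorem result : ∃ (G : Type) (_ : Group G) (_ : Finite G), Cfsg.IsFi23 G ∧ ∃ D : Set G, Cfsg.IsThreeTranspositionClass D ∧ Nat.card D = 31671 ∧ ∀ d ∈ D, ∃ (K : Type) (_ : Group K), Cfsg.IsFi22 K ∧ Cfsg.IsNonsplitDoubleCover (Subgroup.centralizer ({d} : Set G)) K := by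
  have := simple0
  have hd : pp A td ∈ K A 0 := pp_mem_K_zero A td
  have hd1 : (⟨_, hd⟩ : K A 0) ≠ 1 := fun e => tne (congrArg Subtype.val e)
  obtain ⟨h1, h2⟩ := transp_K hA hl (ge := tge) stab0 maxok0 hd tne (pow_of_claim tsq) tcomm
    (by decide +kernel) ttr (exists_moved hA (j := 0) (by decide +kernel))
    (exists_not_comm_of_simple hd1 (by rw [card0]; norm_num)) (closure_conjugatesOf_of_simple hd1)
  have e : K A 1 ≃* Subgroup.centralizer ({⟨_, hd⟩} : Set (K A 0)) :=
    (Subgroup.subgroupOfEquivOfLe (K_mono A (Nat.zero_le 1))).symm.trans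
      (MulEquiv.subgroupCongr h2.symm)
  have := finite_K hA 0
  refine ⟨K A 0, inferInstance, inferInstance, ⟨simple0, card0⟩, _, h1, ?_, fun d hd' =>
    ⟨K Fi22.A 0, inferInstance, ⟨Fi22.simple0, Fi22.card0⟩, nonsplit_all e cover d hd'⟩⟩
  rw [card_conjugatesOf]
  exact index_of_card (a := 129123503308800) (by rw [← card1]; exact Nat.card_congr e.symm.toEquiv)
    (by rw [card0])

end Cfsg.Agent.S0472
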