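import Cfsg.Statements.S0473
import Cfsg.Agent.Lib.Spor.Fi24.Link
import Cfsg.Agent.Lib.Spor.Fi24.LinkHe
import Cfsg.Agent.Lib.Spor.Glue3

set_option autoImplicit false
open Cfsg

namespace Cfsg.Agent.S0473

open Cfsg.Agent.PG Cfsg.Agent.Spor Cfsg.Agent.Spor.Fi24 Cfsg.Agent.Spor.Fi24L Cfsg.Agent.Spor.Fi24H

theorem hl : A.length ≤ 128 := by rw [hlen]; norm_num

theorem iso23 : Nonempty (K A 3 ≃* K Fi23.A 0) := by
  have m : ∀ {a : ℕ}, a < 31671 → a ∈ (fun i => wp A 1 i) '' bset (ivl 0 31671) := fun {a} ha =>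
    ⟨a, mem_bset_ivl.2 ⟨Nat.zero_le _, by omega⟩, by simp only [wp_one]; rfl⟩
  have := finite_K hA 3
  refine sub_iso_top act1 (by decide +kernel)
    (Fi23.fixTriv0 (mem_bset_ivl.2 (by norm_num)) (mem_bset_ivl.2 (by norm_num))
      (mem_bset_ivl.2 (by norm_num)) (mem_bset_ivl.2 (by norm_num)) (mem_bset_ivl.2 (by norm_num))
      (mem_bset_ivl.2 (by norm_num)) (mem_bset_ivl.2 (by norm_num)) (mem_bset_ivl.2 (by norm_num))
      (mem_bset_ivl.2 (by norm_num)))
    (fixTriv1 (m (by norm_num)) (m (by norm_num)) (m (by norm_num)) (m (by norm_num))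
      (m (by norm_num)) (m (by norm_num)) (m (by norm_num)) (m (by norm_num)) (m (by norm_num))) ?_
  rw [card1, Fi23.card0]

theorem d_not_mem : pp A td ∉ K A 2 := fun h => by
  refine tne (fixTriv0 (B := {b | pp A td b = b}) ?_ ?_ ?_ ?_ ?_ ?_ ?_ ?_ ?_ ?_ _ h fun i hi => hi) <;>
    exact (mapsB_iff hA).1 (allL_spec dfix _ (by simp))

theorem d_norm : ∀ h ∈ K A 2, pp A td * h * (pp A td)⁻¹ ∈ K A 2 := by
  have hc := comm_of_claims hl tcomm
  have : K A 2 ≤ conjIn (K A 2) (pp A td) := K_le fun j h1 h2 => by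
    rw [mem_conjIn]
    rcases Nat.eq_or_lt_of_le h1 with rfl | h3
    · have hcl := tnorm _ List.mem_cons_self
      unfold Holds at hcl
      simp only [pp_append, pp_cons, pp_nil, mul_one, sp_even, sp_gw A (show 2 < 128 by omega)]
        at hcl
      rw [hcl, mul_inv_cancel_right]
      exact wp_mem (by decide +kernel)
    · rw [← hc _ (gp_mem_K A h3), mul_inv_cancel_right]
      exact gp_mem_K A h1
  exact fun h hh => this hh

theorem d_ne : ∃ x ∈ K A 2, x * pp A td ≠ pp A td * x := by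
  refine ⟨gp A 2, gp_mem_K A le_rfl, fun e => ?_⟩
  have h := dnc
  rw [andB_eq, Bool.and_eq_true, mapsB_iff hA, pp_cons, sp_gw A (show 2 < 128 by omega), e] at h
  have h2 : mapsB A (td ++ [gw 2]) 0 147407 = true := (mapsB_iff hA).2 (by
    rw [pp_append, pp_cons, pp_nil, mul_one, sp_gw A (show 2 < 128 by omega)]; exact h.1)
  rw [h2] at h
  exact absurd h.2 (by decide)

/-- The largest Fischer 3-transposition group: a group of order 2 · 1255205709190661721292800 generated by a conjugacy class of 306936 3-transpositions, in which a transposition centraliser has order 2 · 4089470473293004800 and contains a simple subgroup of order 4089470473293004800; its subgroup of index 2 is simple and contains simple subgroups of orders 4089470473293004800 and 4030387200. -/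
theorem result : ∃ (G : Type) (_ : Group G) (_ : Finite G), Nat.card G = 2 * 1255205709190661721292800 ∧ ∃ D : Set G, Cfsg.IsThreeTranspositionClass D ∧ Nat.card D = 306936 ∧ (∀ d ∈ D, Nat.card (Subgroup.centralizer ({d} : Set G)) = 2 * 4089470473293004800 ∧ ∃ K : Subgroup G, K ≤ Subgroup.centralizer ({d} : Set G) ∧ Cfsg.IsFi23 K) ∧ ∃ H : Subgroup G, H.index = 2 ∧ Cfsg.IsFi24' H ∧ (∃ K : Subgroup H, Cfsg.IsFi23 K) ∧ (∃ K : Subgroup H, Cfsg.IsHe K) := by
  have := simple0
  have := finite_K hA 2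
  obtain ⟨a1, a2⟩ := dc_of_maxOK hA stab0 (gs := tge.map Prod.fst) maxok0
  obtain ⟨Q, hd, hle, hfin, h1, h2, h3, h4, h5⟩ := transp_ext (H := K A 2) (S := K A 3)
    (d := pp A td) (by rw [← sq]; exact pow_of_claim tsq) d_not_mem d_norm (K_mono A (by norm_num))
    max0 (comm_of_claims hl tcomm) d_ne (R := {x | ∃ q ∈ tge, x = wp A q.1}) (fun h hh => by
      rcases a2 h hh with h1 | ⟨k, hk, w, hw, s, hs, e⟩
      · exact Or.inl h1
      · obtain ⟨q, hq, rfl⟩ := List.mem_map.1 hw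
        exact Or.inr ⟨k, hk, _, ⟨q, hq, rfl⟩, a1 _ hw, s, hs, e⟩) (by
      rintro _ ⟨q, hq, rfl⟩
      have := ttr _ (List.mem_map.2 ⟨q, hq, rfl⟩)
      unfold Holds at this
      rw [pp_powP, pp_append, pp_cons, pp_append, pp_cons, pp_nil, mul_one, sp_even, sp_odd,
        ← mul_assoc (wp A q.1)] at this
      have h1 : q.2 = 2 ∨ q.2 = 3 := (by decide +kernel : ∀ q ∈ tge, q.2 = 2 ∨ q.2 = 3) q hq
      rcases h1 with h1 | h1
      · left; rw [h1] at this; exact this
      · right; rw [h1] at this; exact this)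
  obtain ⟨e23⟩ := iso23
  have h23 : K A 3 ≤ K A 2 := K_mono A (by norm_num)
  have eH := Subgroup.subgroupOfEquivOfLe hle
  obtain ⟨S, hS, ⟨eS⟩⟩ := subHe
  obtain ⟨T1, ⟨f1⟩⟩ := exists_sub_of_equiv h23 eH.symm
  obtain ⟨T2, ⟨f2⟩⟩ := exists_sub_of_equiv hS eH.symm
  refine ⟨Q, inferInstance, hfin, by rw [h2, card0], _, h3, ?_, fun d hd' => ?_, _, h1,
    simple_card_congr eH.symm ⟨simple0, card0⟩,
    ⟨T1, simple_card_congr (e23.symm.trans f1) ⟨Fi23.simple0, Fi23.card0⟩⟩,
    ⟨T2, simple_card_congr (eS.symm.trans f2) ⟨FiHe.simple0, FiHe.card0⟩⟩⟩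
  · rw [card_conjugatesOf]
    exact index_of_card (a := 2 * 4089470473293004800) (by rw [h4, card1]) (by rw [h2, card0])
  · obtain ⟨c⟩ := centralizer_equiv_of_isConj hd'
    obtain ⟨T, hT, ⟨f⟩⟩ := exists_le_centralizer_of_isConj hd' h5
    exact ⟨by rw [← Nat.card_congr c.toEquiv, h4, card1], T, hT, simple_card_congr
      ((e23.symm.trans (Subgroup.subgroupOfEquivOfLe (h23.trans hle)).symm).trans f)
      ⟨Fi23.simple0, Fi23.card0⟩⟩

end Cfsg.Agent.S0473
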