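import Cfsg.Statements.S1892
import Cfsg.Agent.Lib.Core.PSolv
import Cfsg.Agent.Lib.Core.Baer
-- import your own Cfsg.Agent.* helpers here

set_option autoImplicit false
open Cfsg

namespace Cfsg.Agent.S1892

open Cfsg.Agent.Lib.Core Subgroup
open scoped Pointwise commutatorElement


/-- Let S be a finite p-solvable group with no nontrivial normal subgroup of order prime to p, A a p-subgroup of S, and Q a nontrivial A-invariant subgroup of order prime to p with [A, Q] = Q. Then the commutator [O_p(S), A, Q] is nontrivial. -/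
theorem result {S : Type*} [Group S] [Finite S] {p : ℕ} [Fact p.Prime]
    (hS : Cfsg.IsPSolvable p S) (hred : Cfsg.pPrimeCore p S = ⊥)
    (A Q : Subgroup S) (hA : IsPGroup p A) (hQ : ¬ p ∣ Nat.card Q) (hQ1 : Q ≠ ⊥)
    (hinv : ∀ a ∈ A, ∀ x ∈ Q, a * x * a⁻¹ ∈ Q) (hAQ : ⁅A, Q⁆ = Q) :
    ⁅⁅Cfsg.pCore p S, A⁆, Q⁆ ≠ ⊥ := by
  intro h
  have hAQn : A ≤ normalizer (Q : Set S) := le_normalizer_iff.mpr hinv
  have hc : ⁅pCore p S, A⁆ ≤ centralizer (Q : Set S) := commutator_eq_bot_iff_le_centralizer.mp h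
  have h1 : ⁅⁅A, Q⁆, pCore p S⁆ ≤ ⁅pCore p S, A⁆ := by
    refine three_subgroups' (le_normalizer_commutator le_normalizer_of_normal le_normalizer)
      (le_normalizer_of_le_centralizer (le_centralizer_iff.mp hc)) ?_ ?_ (h ▸ bot_le)
    · rw [le_normalizer_iff_commutator_le_right]
      exact normalizer_commutator_ge_left _ _ |> le_normalizer_iff_commutator_le_right.mp
    · exact commutator_mono (commutator_le_right _ _) le_rfl
  rw [hAQ, commutator_comm] at h1
  have h2 := (coprimeAct_of_isPGroup_right hQ pCore_isPGroup le_normalizer_of_normal).le_centralizer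
    (h1.trans hc)
  have h3 := (le_centralizer_iff.mp h2).trans ((psolv_of_isPSolvable hS).centralizer_pCore_le hred)
  exact hQ1 (eq_bot_of_isPGroup_of_not_dvd (pCore_isPGroup.to_le h3) hQ)

end Cfsg.Agent.S1892
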