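import Cfsg.Statements.S1893
import Cfsg.Agent.Lib.Core.Components
import Cfsg.Agent.Lib.Glaub.Dickson
import Cfsg.Agent.Lib.ZJ.SL2Free
-- import your own Cfsg.Agent.* helpers here

set_option autoImplicit false
open Cfsg

namespace Cfsg.Agent.S1893

open Cfsg.Agent.Lib.Core Subgroup
open scoped Pointwise commutatorElement


theorem key {S : Type*} [Group S] [Finite S] [hS : Group.IsSolvable S] {p : ℕ} [hp : Fact p.Prime]
    (h2 : p ≠ 2) (h3 : p ≠ 3) {F A : Subgroup S} (hF : Group.IsNilpotent F)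
    (hRF : fittingOf ⊤ ≤ F) (hA : IsSCN F A) {x : S} (hx : IsPGroup p (zpowers x))
    (hxA : x ∈ centralizer (A : Set S)) : x ∈ A := by
  have hAn := isNilpotent_of_le hF hA.1
  have hn : ∀ q, (OpOf q (⊤ : Subgroup S)).Normal := fun q =>
    normal_of_le_normalizer_top (le_normalizer_OpOf le_normalizer)
  have hqF : ∀ q, q.Prime → OpOf q ⊤ ≤ F := fun q hq =>
    haveI := Fact.mk hq; (OpOf_le_fittingOf ⊤).trans hRF
  have h1 : ∀ q, q.Prime → q ≠ p → OpOf q ⊤ ≤ centralizer (zpowers x : Set S) := by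
    intro q hq hqp
    haveI := Fact.mk hq
    refine thompson_A_times_B (OpOf_isPGroup ⊤) (OpOf_isPGroup A)
      (not_dvd_card_of_isPGroup hx hqp) le_normalizer_of_normal le_normalizer_of_normal
      ((OpOf_le A).trans (le_centralizer_iff.mp (zpowers_le.mpr hxA))) ?_
    refine le_trans (le_trans (le_inf (inf_le_left.trans (hqF q hq)) ?_) hA.2.2.le)
      (le_centralizer_iff.mp (zpowers_le.mpr hxA))
    conv_rhs => rw [← OpOf_sup_OppOf (p := q) hAn]
    exact le_centralizer_sup inf_le_right (inf_le_left.trans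
      (le_centralizer_of_coprime_of_isNilpotent hF (hqF q hq) ((OppOf_le A).trans hA.1)
        (coprime_card_of_isPGroup (OpOf_isPGroup ⊤) (OppOf_not_dvd A))))
  set P := OpOf p (⊤ : Subgroup S)
  haveI : P.Normal := hn p
  have h4 : ⁅P, zpowers x⁆ ≤ A := le_trans (le_inf ((commutator_le_left _ _).trans (hqF p hp.out))
    ((commutator_mono le_rfl (zpowers_le.mpr hxA)).trans (commutator_le_of_le_normalizer_right
      (le_normalizer_centralizer ((hqF p hp.out).trans hA.2.1))))) hA.2.2.le
  have h5 := Lib.Glaub.pStable_of_sl2Free h2 (Lib.ZJ.not_isSec_SL2_of_isSolvable h2 hS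
    fun h => absurd h h3) P (OpOf_isPGroup ⊤) x (le_normalizer_of_normal (mem_top x))
    (commutator_eq_bot_iff_le_centralizer.mpr (h4.trans
      (le_centralizer_iff.mp (zpowers_le.mpr hxA))))
  set f := QuotientGroup.mk' ((centralizer (P : Set S)).subgroupOf (normalizer (P : Set S)))
  set W := ((pCore p _).comap f).map (normalizer (P : Set S)).subtype
  have hW : ⊤ ≤ normalizer (W : Set S) :=
    le_normalizer_of_normal.trans (le_normalizer_map_subtype_of_normal _)
  set O := OppOf p (fittingOf (⊤ : Subgroup S))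
  have hO : ⊤ ≤ normalizer (O : Set S) := le_normalizer_OppOf (le_normalizer_fittingOf le_normalizer)
  have hxO : x ∈ centralizer (O : Set S) := le_centralizer_iff.mp
    (le_of_isNilpotent_of_forall_OpOf (isNilpotent_of_le (fittingOf_isNilpotent ⊤) (OppOf_le _))
      fun q hq => by
        haveI := Fact.mk hq
        by_cases h : q = p
        · subst h
          rw [eq_bot_of_isPGroup_of_not_dvd (OpOf_isPGroup O)
            (not_dvd_card_of_le (OppOf_not_dvd _) (OpOf_le O))]
          exact bot_le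
        · exact (OpOf_mono_of_normal le_top hO).trans (h1 q hq h)) (mem_zpowers x)
  set U := W ⊓ centralizer (O : Set S)
  have hU : ⊤ ≤ normalizer (U : Set S) := le_normalizer_inf hW (le_normalizer_centralizer hO)
  have hUn : Group.IsNilpotent U := by
    haveI : O.Normal := normal_of_le_normalizer_top hO
    haveI : Group.IsNilpotent (U.map (QuotientGroup.mk' O)) := by
      refine IsPGroup.isNilpotent (p := p) (isPGroup_of_forall_pow ?_)
      rintro _ ⟨u, ⟨⟨v, hv, rfl⟩, hu⟩, rfl⟩
      obtain ⟨k, hk⟩ := pow_eq_one_of_isPGroup pCore_isPGroup hv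
      rw [← map_pow, QuotientGroup.mk'_apply, QuotientGroup.eq_one_iff, mem_subgroupOf] at hk
      have h6 : (v : S) ^ p ^ k ∈ fittingOf ⊤ := by
        refine inf_centralizer_fittingOf_le_of_isSolvable
          (isSolvable_of_equiv hS topEquiv.symm) ⟨mem_top _, ?_⟩
        rw [← OpOf_sup_OppOf (p := p) (fittingOf_isNilpotent ⊤), OpOf_fittingOf, centralizer_sup]
        exact mem_inf.mpr ⟨hk, pow_mem hu _⟩
      rw [← OpOf_sup_OppOf (p := p) (fittingOf_isNilpotent ⊤)] at h6
      obtain ⟨a, ha, b, hb, hab⟩ := (mem_sup_of_le_normalizer_right (le_top.trans hO)).mp h6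
      obtain ⟨l, hl⟩ := pow_eq_one_of_isPGroup (OpOf_isPGroup _) ha
      refine ⟨k + l, ?_⟩
      rw [pow_add, pow_mul, ← map_pow, coe_subtype, ← hab, map_mul,
        show QuotientGroup.mk' O b = 1 from (QuotientGroup.eq_one_iff _).mpr hb, mul_one,
        ← map_pow, hl, map_one]
    refine Subgroup.isNilpotent_of_ker_le_center ((QuotientGroup.mk' O).subgroupMap U) fun u hu => ?_
    have h7 : (u : S) ∈ O := (QuotientGroup.eq_one_iff _).mp (congrArg Subtype.val hu)
    exact mem_center_iff.mpr fun w => Subtype.ext (w.2.2 u h7).symm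
  exact hA.2.2.le ⟨hRF (le_fittingOf le_top hU hUn ⟨⟨_, h5, rfl⟩, hxO⟩), hxA⟩

/-- Let S be a finite solvable group, π a set of primes containing neither 2 nor 3, H a Hall π-subgroup of S, and A a self-centralizing normal subgroup of the Fitting subgroup F(H). Then C_S(A) = A × D for a normal subgroup D of C_S(A) whose order has no prime divisor in π. -/
theorem result {S : Type*} [Group S] [Finite S] [Group.IsSolvable S]
    (π : Set ℕ) (h2 : 2 ∉ π) (h3 : 3 ∉ π) (H : Subgroup S) (hH : Cfsg.IsPiHall π H)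
    (A : Subgroup S) (hA : Cfsg.IsSCN ((Cfsg.fittingSubgroup H).map H.subtype) A) :
    ∃ D : Subgroup S, D ≤ Subgroup.centralizer (A : Set S) ∧
      (∀ c ∈ Subgroup.centralizer (A : Set S), ∀ d ∈ D, c * d * c⁻¹ ∈ D) ∧
      A ⊓ D = ⊥ ∧ A ⊔ D = Subgroup.centralizer (A : Set S) ∧
      ∀ q : ℕ, q.Prime → q ∣ Nat.card D → q ∉ π := by
  set N := piCore πᶜ S
  set f := QuotientGroup.mk' N
  have hN : IsPi πᶜ N := piCore_isPi
  have hHπ : IsPi π H := hH.1
  change IsSCN (fittingOf H) A at hA
  have hAH : A ≤ H := hA.1.trans (fittingOf_le H)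
  have hinj : ∀ x ∈ H, f x = 1 → x = 1 := fun x hx h =>
    mem_bot.mp (hHπ.inf_eq_bot hN ▸ mem_inf.mpr ⟨hx, (QuotientGroup.eq_one_iff _).mp h⟩)
  have hR : IsPi π (fittingOf (⊤ : Subgroup (S ⧸ N))) := fun q hq hd => by
    by_contra h
    haveI := Fact.mk hq
    refine (isSyl_OpOf_fittingOf ⊤).ne_bot hd (eq_bot_iff.mpr ?_)
    rw [← piCore_quotient (π := πᶜ), OpOf_top]
    exact le_piCore (isPi_of_isPGroup pCore_isPGroup h)
  have hRn : ⊤ ≤ normalizer ((fittingOf (⊤ : Subgroup (S ⧸ N))) : Set (S ⧸ N)) :=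
    le_normalizer_fittingOf le_normalizer
  have hRH : fittingOf ⊤ ≤ H.map f := by
    refine le_sup_right.trans (relIndex_eq_one.mp (Nat.eq_one_iff_not_exists_prime_dvd.mpr
      fun q hq hd => hH.2 q hq (((hHπ.map f).sup hR (le_top.trans hRn)) q hq
        (hd.trans (relIndex_dvd_card _ _))) ?_))
    exact hd.trans ((relIndex_dvd_index_of_le le_sup_left).trans
      (index_map_dvd _ (QuotientGroup.mk'_surjective _)))
  have hRF : fittingOf ⊤ ≤ (fittingOf H).map f := by
    have h1 := map_comap_inf_eq f (fittingOf ⊤) H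
    rw [inf_eq_left.mpr hRH] at h1
    rw [← h1]
    refine map_mono (le_fittingOf inf_le_right (le_normalizer_inf ?_ le_normalizer) ?_)
    · haveI := normal_of_le_normalizer_top hRn
      exact le_normalizer_of_normal
    · haveI := fittingOf_isNilpotent (⊤ : Subgroup (S ⧸ N))
      refine Subgroup.isNilpotent_of_ker_le_center ((f.comp (Subgroup.subtype _)).codRestrict (fittingOf ⊤)
        fun x => x.2.1) fun u hu => ?_
      rw [show u = 1 from Subtype.ext (hinj u u.2.2 (congrArg Subtype.val hu))]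
      exact one_mem _
  have hA' : IsSCN ((fittingOf H).map f) (A.map f) := by
    refine ⟨map_mono hA.1, (map_mono hA.2.1).trans (le_normalizer_map f), le_antisymm ?_
      (le_inf (map_mono hA.1) ((map_mono (hA.2.2.ge.trans inf_le_right)).trans
        (map_centralizer_le_centralizer_image _ _))) ⟩
    rintro _ ⟨⟨x, hx, rfl⟩, h⟩
    refine mem_map_of_mem f (hA.2.2.le ⟨hx, fun a ha => commutatorElement_eq_one_iff_mul_comm.mp
      (hinj _ ?_ ?_)⟩)
    · exact mul_mem (mul_mem (mul_mem (hAH ha) (fittingOf_le H hx)) (inv_mem (hAH ha)))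
        (inv_mem (fittingOf_le H hx))
    · rw [map_commutatorElement, commutatorElement_eq_one_iff_mul_comm]
      exact h _ (mem_map_of_mem f ha)
  have hAC : A ≤ centralizer (A : Set S) := hA.2.2.ge.trans inf_le_right
  have hidx : ∀ q : ℕ, q.Prime → q ∣ A.relIndex (centralizer (A : Set S)) → q ∉ π := by
    intro q hq hd hπ
    haveI := Fact.mk hq
    obtain ⟨P, hP⟩ := exists_isSyl q (centralizer (A : Set S))
    refine hP.not_dvd_relIndex (K := A) ?_ hd
    have h1 : P ≤ A ⊔ N := fun x hx => by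
      have := key (p := q) (by rintro rfl; exact h2 hπ) (by rintro rfl; exact h3 hπ)
        (isNilpotent_map (fittingOf_isNilpotent H) f) hRF hA' (x := f x)
        (isPGroup_zpowers_of_mem (hP.isPGroup.map f) (mem_map_of_mem f hx))
        (map_centralizer_le_centralizer_image _ _ (mem_map_of_mem f (hP.le hx)))
      rwa [← mem_comap, comap_map_eq, QuotientGroup.ker_mk'] at this
    have h4 : IsPi π ↥(P ⊔ A) := (isPi_of_isPGroup hP.isPGroup hπ).sup (hHπ.to_le hAH)
      (le_normalizer_of_le_centralizer hP.le)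
    have h5 := sup_inf_of_le_normalizer_right (B := N) (le_sup_right : A ≤ P ⊔ A)
      le_normalizer_of_normal
    rw [inf_comm N, h4.inf_eq_bot hN, sup_bot_eq] at h5
    exact (le_inf h1 le_sup_left).trans h5.le
  obtain ⟨D, hD, h1, h4, h5⟩ := exists_complement hAC (centralizer_le_normalizer _)
    (Nat.coprime_of_dvd fun q hq a b => hidx q hq b (hHπ.to_le hAH q hq a))
  refine ⟨D, hD, fun c hc d hd => conj_mem_of_mem_normalizer ?_ hd, by rwa [inf_comm],
    by rwa [sup_comm], fun q hq hd => hidx q hq (h5 ▸ hd)⟩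
  exact (h4.ge.trans (sup_le le_normalizer
    (le_normalizer_of_le_centralizer (le_centralizer_iff.mp hD)))) hc

end Cfsg.Agent.S1893
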