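import Cfsg.Statements.S1894
import Cfsg.Agent.Lib.Core.Basic
import Cfsg.Agent.Lib.PGroup.Basic
-- import your own Cfsg.Agent.* helpers here

set_option autoImplicit false
open Cfsg

namespace Cfsg.Agent.S1894

open Cfsg.Agent.Lib.Core Subgroup
open scoped Pointwise commutatorElement


/-- Let P be a finite p-group, A a normal subgroup of P and B an abelian subgroup of A that is normal in P. Then some subgroup C of A containing B is normal in P and is self-centralizing and normal in A (C ∈ SCN(A)). -/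
theorem result {P : Type*} [Group P] [Finite P] {p : ℕ} [Fact p.Prime] (hP : IsPGroup p P)
    (A : Subgroup P) [A.Normal] (B : Subgroup P) [B.Normal] (hBA : B ≤ A) (hB : IsMulCommutative B) :
    ∃ C : Subgroup P, C.Normal ∧ B ≤ C ∧ Cfsg.IsSCN A C := by
  obtain ⟨C, -, ⟨hCn, hBC, hCA, hC⟩, hmax⟩ := exists_maximal_subgroup
    (P := fun C : Subgroup P => C.Normal ∧ B ≤ C ∧ C ≤ A ∧ C ≤ centralizer (C : Set P)) (H := B)
    ⟨inferInstance, le_rfl, hBA, le_centralizer_iff_isMulCommutative.mpr hB⟩
  refine ⟨C, hCn, hBC, hCA, le_normalizer_of_normal, le_antisymm ?_ (le_inf hCA hC)⟩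
  by_contra hne
  obtain ⟨x, hx, hxC, -, hc⟩ := Cfsg.Agent.Lib.PGroup.exists_central_mod hP hne
  have hn := Cfsg.Agent.Lib.PGroup.normal_sup_zpowers hc
  have := hmax (C ⊔ zpowers x) ⟨hn, hBC.trans le_sup_left,
    sup_le hCA ((zpowers_le).mpr hx.1), ?_⟩ le_sup_left
  · exact hxC (this ▸ mem_sup_right (mem_zpowers x))
  · have h1 : zpowers x ≤ centralizer (C : Set P) := (zpowers_le).mpr hx.2
    refine le_centralizer_sup (sup_le hC h1) (sup_le (le_centralizer_iff.mp h1) ?_)
    exact le_centralizer_iff_isMulCommutative.mpr inferInstance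

end Cfsg.Agent.S1894
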