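import Cfsg.Statements.S1895
import Cfsg.Agent.Lib.Core.Fitting
import Cfsg.Agent.Lib.PGroup.Rank2
-- import your own Cfsg.Agent.* helpers here

set_option autoImplicit false
open Cfsg

namespace Cfsg.Agent.S1895

open Cfsg.Agent.Lib.Core Subgroup
open scoped Pointwise commutatorElement

open Cfsg.Agent.Lib.PGroup

universe u

theorem commutatorElement_mem {G : Type*} [Group G] {H : Subgroup G} {x y : G} (hx : x ∈ H)
    (hy : y ∈ H) : ⁅x, y⁆ ∈ H :=
  mul_mem (mul_mem (mul_mem hx hy) (inv_mem hx)) (inv_mem hy)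

theorem pcentral_comm {G : Type*} [Group G] [Finite G] {p : ℕ} [hp : Fact p.Prime] (h2 : p ≠ 2)
    (H : Subgroup G) : IsPGroup p H → (∀ x ∈ H, x ^ p = 1 → x ∈ centralizer (H : Set G)) →
      ∀ x ∈ H, (x ^ p) ^ p = 1 → ∀ h ∈ H, ⁅x, h⁆ ^ p = 1 := by
  induction H using subgroup_induction with
  | h H ih =>
  intro hH hc x hx hxp h hh
  rcases (zpowers_le.mpr hx).lt_or_eq with hlt | heq
  · obtain ⟨M, hxM, hMH, hn, -⟩ := exists_le_relIndex_eq hH hlt
    have hxM' : x ∈ M := hxM (mem_zpowers x)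
    have hy : h * x⁻¹ * h⁻¹ ∈ M := conj_mem_of_mem_normalizer (hn hh) (inv_mem hxM')
    have h1 := ih M hMH (hH.to_le hMH.le)
      (fun y hy hyp => centralizer_le_centralizer hMH.le (hc y (hMH.le hy) hyp)) x hxM' hxp _ hy
    have h3 := hc _ (hMH.le (commutatorElement_mem hxM' hy)) h1
    have h4 := mul_pow_eq_of_class_two (hp.out.odd_of_ne_two h2) (x := x) (y := h * x⁻¹ * h⁻¹)
      (h3 x hx).symm (h3 _ (hMH.le hy)).symm h1
    rw [conj_pow, inv_pow, (inv_mem (hc _ (pow_mem hx p) hxp)) h hh] at h4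
    rw [commutatorElement_def, mul_assoc, mul_assoc, ← mul_assoc h, h4]
    group
  · rw [← heq] at hh
    obtain ⟨k, rfl⟩ := mem_zpowers_iff.mp hh
    rw [commutatorElement_eq_one_iff_commute.mpr (Commute.self_zpow x k), one_pow]

theorem pcentral_index {p : ℕ} [hp : Fact p.Prime] (h2 : p ≠ 2) (n : ℕ) :
    ∀ (G : Type u) [Group G] [Finite G], ∀ H : Subgroup G, H.Normal → IsPGroup p H → H ≠ ⊥ →
      (∀ x ∈ H, x ^ p = 1 → x ∈ centralizer (H : Set G)) →
      Nat.card {x : G // x ∈ H ∧ x ^ p = 1} ≤ n →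
      ∃ C : Subgroup G, C.Normal ∧ C < H ∧ C.relIndex H ≤ n := by
  refine card_induction fun G _ _ ih H hHn hH hne hc hn => ?_
  let Ω : Subgroup G :=
    { carrier := {x | x ∈ H ∧ x ^ p = 1}
      one_mem' := ⟨one_mem _, one_pow _⟩
      mul_mem' := fun {x y} hx hy => ⟨mul_mem hx.1 hy.1, by
        rw [Commute.mul_pow (hc y hy.1 hy.2 x hx.1), hx.2, hy.2, one_mul]⟩
      inv_mem' := fun {x} hx => ⟨inv_mem hx.1, by rw [inv_pow, hx.2, inv_one]⟩ }
  have hΩH : Ω ≤ H := fun x hx => hx.1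
  haveI hΩn : Ω.Normal := ⟨fun x hx g => ⟨hHn.conj_mem x hx.1 g, by rw [conj_pow, hx.2]; simp⟩⟩
  rcases hΩH.lt_or_eq with hlt | heq
  swap
  · refine ⟨⊥, inferInstance, bot_lt_iff_ne_bot.mpr hne, ?_⟩
    rw [relIndex_bot_left, ← heq]
    exact hn
  have hΩ : Ω ≠ ⊥ := by
    obtain ⟨x, hx⟩ := exists_prime_orderOf_dvd_card' (G := H) p (dvd_card_of_isPGroup_of_ne_bot hH hne)
    intro h
    have : (x : G) ∈ Ω := ⟨x.2, by rw [← hx, ← Subgroup.orderOf_coe, pow_orderOf_eq_one]⟩
    rw [h, mem_bot, OneMemClass.coe_eq_one] at this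
    rw [this, orderOf_one] at hx
    exact hp.out.ne_one hx.symm
  set π := QuotientGroup.mk' Ω with hπ
  have hker : π.ker = Ω := QuotientGroup.ker_mk' Ω
  have hpow : ∀ x : G, π x ^ p = 1 → (x ^ p) ^ p = 1 := fun x hx => by
    rw [← map_pow, ← MonoidHom.mem_ker, hker] at hx
    exact hx.2
  have hlift : ∀ y : {y : G ⧸ Ω // y ∈ H.map π ∧ y ^ p = 1}, ∃ x ∈ H, π x = y := fun y => y.2.1
  choose f hf1 hf2 using hlift
  obtain ⟨C, hCn, hC, hCi⟩ := ih (G ⧸ Ω) (card_quotient_lt hΩ) (H.map π)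
    (hHn.map _ (QuotientGroup.mk'_surjective Ω)) (hH.map π)
    (fun h => hlt.not_ge (hker ▸ (Subgroup.map_eq_bot_iff _).mp h)) (by
      rintro _ ⟨x, hx, rfl⟩ hxp _ ⟨h, hh, rfl⟩
      symm
      rw [← commutatorElement_eq_one_iff_mul_comm, ← map_commutatorElement, ← MonoidHom.mem_ker,
        hker]
      exact ⟨commutatorElement_mem hx hh, pcentral_comm h2 H hH hc x hx (hpow x hxp) h hh⟩)
    (le_trans (Nat.card_le_card_of_injective (fun y => (⟨f y ^ p, pow_mem (hf1 y) p,
      hpow _ (by rw [hf2]; exact y.2.2)⟩ : {x : G // x ∈ H ∧ x ^ p = 1})) fun y z h => by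
        have h' : f y ^ p = f z ^ p := congrArg Subtype.val h
        have h1 := pcentral_comm h2 H hH hc (f y)⁻¹ (inv_mem (hf1 y))
          (by rw [inv_pow, inv_pow, hpow _ (by rw [hf2]; exact y.2.2), inv_one]) _ (hf1 z)
        have h3 := hc _ (commutatorElement_mem (inv_mem (hf1 y)) (hf1 z)) h1
        have h4 := mul_pow_eq_of_class_two (hp.out.odd_of_ne_two h2)
          (h3 _ (inv_mem (hf1 y))).symm (h3 _ (hf1 z)).symm h1
        rw [inv_pow, h', inv_mul_cancel] at h4
        apply Subtype.ext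
        rw [← hf2, ← hf2]
        exact QuotientGroup.eq.mpr ⟨mul_mem (inv_mem (hf1 y)) (hf1 z), h4⟩) hn)
  refine ⟨C.comap π, inferInstance, lt_of_le_not_ge ?_ fun h => hC.not_ge (map_le_iff_le_comap.mpr h),
    by rwa [relIndex_comap]⟩
  refine (comap_mono hC.le).trans ?_
  rw [comap_map_eq, hker, sup_eq_left.mpr hΩH]

theorem exists_small_index {G : Type*} [Group G] [Finite G] {p : ℕ} [hp : Fact p.Prime]
    (h2 : p ≠ 2) {H : Subgroup G} [hHn : H.Normal] (hH : IsPGroup p H) (hne : H ≠ ⊥)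
    (hr : ∀ E : Subgroup G, E ≤ H → IsElementaryAbelian p E → Nat.card E ≤ p ^ 2) :
    ∃ C : Subgroup G, C.Normal ∧ C < H ∧ C.relIndex H ≤ p ^ 2 := by
  haveI := isMulCommutative_inf_centralizer H
  set Z := omegaIn (H ⊓ centralizer (H : Set G)) p with hZ
  haveI : Z.Normal := omegaIn_normal _ _
  have hZle : Z ≤ H ⊓ centralizer (H : Set G) := omegaIn_le _ _
  haveI : IsMulCommutative Z := isMulCommutative_of_le hZle
  by_cases hc : ∀ x ∈ H, x ^ p = 1 → x ∈ centralizer (H : Set G)
  · refine pcentral_index h2 _ G H hHn hH hne hc (le_trans (le_of_eq ?_)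
      (hr Z (hZle.trans inf_le_left) ⟨inferInstance, fun a ha => ha.2⟩))
    exact Nat.card_congr (Equiv.subtypeEquivRight fun x =>
      ⟨fun h => ⟨⟨h.1, hc x h.1 h.2⟩, h.2⟩, fun h => ⟨h.1.1, h.2⟩⟩)
  push Not at hc
  obtain ⟨x, hx, hxp, hxc⟩ := hc
  have hxZ : x ∈ centralizer (Z : Set G) := le_centralizer_iff.mp (hZle.trans inf_le_right) hx
  have hZc : Nat.card Z ≤ p := by
    have h1 := hr (Z ⊔ zpowers x) (sup_le (hZle.trans inf_le_left) (zpowers_le.mpr hx))
      ⟨isMulCommutative_sup_zpowers hxZ, fun a ha => by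
        obtain ⟨z, hz, y, hy, rfl⟩ := mem_sup_of_normal_left.mp ha
        obtain ⟨k, rfl⟩ := mem_zpowers_iff.mp hy
        rw [Commute.mul_pow (zpow_mem hxZ k z hz), hz.2, ← zpow_natCast, ← zpow_mul, mul_comm k,
          zpow_mul, zpow_natCast, hxp, one_zpow, one_mul]⟩
    rw [card_sup_zpowers (le_normalizer_of_normal (mem_top x)) (fun h => hxc (hZle h).2)
      (hxp ▸ one_mem Z), pow_two] at h1
    exact Nat.le_of_mul_le_mul_right h1 hp.out.pos
  let W : Subgroup G :=
    { carrier := {w | w ∈ H ∧ w ^ p = 1 ∧ ∀ h ∈ H, ⁅w, h⁆ ∈ Z}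
      one_mem' := ⟨one_mem _, one_pow _, fun h _ => by simp⟩
      mul_mem' := fun {a b} ha hb => ⟨mul_mem ha.1 hb.1, mul_pow_eq_one_of_class_two
        (hp.out.odd_of_ne_two h2) ((hZle (ha.2.2 b hb.1)).2 a ha.1).symm
        ((hZle (ha.2.2 b hb.1)).2 b hb.1).symm ha.2.1 hb.2.1, fun h hh => by
          rw [commutatorElement_mul_left_eq_conj_mul]
          exact mul_mem (Normal.conj_mem inferInstance _ (hb.2.2 h hh) a) (ha.2.2 h hh)⟩
      inv_mem' := fun {a} ha => ⟨inv_mem ha.1, by rw [inv_pow, ha.2.1, inv_one], fun h hh => by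
        have : ⁅a⁻¹, h⁆ = a⁻¹ * ⁅a, h⁆⁻¹ * a⁻¹⁻¹ := by simp only [commutatorElement_def]; group
        rw [this]
        exact Normal.conj_mem inferInstance _ (inv_mem (ha.2.2 h hh)) _⟩ }
  have hWH : W ≤ H := fun w hw => hw.1
  haveI hWn : W.Normal := ⟨fun w hw g => ⟨hHn.conj_mem w hw.1 g, by rw [conj_pow, hw.2.1]; simp,
    fun h hh => by
      have := Normal.conj_mem inferInstance _ (hw.2.2 _ (hHn.conj_mem' h hh g)) g
      convert this using 1
      simp only [commutatorElement_def]; group⟩⟩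
  have hZW : Z ≤ W := fun z hz => ⟨(hZle hz).1, hz.2, fun h hh => by
    rw [commutatorElement_eq_one_iff_mul_comm.mpr ((hZle hz).2 h hh).symm]; exact one_mem _⟩
  have hWp : IsPGroup p W := hH.to_le hWH
  have hWc : Nat.card W ≤ p ^ 3 := card_le_cube_of_exponent hWp (fun w => Subtype.ext w.2.2.1)
    fun E hE => by
      rw [← card_map_subtype]
      exact hr _ ((map_subtype_le _).trans hWH) (isElementaryAbelian_map hE _)
  have hWnc : ¬ H ≤ centralizer (W : Set G) := by
    intro h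
    obtain ⟨A, hAn, hA, hAc⟩ := exists_normal_elementary_sq h2 _ H rfl hH (fun hcyc => hxc
      fun y hy => congrArg Subtype.val (mul_comm' (⟨y, hy⟩ : H) ⟨x, hx⟩))
    have h1 : ⁅A, (⊤ : Subgroup H)⁆ < A := by
      haveI := hH.isNilpotent
      exact commutator_top_lt (fun h => by
        rw [h, card_bot] at hAc
        exact absurd hAc.symm (Nat.pow_eq_one.not.mpr (by simp [hp.out.ne_one])))
    have h3 : ⁅A, (⊤ : Subgroup H)⁆ ≤ center H := by
      obtain ⟨k, hk⟩ := IsPGroup.iff_card.mp (hH.to_subgroup ⁅A, (⊤ : Subgroup H)⁆)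
      have := card_lt_of_lt h1
      rw [hk, hAc, Nat.pow_lt_pow_iff_right hp.out.one_lt] at this
      interval_cases k
      · rw [card_eq_one.mp hk]; exact bot_le
      · exact le_center_of_card_eq hH (by simpa using hk)
    have h4 : A.map H.subtype ≤ Z := by
      rintro _ ⟨a, ha, rfl⟩
      have haW : (a : G) ∈ W := ⟨a.2, congrArg Subtype.val (hA.2 a ha), fun y hy => by
        have hm := commutator_mem_commutator ha (mem_top (⟨y, hy⟩ : H))
        refine ⟨?_, congrArg Subtype.val (hA.2 _ (h1.le hm))⟩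
        rw [← Lib.Core.map_subtype_center]
        exact ⟨_, h3 hm, rfl⟩⟩
      exact ⟨⟨a.2, le_centralizer_iff.mp h haW⟩, haW.2.1⟩
    have := card_le_of_le h4
    rw [card_map_subtype, hAc] at this
    nlinarith [hp.out.two_le]
  refine ⟨H ⊓ centralizer (W : Set G), inferInstance,
    lt_of_le_not_ge inf_le_left fun h => hWnc (h.trans inf_le_right), ?_⟩
  rw [inf_relIndex_left]
  refine (relIndex_centralizer_le_relIndex (K₀ := Z) (le_centralizer_iff.mp
    (hZle.trans inf_le_right)) W hWp hZW fun w hw => (relIndex_centralizer_le (N := Z)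
      fun g hg => ?_).trans hZc).trans ?_
  · rw [← commutatorElement_inv]; exact inv_mem (hw.2.2 g hg)
  · have h1 := Lib.Core.card_mul_relIndex hZW
    have h3 : p ≤ Nat.card Z := by
      obtain ⟨z, hz, hzc, hzo⟩ := exists_central_orderOf_eq hH (N := ⊤) (by
        intro h
        apply hne
        rw [← card_eq_one, ← card_top, h, card_bot])
      have : zpowers (z : G) ≤ Z := zpowers_le.mpr ⟨by
        rw [← Lib.Core.map_subtype_center]; exact ⟨z, hzc, rfl⟩, by
        rw [← hzo, ← Subgroup.orderOf_coe, pow_orderOf_eq_one]⟩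
      have := card_le_of_le this
      rwa [Nat.card_zpowers, Subgroup.orderOf_coe, hzo] at this
    refine Nat.le_of_mul_le_mul_left ?_ hp.out.pos
    calc p * Z.relIndex W ≤ Nat.card Z * Z.relIndex W := Nat.mul_le_mul_right _ h3
      _ ≤ p ^ 3 := h1 ▸ hWc
      _ = p * p ^ 2 := by ring

theorem chief_le {G : Type*} [Group G] [Finite G] {p : ℕ} [hp : Fact p.Prime]
    (h2 : p ≠ 2) {M : Subgroup G} [M.Normal] (H : Subgroup G) : H.Normal → IsPGroup p H →
    (∀ E : Subgroup G, E ≤ H → IsElementaryAbelian p E → Nat.card E ≤ p ^ 2) → ¬ H ≤ M →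
    (∀ L : Subgroup G, L.Normal → L ≤ H → L ≤ M ∨ H ≤ L ⊔ M) → M.relIndex H ≤ p ^ 2 := by
  induction H using subgroup_induction with
  | h H ih =>
  intro hn hH hr hM hch
  obtain ⟨C, hCn, hC, hCi⟩ := exists_small_index h2 hH (fun h => hM (h ▸ bot_le)) hr
  rcases hch C hCn hC.le with h | h
  · exact (relIndex_le_of_le_left h index_ne_zero_of_finite).trans hCi
  · have h1 := ih C hC hCn (hH.to_le hC.le) (fun E hE => hr E (hE.trans hC.le))
      (fun h' => hM (h.trans (sup_le h' le_rfl)))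
      (fun L hL hLC => (hch L hL (hLC.trans hC.le)).imp id fun h' => hC.le.trans h')
    rw [← relIndex_sup_right] at h1
    exact (relIndex_le_of_le_right h index_ne_zero_of_finite).trans h1

/-- Let p be an odd prime and G a finite p-solvable group with no elementary abelian subgroup of order p³. Then every chief factor H/K of G (H, K normal in G with no normal subgroup of G strictly between them) whose order is a power of p has order p or p². -/
theorem result {G : Type*} [Group G] [Finite G] {p : ℕ} [Fact p.Prime] (hp : p ≠ 2)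
    (hG : Cfsg.IsPSolvable p G) (hr : Cfsg.PRankLE p 2 G)
    (H K : Subgroup G) [H.Normal] [K.Normal] (hKH : K < H) (hpow : ∃ n : ℕ, K.relIndex H = p ^ n)
    (hchief : ∀ L : Subgroup G, L.Normal → K ≤ L → L ≤ H → L = K ∨ L = H) :
    K.relIndex H = p ∨ K.relIndex H = p ^ 2 := by
  obtain ⟨n, hn⟩ := hpow
  obtain ⟨P, hP⟩ := exists_isSyl p H
  have hHP : H ≤ P ⊔ K := by
    rw [← relIndex_eq_one]
    have h1 : (P ⊔ K).relIndex H ∣ p ^ n := hn ▸ relIndex_dvd_of_le_left H le_sup_right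
    obtain ⟨j, -, hj⟩ := (Nat.dvd_prime_pow Fact.out).mp h1
    rcases j with _ | j
    · simpa using hj
    · exact absurd (hj ▸ dvd_pow_self p (Nat.succ_ne_zero j)) (hP.not_dvd_relIndex le_sup_left)
  set N := normalizer (P : Set G) with hN
  have hPN : P ≤ N := le_normalizer
  have htop : ⊤ ≤ K ⊔ N := by
    rw [← hP.frattini_sup (H := ⊤) le_top le_normalizer_of_normal, top_inf_eq]
    exact sup_le (hHP.trans (sup_le (le_sup_of_le_right hPN) le_sup_left)) le_sup_right
  have h1 := chief_le hp (M := K.subgroupOf N) (P.subgroupOf N) inferInstance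
    (isPGroup_subgroupOf hP.isPGroup) (fun E _ hE => by
      rw [← card_map_subtype]
      have := isElementaryAbelian_map hE N.subtype
      exact hr _ this.1 this.2) (fun h => hKH.not_ge (hHP.trans (sup_le (fun x hx =>
        h (show (⟨x, hPN hx⟩ : N) ∈ P.subgroupOf N from hx)) le_rfl))) (fun L hL hLP => by
      have hLP' : L.map N.subtype ≤ P := map_le_iff_le_comap.mpr hLP
      rcases hchief (L.map N.subtype ⊔ K) (normal_of_le_normalizer_top (htop.trans (sup_le
        (le_normalizer_of_le le_sup_right) (le_normalizer_sup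
          (le_normalizer_map_subtype_of_normal L) le_normalizer_of_normal)))) le_sup_right
        (sup_le (hLP'.trans hP.le) hKH.le) with h | h
      · exact Or.inl (map_le_iff_le_comap.mp (le_sup_left.trans h.le))
      · right
        intro x hx
        obtain ⟨_, ⟨l, hl, rfl⟩, k, hk, e⟩ := mem_sup_of_normal_right.mp (h.ge (hP.le hx))
        have : x = l * (l⁻¹ * x) := by simp
        rw [this]
        refine mul_mem (mem_sup_left hl) (mem_sup_right ?_)
        change (l : G)⁻¹ * x ∈ K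
        rw [show (x : G) = l * k from e.symm]; simpa using hk)
  rw [relIndex_subgroupOf hPN, ← relIndex_sup_right,
    le_antisymm (sup_le hP.le hKH.le) hHP, hn, Nat.pow_le_pow_iff_right (Fact.out : p.Prime).one_lt]
    at h1
  rw [hn]
  interval_cases n
  · exact absurd (relIndex_eq_one.mp (by simpa using hn)) hKH.not_ge
  · simp
  · simp

end Cfsg.Agent.S1895
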