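import Cfsg.Statements.S1896
import Cfsg.Agent.Lib.Core.Fitting
import Cfsg.Agent.Lib.PGroup.MaxClass2
-- import your own Cfsg.Agent.* helpers here

set_option autoImplicit false
open Cfsg

namespace Cfsg.Agent.S1896

open Cfsg.Agent.Lib.Core Subgroup
open scoped Pointwise commutatorElement

open Cfsg.Agent.Lib.PGroup

theorem relIndex_dvd_two {X : Type*} [Group X] [Finite X] {N : Subgroup X} {x : X}
    (hn : x ∈ normalizer (N : Set X)) (hx : x ^ 2 ∈ N) : N.relIndex (N ⊔ zpowers x) ∣ 2 := by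
  haveI : Fact (Nat.Prime 2) := ⟨Nat.prime_two⟩
  by_cases h : x ∈ N
  · rw [sup_eq_left.mpr (zpowers_le.mpr h), relIndex_self]; exact one_dvd _
  · rw [relIndex_sup_zpowers hn h hx]

theorem inv_mul_mem {X : Type*} [Group X] [Finite X] {N M : Subgroup X} (α : MulAut X)
    (hN : ∀ x ∈ N, α x ∈ N) (hM : ∀ x ∈ M, α x ∈ M) (h : N.relIndex M ∣ 2) {x : X} (hx : x ∈ M) :
    x⁻¹ * α x ∈ N := by
  have hN' : ∀ x, α x ∈ N ↔ x ∈ N := fun x => by
    have : N.map α.toMonoidHom = N := eq_of_le_of_card_ge (map_le_iff_le_comap.mpr hN)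
      (card_map_of_injective α.injective).ge
    conv_lhs => rw [← this]
    exact mem_map_iff_mem α.injective
  rcases (Nat.dvd_prime Nat.prime_two).mp h with h | h
  · exact relIndex_eq_one.mp h (mul_mem (inv_mem hx) (hM x hx))
  · have := (mul_mem_iff_of_index_two h (a := ⟨x⁻¹, inv_mem hx⟩) (b := ⟨α x, hM x hx⟩)).mpr
      (by simp only [mem_subgroupOf, inv_mem_iff, hN'])
    exact this

/-- A finite metacyclic 2-group whose automorphism group is not a 2-group is isomorphic to the quaternion group of order 8 or to a homocyclic abelian group Z_{2^n} × Z_{2^n}. -/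
theorem result {X : Type*} [Group X] [Finite X] (hX : IsPGroup 2 X)
    (hm : Cfsg.IsMetacyclic X) (hA : ¬ IsPGroup 2 (MulAut X)) :
    Nonempty (X ≃* QuaternionGroup 2) ∨
      ∃ n : ℕ, Nonempty (X ≃* Multiplicative (ZMod (2 ^ n)) × Multiplicative (ZMod (2 ^ n))) := by
  haveI : Fact (Nat.Prime 2) := ⟨Nat.prime_two⟩
  obtain ⟨α, hα1, hα⟩ : ∃ α : MulAut X, α ≠ 1 ∧ (orderOf α).Coprime 2 := by
    by_contra! h
    refine hA (isPi_singleton_iff.mp fun q hq hd => ?_)
    haveI := Fact.mk hq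
    obtain ⟨α, hα⟩ := exists_prime_orderOf_dvd_card' q hd
    by_contra h2
    exact h α (by rintro rfl; rw [orderOf_one] at hα; exact hq.ne_one hα.symm)
      (hα ▸ (Nat.coprime_primes hq Nat.prime_two).mpr h2)
  obtain ⟨N, hN, hNc, hQ⟩ := hm
  obtain ⟨a, ha⟩ : ∃ a : X, zpowers a = N := (Subgroup.isCyclic_iff_exists_zpowers_eq_top N).mp hNc
  obtain ⟨b₀, hb₀⟩ := isCyclic_iff_exists_zpowers_eq_top.mp hQ
  obtain ⟨b₀, rfl⟩ := QuotientGroup.mk'_surjective N b₀
  subst ha
  set Φ := frattini X with hΦ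
  have hΦα : ∀ x ∈ Φ, α x ∈ Φ := fun x hx =>
    (characteristic_iff_le_comap.mp inferInstance α) hx
  have hΦn : ∀ M : Subgroup X, Φ ≤ M → ∀ x, x ∈ normalizer (M : Set X) := fun M h x =>
    le_normalizer_iff_commutator_le_right.mpr ((commutator_mono le_top le_top).trans
      ((commutator_le_frattini hX).trans h)) (mem_top x)
  have hsq : ∀ x : X, x ^ 2 ∈ Φ := pow_mem_frattini hX
  have htop : Φ ⊔ zpowers a ⊔ zpowers b₀ = ⊤ := by
    have := congrArg (Subgroup.comap (QuotientGroup.mk' (zpowers a))) hb₀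
    rw [← MonoidHom.map_zpowers, comap_map_eq, QuotientGroup.ker_mk', comap_top] at this
    rw [eq_top_iff, ← this]
    exact sup_le le_sup_right (le_sup_right.trans le_sup_left)
  have h1 : Φ.relIndex (Φ ⊔ zpowers a) ∣ 2 := relIndex_dvd_two (hΦn _ le_rfl a) (hsq a)
  have h2 : (Φ ⊔ zpowers a).index ∣ 2 := by
    rw [← relIndex_top_right, ← htop]
    exact relIndex_dvd_two (hΦn _ le_sup_left _) (mem_sup_left (hsq _))
  have h3 : ¬ Φ.index ∣ 2 := fun h => hα1 (mulAut_eq_one_of_frattini hX hα fun x =>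
    inv_mul_mem α hΦα (fun _ _ => mem_top _) (by rwa [relIndex_top_right]) (mem_top x))
  have h4 : Φ.index ∣ 2 * 2 := relIndex_mul_index (le_sup_left : Φ ≤ Φ ⊔ zpowers a) ▸
    Nat.mul_dvd_mul h1 h2
  have key : ∀ H : Subgroup X, (∀ x ∈ H, α x ∈ H) → H ≤ Φ ∨ H = ⊤ := by
    intro H hH
    by_contra! h
    have hM : ∀ x ∈ Φ ⊔ H, α x ∈ Φ ⊔ H := fun x hx => (sup_le (fun y hy => mem_sup_left (hΦα y hy))
      (fun y hy => mem_sup_right (hH y hy)) : Φ ⊔ H ≤ (Φ ⊔ H).comap α.toMonoidHom) hx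
    have h5 := relIndex_mul_index (le_sup_left : Φ ≤ Φ ⊔ H)
    have h6 : Φ.relIndex (Φ ⊔ H) ≠ 1 := fun h' => h.1 (le_sup_right.trans (relIndex_eq_one.mp h'))
    have h7 : (Φ ⊔ H).index ≠ 1 := fun h' =>
      h.2 (frattini_nongenerating (by rw [sup_comm]; exact index_eq_one.mp h'))
    rw [← h5] at h4
    have h8 : Φ.relIndex (Φ ⊔ H) = 2 ∧ (Φ ⊔ H).index = 2 := by
      have h9 := Nat.le_of_dvd (by norm_num) h4
      have h10 : Φ.relIndex (Φ ⊔ H) ≠ 0 := index_ne_zero_of_finite
      have h11 : (Φ ⊔ H).index ≠ 0 := index_ne_zero_of_finite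
      generalize Φ.relIndex (Φ ⊔ H) = s at *
      generalize (Φ ⊔ H).index = t at *
      have hs : 2 ≤ s := by omega
      have ht : 2 ≤ t := by omega
      constructor <;> nlinarith
    have h9 : α ^ 2 = 1 := mulAut_eq_one_of_frattini hX
      (Nat.Coprime.coprime_dvd_left (orderOf_pow_dvd 2) hα) fun x => by
        have h10 := inv_mul_mem α hM (fun _ _ => mem_top _)
          (by rw [relIndex_top_right, h8.2]) (mem_top x)
        have := mul_mem (hsq (x⁻¹ * α x)) (inv_mul_mem α hΦα hM (by rw [h8.1]) h10)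
        simpa [pow_two, mul_assoc] using this
    exact hα1 (orderOf_eq_one_iff.mp (Nat.Coprime.eq_one_of_dvd hα
      (orderOf_dvd_of_pow_eq_one h9)))
  have hM : Φ ⊔ zpowers a ≠ ⊤ := fun h => h3 (by rwa [h, relIndex_top_right] at h1)
  have haΦ : a ∉ Φ := fun h => by
    rw [sup_eq_left.mpr (zpowers_le.mpr h)] at h2
    exact h3 h2
  set b := α a with hb
  have hbM : b ∉ Φ ⊔ zpowers a := fun h => ((key (Φ ⊔ zpowers a) fun x hx =>
    (sup_le (fun y hy => mem_sup_left (hΦα y hy)) (zpowers_le.mpr h) :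
      Φ ⊔ zpowers a ≤ (Φ ⊔ zpowers a).comap α.toMonoidHom) hx).resolve_right hM
        |> fun h => haΦ (h (mem_sup_right (mem_zpowers a))))
  have hab : zpowers a ⊔ zpowers b = ⊤ := by
    refine frattini_nongenerating ?_
    rw [sup_comm, ← sup_assoc]
    refine (isCoatom_of_index_prime ?_).2 _ (lt_of_le_of_ne le_sup_left fun h =>
      hbM (h.ge (mem_sup_right (mem_zpowers b))))
    rw [((Nat.dvd_prime Nat.prime_two).mp h2).resolve_left fun h => hM (index_eq_one.mp h)]
    exact Nat.prime_two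
  have hNb : (zpowers b).Normal := by
    have := hN.map α.toMonoidHom α.surjective
    rwa [MonoidHom.map_zpowers] at this
  have hca : ⁅a, b⁆ ∈ zpowers a := commutator_le_left (zpowers a) ⊤
    (commutator_mem_commutator (mem_zpowers a) (mem_top b))
  have hcb : ⁅a, b⁆ ∈ zpowers b := commutator_le_right ⊤ (zpowers b)
    (commutator_mem_commutator (mem_top a) (mem_zpowers b))
  set c := ⁅a, b⁆ with hc
  have hcz : c ∈ center X := by
    rw [← centralizer_univ, ← coe_top, ← hab, centralizer_sup, centralizer_zpowers,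
      centralizer_zpowers]
    exact ⟨zpowers_le.mpr (mem_centralizer_singleton_iff.mpr rfl) hca,
      zpowers_le.mpr (mem_centralizer_singleton_iff.mpr rfl) hcb⟩
  haveI : (zpowers c).Normal := normal_of_le_center (zpowers_le.mpr hcz)
  have hD : commutator X = zpowers c := le_antisymm (commutator_le_of_pair hab (mem_zpowers c))
    (zpowers_le.mpr (commutatorElement_mem_commutator a b))
  have hcom : ∀ x y : X, ⁅x, y⁆ ∈ zpowers c := fun x y => hD ▸ commutatorElement_mem_commutator x y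
  have hcom' : ∀ x y z : X, Commute ⁅x, y⁆ z := fun x y z =>
    (mem_center_iff.mp (zpowers_le.mpr hcz (hcom x y)) z).symm
  have habΦ : ∀ x ∈ zpowers a, x * b ∉ Φ := fun x hx h => hbM (by
    simpa using mul_mem (inv_mem (mem_sup_right hx : x ∈ Φ ⊔ zpowers a)) (mem_sup_left h))
  obtain ⟨n, hn⟩ := (IsPGroup.iff_orderOf.mp hX) a
  have hnb : orderOf b = 2 ^ n := by rw [hb, MulEquiv.orderOf_eq, hn]
  obtain _ | n := n
  · exact absurd (orderOf_eq_one_iff.mp hn ▸ one_mem Φ) haΦ
  by_cases hc1 : c = 1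
  · right
    have hcomm : ∀ x y : X, Commute x y := fun x y => commutatorElement_eq_one_iff_commute.mp
      (by simpa [hc1] using hcom x y)
    have hinf : zpowers a ⊓ zpowers b = ⊥ := by
      by_contra h
      obtain ⟨z, hz⟩ := exists_prime_orderOf_dvd_card' 2
        (dvd_card_of_isPGroup_of_ne_bot (hX.to_subgroup _) h)
      have hz2 : (z : X) ^ 2 = 1 := by rw [← hz, ← orderOf_coe, pow_orderOf_eq_one]
      have hz1 : (z : X) ≠ 1 := fun h => by
        rw [← orderOf_coe, h, orderOf_one] at hz; exact absurd hz (by decide)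
      have e1 := (eq_one_or_eq_half_pow hn z.2.1 hz2).resolve_left hz1
      have e2 := (eq_one_or_eq_half_pow hnb z.2.2 hz2).resolve_left hz1
      let H : Subgroup X :=
        { carrier := {x | x ^ 2 ^ n = 1}
          one_mem' := one_pow _
          mul_mem' := fun {x y} hx hy => by
            rw [Set.mem_ofPred_eq, (hcomm x y).mul_pow, hx, hy, one_mul]
          inv_mem' := fun {x} hx => by rw [Set.mem_ofPred_eq, inv_pow, hx, inv_one] }
      have h5 := (key H fun x (hx : x ^ 2 ^ n = 1) => show α x ^ 2 ^ n = 1 by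
        rw [← map_pow, hx, map_one]).resolve_left fun h => habΦ a⁻¹ (inv_mem (mem_zpowers a))
          (h (show (a⁻¹ * b) ^ 2 ^ n = 1 by
            rw [(hcomm _ _).mul_pow, inv_pow, ← e1, ← e2, inv_mul_cancel]))
      exact hz1 (e1.trans (h5.ge (mem_top a)))
    let f : zpowers a × zpowers b →* X := (zpowers a).subtype.noncommCoprod (zpowers b).subtype
      fun x y => hcomm _ _
    have hf : Function.Bijective f := by
      constructor
      · rw [injective_iff_map_eq_one]
        rintro ⟨x, y⟩ h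
        have h5 : (x : X) = (y : X)⁻¹ := eq_inv_of_mul_eq_one_left h
        have h6 : (x : X) = 1 := mem_bot.mp (hinf ▸ mem_inf.mpr ⟨x.2, h5 ▸ inv_mem y.2⟩)
        exact Prod.ext (Subtype.ext h6) (Subtype.ext (inv_eq_one.mp (h5.symm.trans h6)))
      · intro x
        obtain ⟨y, hy, z, hz, rfl⟩ := (mem_sup_of_le_normalizer_right
          le_normalizer_of_normal).mp (hab.ge (mem_top x))
        exact ⟨(⟨y, hy⟩, ⟨z, hz⟩), rfl⟩
    have e1 := zmodCyclicMulEquiv (isCyclic_zpowers a)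
    have e2 := zmodCyclicMulEquiv (isCyclic_zpowers b)
    rw [Nat.card_zpowers, hn] at e1
    rw [Nat.card_zpowers, hnb] at e2
    exact ⟨n + 1, ⟨(MulEquiv.ofBijective f hf).symm.trans (e1.prodCongr e2).symm⟩⟩
  left
  obtain ⟨j, hj⟩ := (mem_powers_iff_mem_zpowers.mpr hca)
  have hj0 : j ≠ 0 := by rintro rfl; exact hc1 (hj.symm.trans (pow_zero a))
  obtain ⟨m, u, hu, rfl⟩ := Nat.exists_eq_two_pow_mul_odd hj0
  have hodd : ∀ (x : X) (u : ℕ), Odd u → x ∈ zpowers (x ^ u) := fun x u hu => by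
    obtain ⟨k, hk⟩ := (IsPGroup.iff_orderOf.mp hX) x
    rw [mem_zpowers_pow_iff, hk]
    exact (Nat.coprime_two_right.mpr hu).pow_right k
  have hDa : zpowers c = zpowers (a ^ 2 ^ m) := by
    refine le_antisymm (zpowers_le.mpr ?_) (zpowers_le.mpr ?_)
    · rw [← hj]; simp only [pow_mul]; exact pow_mem (mem_zpowers _) _
    · rw [← hj]; simp only [pow_mul]; exact hodd _ _ hu
  have hDb : zpowers c = zpowers (b ^ 2 ^ m) := by
    have := characteristic_iff_map_eq.mp (inferInstance : (commutator X).Characteristic) α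
    rw [hD] at this
    rw [← this, hDa, MonoidHom.map_zpowers, map_pow]; rfl
  have hc2 : c ∉ zpowers (c ^ 2) := fun h => by
    obtain ⟨k, hk⟩ := (IsPGroup.iff_orderOf.mp hX) c
    rw [mem_zpowers_pow_iff, hk] at h
    obtain _ | k := k
    · exact hc1 (orderOf_eq_one_iff.mp hk)
    · rw [pow_succ, Nat.gcd_eq_left (Dvd.intro_left _ rfl)] at h; exact absurd h (by decide)
  obtain _ | _ | m := m
  · exact absurd (commutator_le_frattini hX (hD ▸ hDa ▸ by simp)) haΦ
  · have ha2 : a ^ 2 ∈ zpowers c := hDa ▸ mem_zpowers _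
    have hcc : c ^ 2 = 1 := by
      rw [hc, ← commutatorElement_pow_left (hcom' _ _ _), commutatorElement_eq_one_iff_commute]
      exact (mem_center_iff.mp (zpowers_le.mpr hcz ha2) b).symm
    have hoc : orderOf c = 2 ^ (0 + 1) := orderOf_eq_prime hcc hc1
    have hgen : ∀ x : X, zpowers c = zpowers x → x = c := fun x hx => by
      have h5 : x ∈ zpowers c := hx ▸ mem_zpowers x
      have h6 : x ^ 2 = 1 := by
        obtain ⟨k, rfl⟩ := mem_zpowers_iff.mp h5
        rw [← zpow_natCast, ← zpow_mul, mul_comm, zpow_mul, zpow_natCast, hcc, one_zpow]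
      rcases eq_one_or_eq_half_pow hoc h5 h6 with h | h
      · exact absurd (by simpa [h] using hx) hc1
      · simpa using h
    have e1 : a ^ 2 = c := hgen _ hDa
    have e2 : b ^ 2 = c := hgen _ hDb
    have ho : orderOf a = 2 * 2 := orderOf_eq_prime_pow (p := 2) (n := 1) (by rwa [pow_one, e1])
      (by rw [show 2 ^ (1 + 1) = 2 * 2 from rfl, pow_mul, e1, hcc])
    obtain ⟨e⟩ := nonempty_mulEquiv_quaternion ho (fun h => hbM (mem_sup_right h))
      (by
        have : b * a⁻¹ * b⁻¹ = a := by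
          rw [← mul_right_inj a, ← pow_two, e1, hc, commutatorElement_def]; group
        calc b * a * b⁻¹ = (b * a⁻¹ * b⁻¹)⁻¹ := by group
          _ = a⁻¹ := by rw [this]) (e2.trans e1.symm)
    exact ⟨topEquiv.symm.trans ((MulEquiv.subgroupCongr hab.symm).trans e)⟩
  · exfalso
    have hE : ∀ x ∈ zpowers c, x ^ 2 ∈ zpowers (c ^ 2) := fun x hx => by
      obtain ⟨k, rfl⟩ := mem_zpowers_iff.mp hx
      rw [← zpow_natCast (c ^ k), ← zpow_mul, mul_comm, zpow_mul, zpow_natCast]
      exact zpow_mem (mem_zpowers _) _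
    have hmul : ∀ x y : X, ∃ e ∈ zpowers (c ^ 2),
        (x * y) ^ 2 ^ (m + 1 + 1) = x ^ 2 ^ (m + 1 + 1) * y ^ 2 ^ (m + 1 + 1) * e := fun x y => by
      refine ⟨_, inv_mem ?_, mul_pow_eq_commutator (hcom' _ _ _) (hcom' _ _ _) _⟩
      obtain ⟨k, hk⟩ := dvd_choose_two (q := 2 ^ (m + 1 + 1)) Nat.prime_two
        (by rw [pow_succ, pow_succ]; omega) (by omega : m + 1 + 1 ≠ 0) rfl
      rw [hk, pow_mul]
      exact pow_mem (hE _ (hcom x y)) _
    let H : Subgroup X :=
      { carrier := {x | x ^ 2 ^ (m + 1 + 1) ∈ zpowers (c ^ 2)}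
        one_mem' := by simp
        mul_mem' := fun {x y} hx hy => by
          obtain ⟨e, he, h⟩ := hmul x y
          rw [Set.mem_ofPred_eq, h]
          exact mul_mem (mul_mem hx hy) he
        inv_mem' := fun {x} hx => by rw [Set.mem_ofPred_eq, inv_pow]; exact inv_mem hx }
    have hαc : α c ∈ zpowers c := hD ▸ (characteristic_iff_le_comap.mp
      (inferInstance : (commutator X).Characteristic) α) (hD ▸ mem_zpowers c)
    have hn : ∀ x : X, zpowers c = zpowers x → x ∉ zpowers (c ^ 2) := fun x hx h =>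
      hc2 (zpowers_le.mpr h (hx ▸ mem_zpowers c))
    have h5 := (key H fun x (hx : x ^ 2 ^ (m + 1 + 1) ∈ zpowers (c ^ 2)) =>
      show α x ^ 2 ^ (m + 1 + 1) ∈ zpowers (c ^ 2) by
        rw [← map_pow]
        exact (zpowers_le.mpr (by simpa using hE _ hαc) :
          zpowers (c ^ 2) ≤ (zpowers (c ^ 2)).comap α.toMonoidHom) hx).resolve_left
      fun h => habΦ a (mem_zpowers a) (h (show (a * b) ^ 2 ^ (m + 1 + 1) ∈ zpowers (c ^ 2) by
        obtain ⟨e, he, h⟩ := hmul a b
        rw [h]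
        refine mul_mem ?_ he
        have h6 : (zpowers (c ^ 2)).relIndex (zpowers c) = 2 := by
          have := relIndex_sup_zpowers (p := 2) (le_normalizer_of_le_centralizer
            (le_centralizer_iff.mp (zpowers_le.mpr (pow_mem (mem_centralizer_iff.mpr
              fun y _ => mem_center_iff.mp hcz y) 2))) (mem_zpowers c)) hc2 (mem_zpowers _)
          rwa [sup_eq_right.mpr (zpowers_le.mpr (pow_mem (mem_zpowers c) 2))] at this
        exact (mul_mem_iff_of_index_two h6 (a := ⟨_, hDa ▸ mem_zpowers _⟩)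
          (b := ⟨_, hDb ▸ mem_zpowers _⟩)).mpr (iff_of_false (hn _ hDa) (hn _ hDb))))
    exact hn _ hDa (h5.ge (mem_top a))

end Cfsg.Agent.S1896
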