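import Cfsg.Statements.S1897
import Cfsg.Agent.Lib.Core.Basic
import Cfsg.Agent.Lib.Root.SL2
-- import your own Cfsg.Agent.* helpers here

set_option autoImplicit false
open Cfsg

namespace Cfsg.Agent.S1897

open Cfsg.Agent.Lib.Core Subgroup
open scoped Pointwise commutatorElement

open Cfsg.Agent.Lib.Root Matrix

abbrev R9 := QuadraticAlgebra (ZMod 3) (-1) 0

def xa : Fin 7 → Matrix (Fin 3) (Fin 3) R9 :=
  ![!![⟨1, 0⟩, ⟨0, 0⟩, ⟨0, 0⟩; ⟨0, 0⟩, ⟨1, 0⟩, ⟨0, 0⟩; ⟨0, 0⟩, ⟨0, 0⟩, ⟨1, 0⟩],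
    !![⟨0, 0⟩, ⟨0, 0⟩, ⟨0, 1⟩; ⟨1, 1⟩, ⟨1, 1⟩, ⟨0, 0⟩; ⟨1, 1⟩, ⟨2, 2⟩, ⟨0, 0⟩],
    !![⟨2, 1⟩, ⟨1, 2⟩, ⟨0, 0⟩; ⟨0, 2⟩, ⟨0, 2⟩, ⟨2, 1⟩; ⟨0, 1⟩, ⟨0, 1⟩, ⟨2, 1⟩],
    !![⟨2, 0⟩, ⟨2, 0⟩, ⟨2, 2⟩; ⟨2, 2⟩, ⟨0, 2⟩, ⟨1, 0⟩; ⟨0, 1⟩, ⟨1, 1⟩, ⟨2, 0⟩],
    !![⟨2, 0⟩, ⟨2, 1⟩, ⟨0, 2⟩; ⟨2, 0⟩, ⟨0, 1⟩, ⟨1, 2⟩; ⟨2, 1⟩, ⟨1, 0⟩, ⟨2, 0⟩],
    !![⟨2, 2⟩, ⟨0, 1⟩, ⟨0, 2⟩; ⟨1, 1⟩, ⟨0, 1⟩, ⟨0, 2⟩; ⟨0, 0⟩, ⟨2, 2⟩, ⟨2, 2⟩],
    !![⟨0, 0⟩, ⟨1, 2⟩, ⟨1, 2⟩; ⟨0, 0⟩, ⟨1, 2⟩, ⟨2, 1⟩; ⟨0, 2⟩, ⟨0, 0⟩, ⟨0, 0⟩]]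

def xb : Fin 7 → Matrix (Fin 3) (Fin 3) R9 :=
  ![!![⟨1, 0⟩, ⟨0, 0⟩, ⟨0, 0⟩; ⟨0, 0⟩, ⟨1, 0⟩, ⟨0, 0⟩; ⟨0, 0⟩, ⟨0, 0⟩, ⟨1, 0⟩],
    !![⟨0, 1⟩, ⟨0, 1⟩, ⟨2, 2⟩; ⟨0, 2⟩, ⟨1, 2⟩, ⟨1, 0⟩; ⟨2, 2⟩, ⟨2, 0⟩, ⟨0, 2⟩],
    !![⟨0, 2⟩, ⟨1, 2⟩, ⟨0, 1⟩; ⟨2, 1⟩, ⟨0, 1⟩, ⟨0, 2⟩; ⟨0, 1⟩, ⟨0, 1⟩, ⟨1, 2⟩],
    !![⟨1, 1⟩, ⟨1, 0⟩, ⟨1, 0⟩; ⟨2, 0⟩, ⟨0, 1⟩, ⟨1, 1⟩; ⟨1, 0⟩, ⟨2, 2⟩, ⟨0, 2⟩],
    !![⟨1, 2⟩, ⟨2, 0⟩, ⟨1, 0⟩; ⟨1, 0⟩, ⟨0, 2⟩, ⟨2, 1⟩; ⟨1, 0⟩, ⟨1, 2⟩, ⟨0, 1⟩],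
    !![⟨0, 1⟩, ⟨2, 2⟩, ⟨0, 2⟩; ⟨1, 1⟩, ⟨0, 2⟩, ⟨0, 2⟩; ⟨0, 2⟩, ⟨0, 1⟩, ⟨1, 1⟩],
    !![⟨0, 2⟩, ⟨0, 1⟩, ⟨2, 1⟩; ⟨0, 2⟩, ⟨1, 1⟩, ⟨2, 0⟩; ⟨2, 1⟩, ⟨1, 0⟩, ⟨0, 1⟩]]

theorem xa_det : ∀ t, (xa t).det = 1 := by simp only [det_fin_three]; decide +kernel
theorem xb_det : ∀ t, (xb t).det = 1 := by simp only [det_fin_three]; decide +kernel
theorem xa_add : ∀ s t : ZMod 7, xa (s + t) = xa s * xa t := by decide +kernel
theorem xb_add : ∀ s t : ZMod 7, xb (s + t) = xb s * xb t := by decide +kernel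
theorem x_rel : ∀ t s : ZMod 7, t * s = 1 → ∀ u : ZMod 7,
    xa t * xb (-s) * xa t * xa u = xb (-u * s ^ 2) * (xa t * xb (-s) * xa t) := by decide +kernel
theorem x_h : ∀ t s u v : ZMod 7, t * s = 1 → u * v = 1 →
    xa t * xb (-s) * xa t * (xa (-1) * xb 1 * xa (-1)) * (xa u * xb (-v) * xa u) =
      xa (t * u) * xb (-(s * v)) * xa (t * u) := by decide +kernel
theorem x_w : xa 1 * xb 6 * xa 1 * (xa 1 * xb 6 * xa 1) = 1 := by decide +kernel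
theorem xa_un : ∀ t, (xa t)ᵀ * (xa t).map star = 1 := by decide +kernel
theorem xb_un : ∀ t, (xb t)ᵀ * (xb t).map star = 1 := by decide +kernel
theorem x_ne : ((xa 1 * xb 1) 0 2 - (xb 1 * xa 1) 0 2) * 2 = 1 := by decide +kernel

theorem cube : ∀ a b : ZMod 3, (⟨a, b⟩ : R9) ^ 3 = star ⟨a, b⟩ := by decide +kernel

def XA (t : ZMod 7) : SpecialLinearGroup (Fin 3) R9 := ⟨xa t, xa_det t⟩
def XB (t : ZMod 7) : SpecialLinearGroup (Fin 3) R9 := ⟨xb t, xb_det t⟩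

theorem coe_XA (t : ZMod 7) : ((XA t : SpecialLinearGroup (Fin 3) R9) : Matrix _ _ R9) = xa t := rfl
theorem coe_XB (t : ZMod 7) : ((XB t : SpecialLinearGroup (Fin 3) R9) : Matrix _ _ R9) = xb t := rfl

theorem exists_hom {K : Type*} [Field K] (e : K ≃+* ZMod 7) :
    ∃ φ : SpecialLinearGroup (Fin 2) K →* SpecialLinearGroup (Fin 3) R9,
      (∀ t, φ (xu t) = XA (e t)) ∧ (∀ t, φ (xl t) = XB (e t)) := by
  have hi : ∀ t : K, t ≠ 0 → e t * e t⁻¹ = 1 := fun t ht => by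
    rw [← map_mul, mul_inv_cancel₀ ht, map_one]
  have h : StRel (fun t => XA (e t)) (fun t => XB (e t)) := by
    refine ⟨fun s t => Subtype.ext ?_, fun s t => Subtype.ext ?_, fun t ht u => ?_⟩
    · rw [map_add]; exact xa_add _ _
    · rw [map_add]; exact xb_add _ _
    · rw [mul_inv_eq_iff_eq_mul, div_eq_mul_inv, ← inv_pow, map_mul, map_neg, map_neg, map_pow]
      exact Subtype.ext (x_rel _ _ (hi t ht) _)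
  refine h.exists_hom fun t u ht hu => ?_
  rw [stH, stH, stH, ← mul_assoc, mul_left_inj, ← h.w_neg]
  simp only [stW, map_neg, mul_inv, map_mul, inv_neg, inv_one, neg_neg, map_one]
  exact Subtype.ext (x_h _ _ _ _ (hi t ht) (hi u hu))

/-- The projective special unitary group PSU₃(3) (realised over the field with 9 elements) has a subgroup isomorphic to PSL₂(7). -/
theorem result {F : Type*} [Field F] [Fintype F] (hF : Fintype.card F = 9)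
    {K : Type*} [Field K] [Fintype K] (hK : Fintype.card K = 7) :
    ∃ H : Subgroup (Cfsg.PSU 3 F 3), Nonempty (H ≃* Matrix.ProjectiveSpecialLinearGroup (Fin 2) K) := by
  haveI : Fact (Nat.Prime 3) := ⟨Nat.prime_three⟩
  haveI : Fact (Nat.Prime 7) := ⟨by norm_num⟩
  haveI : CharP F 3 := charP_of_card_eq_prime_pow (f := 2) hF
  letI : Algebra (ZMod 3) F := ZMod.algebra F 3
  obtain ⟨i, hi⟩ : IsSquare (-1 : F) := FiniteField.isSquare_neg_one_iff.mpr (by rw [hF]; decide)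
  let ρ : R9 →+* F := (QuadraticAlgebra.lift ⟨i, by rw [← hi]; simp⟩ : R9 →ₐ[ZMod 3] F)
  have hρ : ∀ z : R9, ρ z ^ 3 = ρ (star z) := fun z => by
    rw [← map_pow]
    exact congrArg ρ (cube z.re z.im)
  obtain ⟨φ, h1, h2⟩ := exists_hom (ZMod.ringEquivOfPrime K (by norm_num) hK).symm
  set e := (ZMod.ringEquivOfPrime K (by norm_num) hK).symm
  let ψ := (Matrix.SpecialLinearGroup.map ρ).comp φ
  have hun : ∀ A : SpecialLinearGroup (Fin 3) R9, A.1ᵀ * A.1.map star = 1 →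
      Matrix.SpecialLinearGroup.map ρ A ∈ SU 3 F 3 := by
    intro A hA u v
    have h3 : ∀ j k, ∑ l, ρ (A.1 l j) * ρ (A.1 l k) ^ 3 = if j = k then 1 else 0 := fun j k => by
      have := congrArg ρ (congrFun (congrFun hA j) k)
      rw [Matrix.mul_apply, map_sum, Matrix.one_apply, apply_ite ρ, map_one, map_zero] at this
      simpa [hρ] using this
    change ∑ l, (A.1.map ρ *ᵥ u) l * (A.1.map ρ *ᵥ v) l ^ 3 = ∑ l, u l * v l ^ 3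
    have h4 := h3 0 0; have h5 := h3 0 1; have h6 := h3 0 2
    have h7 := h3 1 0; have h8 := h3 1 1; have h9 := h3 1 2
    have h10 := h3 2 0; have h11 := h3 2 1; have h12 := h3 2 2
    simp only [Fin.sum_univ_three, Matrix.mulVec, dotProduct, Matrix.map_apply, add_pow_char,
      mul_pow] at *
    simp at h4 h5 h6 h7 h8 h9 h10 h11 h12
    linear_combination u 0 * v 0 ^ 3 * h4 + u 0 * v 1 ^ 3 * h5 + u 0 * v 2 ^ 3 * h6 +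
      u 1 * v 0 ^ 3 * h7 + u 1 * v 1 ^ 3 * h8 + u 1 * v 2 ^ 3 * h9 +
      u 2 * v 0 ^ 3 * h10 + u 2 * v 1 ^ 3 * h11 + u 2 * v 2 ^ 3 * h12
  have hmem : ∀ g, ψ g ∈ SU 3 F 3 := fun g => by
    induction g using sl2_induction with
    | h1 c => exact hun _ (h1 c ▸ xa_un _)
    | h2 c => exact hun _ (h2 c ▸ xb_un _)
    | hmul A B hA hB => rw [map_mul]; exact mul_mem hA hB
  let χ : SpecialLinearGroup (Fin 2) K →* PSU 3 F 3 :=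
    (QuotientGroup.mk' _).comp (ψ.codRestrict _ hmem)
  have hker : center (SpecialLinearGroup (Fin 2) K) ≤ χ.ker := by
    intro A hA
    obtain ⟨r, hr, h⟩ := Matrix.SpecialLinearGroup.mem_center_iff.mp hA
    have h3 : φ A = 1 := by
      rw [Fintype.card_fin, pow_two] at hr
      rcases mul_self_eq_one_iff.mp hr with rfl | rfl
      · rw [show A = 1 from Subtype.ext (by rw [← h]; simp), map_one]
      · rw [show A = xu 1 * xl (-1) * xu 1 * (xu 1 * xl (-1) * xu 1) from Subtype.ext (by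
          rw [← h]; ext a b; fin_cases a <;> fin_cases b <;> simp)]
        simp only [map_mul, h1, h2, map_neg, map_one]
        exact Subtype.ext x_w
    rw [MonoidHom.mem_ker, MonoidHom.comp_apply,
      show ψ.codRestrict _ hmem A = 1 from Subtype.ext (by
        change Matrix.SpecialLinearGroup.map ρ (φ A) = 1
        rw [h3, map_one]), map_one]
  let θ := QuotientGroup.lift _ χ hker
  haveI := Matrix.ProjectiveSpecialLinearGroup.rank_two_simple (F := K)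
    (by rw [Nat.card_eq_fintype_card, hK]; norm_num)
  have hθ : Function.Injective θ := by
    rw [← MonoidHom.ker_eq_bot_iff]
    refine (θ.normal_ker.eq_bot_or_eq_top).resolve_right fun h => ?_
    have h3 : χ (xu 1) = 1 := h.ge (mem_top (QuotientGroup.mk (xu 1)))
    have h4 := mem_center_iff.mp ((QuotientGroup.eq_one_iff _).mp h3) (ψ.codRestrict _ hmem (xl 1))
    rw [← map_mul, ← map_mul] at h4
    have h5 : ψ (xl 1 * xu 1) = ψ (xu 1 * xl 1) := congrArg Subtype.val h4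
    have h6 := congrArg (fun A : SpecialLinearGroup (Fin 3) F => A.1 0 2) h5
    change ρ ((φ (xl 1 * xu 1)).1 0 2) = ρ ((φ (xu 1 * xl 1)).1 0 2) at h6
    rw [map_mul, map_mul, h1, h2, map_one] at h6
    have h7 := congrArg ρ x_ne
    change ρ ((xb 1 * xa 1) 0 2) = ρ ((xa 1 * xb 1) 0 2) at h6
    rw [map_mul, map_sub, h6, sub_self, zero_mul, map_one] at h7
    exact zero_ne_one h7
  exact ⟨θ.range, ⟨(MonoidHom.ofInjective hθ).symm⟩⟩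

end Cfsg.Agent.S1897
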