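import Cfsg.Statements.S1898
import Cfsg.Agent.Lib.Core.Hol
-- import your own Cfsg.Agent.* helpers here

set_option autoImplicit false
open Cfsg

namespace Cfsg.Agent.S1898

open Cfsg.Agent.Lib.Core Subgroup
open scoped Pointwise commutatorElement


/-- Let X be a finite 2-group whose derived subgroup is elementary abelian and central. Then the subgroup generated by the elements of order dividing 4 has exponent dividing 4, and every automorphism of X fixing each element of order dividing 4 has 2-power order. -/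
theorem result {X : Type*} [Group X] [Finite X] (hX : IsPGroup 2 X)
    (hel : Cfsg.IsElementaryAbelian 2 (commutator X)) (hcen : commutator X ≤ Subgroup.center X) :
    (∀ x ∈ Subgroup.closure {g : X | g ^ 4 = 1}, x ^ 4 = 1) ∧
      ∀ φ : MulAut X, (∀ g : X, g ^ 4 = 1 → φ g = g) → ∃ k : ℕ, φ ^ (2 ^ k) = 1 := by
  have hc : ∀ x y : X, ⁅x, y⁆ ∈ commutator X := fun x y =>
    commutator_mem_commutator (mem_top x) (mem_top y)
  have hc2 : ∀ x y : X, ⁅x, y⁆ ^ 2 = 1 := fun x y => hel.2 _ (hc x y)
  have hcomm : ∀ x y z : X, Commute ⁅x, y⁆ z := fun x y z =>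
    (mem_center_iff.mp (hcen (hc x y)) z).symm
  have hmul : ∀ x y : X, (x * y) ^ 4 = x ^ 4 * y ^ 4 := fun x y => by
    rw [mul_pow_of_commute_commutator (hcomm _ _ _) (hcomm _ _ _),
      show Nat.choose 4 2 = 2 * 3 by rfl, pow_mul, hc2, one_pow, one_mul]
  refine ⟨fun x hx => ?_, fun φ hφ => ?_⟩
  · induction hx using closure_induction with
    | mem x hx => exact hx
    | one => simp
    | mul x y _ _ hx hy => rw [hmul, hx, hy, one_mul]
    | inv x _ hx => rw [inv_pow, hx, inv_one]
  · obtain ⟨k, hk⟩ := exists_pow_coprime 2 φ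
    refine ⟨k, mulAut_eq_one_of_omega' hX hk fun x hx => ?_⟩
    have hx4 : x ^ 4 = 1 := by
      rcases hx with hx | hx
      · rw [show 4 = 2 * 2 by rfl, pow_mul, hx, one_pow]
      · exact hx.2
    have : zpowers φ ≤ MulAction.stabilizer (MulAut X) x := zpowers_le.mpr (hφ x hx4)
    exact this (pow_mem (mem_zpowers φ) _)

end Cfsg.Agent.S1898
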