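import Cfsg.Statements.S1899
import Cfsg.Agent.Lib.Core.Basic
-- import your own Cfsg.Agent.* helpers here

set_option autoImplicit false
open Cfsg

namespace Cfsg.Agent.S1899

open Cfsg.Agent.Lib.Core Subgroup
open scoped Pointwise commutatorElement


/-- Let a dihedral group of order 2n, n odd and n > 1, act on a finite abelian 2-group A through automorphisms d and t with d^n = 1, t² = 1 and t d t⁻¹ = d⁻¹, and suppose that d fixes only the identity. Then A is the internal direct product of C_A(t) and its image under d. -/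
theorem result {A : Type*} [CommGroup A] [Finite A] (hA : IsPGroup 2 A)
    {n : ℕ} (hn : Odd n) (hn1 : 1 < n) (d t : MulAut A) (hd : d ^ n = 1) (ht : t ^ 2 = 1) (hdt : t * d * t⁻¹ = d⁻¹)
    (hfix : ∀ a : A, d a = a → a = 1) :
    (MulEquiv.toMonoidHom t).eqLocus (MonoidHom.id A) ⊓ ((MulEquiv.toMonoidHom t).eqLocus (MonoidHom.id A)).map d.toMonoidHom = ⊥ ∧
      (MulEquiv.toMonoidHom t).eqLocus (MonoidHom.id A) ⊔ ((MulEquiv.toMonoidHom t).eqLocus (MonoidHom.id A)).map d.toMonoidHom = ⊤ := by
  set C := (MulEquiv.toMonoidHom t).eqLocus (MonoidHom.id A) with hCdef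
  have hC : ∀ a, a ∈ C ↔ t a = a := fun a => Iff.rfl
  have hd2 : ∀ a, d (d a) = a → a = 1 := by
    intro a ha
    apply hfix
    obtain ⟨k, hk⟩ := hn
    have h1 : ∀ j : ℕ, (d ^ (2 * j)) a = a := by
      intro j
      induction j with
      | zero => simp
      | succ j ih =>
        rw [Nat.mul_succ, pow_add, MulAut.mul_apply, pow_two, MulAut.mul_apply, ha, ih]
    have h2 : (d ^ (2 * (k + 1))) a = d a := by
      rw [show 2 * (k + 1) = n + 1 by omega, pow_succ', hd, mul_one]
    rw [← h2, h1]
  have htd : ∀ a, t (d a) = d⁻¹ (t a) := by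
    intro a
    rw [← hdt]; simp
  have htd' : ∀ a, t (d⁻¹ a) = d (t a) := by
    intro a
    have : t * d⁻¹ * t⁻¹ = d := by
      have := congrArg (·⁻¹) hdt
      simpa [mul_assoc] using this
    conv_rhs => rw [← this]
    simp
  have htt : ∀ a, t (t a) = a := by
    intro a
    have : (t ^ 2) a = a := by rw [ht]; rfl
    simpa [pow_two] using this
  have hinf : C ⊓ C.map d.toMonoidHom = ⊥ := by
    rw [eq_bot_iff]
    rintro a ⟨ha, c, hc, rfl⟩
    have h1 : t (d c) = d c := ha
    have h2 : t c = c := hc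
    rw [htd, h2] at h1
    have h3 : d (d c) = c := by rw [← h1]; simp
    have := hd2 c h3
    simp [this]
  refine ⟨hinf, ?_⟩
  -- counting
  let f : A →* A := (MonoidHom.id A) / t.toMonoidHom
  have hf : ∀ a, f a = a / t a := fun a => rfl
  have hker : f.ker = C := by
    ext a
    rw [MonoidHom.mem_ker, hf, hC, div_eq_one, eq_comm]
  let u : A →* A := d.toMonoidHom / (d⁻¹ : MulAut A).toMonoidHom
  have hu : ∀ a, u a = d a / d⁻¹ a := fun a => rfl
  have huinj : Function.Injective u := by
    rw [injective_iff_map_eq_one]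
    intro a ha
    rw [hu, div_eq_one] at ha
    apply hd2
    rw [ha]; simp
  have hle : f.range.map u ≤ C := by
    rintro _ ⟨_, ⟨a, rfl⟩, rfl⟩
    have hb : t (f a) = (f a)⁻¹ := by rw [hf, map_div, htt, inv_div]
    rw [hC, hu, map_div, htd, htd', hb, map_inv, map_inv, inv_div_inv]
  have h1 : Nat.card f.range ≤ Nat.card C := by
    rw [← Subgroup.card_map_of_injective (f := u) huinj]
    exact Subgroup.card_le_of_le hle
  have h2 : Nat.card f.range * Nat.card C = Nat.card A := by
    rw [← hker, ← Subgroup.index_ker, mul_comm, Subgroup.card_mul_index]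
  have h3 := card_sup_mul_card_inf (H := C) (N := C.map d.toMonoidHom)
    (by rw [Subgroup.normalizer_eq_top]; exact le_top)
  rw [hinf, Subgroup.card_bot, mul_one,
    Subgroup.card_map_of_injective (f := d.toMonoidHom) d.injective] at h3
  apply Subgroup.eq_top_of_le_card
  rw [h3, ← h2]
  exact Nat.mul_le_mul_right _ h1

end Cfsg.Agent.S1899
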