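import Cfsg.Statements.S1900
import Cfsg.Agent.Lib.Core.Generation
import Cfsg.Agent.Lib.Core.Baer
-- import your own Cfsg.Agent.* helpers here

set_option autoImplicit false
open Cfsg

namespace Cfsg.Agent.S1900

open Cfsg.Agent.Lib.Core Subgroup
open scoped Pointwise commutatorElement

theorem key {S : Type*} [Group S] [Finite S] {C₁ C₂ X N : Subgroup S} (h1 : C₁ ≤ centralizer (X : Set S))
    (h2 : CoprimeAct X C₂) (h3 : C₂ ⊓ centralizer (X : Set S) = ⊥)
    (n1 : C₁ ≤ normalizer (N : Set S)) (n2 : C₂ ≤ normalizer (N : Set S))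
    (n3 : X ≤ normalizer (N : Set S)) (h : ⁅⁅C₁, C₂⁆, X⁆ ≤ N) : ⁅C₁, C₂⁆ ≤ N := by
  have e := h2.inf_centralizer_sup_commutator
  rw [h3, bot_sup_eq] at e
  have := three_subgroups' (A := C₂) (B := X) (C := C₁) n2 n3 n1 (by
    rw [commutator_comm X, commutator_eq_bot_iff_le_centralizer.mpr h1]; simp) h
  rwa [e, commutator_comm] at this

/-- Let S = PQ be a finite group with P a normal Sylow p-subgroup and Q elementary abelian of order q², q a prime different from p. If exactly two subgroups X₁, X₂ of order q in Q have a nontrivial centralizer in P, then P is the internal direct product of C_P(X₁) and C_P(X₂): they commute elementwise, meet trivially and generate P. -/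
theorem result {S : Type*} [Group S] [Finite S] {p q : ℕ} [Fact p.Prime] [Fact q.Prime] (hpq : p ≠ q)
    (P : Sylow p S) [(P : Subgroup S).Normal] (Q : Subgroup S) (hQ : Cfsg.IsElementaryAbelian q Q) (hQc : Nat.card Q = q ^ 2)
    (hS : (P : Subgroup S) ⊔ Q = ⊤)
    (X₁ X₂ : Subgroup S) (h₁ : X₁ ≤ Q) (h₂ : X₂ ≤ Q) (h₁₂ : X₁ ≠ X₂) (hc₁ : Nat.card X₁ = q) (hc₂ : Nat.card X₂ = q)
    (hf₁ : (P : Subgroup S) ⊓ Subgroup.centralizer (X₁ : Set S) ≠ ⊥)
    (hf₂ : (P : Subgroup S) ⊓ Subgroup.centralizer (X₂ : Set S) ≠ ⊥)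
    (honly : ∀ X : Subgroup S, X ≤ Q → Nat.card X = q →
      (P : Subgroup S) ⊓ Subgroup.centralizer (X : Set S) ≠ ⊥ → X = X₁ ∨ X = X₂) :
    ⁅(P : Subgroup S) ⊓ Subgroup.centralizer (X₁ : Set S), (P : Subgroup S) ⊓ Subgroup.centralizer (X₂ : Set S)⁆ = ⊥ ∧
      ((P : Subgroup S) ⊓ Subgroup.centralizer (X₁ : Set S)) ⊓ ((P : Subgroup S) ⊓ Subgroup.centralizer (X₂ : Set S)) = ⊥ ∧
      ((P : Subgroup S) ⊓ Subgroup.centralizer (X₁ : Set S)) ⊔ ((P : Subgroup S) ⊓ Subgroup.centralizer (X₂ : Set S)) = P := by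
  set C₁ := (P : Subgroup S) ⊓ Subgroup.centralizer (X₁ : Set S) with hC₁
  set C₂ := (P : Subgroup S) ⊓ Subgroup.centralizer (X₂ : Set S) with hC₂
  have hq : q.Prime := Fact.out
  have hPp : IsPGroup p (P : Subgroup S) := P.isPGroup'
  have hQq : IsPGroup q Q := isPGroup_of_isElementaryAbelian hQ
  have hQp : ¬ p ∣ Nat.card Q := not_dvd_card_of_isPGroup hQq hpq
  have hQcomm : Q ≤ centralizer (Q : Set S) := by
    haveI := hQ.1
    exact le_centralizer Q
  have hzp : ∀ a ∈ Q, a ≠ 1 → Nat.card (zpowers a) = q := by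
    intro a ha ha1
    rw [Nat.card_zpowers]
    exact orderOf_eq_prime (hQ.2 a ha) ha1
  have hgen : ∀ X : Subgroup S, X ≤ Q → Nat.card X = q → ∀ a ∈ X, a ≠ 1 → zpowers a = X := by
    intro X hX hXc a ha ha1
    exact eq_of_le_of_card_ge (zpowers_le.mpr ha) (by rw [hXc, hzp a (hX ha) ha1])
  have hne : ∀ X : Subgroup S, Nat.card X = q → ∃ a ∈ X, a ≠ 1 := by
    intro X hX
    refine ((ne_bot_iff_exists_ne_one (H := X)).mp ?_).elim fun a ha => ⟨a, a.2, by simpa using ha⟩
    rintro rfl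
    rw [card_bot] at hX
    exact hq.ne_one hX.symm
  have hinf : C₁ ⊓ C₂ = ⊥ := by
    obtain ⟨x, hx, hx1⟩ := hne X₁ hc₁
    obtain ⟨y, hy, hy1⟩ := hne X₂ hc₂
    have hxy : x * y ≠ 1 := by
      intro h
      apply h₁₂
      rw [← hgen X₁ h₁ hc₁ x hx hx1, eq_inv_of_mul_eq_one_left h]
      exact hgen X₂ h₂ hc₂ _ (inv_mem hy) (inv_ne_one.mpr hy1)
    have hm : x * y ∈ Q := mul_mem (h₁ hx) (h₂ hy)
    by_contra hc
    have := honly (zpowers (x * y)) (zpowers_le.mpr hm) (hzp _ hm hxy) (by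
      intro hb
      apply hc
      rw [eq_bot_iff, ← hb, centralizer_zpowers]
      rintro g ⟨⟨hg, hg1⟩, -, hg2⟩
      refine ⟨hg, mem_centralizer_singleton_iff.mpr ?_⟩
      rw [← mul_assoc, ← hg1 x hx, mul_assoc, ← hg2 y hy, mul_assoc])
    rcases this with h | h
    · apply h₁₂
      have : y ∈ X₁ := by
        have h' : x * y ∈ X₁ := h ▸ mem_zpowers _
        simpa using mul_mem (inv_mem hx) h'
      rw [← hgen X₁ h₁ hc₁ y this hy1, hgen X₂ h₂ hc₂ y hy hy1]
    · apply h₁₂
      have : x ∈ X₂ := by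
        have h' : x * y ∈ X₂ := h ▸ mem_zpowers _
        simpa using mul_mem h' (inv_mem hy)
      rw [← hgen X₁ h₁ hc₁ x hx hx1, hgen X₂ h₂ hc₂ x this hx1]
  have hnc : ¬ IsCyclic Q := by
    intro h
    have := card_le_of_isCyclic_of_isElementaryAbelian hQ h
    rw [hQc] at this
    nlinarith [hq.two_le]
  have hsplit : ∀ D : Subgroup S, D ≤ P → Q ≤ normalizer (D : Set S) →
      D ≤ (D ⊓ C₁) ⊔ (D ⊓ C₂) := by
    intro D hD hQD
    refine le_of_centralizers hQ.1 hnc hQD
      (coprime_card_of_isPGroup (hPp.to_le hD) hQp).symm fun a ha ha1 => ?_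
    by_cases hb : (P : Subgroup S) ⊓ centralizer (zpowers a : Set S) = ⊥
    · rw [centralizer_zpowers] at hb
      exact (inf_le_inf_right _ hD).trans (hb.le.trans bot_le)
    · rw [← centralizer_zpowers]
      rcases honly _ (zpowers_le.mpr ha) (hzp a ha ha1) hb with h | h
      · rw [h]; exact le_sup_of_le_left (le_inf inf_le_left (inf_le_inf_right _ hD))
      · rw [h]; exact le_sup_of_le_right (le_inf inf_le_left (inf_le_inf_right _ hD))
  have hQP : Q ≤ normalizer ((P : Subgroup S) : Set S) := by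
    rw [normalizer_eq_top]; exact le_top
  have hsup : C₁ ⊔ C₂ = P := by
    refine le_antisymm (sup_le inf_le_left inf_le_left) ((hsplit P le_rfl hQP).trans ?_)
    exact sup_le_sup inf_le_right inf_le_right
  refine ⟨?_, hinf, hsup⟩
  have hQC : ∀ X : Subgroup S, X ≤ Q →
      Q ≤ normalizer (((P : Subgroup S) ⊓ centralizer (X : Set S) : Subgroup S) : Set S) :=
    fun X hX => le_normalizer_inf hQP (le_normalizer_centralizer
      (le_normalizer_of_le_centralizer (hQcomm.trans (centralizer_le_centralizer hX))))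
  have hQ1 : Q ≤ normalizer (C₁ : Set S) := hQC _ h₁
  have hQ2 : Q ≤ normalizer (C₂ : Set S) := hQC _ h₂
  set D := ⁅C₁, C₂⁆ with hD
  have hDP : D ≤ P := (commutator_mono inf_le_left inf_le_left).trans (commutator_le_left _ _)
  have hQD : Q ≤ normalizer (D : Set S) := le_normalizer_commutator hQ1 hQ2
  have hPD : (P : Subgroup S) ≤ normalizer (D : Set S) := by
    rw [← hsup]
    exact sup_le (normalizer_commutator_ge_left _ _) (normalizer_commutator_ge_right _ _)
  set E := ⁅D, (P : Subgroup S)⁆ with hE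
  have hED : E ≤ D := commutator_le_of_le_normalizer_left hPD
  have hQE : Q ≤ normalizer (E : Set S) := le_normalizer_commutator hQD hQP
  have hPN : ∀ N : Subgroup S, E ≤ N → N ≤ D → (P : Subgroup S) ≤ normalizer (N : Set S) := by
    intro N h1 h2 g hg
    refine mem_normalizer_of_conj_mem fun x hx => ?_
    have : ⁅x⁻¹, g⁆ ∈ N := h1 (commutator_mem_commutator (h2 (inv_mem hx)) hg)
    have := mul_mem hx this
    simpa [commutatorElement_def, mul_assoc] using this
  have hcop : ∀ X C : Subgroup S, X ≤ Q → C ≤ P → Q ≤ normalizer (C : Set S) → CoprimeAct X C :=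
    fun X C hX hC hn => coprimeAct_of_isPGroup_right (not_dvd_card_of_le hQp hX) (hPp.to_le hC)
      (hX.trans hn)
  have hN1 : D ≤ E ⊔ (D ⊓ C₂) := by
    have hn := hPN (E ⊔ (D ⊓ C₂)) le_sup_left (sup_le hED inf_le_left)
    have hQn : Q ≤ normalizer ((E ⊔ (D ⊓ C₂) : Subgroup S) : Set S) :=
      le_normalizer_sup hQE (le_normalizer_inf hQD hQ2)
    refine key (X := X₁) inf_le_right (hcop _ _ h₁ inf_le_left hQ2) ?_ (inf_le_left.trans hn)
      (inf_le_left.trans hn) (h₁.trans hQn) ?_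
    · rw [eq_bot_iff, ← hinf]
      exact le_inf (inf_le_inf_right _ inf_le_left) inf_le_left
    · refine (commutator_mono (hsplit D hDP hQD) le_rfl).trans (commutator_sup_left_le ?_ ?_ ?_)
      · rw [commutator_eq_bot_iff_le_centralizer.mpr (inf_le_right.trans inf_le_right)]
        exact bot_le
      · exact le_sup_of_le_right (commutator_le_of_le_normalizer_left
          (h₁.trans (le_normalizer_inf hQD hQ2)))
      · exact (sup_le (inf_le_left.trans hDP) (inf_le_left.trans hDP)).trans hn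
  have hN2 : ⁅C₂, C₁⁆ ≤ E := by
    have hn := hPN E le_rfl hED
    refine key (X := X₂) inf_le_right (hcop _ _ h₂ inf_le_left hQ1) ?_ (inf_le_left.trans hn)
      (inf_le_left.trans hn) (h₂.trans hQE) ?_
    · rw [eq_bot_iff, ← hinf]
      exact le_inf inf_le_left (inf_le_inf_right _ inf_le_left)
    · rw [commutator_comm C₂]
      refine (commutator_mono hN1 le_rfl).trans (commutator_sup_left_le ?_ ?_ ?_)
      · exact commutator_le_of_le_normalizer_left (h₂.trans hQE)
      · rw [commutator_eq_bot_iff_le_centralizer.mpr (inf_le_right.trans inf_le_right)]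
        exact bot_le
      · exact (sup_le (hED.trans hDP) (inf_le_left.trans hDP)).trans hn
  rw [commutator_comm] at hN2
  exact eq_bot_of_le_commutator_of_isNilpotent hPp.isNilpotent hDP hN2

end Cfsg.Agent.S1900
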