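import Cfsg.Statements.S1901
import Cfsg.Agent.Lib.Core.PSolv
-- import your own Cfsg.Agent.* helpers here

set_option autoImplicit false
open Cfsg

namespace Cfsg.Agent.S1901

open Cfsg.Agent.Lib.Core Subgroup
open scoped Pointwise commutatorElement

universe u

theorem aux {p : ℕ} [Fact p.Prime] : ∀ (G : Type u) [Group G] [Finite G],
    PSolv p (⊤ : Subgroup G) → ∀ A Q P : Subgroup G, IsPGroup p A → ¬ p ∣ Nat.card Q →
      A ≤ normalizer (Q : Set G) → ⁅Q, A⁆ = Q → IsSyl p P ⊤ → Q ≤ normalizer (P : Set G) →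
      Q = ⊥ := by
  refine card_induction fun G _ _ ih => ?_
  intro hG A Q P hA hQ hAQ hQA hP hQP
  have key : ∀ N : Subgroup G, N.Normal → N ≠ ⊥ → Q ≤ N := by
    intro N _ hN
    have h1 := hP.map (QuotientGroup.mk' N)
    rw [map_top_of_surjective _ (QuotientGroup.mk'_surjective _)] at h1
    have := ih (G ⧸ N) (card_quotient_lt hN) (hG.quotient N) (A.map (QuotientGroup.mk' N))
      (Q.map (QuotientGroup.mk' N)) _ (hA.map _) (not_dvd_card_map hQ _)
      ((map_mono hAQ).trans (le_normalizer_map _)) (by rw [← map_commutator, hQA]) h1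
      ((map_mono hQP).trans (le_normalizer_map _))
    rwa [Subgroup.map_eq_bot_iff, QuotientGroup.ker_mk'] at this
  by_cases hO : pPrimeCore p G = ⊥
  · by_cases hT : (⊤ : Subgroup G) = ⊥
    · exact le_bot_iff.mp (hT ▸ le_top)
    · have h1 := hG.OpOf_ne_bot (by rwa [OppOf_top]) hT
      rw [OpOf_top] at h1
      exact eq_bot_of_isPGroup_of_not_dvd (pCore_isPGroup.to_le (key _ inferInstance h1)) hQ
  · have h1 := key _ inferInstance hO
    have h2 : P ≤ centralizer (Q : Set G) := by
      rw [← commutator_eq_bot_iff_le_centralizer, ← le_bot_iff,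
        ← inf_eq_bot_of_isPGroup_of_not_dvd hP.isPGroup (pPrimeCore_not_dvd (p := p) (G := G))]
      exact le_inf (commutator_le_of_le_normalizer_left hQP)
        ((commutator_mono le_rfl h1).trans (commutator_le_right _ _))
    have h3 := hP.mono (h2.trans (centralizer_le_normalizer _)) le_top
    obtain ⟨g, hg, h4⟩ := h3.exists_conj_le hA hAQ
    have h5 : A ≤ centralizer (Q : Set G) := by
      have := map_mono (f := (MulAut.conj g⁻¹).toMonoidHom) (h4.trans h2)
      rwa [map_conj_inv_map_conj, map_conj_centralizer, map_conj_eq_iff.mpr (inv_mem hg)] at this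
    rw [← hQA, commutator_eq_bot_iff_le_centralizer.mpr (le_centralizer_iff.mp h5)]

/-- Let G be a finite p-solvable group and Q a subgroup of order prime to p such that p divides the index of C_G(Q) in N_G(Q). Then Q normalizes no Sylow p-subgroup of G. -/
theorem result {G : Type*} [Group G] [Finite G] {p : ℕ} [Fact p.Prime]
    (hG : Cfsg.IsPSolvable p G) (Q : Subgroup G) (hQ : ¬ p ∣ Nat.card Q)
    (hA : p ∣ (Subgroup.centralizer (Q : Set G)).relIndex (Subgroup.normalizer (Q : Set G)))
    (P : Sylow p G) : ¬ Q ≤ Subgroup.normalizer ((P : Subgroup G) : Set G) := by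
  intro hQP
  obtain ⟨A, hA'⟩ := exists_isSyl p (normalizer (Q : Set G))
  have hact := coprimeAct_of_isPGroup_left hA'.isPGroup hQ hA'.le
  have h1 := aux G (psolv_of_isPSolvable hG) A ⁅Q, A⁆ P hA'.isPGroup
    (not_dvd_card_of_le hQ (commutator_le_of_le_normalizer_left hA'.le))
    (le_normalizer_commutator hA'.le le_normalizer) hact.commutator_commutator (isSyl_sylow P)
    ((commutator_le_of_le_normalizer_left hA'.le).trans hQP)
  exact hA'.not_dvd_relIndex
    (le_centralizer_iff.mp (commutator_eq_bot_iff_le_centralizer.mp h1)) hA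

end Cfsg.Agent.S1901
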