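import Cfsg.Statements.S1902
import Cfsg.Agent.Lib.Core.Balance
import Cfsg.Agent.Lib.Core.Baer
import Cfsg.Agent.Lib.Core.Generation
-- import your own Cfsg.Agent.* helpers here

set_option autoImplicit false
open Cfsg

namespace Cfsg.Agent.S1902

open Cfsg.Agent.Lib.Core Subgroup
open scoped Pointwise commutatorElement


/-- Let p be an odd prime, G a finite p-solvable group, and B an elementary abelian subgroup of order p² such that B is the subgroup generated by the elements of order p of some Sylow p-subgroup of C_G(b₀), for some nontrivial b₀ ∈ B. Then every B-invariant subgroup of G of order prime to p lies in O_{p'}(G). -/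
theorem result {G : Type*} [Group G] [Finite G] {p : ℕ} [Fact p.Prime] (hp : p ≠ 2)
    (hG : Cfsg.IsPSolvable p G) (B : Subgroup G) (hB : Cfsg.IsElementaryAbelian p B) (hBc : Nat.card B = p ^ 2)
    (b₀ : G) (hb₀ : b₀ ∈ B) (hb₁ : b₀ ≠ 1) (P : Sylow p ↥(Subgroup.centralizer ({b₀} : Set G)))
    (hBP : B = Subgroup.closure {x : G | x ∈ ((P : Subgroup ↥(Subgroup.centralizer ({b₀} : Set G))).map
      (Subgroup.centralizer ({b₀} : Set G)).subtype : Subgroup G) ∧ orderOf x = p})
    (Q : Subgroup G) (hQ : ¬ p ∣ Nat.card Q) (hinv : ∀ b ∈ B, ∀ x ∈ Q, b * x * b⁻¹ ∈ Q) :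
    Q ≤ Cfsg.pPrimeCore p G := by
  set f := QuotientGroup.mk' (pPrimeCore p G) with hf
  have hBp := isPGroup_of_isElementaryAbelian hB
  have hBQ : B ≤ normalizer (Q : Set G) := le_normalizer_iff.mpr hinv
  have hBQ' : B.map f ≤ normalizer ((Q.map f : Subgroup _) : Set _) :=
    (map_mono hBQ).trans (le_normalizer_map _)
  have hz : IsPGroup p (zpowers b₀) := isPGroup_zpowers_of_mem hBp hb₀
  have hP := isSyl_map_subtype P
  have hP' := hP.map f
  have hC := map_mk_centralizer hz
  rw [centralizer_zpowers] at hC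
  rw [hC] at hP'
  have hQ' := not_dvd_card_map hQ f
  have h1 : pCore p (G ⧸ pPrimeCore p G) ≤ centralizer ((Q.map f : Subgroup _) : Set _) := by
    refine le_centralizer_of_odd hp pCore_isPGroup hQ' (hz.map f)
      ((map_mono (zpowers_le.mpr hb₀)).trans hBQ') le_normalizer_of_normal
      le_normalizer_of_normal fun x hx hxb hxp => ?_
    have h2 := hP'.le_of_le_normalizer (Q := pCore p _ ⊓ centralizer _)
      (pCore_isPGroup.to_le inf_le_left) inf_le_right
      (le_normalizer_inf le_normalizer_of_normal (le_normalizer_of_le hP'.le)) ⟨hx, hxb⟩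
    obtain ⟨y, hy, rfl⟩ := h2
    have h3 : y ^ p = 1 := by
      have := inf_eq_bot_of_isPGroup_of_not_dvd hP.isPGroup (pPrimeCore_not_dvd (p := p) (G := G))
      rw [← mem_bot, ← this]
      refine ⟨pow_mem hy p, ?_⟩
      rw [← map_pow, hf, QuotientGroup.mk'_apply, QuotientGroup.eq_one_iff] at hxp
      exact hxp
    have h4 : y ∈ B := by
      by_cases hy1 : y = 1
      · exact hy1 ▸ one_mem _
      · rw [hBP]
        exact subset_closure ⟨hy, orderOf_eq_prime h3 hy1⟩
    have h5 : pCore p (G ⧸ pPrimeCore p G) ⊓ B.map f ≤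
        centralizer ((Q.map f : Subgroup _) : Set _) := by
      rw [← commutator_eq_bot_iff_le_centralizer, ← le_bot_iff,
        ← inf_eq_bot_of_isPGroup_of_not_dvd (pCore_isPGroup (G := G ⧸ pPrimeCore p G)) hQ']
      exact le_inf ((commutator_mono inf_le_left le_rfl).trans (commutator_le_left _ _))
        (commutator_le_of_le_normalizer_right (inf_le_right.trans hBQ'))
    exact h5 ⟨hx, mem_map_of_mem f h4⟩
  have h3 := (le_centralizer_iff.mp h1).trans
    (((psolv_of_isPSolvable hG).quotient _).centralizer_pCore_le pPrimeCore_quotient)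
  have h4 := eq_bot_of_isPGroup_of_not_dvd (pCore_isPGroup.to_le h3) hQ'
  rwa [Subgroup.map_eq_bot_iff, hf, QuotientGroup.ker_mk'] at h4

end Cfsg.Agent.S1902
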