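import Cfsg.Statements.S1903
import Cfsg.Agent.Lib.Two.U34
-- import your own Cfsg.Agent.* helpers here

set_option autoImplicit false
open Cfsg

namespace Cfsg.Agent.S1903

open Cfsg.Agent.Lib.Core Subgroup
open scoped Pointwise commutatorElement


/-- A finite group of order 320 whose derived subgroup has order 64 and has centre a Klein four-group is isomorphic to the centralizer of an involution in PSU₃(4). -/
theorem result {G : Type*} [Group G] [Finite G] (hG : Nat.card G = 320) (hD : Nat.card (commutator G) = 64)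
    (hZ : IsKleinFour (Subgroup.center (commutator G)))
    {F : Type*} [Field F] [Fintype F] (hF : Fintype.card F = 16) :
    ∃ t : Cfsg.PSU 3 F 4, orderOf t = 2 ∧ Nonempty (G ≃* Subgroup.centralizer ({t} : Set (Cfsg.PSU 3 F 4))) := by
  obtain ⟨t, h1, h2, h3⟩ := Cfsg.Agent.Lib.Two.U34.exists_invol (Nat.card_eq_fintype_card.trans hF)
  have ho : orderOf ((2 : ℕ) : ZMod 5) = 4 :=
    orderOf_eq_prime_pow (p := 2) (n := 1) (by decide) (by decide)
  have : Finite (Subgroup.centralizer ({t} : Set (Cfsg.PSU 3 F 4))) :=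
    Nat.finite_of_card_ne_zero (by rw [h3]; norm_num)
  obtain ⟨φ, h4, -⟩ := Cfsg.Agent.Lib.Two.exists_cover Nat.prime_five (by norm_num)
    (Cfsg.Agent.Lib.Two.U34.minNN_of_card hG hD hZ.card_four) h2 ho.symm (r := 1) hG h3
  exact ⟨t, h1, ⟨MulEquiv.ofBijective φ (h4.bijective_of_nat_card_le (by rw [hG, h3]; norm_num))⟩⟩

end Cfsg.Agent.S1903
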