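import Cfsg.Statements.S1904
import Cfsg.Agent.Lib.Scn.E
-- import your own Cfsg.Agent.* helpers here

set_option autoImplicit false
open Cfsg

namespace Cfsg.Agent.S1904

open Subgroup Cfsg.Agent.Lib.PGroup Cfsg.Agent.Scn
open scoped commutatorElement

theorem es_q8 : IsES 2 (QuaternionGroup.a 2 : QuaternionGroup 2) ⊤ := by
  have o : orderOf (QuaternionGroup.a 2 : QuaternionGroup 2) = 2 :=
    orderOf_eq_prime (by decide) (by decide)
  refine ⟨trivial, o, fun x _ y _ => ?_, fun x _ => ?_, Subgroup.ext fun x => ?_⟩ <;>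
    rw [mem_zpowers_iff_of_orderOf_two o]
  · revert x y; simp only [mem_top, commutatorElement_def]; decide
  · revert x; simp only [mem_top]; decide
  · rw [top_inf_eq, coe_top, centralizer_univ, mem_center_iff]
    revert x; decide

/-- Let X be a finite nonabelian 2-group with no normal abelian subgroup that is self-centralizing and contains an elementary abelian subgroup of order 8. Suppose a group A of automorphisms of X of odd order satisfies [X, A] = X. Then X is the quaternion group of order 8, or X is special of order 64 with exactly three involutions, all central, or X is extraspecial of order 32 with exactly eleven involutions (the central product of a quaternion group and a dihedral group of order 8). -/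
theorem result {X : Type*} [Group X] [Finite X] (hX : IsPGroup 2 X) (hna : ¬ IsMulCommutative X)
    (hscn : ¬ ∃ A : Subgroup X, A.Normal ∧ Subgroup.centralizer (A : Set X) = A ∧
      ∃ E : Subgroup X, E ≤ A ∧ Cfsg.IsElementaryAbelian 2 E ∧ Nat.card E = 8)
    (A : Subgroup (MulAut X)) (hA : Odd (Nat.card A))
    (hXA : Subgroup.closure {g : X | ∃ φ ∈ A, ∃ x : X, g = x⁻¹ * φ x} = ⊤) :
    Nonempty (X ≃* QuaternionGroup 2) ∨
      (Cfsg.IsSpecial 2 X ∧ Nat.card X = 64 ∧ Nat.card {x : X // orderOf x = 2} = 3 ∧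
        ∀ x : X, orderOf x = 2 → x ∈ Subgroup.center X) ∨
      (Cfsg.IsExtraspecial 2 X ∧ Nat.card X = 32 ∧ Nat.card {x : X // orderOf x = 2} = 11) := by
  have h : Hyp A := by
    refine ⟨hX, hA, fun K hK => top_le_iff.1 (hXA ▸ (closure_le K).2 ?_), fun E hE he => ?_⟩
    · rintro _ ⟨φ, h1, x, rfl⟩
      exact hK φ h1 x
    by_contra k
    have := he.1
    obtain ⟨D, d1, d2, d3, d4⟩ := exists_maximal_normal_abelian_ge (A := E)
    obtain ⟨n, hn⟩ := IsPGroup.iff_card.1 (hX.to_subgroup E)
    have h3 : 2 ^ 3 ≤ Nat.card E := by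
      rw [hn] at k ⊢
      exact Nat.pow_le_pow_right two_pos ((Nat.pow_lt_pow_iff_right one_lt_two).1 (not_le.1 k))
    obtain ⟨F, f1, f2⟩ := Sylow.exists_subgroup_le_card_pow_prime_of_le_card Nat.prime_two hX h3
    exact hscn ⟨D, d1, le_antisymm (centralizer_le_of_maximal_normal_abelian hX d4) D.le_centralizer,
      F, f1.trans d3, ⟨⟨⟨fun a b => Subtype.ext (congrArg (fun t : E => t.1)
        (he.1.1.1 ⟨a, f1 a.2⟩ ⟨b, f1 b.2⟩))⟩⟩, fun a ha => he.2 a (f1 ha)⟩, f2⟩
  have c := h.core hna
  have sp := c.special hX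
  have zV : center X = VV X := le_antisymm c.cen fun _ k => k.1
  obtain ⟨n, hn⟩ := IsPGroup.iff_card.1 (hX.to_subgroup (VV X))
  have h4 := h.card_VV
  have : n < 3 := (Nat.pow_lt_pow_iff_right one_lt_two).1 (by omega)
  have ci := card_inv (X := X)
  interval_cases n
  · refine (hna ⟨⟨fun a b => commutatorElement_eq_one_iff_mul_comm.1 ?_⟩⟩).elim
    exact mem_bot.1 (card_eq_one.1 hn ▸ c.comm a b)
  · have hx : IsExtraspecial 2 X := ⟨sp, zV ▸ hn⟩
    obtain ⟨z, es⟩ := exists_isES_top hx
    have ne := IsES.ne_zpowers_of_isExtraspecial hx es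
    have zz : zpowers z = VV X := by rw [← es.center, top_inf_eq, coe_top, centralizer_univ, zV]
    have hz : z ∈ VV X := zz ▸ mem_zpowers z
    by_cases k : ∀ x ∈ (⊤ : Subgroup X), x ^ 2 = 1 → x ∈ zpowers z
    · obtain ⟨x, y, st, -⟩ := es.exists_step_minus ne k
      obtain ⟨Γ, hΓ, -⟩ := es.exists_pIso_two es_q8 (by
        rw [st.card, es.card_zpowers, card_top, Nat.card_eq_fintype_card, QuaternionGroup.card])
        (by rw [es.invCount_eq_two k, es_q8.invCount_eq_two fun x _ => by
          rw [mem_zpowers_iff_of_orderOf_two es_q8.ord]; revert x; simp only [mem_top]; decide])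
      obtain ⟨e, -⟩ := hΓ.exists_mulEquiv_top
      exact Or.inl ⟨e⟩
    push Not at k
    obtain ⟨x, -, x2, x1⟩ := k
    obtain ⟨C, y, st, y2⟩ := es.exists_step_plus trivial x1 x2
    have ip := st.invCount_plus es x2 y2
    have cd := st.card
    rw [card_top] at cd
    have no : ∀ u ∈ C, u ^ 2 = 1 → u ∈ zpowers z := fun u hu u2 => by
      have cm : ∀ a ∈ ({z, x, u} : Set X), ∀ b ∈ ({z, x, u} : Set X), a * b = b * a := by
        have := mem_centralizer_iff.1 st.x_cent u hu
        rintro _ (rfl | rfl | rfl) _ (rfl | rfl | rfl) <;> simp [(VV.comm hz _).eq, this]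
      have ic := isMulCommutative_closure cm
      have := h.no8 (closure {z, x, u}) (Normal.of_commutator_le X (c.der_le.trans
        (zz ▸ zpowers_le_of_mem (subset_closure (by simp))))) ⟨ic, fun a ha =>
        pow_eq_one_of_mem_closure (by rintro _ (rfl | rfl | rfl); exacts [hz.2, x2, u2])
          (fun a ha b hb k1 k2 => by rw [Commute.mul_pow (congrArg Subtype.val
            (ic.1.1 ⟨a, ha⟩ ⟨b, hb⟩)), k1, k2, one_mul]) ha⟩
      have zx : z ≠ x := fun t => x1 (t ▸ mem_zpowers z)
      rcases four_cases this (a := z) (b := x) (c := u) (subset_closure (by simp))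
        (subset_closure (by simp)) (subset_closure (by simp)) es.ne_one
        (fun t => x1 (t ▸ one_mem _)) zx (fun t => x1 ((mul_mem_cancel_left (mem_zpowers z)).1
          (t ▸ one_mem _))) with rfl | rfl | rfl | rfl
      exacts [one_mem _, mem_zpowers _, (st.x_not hu).elim,
        (st.x_not ((mul_mem_cancel_left st.es.mem).1 hu)).elim]
    rw [st.es.invCount_eq_two no] at ip
    by_cases k : C = zpowers z
    · exfalso
      have ia := es.invCount_add
      rw [k, es.card_zpowers] at ip cd
      rw [card_top] at ia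
      have g2 := es.mul_sq trivial trivial st.comm
      rw [x2, y2, one_mul, one_mul] at g2
      have e : ({x * y, x * y * z} : Set X) = {g | g ∈ (⊤ : Subgroup X) ∧ g ^ 2 = z} :=
        Set.eq_of_subset_of_ncard_le (by
          rintro _ (rfl | rfl)
          exacts [⟨trivial, g2⟩, ⟨trivial, by
            rw [(VV.comm hz _).symm.mul_pow, g2, hz.2, mul_one]⟩])
          (by rw [Set.ncard_pair (by simpa using es.ne_one)]; omega)
      refine es.ne_one (g2 ▸ (h.mem_of_ab c.der_le (x := x * y) fun φ _ => ?_).2)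
      have fz : φ z = z := ((mem_zpowers_iff_of_orderOf_two es.ord).1
        (zz ▸ VV.map φ hz)).resolve_left ((map_ne_one_iff _ φ.injective).2 es.ne_one)
      rcases (e.ge ⟨trivial, by rw [← map_pow, g2, fz]⟩ : φ (x * y) ∈ _) with t | t <;> rw [t]
      · rw [inv_mul_cancel]; exact one_mem _
      · rwa [inv_mul_cancel_left]
    · obtain ⟨_, _, s2, -⟩ := st.es.exists_step_minus k no
      rw [s2.card, es.card_zpowers] at ip cd
      exact Or.inr (Or.inr ⟨hx, cd, by omega⟩)
  · have iv : ∀ t : X, t ^ 2 = 1 → t ∈ VV X := fun t ht => h.mem_VV hn ht (c.comm t)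
    have : invCount (⊤ : Subgroup X) = Nat.card (VV X) := by
      rw [invCount, ← ncard_mem_eq_card]
      exact congrArg _ (Set.ext fun g => ⟨fun k => iv g k.2, fun k => ⟨trivial, k.2⟩⟩)
    exact Or.inr (Or.inl ⟨sp, h.card64 c hna hn, by omega, fun x hx =>
      (iv x (hx ▸ pow_orderOf_eq_one x)).1⟩)

end Cfsg.Agent.S1904
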