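import Cfsg.Statements.S1905
import Cfsg.Agent.Lib.Core.Syl
import Cfsg.Agent.Lib.Invol.SylowAux
-- import your own Cfsg.Agent.* helpers here

set_option autoImplicit false
open Cfsg

namespace Cfsg.Agent.S1905

open Cfsg.Agent.Lib.Core Subgroup
open scoped Pointwise commutatorElement

open Cfsg.Agent.Lib.Invol

/-- Let M be a subgroup of even order of a finite group S such that M contains the centralizer in S of each of its involutions and the normal core of M in S has odd order. Then all involutions of S are conjugate. If moreover N_S(X) ≤ M for a Sylow 2-subgroup X of M and I is an involution in the centre of X, then all involutions of M are conjugate in M and M = M₀ C_M(I) for some subgroup M₀ of M of odd order. -/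
theorem result {S : Type*} [Group S] [Finite S] (M : Subgroup S) (hM : Even (Nat.card M))
    (hC : ∀ i ∈ M, orderOf i = 2 → Subgroup.centralizer ({i} : Set S) ≤ M) (hcore : Odd (Nat.card M.normalCore)) :
    (∀ x y : S, orderOf x = 2 → orderOf y = 2 → IsConj x y) ∧
      ∀ (X : Sylow 2 M) (I : M), I ∈ (Subgroup.center ↥(X : Subgroup ↥M)).map (X : Subgroup ↥M).subtype → orderOf I = 2 →
        Subgroup.normalizer (((X : Subgroup M).map M.subtype : Subgroup S) : Set S) ≤ M →
        (∀ x y : M, orderOf x = 2 → orderOf y = 2 → IsConj x y) ∧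
          ∃ M₀ : Subgroup M, Odd (Nat.card M₀) ∧
            ∀ m : M, ∃ a ∈ M₀, ∃ c ∈ Subgroup.centralizer ({I} : Set M), m = a * c := by
  haveI : Fact (Nat.Prime 2) := ⟨Nat.prime_two⟩
  have hodd : ∀ i ∈ M, ∀ j ∉ M, orderOf i = 2 → orderOf j = 2 → Odd (orderOf (j * i)) := by
    intro i hi j hj hi2 hj2
    rw [← Nat.not_even_iff_odd]
    intro hev
    obtain ⟨hu2, huj, hui⟩ := half_pow_central (mul_self_of_orderOf_two hj2)
      (mul_self_of_orderOf_two hi2) hev
    exact hj (hC _ (hC i hi hi2 (mem_centralizer_singleton_iff.mpr hui.eq)) hu2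
      (mem_centralizer_singleton_iff.mpr huj.symm.eq))
  have hconj : ∀ i ∈ M, ∀ j ∉ M, orderOf i = 2 → orderOf j = 2 → IsConj j i :=
    fun i hi j hj hi2 hj2 => isConj_of_odd (mul_self_of_orderOf_two hj2)
      (mul_self_of_orderOf_two hi2) (hodd i hi j hj hi2 hj2)
  obtain ⟨i₀, hi₀, hi₀2⟩ := exists_involution_mem_of_even hM
  obtain ⟨j, hj, hj2⟩ : ∃ j ∉ M, orderOf j = 2 := by
    by_contra! h
    refine odd_card_iff_no_involution.mp hcore i₀ (fun g => ?_) hi₀2
    by_contra hg
    exact h _ hg ((orderOf_conj' g i₀).trans hi₀2)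
  have hall : ∀ x : S, orderOf x = 2 → IsConj j x := by
    intro x hx
    by_cases hxM : x ∈ M
    · exact hconj x hxM j hj hx hj2
    · exact (hconj i₀ hi₀ j hj hi₀2 hj2).trans (hconj i₀ hi₀ x hxM hi₀2 hx).symm
  refine ⟨fun x y hx hy => (hall x hx).symm.trans (hall y hy), fun X I hI hI2 hN => ?_⟩
  set P := (X : Subgroup M).map M.subtype with hP
  have hPM : IsSyl 2 P M := isSyl_map_subtype X
  have hPS : IsSyl 2 P ⊤ := isSyl_of_isSyl_normalizer (by
    rw [top_inf_eq]; exact hPM.mono le_normalizer hN)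
  have hI2' : orderOf (I : S) = 2 := by rw [Subgroup.orderOf_coe]; exact hI2
  have hPI : P ≤ centralizer {(I : S)} := by
    rw [map_subtype_center] at hI
    rintro _ ⟨x, hx, rfl⟩
    exact mem_centralizer_singleton_iff.mpr (congrArg Subtype.val (hI.2 x hx))
  have hfus : ∀ g : S, g * I * g⁻¹ ∈ M → g ∈ M := by
    intro g hg
    have h1 : P.map (MulAut.conj g).toMonoidHom ≤ M := by
      refine (map_mono hPI).trans ?_
      rw [map_conj_centralizer_singleton]
      exact hC _ hg ((orderOf_conj' g I).trans hI2')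
    have h2 : IsSyl 2 (P.map (MulAut.conj g).toMonoidHom) M :=
      (hPS.conj_of_mem_normalizer (le_normalizer_of_normal (mem_top g))).mono h1 le_top
    obtain ⟨m, hm, e⟩ := h2.exists_conj hPM
    rw [map_conj_map_conj, map_conj_eq_iff] at e
    simpa using mul_mem (inv_mem hm) (hN e)
  have hse : ∀ g t : S, t ∈ M → orderOf t = 2 → g * t * g⁻¹ ∈ M → g ∈ M := by
    intro g t ht ht2 hg
    obtain ⟨a, rfl⟩ := isConj_iff.mp ((hall I hI2').symm.trans (hall t ht2))
    have h1 := hfus (g * a) (by simpa [mul_assoc] using hg)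
    simpa using mul_mem h1 (inv_mem (hfus a ht))
  have hjj := mul_self_of_orderOf_two hj2
  have htrans : ∀ t : S, t ∈ M → orderOf t = 2 →
      ∃ a ∈ M, j * a * j⁻¹ ∈ M ∧ a * I * a⁻¹ = t := by
    intro t ht ht2
    have hs2 : orderOf (j * I * j⁻¹) = 2 := (orderOf_conj' j I).trans hI2'
    have hsM : j * I * j⁻¹ ∉ M := fun h => hj (hfus j h)
    set s := j * I * j⁻¹ with hs
    have hss := mul_self_of_orderOf_two hs2
    have htt := mul_self_of_orderOf_two ht2
    obtain ⟨k, hk⟩ := exists_pow_conj_of_odd hss htt (hodd t ht s hsM ht2 hs2)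
    have hw : ((s * t) ^ k * s) * ((s * t) ^ k * s) = 1 := by
      have := conj_pow_of_inverts (conj_mul_eq_inv hss htt) k
      rw [inv_eq_of_orderOf_two hs2] at this
      calc _ = (s * t) ^ k * (s * (s * t) ^ k * s) := by group
        _ = 1 := by rw [this, mul_inv_cancel]
    have ha : ((s * t) ^ k * s * j) * I * ((s * t) ^ k * s * j)⁻¹ = t := by
      calc _ = (s * t) ^ k * s * (j * I * j⁻¹) * s⁻¹ * ((s * t) ^ k)⁻¹ := by group
        _ = t := by rw [← hs, mul_assoc _ s s⁻¹, mul_inv_cancel, mul_one, hk]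
    have haM := hfus _ (ha.symm ▸ ht)
    refine ⟨_, haM, ?_, ha⟩
    have := inv_mem haM
    rw [mul_inv_rev, inv_eq_of_mul_eq_one_right hw, inv_eq_of_orderOf_two hj2] at this
    simpa [mul_assoc] using this
  have hcoe : ∀ x : M, orderOf x = 2 → orderOf (x : S) = 2 := fun x hx => by
    rw [Subgroup.orderOf_coe]; exact hx
  have hM' : ∀ x : M, orderOf x = 2 → IsConj I x := fun x hx => by
    obtain ⟨a, ha, -, e⟩ := htrans x x.2 (hcoe x hx)
    exact isConj_iff.mpr ⟨⟨a, ha⟩, Subtype.ext e⟩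
  refine ⟨fun x y hx hy => (hM' x hx).symm.trans (hM' y hy),
    (M.map (MulAut.conj j⁻¹).toMonoidHom).subgroupOf M, ?_, fun m => ?_⟩
  · rw [odd_card_iff_no_involution]
    intro t ht ht2
    rw [mem_subgroupOf, mem_map_conj, inv_inv] at ht
    exact hj (hse j t t.2 (hcoe t ht2) ht)
  · obtain ⟨a, ha, ha', e⟩ := htrans (m * I * (m : S)⁻¹) (mul_mem (mul_mem m.2 I.2) (inv_mem m.2))
      ((orderOf_conj' _ _).trans hI2')
    refine ⟨⟨a, ha⟩, by rwa [mem_subgroupOf, mem_map_conj, inv_inv], (⟨a, ha⟩ : M)⁻¹ * m, ?_, by simp⟩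
    rw [mem_centralizer_singleton_iff]
    apply Subtype.ext
    change a⁻¹ * m * I = I * (a⁻¹ * m)
    calc a⁻¹ * m * I = a⁻¹ * (m * I * (m : S)⁻¹) * m := by group
      _ = _ := by rw [← e]; group

end Cfsg.Agent.S1905
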