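import Cfsg.Statements.S1906
import Cfsg.Agent.Lib.Core.Fitting
import Cfsg.Agent.Lib.Core.TransferExt
-- import your own Cfsg.Agent.* helpers here

set_option autoImplicit false
open Cfsg

namespace Cfsg.Agent.S1906

open Cfsg.Agent.Lib.Core Subgroup
open scoped Pointwise commutatorElement

open Matrix

section LinAlg
variable {F : Type*} [Field F]

theorem adj_eq (A : Matrix (Fin 3) (Fin 3) F) :
    adjugate A = A * A - trace A • A + trace (adjugate A) • (1 : Matrix (Fin 3) (Fin 3) F) := by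
  ext i j
  fin_cases i <;> fin_cases j <;>
    simp [adjugate_fin_three, trace_fin_three, Matrix.mul_apply, Fin.sum_univ_three] <;> ring

theorem trace_inv {z : Matrix (Fin 3) (Fin 3) F} (h2 : z * z = 1) (hd : z.det = 1) (h1 : z ≠ 1) :
    trace z = -1 := by
  have h3 : adjugate z = z := by
    have := mul_adjugate z
    rw [hd, one_smul] at this
    rw [← one_mul (adjugate z), ← h2, mul_assoc, this, mul_one]
  have h4 := adj_eq z
  rw [h3, h2] at h4
  have h5 : (1 + trace z) • (z - 1) = 0 := by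
    rw [add_smul, one_smul, smul_sub]
    nth_rewrite 1 [h4]
    abel
  exact eq_neg_of_add_eq_zero_right ((smul_eq_zero.mp h5).resolve_right (sub_ne_zero.mpr h1))

theorem trace_adj (h2 : (2 : F) ≠ 0) {P : Matrix (Fin 3) (Fin 3) F} (hP : P * P = P)
    (ht : trace P = 0 ∨ trace P = 1) : trace (adjugate P) = 0 := by
  have h4 := congrArg trace (adj_eq P)
  rw [hP, trace_add, trace_sub, trace_smul, trace_smul, trace_one] at h4
  simp only [smul_eq_mul, Fintype.card_fin, Nat.cast_ofNat] at h4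
  refine (mul_eq_zero.mp (show 2 * trace (adjugate P) = 0 from ?_)).resolve_left h2
  rcases ht with h | h <;> rw [h] at h4 <;> linear_combination -h4

theorem four (h2 : (2 : F) ≠ 0) {z w : Matrix (Fin 3) (Fin 3) F} (hz : z * z = 1) (hw : w * w = 1)
    (dz : z.det = 1) (dw : w.det = 1) (hz1 : z ≠ 1) (hw1 : w ≠ 1) (hzw : z ≠ w)
    (hc : w * z = z * w) : (1 + z) * (1 + w) = 0 := by
  have h4 : (4 : F) ≠ 0 := by rw [show (4 : F) = 2 * 2 by norm_num]; exact mul_ne_zero h2 h2
  have e1 : z * w * (z * w) = 1 := by rw [mul_assoc, ← mul_assoc w, hc, mul_assoc, hw, mul_one, hz]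
  have e2 : z * w ≠ 1 := fun h => hzw (by rw [← mul_one z, ← hw, ← mul_assoc, h, one_mul])
  set S := (1 + z) * (1 + w) with hS
  have hS' : S = 1 + z + w + z * w := by rw [hS]; noncomm_ring
  have hzS : z * S = S := by rw [hS, ← mul_assoc, mul_add z, hz, mul_one, add_comm z]
  have hwS : w * S = S := by
    rw [hS', mul_add, mul_add, mul_add, mul_one, hw, ← mul_assoc, hc, mul_assoc, hw, mul_one]; abel
  have hSS : S * S = (4 : F) • S := by
    nth_rewrite 1 [hS']
    rw [add_mul, add_mul, add_mul, one_mul, mul_assoc, hwS, hzS,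
      show (4 : F) = 1 + 1 + 1 + 1 by norm_num]
    simp only [add_smul, one_smul]
  have hP : ((4 : F)⁻¹ • S) * ((4 : F)⁻¹ • S) = (4 : F)⁻¹ • S := by
    rw [smul_mul_smul_comm, hSS, smul_smul, mul_assoc, inv_mul_cancel₀ h4, mul_one]
  have ht : trace ((4 : F)⁻¹ • S) = 0 := by
    rw [trace_smul, hS', trace_add, trace_add, trace_add, trace_inv hz dz hz1, trace_inv hw dw hw1,
      trace_inv e1 (by rw [det_mul, dz, dw, one_mul]) e2, trace_one]
    simp only [smul_eq_mul, Fintype.card_fin, Nat.cast_ofNat]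
    ring
  have hzP : z * ((4 : F)⁻¹ • S) = (4 : F)⁻¹ • S := by rw [mul_smul_comm, hzS]
  set P := (4 : F)⁻¹ • S with hP'
  have h5 := adj_eq P
  rw [trace_adj h2 hP (Or.inl ht), ht, hP, zero_smul, zero_smul, sub_zero, add_zero] at h5
  have h6 := mul_adjugate P
  rw [h5, hP] at h6
  have h7 : P.det • (z - 1) = 0 := by
    rw [h6, mul_smul_comm, mul_one] at hzP
    rw [smul_sub, hzP, sub_self]
  rw [(smul_eq_zero.mp h7).resolve_right (sub_ne_zero.mpr hz1), zero_smul] at h6
  exact (smul_eq_zero.mp (hP'.symm.trans h6)).resolve_left (inv_ne_zero h4)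

theorem mem_four (h2 : (2 : F) ≠ 0) {z w u : Matrix (Fin 3) (Fin 3) F} (hz : z * z = 1)
    (hw : w * w = 1) (hu : u * u = 1) (dz : z.det = 1) (dw : w.det = 1) (du : u.det = 1)
    (hz1 : z ≠ 1) (hw1 : w ≠ 1) (hzw : z ≠ w) (hc : w * z = z * w) (hc2 : u * z = z * u)
    (hc3 : u * w = w * u) : u = 1 ∨ u = z ∨ u = w ∨ u = z * w := by
  by_contra! h
  obtain ⟨h1, h3, h4, h5⟩ := h
  have e1 := four h2 hz hw dz dw hz1 hw1 hzw hc
  have e2 := four h2 hz hu dz du hz1 h1 h3.symm hc2
  have e3 := four h2 (w := w * u) hz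
    (by rw [mul_assoc, ← mul_assoc u, hc3, mul_assoc, hu, mul_one, hw]) dz
    (by rw [det_mul, dw, du, one_mul]) hz1
    (fun h => h4 (by rw [← one_mul u, ← hw, mul_assoc, h, mul_one]))
    (fun h => h5 (by rw [← hc, h, ← mul_assoc, hw, one_mul]))
    (by rw [mul_assoc, hc2, ← mul_assoc, hc, mul_assoc])
  rw [mul_add, mul_one, add_eq_zero_iff_neg_eq] at e1 e2
  rw [mul_add, mul_one, ← mul_assoc, ← e1, neg_mul, ← e2, neg_neg, ← two_smul F] at e3
  rw [eq_neg_of_add_eq_zero_right ((smul_eq_zero.mp e3).resolve_left h2), det_neg, det_one] at dz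
  exact h2 (by simp only [Fintype.card_fin] at dz; linear_combination -dz)

theorem rank_one (h2 : (2 : F) ≠ 0) {z x : Matrix (Fin 3) (Fin 3) F} (hz : z * z = 1)
    (dz : z.det = 1) (hz1 : z ≠ 1) (hx : x * z = z * x) :
    ∃ t : F, (1 + z) * x = t • (1 + z) := by
  set e := (2 : F)⁻¹ • (1 + z) with he
  have hee : e * e = e := by
    have : (1 + z) * (1 + z) = (2 : F) • (1 + z) := by
      rw [add_mul, one_mul, mul_add, mul_one, hz, two_smul]; abel
    rw [he, smul_mul_smul_comm, this, smul_smul, mul_assoc, inv_mul_cancel₀ h2, mul_one]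
  have ht : trace e = 1 := by
    rw [he, trace_smul, trace_add, trace_inv hz dz hz1, trace_one]
    simp only [smul_eq_mul, Fintype.card_fin, Nat.cast_ofNat]
    field_simp; ring
  have ha : adjugate e = 0 := by
    rw [adj_eq, trace_adj h2 hee (Or.inr ht), ht, hee]; simp
  have hsq : ∀ y, (e * y) * (e * y) = trace (e * y) • (e * y) := fun y => by
    have := adj_eq (e * y)
    rw [adjugate_mul_distrib, ha, mul_zero, trace_zero, zero_smul, add_zero] at this
    exact sub_eq_zero.mp this.symm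
  have hxe : x * e = e * x := by
    rw [he, mul_smul_comm, smul_mul_assoc, mul_add, add_mul, hx, mul_one, one_mul]
  have h3 := hsq (x + 1)
  rw [mul_add, mul_one, mul_add, add_mul, add_mul, hsq x, hee, ← mul_assoc, hee, mul_assoc, hxe,
    ← mul_assoc, hee, trace_add, ht, add_smul, one_smul, smul_add] at h3
  have h4 : e * x = trace (e * x) • e := by
    rw [← sub_eq_zero] at h3 ⊢
    rw [← h3]; abel
  refine ⟨trace (e * x), ?_⟩
  have h5 : 1 + z = (2 : F) • e := by rw [he, smul_smul, mul_inv_cancel₀ h2, one_smul]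
  rw [h5, smul_mul_assoc, smul_comm]
  exact congrArg _ h4

theorem comm_of (h2 : (2 : F) ≠ 0) {z w x y : Matrix (Fin 3) (Fin 3) F} (hz : z * z = 1)
    (hw : w * w = 1) (dz : z.det = 1) (dw : w.det = 1) (hz1 : z ≠ 1) (hw1 : w ≠ 1) (hzw : z ≠ w)
    (hc : w * z = z * w) (hxz : x * z = z * x) (hxw : x * w = w * x) (hyz : y * z = z * y)
    (hyw : y * w = w * y) : x * y = y * x := by
  have e1 : z * w * (z * w) = 1 := by rw [mul_assoc, ← mul_assoc w, hc, mul_assoc, hw, mul_one, hz]
  have e2 : z * w ≠ 1 := fun h => hzw (by rw [← mul_one z, ← hw, ← mul_assoc, h, one_mul])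
  have key : ∀ u : Matrix (Fin 3) (Fin 3) F, u * u = 1 → u.det = 1 → u ≠ 1 → x * u = u * x →
      y * u = u * y → (1 + u) * (x * y) = (1 + u) * (y * x) := fun u a b c d e => by
    obtain ⟨s, hs⟩ := rank_one h2 a b c d
    obtain ⟨t, ht⟩ := rank_one h2 a b c e
    rw [← mul_assoc, ← mul_assoc, hs, ht, smul_mul_assoc, smul_mul_assoc, hs, ht, smul_comm]
  have h3 : (1 + z) + (1 + w) + (1 + z * w) = (2 : F) • (1 : Matrix (Fin 3) (Fin 3) F) := by
    rw [two_smul, ← add_zero (1 + 1 : Matrix (Fin 3) (Fin 3) F),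
      ← four h2 hz hw dz dw hz1 hw1 hzw hc]
    noncomm_ring
  have h4 : (2 : F) • (x * y) = (2 : F) • (y * x) := by
    rw [← one_mul (x * y), ← one_mul (y * x), ← smul_mul_assoc, ← smul_mul_assoc, ← h3, add_mul,
      add_mul, add_mul _ (1 + z * w), add_mul (1 + z), key z hz dz hz1 hxz hyz,
      key w hw dw hw1 hxw hyw, key (z * w) e1 (by rw [det_mul, dz, dw, one_mul]) e2
        (by rw [← mul_assoc, hxz, mul_assoc, hxw, mul_assoc])
        (by rw [← mul_assoc, hyz, mul_assoc, hyw, mul_assoc])]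
  exact smul_right_injective _ h2 h4

end LinAlg

theorem index_two {G A : Type*} [Group G] [CommGroup A] [IsCyclic A] [Finite A] (V : G →* A)
    {y : G} (hy : y ^ 2 = 1) (h : V y ≠ 1) : ∃ H : Subgroup G, H.index = 2 := by
  refine ⟨((powMonoidHom 2 : V.range →* V.range).range).comap V.rangeRestrict, ?_⟩
  rw [index_comap_of_surjective _ V.rangeRestrict_surjective, IsCyclic.index_powMonoidHom_range]
  refine Nat.gcd_eq_right ?_
  have : orderOf (V.rangeRestrict y) = 2 := orderOf_eq_prime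
    (by rw [← map_pow, hy, map_one]) fun h' => h (congrArg Subtype.val h')
  exact this ▸ orderOf_dvd_natCard _

/-- Let G be a finite group with no subgroup of index 2 whose Sylow 2-subgroup X embeds in GL₃(F) for a finite field F of odd order. If X contains an elementary abelian subgroup of order 8, then X is abelian. -/
theorem result {G : Type*} [Group G] [Finite G] (hG : ∀ H : Subgroup G, H.index ≠ 2) (X : Sylow 2 G)
    {F : Type*} [Field F] [Fintype F] (hF : Odd (Fintype.card F))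
    (f : ↥(X : Subgroup G) →* GL (Fin 3) F) (hf : Function.Injective f)
    (E : Subgroup G) (hE : E ≤ (X : Subgroup G)) (hEa : Cfsg.IsElementaryAbelian 2 E) (hE8 : Nat.card E = 8) :
    IsMulCommutative (X : Subgroup G) := by
  haveI : Fact (Nat.Prime 2) := ⟨Nat.prime_two⟩
  have h2 : (2 : F) ≠ 0 := fun h => by
    haveI : CharP F 2 := CharTwo.of_one_ne_zero_of_two_eq_zero one_ne_zero h
    have := FiniteField.even_card_of_char_two (F := F) (ringChar.eq F 2)
    rw [Nat.odd_iff] at hF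
    omega
  obtain ⟨m, φ, hm, hφ⟩ : ∃ (m : X →* Matrix (Fin 3) (Fin 3) F) (φ : X →* Fˣ),
      Function.Injective m ∧ ∀ x, (φ x : F) = (m x).det :=
    ⟨(Units.coeHom _).comp f, Matrix.GeneralLinearGroup.det.comp f, Units.val_injective.comp hf,
      fun x => rfl⟩
  have hφ1 : ∀ x, φ x = 1 ↔ (m x).det = 1 := fun x => by rw [← hφ, Units.val_eq_one]
  have hm1 : ∀ x, x ≠ 1 → m x ≠ 1 := fun x hx h => hx (hm (h.trans (map_one m).symm))
  have hsq : ∀ x : X, x ^ 2 = 1 → m x * m x = 1 := fun x h => by rw [← map_mul, ← pow_two, h, map_one]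
  set E' := E.subgroupOf X
  have hE2 : ∀ x ∈ E', x ^ 2 = 1 := fun x hx => Subtype.ext (hEa.2 x hx)
  have hEc : ∀ x ∈ E', ∀ y ∈ E', m x * m y = m y * m x := fun x hx y hy => by
    rw [← map_mul, ← map_mul]
    have : (x : G) * y = y * x := congrArg Subtype.val (hEa.1.is_comm.comm (⟨x, hx⟩ : E) ⟨y, hy⟩)
    exact congrArg m (Subtype.ext this)
  have hE8' : Nat.card E' = 8 := (card_subgroupOf hE).trans hE8
  obtain ⟨ι, hι⟩ : ∃ ι : X, m ι = -1 := by
    have h3 : 4 ≤ Nat.card ↥(φ.ker ⊓ E') := by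
      have h4 := card_map_mul_card_inf_ker φ E'
      have h5 : Nat.card (E'.map φ) ≤ 2 := by
        have : (E'.map φ : Set Fˣ) ⊆ {1, -1} := by
          rintro _ ⟨x, hx, rfl⟩
          have h6 : (φ x : F) * φ x = 1 := by rw [hφ, ← det_mul, hsq x (hE2 x hx), det_one]
          rcases mul_self_eq_one_iff.mp h6 with h | h
          · exact Or.inl (Units.ext h)
          · exact Or.inr (Units.ext h)
        exact (Set.ncard_le_ncard this).trans ((Set.ncard_insert_le _ _).trans (by simp))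
      rw [hE8'] at h4
      by_contra! h
      nlinarith
    obtain ⟨z, hz, w, hw, hz1, hw1, hzw⟩ : ∃ z ∈ φ.ker ⊓ E', ∃ w ∈ φ.ker ⊓ E',
        z ≠ 1 ∧ w ≠ 1 ∧ z ≠ w := by
      by_contra! h
      have h4 : 1 < ((φ.ker ⊓ E' : Subgroup X) \ {1} : Set X).ncard := by
        rw [Set.ncard_sdiff_singleton_of_mem (one_mem _)]
        change 1 < Nat.card ↥(φ.ker ⊓ E') - 1
        omega
      obtain ⟨z, w, hz, hw, h5⟩ := (Set.one_lt_ncard_iff (Set.toFinite _)).mp h4
      exact h5 (h z hz.1 w hw.1 hz.2 hw.2)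
    obtain ⟨u, hu, hu'⟩ : ∃ u ∈ E', u ∉ ({1, z, w, z * w} : Set X) := by
      by_contra! h
      have h4 : Nat.card E' ≤ 4 := (Set.ncard_le_ncard h).trans
        ((Set.ncard_insert_le _ _).trans (Nat.succ_le_succ ((Set.ncard_insert_le _ _).trans
          (Nat.succ_le_succ ((Set.ncard_insert_le _ _).trans (by simp))))))
      omega
    have key := fun v a b => mem_four h2 (u := v) (hsq z (hE2 z hz.2)) (hsq w (hE2 w hw.2)) a
      ((hφ1 z).mp hz.1) ((hφ1 w).mp hw.1) b (hm1 z hz1) (hm1 w hw1) (fun h => hzw (hm h))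
      (hEc w hw.2 z hz.2)
    have h6 : (m u).det * (m u).det = 1 := by rw [← det_mul, hsq u (hE2 u hu), det_one]
    rcases mul_self_eq_one_iff.mp h6 with h | h
    · exfalso
      have := key (m u) (hsq u (hE2 u hu)) h (hEc u hu z hz.2) (hEc u hu w hw.2)
      rw [← map_one m, ← map_mul] at this
      simp only [hm.eq_iff] at this
      exact hu' this
    · have := key (-m u) (by rw [neg_mul_neg, hsq u (hE2 u hu)])
        (by rw [det_neg, h]; simp only [Fintype.card_fin]; ring)
        (by rw [neg_mul, mul_neg, hEc u hu z hz.2]) (by rw [neg_mul, mul_neg, hEc u hu w hw.2])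
      rw [← map_one m, ← map_mul] at this
      obtain ⟨v, hv⟩ : ∃ v, -m u = m v := by rcases this with h | h | h | h <;> exact ⟨_, h⟩
      exact ⟨u * v, by rw [map_mul, ← hv, mul_neg, hsq u (hE2 u hu)]⟩
  have hι2 : ι ^ 2 = 1 := hm (by rw [pow_two, map_mul, hι, map_one]; simp)
  have hιφ : φ ι ≠ 1 := fun h => by
    rw [hφ1, hι, det_neg, det_one] at h
    exact h2 (by simp only [Fintype.card_fin] at h; linear_combination -h)
  have hιc : ∀ x : X, x * ι = ι * x := fun x => hm (by rw [map_mul, map_mul, hι]; simp)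
  have hι2' : (ι : G) ^ 2 = 1 := congrArg Subtype.val hι2
  have hodd : Odd (X : Subgroup G).index := Nat.not_even_iff_odd.mp fun h =>
      X.not_dvd_index h.two_dvd
  have hcyc : ∀ a b : Fˣ, a ^ 2 = 1 → b ^ 2 = 1 → a ≠ 1 → b ≠ 1 → a = b :=
    involution_unique_of_cyclic
  have hιφ' : φ ⟨ι, ι.2⟩ ≠ 1 := hιφ
  rcases thompson_transfer_extremal hodd φ hcyc hι2' ι.2 hιφ' with ⟨V, hV⟩ | h
  · exact absurd (index_two V hι2' (by rw [hV]; exact hιφ')) (not_exists.mpr hG)
  obtain ⟨g, ⟨z, hz, hzg⟩, hg⟩ := h X X.isPGroup' fun x hx =>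
    mem_centralizer_singleton_iff.mpr (congrArg Subtype.val (hιc ⟨x, hx⟩))
  have hgN : g ∈ normalizer ((X : Subgroup G) : Set G) :=
    mem_normalizer_of_conj_mem (map_conj_le_iff.mp hg)
  have hzg' : (z : G) = g * ι * g⁻¹ := hzg
  have hzc : ∀ x : X, x * z = z * x := fun x => Subtype.ext (by
    have := congrArg Subtype.val (hιc ⟨_, conj_mem_of_mem_normalizer' hgN x.2⟩)
    change g⁻¹ * x * g * ι = ι * (g⁻¹ * x * g) at this
    change (x : G) * z = z * x
    rw [hzg']
    calc (x : G) * (g * ι * g⁻¹) = g * (g⁻¹ * x * g * ι) * g⁻¹ := by group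
      _ = _ := by rw [this]; group)
  have hz2 : z ^ 2 = 1 := Subtype.ext (by
    change (z : G) ^ 2 = 1
    rw [hzg', conj_pow, show (ι : G) ^ 2 = 1 from congrArg Subtype.val hι2]; group)
  have hz1 : z ≠ 1 := fun h => hιφ (by
    rw [h] at hzg'
    rw [show ι = 1 from Subtype.ext (by simpa using hzg'.symm), map_one])
  by_contra hna
  have hX' : commutator X ≠ ⊥ := fun h => hna ⟨⟨fun a b =>
    commutatorElement_eq_one_iff_mul_comm.mp (mem_bot.mp (h ▸ commutator_mem_commutator
      (mem_top a) (mem_top b)))⟩⟩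
  have h3 := inf_centralizer_ne_bot (X.isPGroup'.to_subgroup ⊤) (X.isPGroup'.to_subgroup _)
    le_normalizer_of_normal hX'
  obtain ⟨w, hw⟩ := exists_prime_orderOf_dvd_card' 2
    (dvd_card_of_isPGroup_of_ne_bot (X.isPGroup'.to_subgroup _) h3)
  have hker : commutator X ≤ φ.ker := Abelianization.commutator_subset_ker φ
  have hwc : ∀ x : X, x * w = w * x := fun x => w.2.2 x (mem_top x)
  by_cases hzw : z = w
  · refine hιφ (hker ?_)
    have h4 := conj_mem_of_mem_normalizer'
      (normalizer_le_normalizer_map_subtype_of_characteristic (commutator X) hgN)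
      (mem_map_of_mem (X : Subgroup G).subtype (hzw ▸ w.2.1 : z ∈ commutator X))
    rw [coe_subtype, hzg'] at h4
    exact (mem_map_iff_mem (subtype_injective _)).mp (by simpa [mul_assoc] using h4)
  have hc : ∀ x y : X, x * y = y * x → m x * m y = m y * m x := fun x y h => by
    rw [← map_mul, ← map_mul, h]
  exact hna ⟨⟨fun a b => hm (by
    rw [map_mul, map_mul]
    exact comm_of h2 (hsq z hz2) (hsq w (orderOf_dvd_iff_pow_eq_one.mp (by rw [orderOf_coe, hw])))
      ((hφ1 z).mp hz) ((hφ1 w).mp (hker w.2.1)) (hm1 z hz1) (hm1 w fun h => by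
        rw [← orderOf_coe, h, orderOf_one] at hw; exact absurd hw (by decide))
      (fun h => hzw (hm h)) (hc _ _ (hzc w)) (hc _ _ (hzc a)) (hc _ _ (hwc a)) (hc _ _ (hzc b))
      (hc _ _ (hwc b)))⟩⟩

end Cfsg.Agent.S1906
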