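import Cfsg.Statements.S1907
import Cfsg.Agent.Lib.Core.PSolv
-- import your own Cfsg.Agent.* helpers here

set_option autoImplicit false
open Cfsg

namespace Cfsg.Agent.S1907

open Cfsg.Agent.Lib.Core Subgroup
open scoped Pointwise commutatorElement


/-- Let P be a Sylow p-subgroup of a finite group G, H = P ∩ O_{p',p}(G), N = N_G(H) and D = O_{p'}(G). (a) If y is an element of p-power order of N and d ∈ D with d⁻¹ y d ∈ N, then d = d₁ d₂ with d₁ ∈ C_D(y) and d₂ ∈ C_D(H). (b) Two elements of P that are conjugate in G are conjugate in N. -/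
theorem result {G : Type*} [Group G] [Finite G] {p : ℕ} [Fact p.Prime] (P : Sylow p G) :
    (∀ y ∈ Subgroup.normalizer (((P : Subgroup G) ⊓ Cfsg.pPrimePCore p G : Subgroup G) : Set G), (∃ k : ℕ, orderOf y = p ^ k) →
      ∀ d ∈ Cfsg.pPrimeCore p G, d⁻¹ * y * d ∈ Subgroup.normalizer (((P : Subgroup G) ⊓ Cfsg.pPrimePCore p G : Subgroup G) : Set G) →
        ∃ d₁ ∈ Cfsg.pPrimeCore p G ⊓ Subgroup.centralizer ({y} : Set G),
          ∃ d₂ ∈ Cfsg.pPrimeCore p G ⊓ Subgroup.centralizer (((P : Subgroup G) ⊓ Cfsg.pPrimePCore p G : Subgroup G) : Set G), d = d₁ * d₂) ∧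
    ∀ x y : G, x ∈ (P : Subgroup G) → y ∈ (P : Subgroup G) → IsConj x y →
      ∃ n ∈ Subgroup.normalizer (((P : Subgroup G) ⊓ Cfsg.pPrimePCore p G : Subgroup G) : Set G), n * x * n⁻¹ = y := by
  haveI := pPrimePCore_normal (p := p) (G := G)
  set H : Subgroup G := (P : Subgroup G) ⊓ pPrimePCore p G with hH
  have hHs : IsSyl p H (pPrimePCore p G) :=
    (isSyl_sylow P).inf_normal le_top le_normalizer_of_normal
  have hDN : pPrimeCore p G ⊓ normalizer (H : Set G) ≤ centralizer (H : Set G) := by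
    rw [← commutator_eq_bot_iff_le_centralizer, ← le_bot_iff,
      ← inf_eq_bot_of_isPGroup_of_not_dvd hHs.isPGroup (pPrimeCore_not_dvd (p := p) (G := G))]
    exact le_inf (commutator_le_of_le_normalizer_right inf_le_right)
      ((commutator_mono inf_le_left le_rfl).trans (commutator_le_left _ _))
  have ha : ∀ y ∈ normalizer (H : Set G), (∃ k : ℕ, orderOf y = p ^ k) →
      ∀ d ∈ pPrimeCore p G, d⁻¹ * y * d ∈ normalizer (H : Set G) →
        ∃ d₁ ∈ pPrimeCore p G ⊓ centralizer ({y} : Set G),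
          ∃ d₂ ∈ pPrimeCore p G ⊓ centralizer (H : Set G), d = d₁ * d₂ := by
    rintro y hy ⟨k, hk⟩ d hd hdy
    have h1 : CoprimeAct (zpowers y) (pPrimeCore p G ⊓ centralizer (H : Set G)) :=
      coprimeAct_of_isPGroup_left (isPGroup_zpowers (k := k) (by rw [← hk, pow_orderOf_eq_one]))
        (not_dvd_card_of_le pPrimeCore_not_dvd inf_le_left)
        (le_normalizer_inf le_normalizer_of_normal (le_normalizer_centralizer (zpowers_le.mpr hy)))
    obtain ⟨c, hc, n, hn, rfl⟩ := h1.exists_centralizer_mul (g := d) fun a ha => by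
      have h2 : a⁻¹ * (d⁻¹ * a * d) ∈ pPrimeCore p G := by
        have := mul_mem (Normal.conj_mem inferInstance _ (inv_mem hd) a⁻¹) hd
        simpa [mul_assoc] using this
      have h3 : d⁻¹ * a * d ∈ normalizer (H : Set G) := by
        have : (zpowers y).map (MulAut.conj d⁻¹).toMonoidHom ≤ normalizer (H : Set G) := by
          rw [MonoidHom.map_zpowers, zpowers_le]
          simpa using hdy
        simpa using map_conj_le_iff.mp this a ha
      exact ⟨h2, hDN (mem_inf.mpr ⟨h2, mul_mem (inv_mem (zpowers_le.mpr hy ha)) h3⟩)⟩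
    rw [centralizer_zpowers] at hc
    exact ⟨c, ⟨by simpa using mul_mem hd (inv_mem hn.1), hc⟩, n, hn, rfl⟩
  refine ⟨ha, fun x y hx hy hxy => ?_⟩
  obtain ⟨g, rfl⟩ := isConj_iff.mp hxy
  have hPN : (P : Subgroup G) ≤ normalizer (H : Set G) :=
    le_normalizer_inf le_normalizer le_normalizer_of_normal
  obtain ⟨a, ha', m, hm, h1⟩ := hHs.frattini (H := ⊤) le_normalizer_of_normal (mem_top g⁻¹)
  rw [← hHs.sup_pPrimeCore, sup_comm] at ha'
  obtain ⟨d, hd, h, hh, rfl⟩ := (mem_sup_of_le_normalizer_left le_normalizer_of_normal).mp ha'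
  have hn : h * m ∈ normalizer (H : Set G) := mul_mem (le_normalizer hh) hm
  have hg : g = (h * m)⁻¹ * d⁻¹ := by rw [← inv_inv g, h1]; group
  obtain ⟨k, hk⟩ := pow_eq_one_of_isPGroup P.isPGroup' hx
  obtain ⟨d₁, hd₁, d₂, hd₂, rfl⟩ := ha x (hPN hx)
    ((Nat.dvd_prime_pow Fact.out).mp (orderOf_dvd_of_pow_eq_one hk) |>.imp fun _ h => h.2) d hd (by
      have := mul_mem (mul_mem hn (hPN hy)) (inv_mem hn)
      rw [hg] at this
      simpa [mul_assoc] using this)
  refine ⟨(h * m)⁻¹ * d₂⁻¹, mul_mem (inv_mem hn) (inv_mem (centralizer_le_normalizer _ hd₂.2)), ?_⟩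
  have h2 := mem_centralizer_singleton_iff.mp hd₁.2
  rw [hg]
  calc _ = (h * m)⁻¹ * d₂⁻¹ * d₁⁻¹ * (d₁ * x) * d₂ * (h * m) := by group
    _ = _ := by rw [h2]; group

end Cfsg.Agent.S1907
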