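import Cfsg.Statements.S1908
import Cfsg.Agent.FT.Main
import Cfsg.Agent.FT.Cons.Basic

set_option autoImplicit false
open Cfsg

namespace Cfsg.Agent.S1908

open Cfsg.Agent.FT Cfsg.Agent.Lib.Core
open scoped Cfsg.Agent.Lib.Glaub

/-- Let π be a set of primes and G a finite π-separable group: G has a chain of normal subgroups from 1 to G in which each successive index is divisible only by primes in π or only by primes outside π. Then G has a Hall π-subgroup, any two Hall π-subgroups of G are conjugate, and every subgroup of G whose order is divisible only by primes in π lies in some Hall π-subgroup. -/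
theorem result {G : Type*} [Group G] [Finite G] (π : Set ℕ)
    (hsep : ∃ (n : ℕ) (H : Fin (n + 1) → Subgroup G), H 0 = ⊥ ∧ H (Fin.last n) = ⊤ ∧ Monotone H ∧ (∀ i, (H i).Normal) ∧
      ∀ i : Fin n, (∀ q : ℕ, q.Prime → q ∣ (H i.castSucc).relIndex (H i.succ) → q ∈ π) ∨
        (∀ q : ℕ, q.Prime → q ∣ (H i.castSucc).relIndex (H i.succ) → q ∉ π)) :
    (∃ K : Subgroup G, Cfsg.IsPiHall π K) ∧
      (∀ K L : Subgroup G, Cfsg.IsPiHall π K → Cfsg.IsPiHall π L → ∃ g : G, L = K.map (MulAut.conj g).toMonoidHom) ∧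
      ∀ U : Subgroup G, (∀ q : ℕ, q.Prime → q ∣ Nat.card U → q ∈ π) → ∃ K : Subgroup G, Cfsg.IsPiHall π K ∧ U ≤ K := by
  obtain ⟨n, H, h0, h1, hm, hn, hπ⟩ := hsep
  obtain ⟨L, hL, hmax⟩ := Cons.sep_hall feit_thompson π n G H ⊤ h0 h1 hm (fun i => nrm_top_iff.mpr (hn i)) hπ
  have e : ∀ K : Subgroup G, Cfsg.IsPiHall π K ↔ IsHall π K ⊤ := fun K =>
    ⟨fun h => ⟨le_top, h.1, fun q hq hd hπ => h.2 q hq hπ (by rwa [Subgroup.relIndex_top_right] at hd)⟩,
      fun h => ⟨h.isPi, fun q hq hπ hd => h.not_mem q hq (by rwa [Subgroup.relIndex_top_right]) hπ⟩⟩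
  refine ⟨⟨L, (e L).mpr hL⟩, fun K K' hK hK' => ?_, fun U hU => ?_⟩
  · rw [e] at hK hK'
    obtain ⟨a, -, h1⟩ := hmax K le_top hK.isPi
    obtain ⟨b, -, h2⟩ := hmax K' le_top hK'.isPi
    have e1 : cj(a, K) = L := eq_of_le_of_card_eq h1 (by rw [card_cj, hK.card_eq hL])
    have e2 : cj(b, K') = L := eq_of_le_of_card_eq h2 (by rw [card_cj, hK'.card_eq hL])
    exact ⟨b⁻¹ * a, by rw [← cj_cj, e1, ← e2, cj_inv_cj]⟩
  · obtain ⟨a, -, h1⟩ := hmax U le_top hU
    exact ⟨_, (e _).mpr (hL.cj_of_mem (Subgroup.mem_top a⁻¹)), cj_le_iff_le_cj_inv.mp h1⟩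

end Cfsg.Agent.S1908
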