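import Cfsg.Statements.S1924
import Cfsg.Agent.Lib.Core.TransferExt
import Cfsg.Agent.Lib.Transfer.Residual
import Cfsg.Agent.Lib.Invol.Count
-- import your own Cfsg.Agent.* helpers here

set_option autoImplicit false
open Cfsg

namespace Cfsg.Agent.S1924

open Cfsg.Agent.Lib.Core Subgroup
open scoped Pointwise commutatorElement

theorem sign_free {X : Type*} [Fintype X] [DecidableEq X] (σ : Equiv.Perm X) {k m : ℕ}
    (hσ : σ ^ 2 ^ (k + 1) = 1) (hfree : ∀ x, (σ ^ 2 ^ k) x ≠ x)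
    (hX : Fintype.card X = 2 ^ (k + 1) * m) (hm : Odd m) : Equiv.Perm.sign σ = -1 := by
  have h1 : ∀ n ∈ σ.cycleType, n = 2 ^ (k + 1) := by
    intro n hn
    have hd : n ∣ 2 ^ (k + 1) :=
      (Equiv.Perm.dvd_of_mem_cycleType hn).trans (orderOf_dvd_of_pow_eq_one hσ)
    obtain ⟨j, hj, rfl⟩ := (Nat.dvd_prime_pow Nat.prime_two).mp hd
    rcases hj.lt_or_eq with hj | rfl
    swap
    · rfl
    exfalso
    obtain ⟨c, τ, rfl, hdis, hc, hcard⟩ := Equiv.Perm.mem_cycleType_iff.mp hn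
    obtain ⟨x, hx, -⟩ := id hc
    apply hfree x
    have hτ : τ x = x := (hdis x).resolve_left hx
    have hc1 : c ^ 2 ^ k = 1 := by
      rw [← orderOf_dvd_iff_pow_eq_one, hc.orderOf, hcard]
      exact pow_dvd_pow 2 (by omega)
    rw [hdis.commute.mul_pow, hc1, one_mul, Equiv.Perm.pow_apply_eq_self_of_apply_eq_self hτ]
  have h2 : σ.cycleType.sum = 2 ^ (k + 1) * m := by
    rw [Equiv.Perm.sum_cycleType, ← hX, ← Finset.card_univ]
    congr 1
    rw [Finset.eq_univ_iff_forall]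
    intro x
    rw [Equiv.Perm.mem_support]
    exact fun h => hfree x (Equiv.Perm.pow_apply_eq_self_of_apply_eq_self h _)
  have h3 : σ.cycleType.card = m := by
    have := Multiset.eq_replicate_card.mpr h1
    rw [this, Multiset.sum_replicate, smul_eq_mul, mul_comm] at h2
    exact Nat.eq_of_mul_eq_mul_left (by positivity) h2
  rw [Equiv.Perm.sign_of_cycleType, h2, h3]
  refine Odd.neg_one_pow (Even.add_odd ?_ hm)
  rw [pow_succ]
  exact (even_two.mul_left _).mul_right _

theorem not_mem_pResidual {K : Type*} [Group K] [Finite K] (T : Subgroup K) {y : K} {k m : ℕ}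
    (hy : y ^ 2 ^ (k + 1) = 1) (hfree : ∀ g : K, g * y ^ 2 ^ k * g⁻¹ ∉ T)
    (hT : T.index = 2 ^ (k + 1) * m) (hm : Odd m) : y ∉ Cfsg.pResidual 2 K := by
  classical
  haveI : Fintype (K ⧸ T) := Fintype.ofFinite _
  intro h
  have h1 := Cfsg.Agent.Lib.Transfer.pResidual_le_ker (p := 2) (H := ℤˣ)
    (fun u => ⟨1, by simp⟩) (Equiv.Perm.sign.comp (MulAction.toPermHom K (K ⧸ T))) h
  rw [MonoidHom.mem_ker, MonoidHom.comp_apply, sign_free (k := k) (m := m) _
    (by rw [← map_pow, hy, map_one]) (fun q => ?_)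
    (by rw [← hT, index_eq_card, Nat.card_eq_fintype_card]) hm] at h1
  · exact absurd h1 (by decide)
  · induction q using QuotientGroup.induction_on with
    | H g =>
      rw [← map_pow]
      intro h'
      exact hfree g⁻¹ (by simpa using smul_mk_eq_iff'.mp h')

theorem dihedral_aux {n : ℕ} (hn : 2 ≤ n) (C : Subgroup (DihedralGroup n)) (hC : IsCyclic C)
    (hi : C.index = 2) (x : DihedralGroup n) (hx : x ∉ C) : x ^ 2 = 1 := by
  haveI : NeZero n := ⟨by omega⟩
  obtain ⟨c, rfl⟩ := (Subgroup.isCyclic_iff_exists_zpowers_eq_top C).mp hC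
  have hc : orderOf c = n := by
    have := (zpowers c).card_mul_index
    rw [hi, Nat.card_zpowers, DihedralGroup.nat_card] at this
    omega
  rcases x with i | i
  · rcases c with j | j
    · exfalso
      apply hx
      have hr : ∀ i : ZMod n, DihedralGroup.r i ∈ zpowers (DihedralGroup.r (1 : ZMod n)) := fun i =>
        mem_zpowers_iff.mpr ⟨i.val, by rw [zpow_natCast, DihedralGroup.r_one_pow]; simp⟩
      rw [eq_of_le_of_card_ge (zpowers_le.mpr (hr j))
        (by rw [Nat.card_zpowers, Nat.card_zpowers, hc, DihedralGroup.orderOf_r_one])]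
      exact hr i
    · rw [DihedralGroup.orderOf_sr] at hc
      subst hc
      have : ∀ i : ZMod 2, DihedralGroup.r i ^ 2 = 1 := by decide
      exact this i
  · rw [pow_two]; exact DihedralGroup.sr_mul_self i

/-- A consequence of Thompson's transfer lemma. Let G be a finite group, L a subgroup with O²(L) = L, T a Sylow 2-subgroup of L and S a Sylow 2-subgroup of G containing T. Suppose D ≤ S is a dihedral subgroup of order at least 4 (the four-group counts) with D ∩ T = 1 and S = TD as a set of products (so |S| = |T|·|D|), and C ≤ D is cyclic of index 2 in D. If no involution of D outside C is G-conjugate to an involution of the subgroup generated by T and C, and the involution of C is not G-conjugate to any involution of T, then G has a normal subgroup K, containing every Sylow 2-subgroup of L as a Sylow 2-subgroup, with G = KD. -/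
theorem result {G : Type*} [Group G] [Finite G] (L T S D C : Subgroup G) (hL : Cfsg.pResidual 2 ↥L = ⊤)
    (hTL : T ≤ L) (hT2 : IsPGroup 2 T) (hTsyl : ¬ 2 ∣ T.relIndex L)
    (hS2 : IsPGroup 2 S) (hSsyl : ¬ 2 ∣ S.index) (hTS : T ≤ S)
    (hDS : D ≤ S) (hDih : ∃ n : ℕ, 2 ≤ n ∧ Nonempty (↥D ≃* DihedralGroup n)) (hDT : D ⊓ T = ⊥) (hTD : T ⊔ D = S) (hTDc : Nat.card T * Nat.card D = Nat.card S)
    (hCD : C ≤ D) (hC : IsCyclic ↥C) (hCi : C.relIndex D = 2)
    (h1 : ∀ x ∈ D, x ∉ C → orderOf x = 2 → ∀ g : G, g * x * g⁻¹ ∈ T ⊔ C → False)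
    (h2 : ∀ c ∈ C, orderOf c = 2 → ∀ g : G, g * c * g⁻¹ ∈ T → False) :
    ∃ K : Subgroup G, K.Normal ∧ K ⊔ D = ⊤ ∧
      ∀ T' : Subgroup G, T' ≤ L → IsPGroup 2 T' → ¬ 2 ∣ T'.relIndex L → T' ≤ K ∧ ¬ 2 ∣ T'.relIndex K := by
  haveI : Fact (Nat.Prime 2) := ⟨Nat.prime_two⟩
  open Cfsg.Agent.Lib.Transfer in
  have hSs : IsSyl 2 S ⊤ := ⟨le_top, hS2, by rwa [relIndex_top_right]⟩
  have hSo : Odd S.index := by rwa [← Nat.not_even_iff_odd, even_iff_two_dvd]
  have hinv : ∀ x ∈ D, x ∉ C → x ^ 2 = 1 := by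
    intro x hx hxC
    obtain ⟨n, hn, ⟨e⟩⟩ := hDih
    have := dihedral_aux hn ((C.subgroupOf D).map e.toMonoidHom) (by
      haveI := hC
      exact isCyclic_of_surjective
        ((subgroupOfEquivOfLe hCD).symm.trans ((C.subgroupOf D).equivMapOfInjective _ e.injective))
        (MulEquiv.surjective _)) ((index_map_equiv _ e).trans hCi) (e ⟨x, hx⟩) (by
      rintro ⟨y, hy, h⟩
      rw [e.injective h] at hy
      exact hxC hy)
    rw [← map_pow, map_eq_one_iff _ e.injective] at this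
    exact congrArg Subtype.val this
  have hinj : ∀ X : Subgroup G, X ≤ D → Function.Injective fun q : T × X => (q.1 : G) * q.2 := by
    rintro X hX ⟨a, b⟩ ⟨c, d⟩ h
    have h' : (a : G) * b = c * d := h
    have h3 : (c : G)⁻¹ * a ∈ D ⊓ T := by
      refine mem_inf.mpr ⟨?_, mul_mem (inv_mem c.2) a.2⟩
      have : (c : G)⁻¹ * a = d * (b : G)⁻¹ := by
        rw [inv_mul_eq_iff_eq_mul, ← mul_assoc, ← h', mul_inv_cancel_right]
      rw [this]
      exact mul_mem (hX d.2) (inv_mem (hX b.2))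
    rw [hDT, mem_bot, inv_mul_eq_one] at h3
    rw [← h3, mul_right_inj] at h'
    exact Prod.ext (Subtype.ext h3.symm) (Subtype.ext h')
  have hcard : ∀ X Y : Subgroup G, X ≤ D → T ≤ Y → X ≤ Y → Nat.card T * Nat.card X ≤ Nat.card Y := by
    intro X Y hX h1 h2
    rw [← Nat.card_prod]
    exact Nat.card_le_card_of_injective (fun q : T × X => (⟨_, mul_mem (h1 q.1.2) (h2 q.2.2)⟩ : Y))
      fun a b h => hinj X hX (congrArg Subtype.val h)
  have hdec : ∀ s ∈ S, ∃ t ∈ T, ∃ d ∈ D, t * d = s := by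
    intro s hs
    have hb : Function.Bijective
        (fun q : T × D => (⟨_, mul_mem (hTS q.1.2) (hDS q.2.2)⟩ : S)) :=
      Function.Injective.bijective_of_nat_card_le (fun a b h => hinj D le_rfl (congrArg Subtype.val h))
        (by rw [Nat.card_prod, hTDc])
    obtain ⟨⟨t, d⟩, h⟩ := hb.2 ⟨s, hs⟩
    exact ⟨t, t.2, d, d.2, congrArg Subtype.val h⟩
  set K := Cfsg.pResidual 2 G with hK
  haveI hKn : K.Normal := pResidual_normal
  have hLK : L ≤ K := by
    have := map_pResidual_le (p := 2) L.subtype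
    rwa [hL, ← MonoidHom.range_eq_map, range_subtype] at this
  have hord : ∀ x : G, x ^ 2 = 1 → x ≠ 1 → orderOf x = 2 := fun x h1 h2 => orderOf_eq_prime h1 h2
  have hKD : K ⊓ D ≤ C := by
    rintro x ⟨hxK, hxD⟩
    by_contra hxC
    have hx2 := hinv x hxD hxC
    have hxo := hord x hx2 (fun h => hxC (h ▸ one_mem C))
    have hle : T ⊔ C ≤ S := sup_le hTS (hCD.trans hDS)
    have hi : (T ⊔ C).relIndex S = 2 := by
      have e1 := Lib.Core.card_mul_relIndex hle
      have e2 := Lib.Core.card_mul_relIndex hCD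
      have e3 := hcard C (T ⊔ C) hCD le_sup_left le_sup_right
      have e4 : (T ⊔ C).relIndex S ≠ 1 := fun h =>
        h1 x hxD hxC hxo 1 (by simpa using relIndex_eq_one.mp h (hDS hxD))
      have e5 : (T ⊔ C).relIndex S ≠ 0 := index_ne_zero_of_finite
      rw [← hTDc, ← e2, hCi] at e1
      have e6 : 0 < Nat.card ↥(T ⊔ C) := Nat.card_pos
      have e7 : (T ⊔ C).relIndex S ≤ 2 := by
        refine Nat.le_of_mul_le_mul_left ?_ e6
        rw [e1]; nlinarith
      omega
    refine not_mem_pResidual (T ⊔ C) (k := 0) (m := S.index) (by simpa using hx2)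
      (fun g hg => h1 x hxD hxC hxo g (by simpa using hg)) ?_ hSo hxK
    rw [← relIndex_mul_index hle, hi]; rfl
  have hTK : T ≤ K := hTL.trans hLK
  have hP : IsSyl 2 (S ⊓ K) K := hSs.inf_normal le_top le_normalizer_of_normal
  have hPc : Nat.card ↥(S ⊓ K) = Nat.card T * Nat.card ↥(K ⊓ D) := by
    refine le_antisymm ?_ (hcard _ _ inf_le_right (le_inf hTS hTK)
      (le_inf (inf_le_right.trans hDS) inf_le_left))
    rw [← Nat.card_prod]
    refine Nat.card_le_card_of_surjective (fun q : T × ↥(K ⊓ D) => (⟨(q.1 : G) * q.2,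
      mem_inf.mpr ⟨mul_mem (hTS q.1.2) (hDS q.2.2.2), mul_mem (hTK q.1.2) q.2.2.1⟩⟩ : ↥(S ⊓ K))) ?_
    rintro ⟨s, hs, hsK⟩
    obtain ⟨t, ht, d, hd, rfl⟩ := hdec s hs
    exact ⟨(⟨t, ht⟩, ⟨d, mem_inf.mpr ⟨by simpa using mul_mem (inv_mem (hTK ht)) hsK, hd⟩⟩), rfl⟩
  have hbot : K ⊓ D = ⊥ := by
    by_contra hne
    haveI := hC
    obtain ⟨y, hy⟩ := (Subgroup.isCyclic_iff_exists_zpowers_eq_top (K ⊓ D)).mp
      (Subgroup.isCyclic_of_le hKD)
    have hyKD : y ∈ K ⊓ D := hy ▸ mem_zpowers y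
    obtain ⟨j, hj⟩ := IsPGroup.iff_card.mp (hS2.to_le (inf_le_right.trans hDS : K ⊓ D ≤ S))
    obtain ⟨k, rfl⟩ : ∃ k, j = k + 1 := by
      rcases j with _ | k
      · exact absurd (card_eq_one.mp hj) hne
      · exact ⟨k, rfl⟩
    have hyo : orderOf y = 2 ^ (k + 1) := by rw [← Nat.card_zpowers, hy, hj]
    have hc : orderOf (y ^ 2 ^ k) = 2 := by
      rw [orderOf_pow_of_dvd (by positivity) (hyo ▸ pow_dvd_pow 2 (by omega)), hyo, pow_succ,
        Nat.mul_div_cancel_left _ (by positivity)]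
    refine not_mem_pResidual (T.subgroupOf K) (y := ⟨y, hyKD.1⟩) (k := k)
      (m := (S ⊓ K).relIndex K) (Subtype.ext (by
        change y ^ _ = 1
        rw [← hyo, pow_orderOf_eq_one])) (fun g hg => h2 _ (pow_mem (hKD hyKD) _) hc g hg) ?_ ?_ ?_
    · change T.relIndex K = _
      have e1 := Lib.Core.card_mul_relIndex hTK
      have e2 := Lib.Core.card_mul_relIndex hP.le
      rw [hPc, hj, ← e1, mul_assoc] at e2
      exact (Nat.eq_of_mul_eq_mul_left Nat.card_pos e2).symm
    · rw [← Nat.not_even_iff_odd, even_iff_two_dvd]; exact hP.not_dvd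
    · rw [pResidual_pResidual]; trivial
  refine ⟨K, hKn, ?_, fun T' h1 h2 h3 => ⟨h1.trans hLK, ?_⟩⟩
  · obtain ⟨P, hP⟩ := hSs.exists_sylow_top
    rw [eq_top_iff, ← pResidual_sup_sylow P, hP, ← hTD]
    exact sup_le le_sup_left (sup_le (le_sup_of_le_left hTK) le_sup_right)
  · refine (hP.of_card_le h2 (h1.trans hLK) ?_).not_dvd
    rw [hPc, hbot, card_bot, mul_one, IsSyl.card_eq_card ⟨hTL, hT2, hTsyl⟩ ⟨h1, h2, h3⟩]

end Cfsg.Agent.S1924
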