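import Cfsg.Statements.S1935
import Cfsg.Agent.Lib.Off.Main

set_option autoImplicit false
open Cfsg

namespace Cfsg.Agent.S1935

open Cfsg.Agent.Lib.Off commutatorElement in
theorem aux {Ω : Type*} [Group Ω] [Finite Ω] (p : ℕ) [Fact p.Prime] (hp : 5 ≤ p) (V G : Subgroup Ω)
    {W : Type*} [AddCommGroup W] [Module (ZMod p) W] (ρ : G →* Module.End (ZMod p) W) (ι : W → Ω)
    (hι : Function.Injective ι) (hr : ∀ x, x ∈ V ↔ ∃ w, ι w = x) (hs : ∀ u w, ι (u + w) = ι u * ι w)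
    (hρ : ∀ g w, ι (ρ g w) = g * ι w * (g : Ω)⁻¹) (hG : IsPGroup p ↥G)
    (hfaith : G ⊓ Subgroup.centralizer (V : Set Ω) = ⊥) (hF : ∃ E : Subgroup Ω, E ≤ G ∧ E ≠ ⊥ ∧ Cfsg.IsElementaryAbelian p E ∧ Nat.card ↥V ≤ Nat.card ↥E * Nat.card ↥(V ⊓ Subgroup.centralizer (E : Set Ω))) : ∃ A : Subgroup Ω, A ≤ G ∧ A ≠ ⊥ ∧ Cfsg.IsElementaryAbelian p A ∧ Nat.card ↥V ≤ Nat.card ↥A * Nat.card ↥(V ⊓ Subgroup.centralizer (A : Set Ω)) ∧ ⁅⁅V, A⁆, A⁆ = ⊥ ∧ ∀ g ∈ Subgroup.closure {x : Ω | ∃ h ∈ G, ∃ a ∈ A, x = h * a * h⁻¹}, ∀ a ∈ A, g * a * g⁻¹ ∈ A := by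
  have : Finite W := Finite.of_injective ι hι
  have hf : Function.Injective ρ := (injective_iff_map_eq_one ρ).mpr fun g e =>
    Subtype.ext (Subgroup.mem_bot.mp (hfaith.le ⟨g.2, fun v hv => by
      obtain ⟨w, rfl⟩ := (hr v).mp hv
      have := hρ g w
      rw [e] at this
      exact eq_mul_inv_iff_mul_eq.mp this⟩))
  have c1 : Nat.card W = Nat.card V := Nat.card_eq_of_bijective (fun w => ⟨ι w, (hr _).mpr ⟨w, rfl⟩⟩)
    ⟨fun a b e => hι (congrArg Subtype.val e), fun v => ((hr _).mp v.2).imp fun w e => Subtype.ext e⟩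
  have c0 : ∀ (a : G) w, ρ a w = w ↔ a * ι w = ι w * a := fun a w => by
    rw [← hι.eq_iff, hρ, mul_inv_eq_iff_eq_mul]
  have c2 : ∀ A : Subgroup G, Nat.card (fx ρ A) =
      Nat.card ↥(V ⊓ Subgroup.centralizer (A.map G.subtype : Set Ω)) := fun A =>
    Nat.card_eq_of_bijective (fun w => ⟨ι w, (hr _).mpr ⟨w, rfl⟩, by
      rintro _ ⟨a, ha, rfl⟩; exact (c0 a w).mp (w.2 a ha)⟩)
      ⟨fun a b e => Subtype.ext (hι (congrArg Subtype.val e)), fun v => by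
        obtain ⟨w, e⟩ := (hr _).mp v.2.1
        exact ⟨⟨w, fun a ha => (c0 a w).mpr (e ▸ v.2.2 _ ⟨a, ha, rfl⟩)⟩, Subtype.ext e⟩⟩
  obtain ⟨E, e1, e2, e3, e4⟩ := hF
  have h2 : (2 : ZMod p) ≠ 0 := fun h =>
    absurd (Nat.le_of_dvd two_pos ((ZMod.natCast_eq_zero_iff 2 p).mp h)) (by omega)
  obtain ⟨A, a1, a2, a3, a4⟩ := exists_two_subnormal ρ hG h2 hf (E := E.subgroupOf G)
    (fun h => e2 (by rw [← Subgroup.map_subgroupOf_eq_of_le e1, h, Subgroup.map_bot]))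
    (fun a ha b hb => Subtype.ext (Subtype.ext_iff.mp (e3.1.is_comm.comm (⟨a, ha⟩ : E) ⟨b, hb⟩) :))
    (fun a ha => Subtype.ext (e3.2 a ha)) (by
      rwa [c1, c2, Subgroup.map_subgroupOf_eq_of_le e1,
        Nat.card_congr (Subgroup.subgroupOfEquivOfLe e1).toEquiv])
  refine ⟨A.map G.subtype, Subgroup.map_subtype_le A, fun h => a1 ((Subgroup.map_eq_bot_iff_of_injective
    _ G.subtype_injective).mp h), ⟨⟨⟨?_⟩⟩, ?_⟩, by
      rwa [← c1, ← c2, Subgroup.card_map_of_injective G.subtype_injective], ?_, ?_⟩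
  · rintro ⟨_, a, ha, rfl⟩ ⟨_, b, hb, rfl⟩
    refine Subtype.ext (Subtype.ext_iff.mp (hf (?_ : ρ (a * b) = ρ (b * a))) :)
    rw [map_mul, map_mul, ← sub_eq_zero, ← sub_zero 0]
    conv_rhs => rw [← a3 a ha b hb]; enter [2]; rw [a3 a ha b hb, ← a3 b hb a ha]
    noncomm_ring
  · rintro _ ⟨a, ha, rfl⟩
    refine congrArg Subtype.val (hf (?_ : ρ (a ^ p) = ρ 1))
    have : ∀ k : ℕ, ρ (a ^ k) = 1 + k • (ρ a - 1) := fun k => by
      induction k with
      | zero => simp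
      | succ k ih =>
        rw [pow_succ, map_mul, ih, ← sub_eq_zero, ← smul_zero k, ← a3 a ha a ha, succ_nsmul,
          ← smul_mul_assoc]
        noncomm_ring
    rw [this, ZModModule.char_nsmul_eq_zero, add_zero, map_one]
  · rw [Subgroup.commutator_eq_bot_iff_le_centralizer, Subgroup.commutator_le]
    rintro v hv _ ⟨a, ha, rfl⟩ _ ⟨b, hb, rfl⟩
    obtain ⟨w, e⟩ := (hr _).mp (V.inv_mem hv)
    have h1 : ι ((ρ a - 1) w) = ⁅v, (a : Ω)⁆ := by
      have := hs w ((ρ a - 1) w)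
      rw [show w + (ρ a - 1) w = ρ a w by simp, hρ, e] at this
      rw [commutatorElement_def, mul_assoc, mul_assoc, ← mul_assoc (a : Ω), this, mul_inv_cancel_left]
    have := (c0 b _).mp (sub_eq_zero.mp (LinearMap.congr_fun (a3 b hb a ha) w))
    rwa [h1] at this
  · intro g hg a ha
    refine (Subgroup.mem_normalizer_iff.mp ((Subgroup.closure_le
      (Subgroup.normalizer (A.map G.subtype : Set Ω))).mpr ?_ hg) a).mp ha
    rintro _ ⟨h, hh, _, ⟨b, hb, rfl⟩, rfl⟩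
    refine Subgroup.mem_normalizer_fintype ?_
    rintro _ ⟨a, ha, rfl⟩
    exact ⟨_, a4 ⟨h, hh⟩ b hb a ha, rfl⟩

/-- Let p ≥ 5 be a prime and, inside an ambient finite group, let G be a p-subgroup acting faithfully by conjugation on an elementary abelian p-subgroup V that it normalizes (only the identity of G centralizes V). Suppose V is an F-module for G: some nontrivial elementary abelian subgroup E of G satisfies #E · #C_V(E) ≥ #V. Then G contains such an offender A that moreover acts quadratically on V ([V, A, A] = 1) and is normal in its normal closure in G. -/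
theorem result {Ω : Type*} [Group Ω] [Finite Ω] (p : ℕ) [Fact p.Prime] (hp : 5 ≤ p) (V G : Subgroup Ω) (hV : Cfsg.IsElementaryAbelian p V) (hG : IsPGroup p ↥G) (hGV : G ≤ Subgroup.normalizer (V : Set Ω)) (hfaith : G ⊓ Subgroup.centralizer (V : Set Ω) = ⊥) (hF : ∃ E : Subgroup Ω, E ≤ G ∧ E ≠ ⊥ ∧ Cfsg.IsElementaryAbelian p E ∧ Nat.card ↥V ≤ Nat.card ↥E * Nat.card ↥(V ⊓ Subgroup.centralizer (E : Set Ω))) : ∃ A : Subgroup Ω, A ≤ G ∧ A ≠ ⊥ ∧ Cfsg.IsElementaryAbelian p A ∧ Nat.card ↥V ≤ Nat.card ↥A * Nat.card ↥(V ⊓ Subgroup.centralizer (A : Set Ω)) ∧ ⁅⁅V, A⁆, A⁆ = ⊥ ∧ ∀ g ∈ Subgroup.closure {x : Ω | ∃ h ∈ G, ∃ a ∈ A, x = h * a * h⁻¹}, ∀ a ∈ A, g * a * g⁻¹ ∈ A := by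
  have := hV.1
  open scoped IsMulCommutative in
  let _ : Module (ZMod p) (Additive V) := AddCommGroup.zmodModule fun v => Subtype.ext (hV.2 _ v.toMul.2)
  let φ : G →* MulAut V := V.normalizerMonoidHom.comp (Subgroup.inclusion hGV)
  open scoped IsMulCommutative in
  exact aux p hp V G (W := Additive V)
    { toFun := fun c => (MonoidHom.toAdditive (φ c).toMonoidHom).toZModLinearMap p
      map_one' := by ext v; simp
      map_mul' := fun c d => by ext v; simp } (fun w => (w.toMul : V)) Subtype.val_injective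
    (fun x => ⟨fun h => ⟨Additive.ofMul ⟨x, h⟩, rfl⟩, fun ⟨w, e⟩ => e ▸ w.toMul.2⟩) (fun _ _ => rfl)
    (fun _ _ => rfl) hG hfaith hF

end Cfsg.Agent.S1935
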