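import Cfsg.Statements.S1939
import Cfsg.Agent.Lib.Core.Syl
-- import your own Cfsg.Agent.* helpers here

set_option autoImplicit false
open Cfsg

namespace Cfsg.Agent.S1939

open Cfsg.Agent.Lib.Core Subgroup
open scoped Pointwise commutatorElement


/-- Let S be a Sylow p-subgroup of the finite group G and a an element of S that is the only G-conjugate of a lying in S. Then every power of a has the same property: for every n, the only G-conjugate of a^n lying in S is a^n. -/
theorem result {G : Type*} [Group G] [Finite G] {p : ℕ} [Fact p.Prime] (S : Sylow p G) (a : G)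
    (haS : a ∈ (S : Subgroup G)) (hwc : ∀ g : G, g * a * g⁻¹ ∈ (S : Subgroup G) → g * a * g⁻¹ = a) (n : ℕ) :
    ∀ g : G, g * a ^ n * g⁻¹ ∈ (S : Subgroup G) → g * a ^ n * g⁻¹ = a ^ n := by
  intro g hg
  have hcen : ∀ s ∈ (S : Subgroup G), s * a = a * s := by
    intro s hs
    have := hwc s (mul_mem (mul_mem hs haS) (inv_mem hs))
    rw [mul_inv_eq_iff_eq_mul] at this
    exact this
  have h1 : a ∈ centralizer {g * a ^ n * g⁻¹} := by
    rintro _ rfl
    exact hcen _ hg
  have h2 : g * a * g⁻¹ ∈ centralizer {g * a ^ n * g⁻¹} := by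
    rintro _ rfl
    group
  have hp := isPGroup_zpowers_of_mem S.isPGroup' haS
  obtain ⟨T, hT, haT⟩ := exists_isSyl_ge hp ((zpowers_le).mpr h1)
  obtain ⟨k, hk⟩ := pow_eq_one_of_isPGroup S.isPGroup' haS
  have hp' : (g * a * g⁻¹) ^ p ^ k = 1 := by rw [conj_pow, hk]; simp
  obtain ⟨c, hc, hcT⟩ := hT.exists_conj_le (isPGroup_zpowers hp') ((zpowers_le).mpr h2)
  obtain ⟨h, -, hh⟩ := (isSyl_sylow S).exists_conj_le hT.isPGroup le_top
  rw [map_conj_le_iff] at hh hcT
  have h3 := hwc h (hh _ (haT (mem_zpowers a)))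
  have h4 := hwc (h * c * g) (by
    have := hh _ (hcT _ (mem_zpowers _))
    simpa [mul_assoc] using this)
  have h5 : (c * g) * a * (c * g)⁻¹ = a := by
    calc _ = h⁻¹ * (h * c * g * a * (h * c * g)⁻¹) * h := by group
      _ = h⁻¹ * (h * a * h⁻¹) * h := by rw [h4, h3]
      _ = a := by group
  have h6 : (c * g) * a ^ n * (c * g)⁻¹ = a ^ n := by rw [← conj_pow, h5]
  have h7 := hc _ rfl
  calc g * a ^ n * g⁻¹ = (g * a ^ n * g⁻¹ * c) * c⁻¹ := by group
    _ = (c * (g * a ^ n * g⁻¹)) * c⁻¹ := by rw [h7]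
    _ = (c * g) * a ^ n * (c * g)⁻¹ := by group
    _ = _ := h6

end Cfsg.Agent.S1939
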