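import Cfsg.Statements.S1940
import Cfsg.Agent.Lib.Core.Basic
-- import your own Cfsg.Agent.* helpers here

set_option autoImplicit false
open Cfsg

namespace Cfsg.Agent.S1940

open Cfsg.Agent.Lib.Core Subgroup
open scoped Pointwise commutatorElement


/-- Let the finite group L act by automorphisms on the finite abelian group M, and let N be an L-invariant subgroup of M such that M/N is a p-group on which L acts trivially (every l • m lies in the coset mN). If every element of M is a product of an element of N and an element fixed by a Sylow p-subgroup T of L, then every element of M is a product of an element of N and an element fixed by all of L. -/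
theorem result {L : Type*} [Group L] [Finite L] {M : Type*} [CommGroup M] [Finite M] [MulDistribMulAction L M]
    {p : ℕ} [Fact p.Prime] (N : Subgroup M) (hN : ∀ (l : L) (m : M), m ∈ N → l • m ∈ N)
    (hquot : IsPGroup p (M ⧸ N)) (htriv : ∀ (l : L) (m : M), (l • m) * m⁻¹ ∈ N) (T : Sylow p L)
    (hT : ∀ m : M, ∃ n ∈ N, ∃ c : M, (∀ t ∈ (T : Subgroup L), t • c = c) ∧ m = n * c) :
    ∀ m : M, ∃ n ∈ N, ∃ c : M, (∀ l : L, l • c = c) ∧ m = n * c := by
  classical
  -- the subgroup of cosets having a fixed representative
  intro m
  obtain ⟨n, hn, c, hc, rfl⟩ := hT m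
  haveI : Fintype (L ⧸ (T : Subgroup L)) := Fintype.ofFinite _
  -- the relative trace
  let F : L ⧸ (T : Subgroup L) → M := fun q => Quotient.liftOn' q (fun l => l • c) (by
    intro a b hab
    rw [QuotientGroup.leftRel_apply] at hab
    have := hc _ hab
    rw [mul_smul, inv_smul_eq_iff] at this
    exact this.symm)
  have hF : ∀ l : L, F (l : L ⧸ (T : Subgroup L)) = l • c := fun l => rfl
  have hFs : ∀ (l : L) (q : L ⧸ (T : Subgroup L)), F (l • q) = l • F q := by
    intro l q
    induction q using QuotientGroup.induction_on with
    | H x =>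
      rw [show l • (x : L ⧸ (T : Subgroup L)) = ((l * x : L) : L ⧸ (T : Subgroup L)) from rfl,
        hF, hF, mul_smul]
  set e := ∏ q, F q with he
  have hefix : ∀ l : L, l • e = e := by
    intro l
    rw [he, Finset.smul_prod']
    simp_rw [← hFs]
    exact Equiv.prod_comp (MulAction.toPerm l) F
  have hFq : ∀ q, (QuotientGroup.mk (F q) : M ⧸ N) = QuotientGroup.mk c := by
    intro q
    induction q using QuotientGroup.induction_on with
    | H x =>
      rw [hF, eq_comm, QuotientGroup.eq, mul_comm]
      exact htriv x c
  have hq : (QuotientGroup.mk e : M ⧸ N) = (QuotientGroup.mk c) ^ (T : Subgroup L).index := by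
    have := map_prod (QuotientGroup.mk' N) F Finset.univ
    simp only [QuotientGroup.mk'_apply, hFq, Finset.prod_const] at this
    rw [he, this, Subgroup.index, Nat.card_eq_fintype_card, Finset.card_univ]
  have hcop : ((T : Subgroup L).index).Coprime (orderOf (QuotientGroup.mk c : M ⧸ N)) := by
    obtain ⟨k, hk⟩ := hquot (QuotientGroup.mk c)
    refine Nat.Coprime.coprime_dvd_right (orderOf_dvd_of_pow_eq_one hk) ?_
    apply Nat.Coprime.pow_right
    rw [Nat.coprime_comm, (Fact.out : p.Prime).coprime_iff_not_dvd]
    exact T.not_dvd_index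
  obtain ⟨j, hj⟩ := exists_pow_eq_self_of_coprime hcop
  refine ⟨n * (c * (e ^ j)⁻¹), N.mul_mem hn ?_, e ^ j, fun l => by rw [smul_pow', hefix], by group⟩
  rw [← QuotientGroup.eq_one_iff, QuotientGroup.mk_mul, QuotientGroup.mk_inv,
    QuotientGroup.mk_pow, hq, hj, mul_inv_cancel]

end Cfsg.Agent.S1940
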