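import Cfsg.Statements.S1941
import Cfsg.Agent.Lib.Core.Chain
import Cfsg.Agent.Lib.Core.Components
import Cfsg.Agent.Lib.PGroup.Critical
-- import your own Cfsg.Agent.* helpers here

set_option autoImplicit false
open Cfsg

namespace Cfsg.Agent.S1941

open Cfsg.Agent.Lib.Core Subgroup
open scoped Pointwise commutatorElement


/-- Let G be a finite group with no nontrivial normal subgroup of order prime to p, T a Sylow p-subgroup of G and E(G) the layer of G (the subgroup generated by its components). An automorphism of G of p-power order that fixes T and E(G) elementwise is inner. -/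
theorem result {G : Type*} [Group G] [Finite G] {p : ℕ} [Fact p.Prime] (hcore : Cfsg.pPrimeCore p G = ⊥)
    (T : Sylow p G) (α : MulAut G) (hα : ∃ j : ℕ, orderOf α = p ^ j) (hfixT : ∀ x ∈ (T : Subgroup G), α x = x)
    (hfixE : ∀ x ∈ Cfsg.layer G, α x = x) : ∃ g : G, ∀ x : G, α x = g * x * g⁻¹ := by
  set Z := centralizer (generalizedFittingSubgroup G : Set G) with hZ
  have hZF : Z ≤ pCore p G := fittingSubgroup_eq_pCore hcore ▸ centralizer_generalizedFittingSubgroup_le
  have hF : generalizedFittingSubgroup G = layer G ⊔ pCore p G := by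
    rw [← FstarOf_top, FstarOf_eq, EOf_top, fittingOf_top, fittingSubgroup_eq_pCore hcore]
  have hfix : ∀ x ∈ generalizedFittingSubgroup G, α x = x := by
    have : generalizedFittingSubgroup G ≤ α.toMonoidHom.eqLocus (MonoidHom.id G) := by
      rw [hF]
      exact sup_le hfixE fun x hx => hfixT x (pCore_le_sylow T hx)
    exact this
  have hZle : Z ≤ generalizedFittingSubgroup G := hZF.trans (hF ▸ le_sup_right)
  have hc : ∀ g : G, α g * g⁻¹ ∈ Z := fun g => by
    have := inv_mem (Cfsg.Agent.Lib.PGroup.inv_mul_mem_centralizer_of_fixes hfix g⁻¹)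
    simpa using this
  letI : CommGroup Z := { (inferInstance : Group Z) with
    mul_comm := fun a b => Subtype.ext (b.2 a (hZle a.2)) }
  obtain ⟨a, ha⟩ := exists_coboundary_of_index (M := Z) (T : Subgroup G) (by
      obtain ⟨k, hk⟩ := IsPGroup.iff_card.mp (pCore_isPGroup.to_le hZF)
      rw [hk]
      exact Nat.Coprime.pow_left _ (coprime_iff_not_dvd.mpr T.not_dvd_index).symm)
    (fun g => conjOn g (le_normalizer_of_normal (mem_top g))) (fun g => ⟨_, hc g⟩)
    (fun x y => by
      rw [mul_comm]
      apply Subtype.ext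
      change α (x * y) * (x * y)⁻¹ = α x * x⁻¹ * (x * (α y * y⁻¹) * x⁻¹)
      rw [map_mul]; group)
    (fun x t ht => by
      apply Subtype.ext
      change α (x * t) * (x * t)⁻¹ = α x * x⁻¹
      rw [map_mul, hfixT t ht]; group)
  refine ⟨a, fun x => ?_⟩
  have : α x * x⁻¹ = a * (x * a * x⁻¹)⁻¹ := congrArg Subtype.val (ha x)
  rw [mul_inv_eq_iff_eq_mul.mp this]; group

end Cfsg.Agent.S1941
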