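import Cfsg.Statements.S1944
import Cfsg.Agent.Lib.Core.Chain
import Cfsg.Agent.Lib.Core.PSolv
-- import your own Cfsg.Agent.* helpers here

set_option autoImplicit false
open Cfsg

namespace Cfsg.Agent.S1944

open Cfsg.Agent.Lib.Core Subgroup
open scoped Pointwise commutatorElement


/-- Let S be a Sylow p-subgroup of the finite group G and suppose that the centre Z(S) lies in O_{p',p}(G). The elements of S each of which is its only G-conjugate in S form a subgroup W of Z(S); W is then a direct factor of Z(S): there is a subgroup K of Z(S) with W ∩ K = 1 and WK = Z(S). -/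
theorem result {G : Type*} [Group G] [Finite G] {p : ℕ} [Fact p.Prime] (S : Sylow p G)
    (hZ : ((S : Subgroup G) ⊓ Subgroup.centralizer ((S : Subgroup G) : Set G)) ≤ Cfsg.pPrimePCore p G) :
    ∃ W K : Subgroup G, (∀ x : G, x ∈ W ↔ (x ∈ (S : Subgroup G) ∧ ∀ g : G, g * x * g⁻¹ ∈ (S : Subgroup G) → g * x * g⁻¹ = x)) ∧
      K ≤ ((S : Subgroup G) ⊓ Subgroup.centralizer ((S : Subgroup G) : Set G)) ∧ W ⊓ K = ⊥ ∧ W ⊔ K = ((S : Subgroup G) ⊓ Subgroup.centralizer ((S : Subgroup G) : Set G)) := by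
  haveI : (pPrimePCore p G).Normal := pPrimePCore_normal
  have hS := isSyl_sylow S
  set Q := (S : Subgroup G) ⊓ pPrimePCore p G with hQ
  have hQs : IsSyl p Q (pPrimePCore p G) := hS.inf_normal le_top le_normalizer_of_normal
  set N := normalizer (Q : Set G) with hN
  set Z := (S : Subgroup G) ⊓ centralizer ((S : Subgroup G) : Set G) with hZdef
  set V := Q ⊓ centralizer (Q : Set G) with hV
  have hSN : (S : Subgroup G) ≤ N := le_normalizer_inf le_normalizer le_normalizer_of_normal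
  have hNV : N ≤ normalizer (V : Set G) := le_normalizer_inf le_rfl (le_normalizer_centralizer le_rfl)
  have hZV : Z ≤ V := le_inf (le_inf inf_le_left hZ)
    (inf_le_right.trans (centralizer_le_centralizer inf_le_left))
  have hVS : V ≤ S := inf_le_left.trans inf_le_left
  set W := V ⊓ centralizer (N : Set G) with hW
  have hWZ : W ≤ Z := le_inf (inf_le_left.trans hVS)
    (inf_le_right.trans (centralizer_le_centralizer hSN))
  letI : CommGroup V := { (inferInstance : Group V) with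
    mul_comm := fun a b => Subtype.ext (b.2.2 a a.2.1) }
  obtain ⟨f, hf1, hf2⟩ := exists_relative_trace (M := V) ((S : Subgroup G).subgroupOf N)
    (V.normalizerMonoidHom.comp (inclusion hNV))
  have hcop : (Nat.card V).Coprime ((S : Subgroup G).subgroupOf N).index := by
    obtain ⟨k, hk⟩ := IsPGroup.iff_card.mp (S.isPGroup'.to_le hVS)
    rw [hk]
    exact Nat.Coprime.pow_left _ (coprime_iff_not_dvd.mpr (hS.mono hSN le_top).not_dvd).symm
  have hact : ∀ (k : N) (v : V), (V.normalizerMonoidHom.comp (inclusion hNV)) k v = v ↔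
      (k : G) * v = v * k := fun k v => by
    rw [Subtype.ext_iff, ← mul_inv_eq_iff_eq_mul]; rfl
  have hf2' : ∀ v : V, (v : G) ∈ W → f v = v ^ ((S : Subgroup G).subgroupOf N).index :=
    fun v hv => hf2 v fun k => (hact k v).mpr (hv.2 k k.2)
  refine ⟨W, f.ker.map V.subtype ⊓ Z, fun x => ⟨fun hx => ⟨hVS hx.1, fun g hg => ?_⟩,
    fun ⟨hxS, hx⟩ => ?_⟩, inf_le_right, ?_, le_antisymm (sup_le hWZ inf_le_right) fun z hz => ?_⟩
  · obtain ⟨a, ha, m, hm, rfl⟩ := hQs.frattini (H := ⊤) le_normalizer_of_normal (mem_top g)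
    rw [← hQs.sup_pPrimeCore, sup_comm] at ha
    obtain ⟨o, ho, q, hq, rfl⟩ := mem_sup_of_normal_left.mp ha
    have h1 : q * m * x * (q * m)⁻¹ = x := by
      rw [hx.2 (q * m) (mul_mem (le_normalizer hq) hm), mul_inv_cancel_right]
    have h2 : o * q * m * x * (o * q * m)⁻¹ = o * x * o⁻¹ := by
      conv_rhs => rw [← h1]
      group
    rw [h2] at hg ⊢
    have h3 : o * x * o⁻¹ * x⁻¹ ∈ (S : Subgroup G) ⊓ pPrimeCore p G := by
      refine mem_inf.mpr ⟨mul_mem hg (inv_mem (hVS hx.1)), ?_⟩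
      have := mul_mem ho (Normal.conj_mem inferInstance _ (inv_mem ho) x)
      simpa [mul_assoc] using this
    rwa [inf_eq_bot_of_isPGroup_of_not_dvd S.isPGroup' pPrimeCore_not_dvd, mem_bot,
      mul_inv_eq_one] at h3
  · have hxZ : x ∈ Z := ⟨hxS, fun s hs => mul_inv_eq_iff_eq_mul.mp
      (hx s (mul_mem (mul_mem hs hxS) (inv_mem hs)))⟩
    exact ⟨hZV hxZ, fun n hn => mul_inv_eq_iff_eq_mul.mp
      (hx n (hVS (conj_mem_of_mem_normalizer (hNV hn) (hZV hxZ))))⟩
  · rw [eq_bot_iff]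
    rintro _ ⟨hw, ⟨v, hv, rfl⟩, -⟩
    have h1 : f v = 1 := hv
    rw [hf2' v hw] at h1
    have : v = 1 := (powCoprime hcop).injective (by rw [powCoprime_apply, h1]; simp)
    rw [this]; exact one_mem _
  · set v : V := ⟨z, hZV hz⟩ with hv
    have h1 : ((f v : V) : G) ∈ W := ⟨(f v).2, fun n hn => (hact ⟨n, hn⟩ _).mp
      (hf1 v (fun t ht => (hact t v).mpr (hz.2 t ht)) ⟨n, hn⟩)⟩
    obtain ⟨j, hj⟩ := exists_pow_eq_self_of_coprime
      (Nat.Coprime.coprime_dvd_right (orderOf_dvd_natCard (f v)) hcop.symm)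
    have h2 : ((f v ^ j : V) : G) ∈ W := pow_mem h1 j
    have h3 : (f v ^ j)⁻¹ * v ∈ f.ker := by
      rw [MonoidHom.mem_ker, map_mul, map_inv, hf2' _ h2, ← pow_mul, mul_comm j, pow_mul, hj,
        inv_mul_cancel]
    have h4 : z = (f v ^ j : V) * ((f v ^ j)⁻¹ * v : V) := by simp [hv]
    rw [h4]
    refine mul_mem (mem_sup_left h2) (mem_sup_right (mem_inf.mpr ⟨mem_map_of_mem _ h3, ?_⟩))
    exact mul_mem (inv_mem (hWZ h2)) hz

end Cfsg.Agent.S1944
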