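import Cfsg.Statements.S1946
import Cfsg.Agent.Lib.Core.Chain
import Cfsg.Agent.Lib.Transfer.Frobenius
-- import your own Cfsg.Agent.* helpers here

set_option autoImplicit false
open Cfsg

namespace Cfsg.Agent.S1946

open Cfsg.Agent.Lib.Core Subgroup
open scoped Pointwise commutatorElement


/-- Let P be a Sylow p-subgroup of the finite group G. Then G has a normal p-complement if and only if P controls the fusion of its elements of order dividing p (dividing 4 when p = 2): whenever such an element a of P has a G-conjugate g a g⁻¹ in P, that conjugate is already x a x⁻¹ for some x in P. -/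
theorem result {G : Type*} [Group G] [Finite G] {p : ℕ} [Fact p.Prime] (P : Sylow p G) :
    Cfsg.HasNormalPComplement p G ↔
      ∀ a ∈ (P : Subgroup G), (a ^ p = 1 ∨ (p = 2 ∧ a ^ 4 = 1)) → ∀ g : G, g * a * g⁻¹ ∈ (P : Subgroup G) →
        ∃ x ∈ (P : Subgroup G), g * a * g⁻¹ = x * a * x⁻¹ := by
  constructor
  · intro h a ha _ g hg
    obtain ⟨z, hz, h'⟩ := Cfsg.Agent.Lib.Transfer.exists_sylow_conj_of_hasNormalPComplement h P g
    exact ⟨z, hz, h' a ha hg⟩
  intro h
  refine Cfsg.Agent.Lib.Transfer.hasNormalPComplement_of_frobenius_sylow P fun Q hQP g hgQ hg => ?_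
  have hQ : IsPGroup p Q := P.isPGroup'.to_le hQP
  by_contra hc
  obtain ⟨D, hDQ, hgD, hgc, hexp⟩ := exists_small_exponent hQ hg hgQ hc
  obtain ⟨n, hn⟩ := exists_ZOf_eq (H := (P : Subgroup G)) P.isPGroup'.isNilpotent
  have := mem_centralizer_of_chain (hQ.to_le hDQ) hg hgD (fun i => ZOf i P)
    (by simp [ZOf_zero]) (fun i x hx => by
      obtain ⟨y, hy, e⟩ := h x (hQP (hDQ hx.1)) (hexp x hx.1) g
        (hQP (hDQ (conj_mem_of_mem_normalizer hgD hx.1)))
      have := (mem_ZOf_succ.mp (inv_mem hx.2)).2 y hy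
      rw [e]
      simpa [commutatorElement_def, mul_assoc] using this) n
  rw [hn, inf_eq_left.mpr (hDQ.trans hQP)] at this
  exact hgc this

end Cfsg.Agent.S1946
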