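import Cfsg.Statements.S1947
import Cfsg.Agent.Lib.Core.Chain
import Cfsg.Agent.Lib.Transfer.Frobenius
-- import your own Cfsg.Agent.* helpers here

set_option autoImplicit false
open Cfsg

namespace Cfsg.Agent.S1947

open Cfsg.Agent.Lib.Core Subgroup
open scoped Pointwise commutatorElement


/-- Let G be a finite group and p a prime. If every element of G of order dividing p (dividing 4 when p = 2) lies in some fixed term Z_n(G) of the upper central series, then G has a normal p-complement. -/
theorem result {G : Type*} [Group G] [Finite G] {p : ℕ} [Fact p.Prime] (n : ℕ)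
    (h : ∀ a : G, (a ^ p = 1 ∨ (p = 2 ∧ a ^ 4 = 1)) → a ∈ Subgroup.upperCentralSeries G n) : Cfsg.HasNormalPComplement p G := by
  refine Cfsg.Agent.Lib.Transfer.hasNormalPComplement_of_frobenius fun Q hQ g hgQ hg => ?_
  by_contra hc
  obtain ⟨D, hDQ, hgD, hgc, hexp⟩ := exists_small_exponent hQ hg hgQ hc
  have := mem_centralizer_of_chain (hQ.to_le hDQ) hg hgD (Subgroup.upperCentralSeries G)
    (by simp) (fun i x hx => by
      have := Subgroup.mem_upperCentralSeries_succ_iff.mp (inv_mem hx.2) g
      simpa [commutatorElement_def, mul_assoc] using this) n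
  rw [inf_eq_left.mpr fun x hx => h x (hexp x hx)] at this
  exact hgc this

end Cfsg.Agent.S1947
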