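import Cfsg.Statements.S1948
import Cfsg.Agent.Lib.Core.PSolv
-- import your own Cfsg.Agent.* helpers here

set_option autoImplicit false
open Cfsg

namespace Cfsg.Agent.S1948

open Cfsg.Agent.Lib.Core Subgroup
open scoped Pointwise commutatorElement


/-- Let S be a Sylow p-subgroup of the finite group G. Then G = N_G(S)·O_{p'}(G) if and only if G is p-constrained and N_G(S) controls fusion in S, in the sense that whenever a subgroup Q of S has a conjugate g Q g⁻¹ inside S, the element g is a product n c with n normalizing S and c centralizing Q. -/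
theorem result {G : Type*} [Group G] [Finite G] {p : ℕ} [Fact p.Prime] (S : Sylow p G) :
    Subgroup.normalizer ((S : Subgroup G) : Set G) ⊔ Cfsg.pPrimeCore p G = ⊤ ↔
      (Cfsg.IsPConstrained p G ∧
        ∀ Q : Subgroup G, Q ≤ (S : Subgroup G) → ∀ g : G, Q.map (MulAut.conj g).toMonoidHom ≤ (S : Subgroup G) →
          ∃ n ∈ Subgroup.normalizer ((S : Subgroup G) : Set G), ∃ c ∈ Subgroup.centralizer (Q : Set G), g = n * c) := by
  haveI := pPrimePCore_normal (p := p) (G := G)
  have hbot := inf_eq_bot_of_isPGroup_of_not_dvd S.isPGroup' (pPrimeCore_not_dvd (p := p) (G := G))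
  constructor
  · intro h
    have h1 : ((S : Subgroup G) ⊔ pPrimeCore p G).Normal := by
      apply normal_of_le_normalizer_top
      rw [← h]
      exact sup_le (le_normalizer_sup le_rfl le_normalizer_of_normal)
        (le_normalizer_of_le le_sup_right)
    have h2 := le_pPrimePCore S.isPGroup' h1
    refine ⟨isPConstrained_iff.mpr ?_, fun Q hQ g hg => ?_⟩
    · rw [← LOf_top, LOf_eq_bot_iff]
      intro K hK
      refine hK.pqs.ne_bot (psolv_OppPOf ⊤ K ?_ hK.pqs.perfect hK.pqs.res)
      rw [OppPOf_top, ← hK.pqs.res]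
      exact (OupOf_mono le_top).trans ((Subn.of_normal le_top le_normalizer_of_normal).OupOf_le
        ((isSyl_sylow S).not_dvd_relIndex h2))
    · obtain ⟨n, hn, d, hd, rfl⟩ :=
        (mem_sup_of_le_normalizer_right le_normalizer_of_normal).mp (h ▸ mem_top g)
      refine ⟨n, hn, d, fun q hq => ?_, rfl⟩
      have h3 := conj_mem_of_mem_normalizer' hn (map_conj_le_iff.mp hg q hq)
      have h4 : d * q * d⁻¹ * q⁻¹ ∈ (S : Subgroup G) ⊓ pPrimeCore p G := by
        refine mem_inf.mpr ⟨mul_mem (by simpa [mul_assoc] using h3) (inv_mem (hQ hq)), ?_⟩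
        have := mul_mem hd (Normal.conj_mem inferInstance _ (inv_mem hd) q)
        simpa [mul_assoc] using this
      rw [hbot, mem_bot, mul_inv_eq_one, mul_inv_eq_iff_eq_mul] at h4
      exact h4.symm
  · rintro ⟨h1, h2⟩
    have hHs : IsSyl p ((S : Subgroup G) ⊓ pPrimePCore p G) (pPrimePCore p G) :=
      (isSyl_sylow S).inf_normal le_top le_normalizer_of_normal
    have h3 : pPrimePCore p G ≤ normalizer ((S : Subgroup G) : Set G) ⊔ pPrimeCore p G := by
      rw [← hHs.sup_pPrimeCore]
      exact sup_le_sup_right (inf_le_left.trans le_normalizer) _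
    have h4 := inf_centralizer_le_OppPOf (p := p) (H := (⊤ : Subgroup G))
      (by rw [LOf_top]; exact isPConstrained_iff.mp h1) (by rw [OppPOf_top]; exact hHs)
    rw [top_inf_eq, OppPOf_top] at h4
    rw [eq_top_iff, ← hHs.frattini_sup le_top le_normalizer_of_normal]
    refine sup_le h3 fun g hg => ?_
    obtain ⟨n, hn, c, hc, rfl⟩ := h2 _ inf_le_left g
      ((map_conj_eq_iff.mpr hg.2).le.trans inf_le_left)
    exact mul_mem (mem_sup_left hn) (h3 (h4 hc))

end Cfsg.Agent.S1948
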