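import Cfsg.Statements.S1949
import Cfsg.Agent.Lib.Core.Chain
import Cfsg.Agent.Lib.PGroup.Critical
-- import your own Cfsg.Agent.* helpers here

set_option autoImplicit false
open Cfsg

namespace Cfsg.Agent.S1949

open Cfsg.Agent.Lib.Core Subgroup
open scoped Pointwise commutatorElement

open Cfsg.Agent.Lib.PGroup

theorem fix_of_centralizer {P : Type*} [Group P] [Finite P] {p : ℕ} [Fact p.Prime]
    (hP : IsPGroup p P) {C E : Subgroup P} [C.Normal] (hc : E ⊓ centralizer (C : Set P) ≤ C)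
    {a : MulAut P} (ha : (orderOf a).Coprime p) (hE : ∀ x ∈ E, a x ∈ E) (h : ∀ x ∈ C, a x = x) :
    ∀ x ∈ E, a x = x := by
  intro x hx
  have h1 := pow_orderOf_eq_one_of_fixed (h _ (hc (mem_inf.mpr ⟨mul_mem (inv_mem hx) (hE x hx),
    inv_mul_mem_centralizer_of_fixes h x⟩)))
  obtain ⟨k, hk⟩ := hP (x⁻¹ * a x)
  have h2 : x⁻¹ * a x = 1 := Cfsg.Agent.Lib.Transfer.eq_one_of_coprime_of_pow_eq_one hk
    (Nat.Coprime.coprime_dvd_left (orderOf_dvd_of_pow_eq_one h1) ha)
  exact (inv_mul_eq_one.mp h2).symm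

/-- Let P be a finite p-group and G a group of automorphisms of P containing the inner automorphisms. Then there is a G-invariant subgroup D of P, contained in the subgroup generated by the elements x⁻¹α(x) with x in P and α in O^p(G), of exponent dividing p when p is odd and dividing 4 when p = 2, with [D, P] ≤ Z(D), such that every automorphism in G of order prime to p that fixes D elementwise is the identity; moreover every maximal abelian subgroup A of D is normal in P and every automorphism in G fixing A elementwise has p-power order. -/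
theorem result {P : Type*} [Group P] [Finite P] {p : ℕ} [Fact p.Prime] (hP : IsPGroup p P)
    (G : Subgroup (MulAut P)) (hG : Cfsg.Inn P ≤ G) :
    ∃ D : Subgroup P,
      (∀ α ∈ G, D.map α.toMonoidHom = D) ∧
      D ≤ Subgroup.closure {y : P | ∃ α ∈ Cfsg.pResidual p ↥G, ∃ x : P, y = x⁻¹ * (α : MulAut P) x} ∧
      (∀ d ∈ D, d ^ p = 1 ∨ (p = 2 ∧ d ^ 4 = 1)) ∧
      ⁅D, (⊤ : Subgroup P)⁆ ≤ D ⊓ Subgroup.centralizer (D : Set P) ∧
      (∀ α ∈ G, (orderOf α).Coprime p → (∀ d ∈ D, α d = d) → α = 1) ∧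
      ∀ A : Subgroup P, A ≤ D → IsMulCommutative ↥A →
        (∀ B : Subgroup P, A ≤ B → B ≤ D → IsMulCommutative ↥B → B = A) →
        A.Normal ∧ ∀ α ∈ G, (∀ a ∈ A, α a = a) → ∃ k : ℕ, orderOf α = p ^ k := by
  let Inv : Subgroup P → Prop := fun X => ∀ α ∈ G, ∀ x ∈ X, α x ∈ X
  have hnormal : ∀ X, Inv X → X.Normal := fun X h => ⟨fun x hx g => h _ (hG ⟨g, rfl⟩) x hx⟩
  have hmap : ∀ X, Inv X → ∀ α ∈ G, X.map α.toMonoidHom = X := by
    intro X h α hα
    refine le_antisymm (by rintro _ ⟨x, hx, rfl⟩; exact h α hα x hx) fun x hx => ?_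
    exact ⟨α⁻¹ x, h _ (inv_mem hα) x hx, by simp⟩
  have hcent : ∀ X, Inv X → Inv (centralizer (X : Set P)) := by
    intro X h α hα x hx y hy
    have := congrArg α (hx _ (h _ (inv_mem hα) y hy))
    simpa using this
  have hinf : ∀ X Y, Inv X → Inv Y → Inv (X ⊓ Y) := fun X Y h h' α hα x hx =>
    ⟨h α hα x hx.1, h' α hα x hx.2⟩
  set P₁ := Subgroup.closure
    {y : P | ∃ α ∈ Cfsg.pResidual p ↥G, ∃ x : P, y = x⁻¹ * (α : MulAut P) x} with hP₁
  have hP₁i : Inv P₁ := by
    intro β hβ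
    have : P₁ ≤ P₁.comap β.toMonoidHom := by
      rw [hP₁, closure_le]
      rintro _ ⟨α, hα, x, rfl⟩
      refine subset_closure ⟨⟨β, hβ⟩ * α * ⟨β, hβ⟩⁻¹,
        Cfsg.Agent.Lib.Transfer.pResidual_normal.conj_mem α hα _, β x, ?_⟩
      simp
    exact this
  obtain ⟨A, -, ⟨hAP, hAi, hAc⟩, hAmax⟩ := exists_maximal_subgroup
    (P := fun A : Subgroup P => A ≤ P₁ ∧ Inv A ∧ A ≤ centralizer (A : Set P)) (H := ⊥)
    ⟨bot_le, fun α _ x hx => by rw [mem_bot.mp hx]; simp, bot_le⟩
  haveI := hnormal A hAi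
  set C := centralOmegaMod A p ⊓ (P₁ ⊓ centralizer (A : Set P)) with hC
  have hCi : Inv C := by
    refine hinf _ _ (fun α hα x hx => ⟨?_, fun g => ?_⟩) (hinf _ _ hP₁i (hcent A hAi))
    · rw [← map_pow]; exact hAi α hα _ hx.1
    · have := hAi α hα _ (hx.2 (α⁻¹ g))
      simpa [map_commutatorElement] using this
  haveI := hnormal C hCi
  have hAC : A ≤ C := le_inf (le_centralOmegaMod A p) (le_inf hAP hAc)
  have hCA : C ≤ centralizer (A : Set P) := inf_le_right.trans inf_le_right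
  have hZC : C ⊓ centralizer (C : Set P) = A :=
    hAmax _ ⟨inf_le_left.trans (inf_le_right.trans inf_le_left), hinf _ _ hCi (hcent C hCi),
      inf_le_right.trans (centralizer_le_centralizer inf_le_left)⟩
      (le_inf hAC (le_centralizer_iff.mp hCA))
  have hcC : P₁ ⊓ centralizer (C : Set P) ≤ C := by
    haveI := hnormal _ (hinf _ _ hP₁i (hcent C hCi))
    by_contra hn
    obtain ⟨x, hx, hxA, hx1, hx2⟩ := exists_central_mod hP (N := A)
      (M := P₁ ⊓ centralizer (C : Set P)) (fun h => hn (h.trans hAC))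
    exact hxA (hZC ▸ mem_inf.mpr ⟨⟨⟨hx1, hx2⟩, hx.1, centralizer_le_centralizer hAC hx.2⟩, hx.2⟩)
  set e := if p = 2 then 4 else p with he
  have hcomm : ∀ x ∈ C, ∀ g, ∀ y ∈ C, Commute ⁅x, g⁆ y := fun x hx g y hy =>
    hCA hy _ (hx.1.2 g)
  have hmul : ∀ x ∈ C, ∀ y ∈ C, (x * y) ^ e = x ^ e * y ^ e := by
    intro x hx y hy
    have h1 : ⁅y, x⁆ ^ p = 1 := by
      rw [← commutatorElement_pow_left_of_commute (hcomm y hy x y hy),
        commutatorElement_eq_one_iff_mul_comm]
      exact hCA hx _ hy.1.1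
    rw [mul_pow_of_commute_commutator (hcomm y hy x x hx) (hcomm y hy x y hy)]
    obtain ⟨k, hk⟩ : p ∣ e.choose 2 := by
      rw [he]
      split_ifs with h2
      · rw [h2]; decide
      · exact prime_dvd_choose_two Fact.out h2
    rw [hk, pow_mul, h1, one_pow, one_mul]
  let D : Subgroup P :=
    { carrier := {x | x ∈ C ∧ x ^ e = 1}
      one_mem' := ⟨one_mem _, one_pow _⟩
      mul_mem' := fun {x y} hx hy => ⟨mul_mem hx.1 hy.1, by
        rw [hmul x hx.1 y hy.1, hx.2, hy.2, one_mul]⟩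
      inv_mem' := fun {x} hx => ⟨inv_mem hx.1, by rw [inv_pow, hx.2, inv_one]⟩ }
  have hDC : D ≤ C := fun x hx => hx.1
  have hDi : Inv D := fun α hα x hx => ⟨hCi α hα x hx.1, by rw [← map_pow, hx.2, map_one]⟩
  haveI := hnormal D hDi
  have hDP : ⁅D, (⊤ : Subgroup P)⁆ ≤ D ⊓ centralizer (D : Set P) := by
    refine le_inf (commutator_le_left _ _) (commutator_le.mpr fun x hx g _ y hy => ?_)
    exact (hcomm x hx.1 g y hy.1).symm
  have hfaith : ∀ α ∈ G, (orderOf α).Coprime p → (∀ d ∈ D, α d = d) → α = 1 := by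
    intro α hα hαp h
    have h1 : ∀ x ∈ C, α x = x := by
      refine fix_of_omega (hP.to_subgroup C) hαp (hmap C hCi α hα) fun x hx hx' => h x ⟨hx, ?_⟩
      rw [he]
      split_ifs with h2
      · rcases hx' with h3 | h3
        · rw [show 4 = 2 * 2 by rfl, pow_mul, ← h2, h3, one_pow]
        · exact h3.2
      · exact hx'.resolve_right fun h3 => h2 h3.1
    refine mulAut_eq_one_of_stabilizes (hP.to_subgroup P₁) hαp (fun x => subset_closure
      ⟨⟨α, hα⟩, Cfsg.Agent.Lib.Transfer.mem_pResidual_of_coprime ?_, x, rfl⟩)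
      (fix_of_centralizer hP hcC hαp (hP₁i α hα) h1)
    rwa [← Subgroup.orderOf_coe]
  refine ⟨D, hmap D hDi, hDC.trans (inf_le_right.trans inf_le_left), fun d hd => ?_, hDP, hfaith,
    fun B hBD hB hmax => ?_⟩
  · have := hd.2
    rw [he] at this
    split_ifs at this with h2
    · exact Or.inr ⟨h2, this⟩
    · exact Or.inl this
  have hself : D ⊓ centralizer (B : Set P) ≤ B := by
    intro x hx
    rw [← hmax (B ⊔ zpowers x) le_sup_left (sup_le hBD (zpowers_le.mpr hx.1))
      (isMulCommutative_sup_zpowers hx.2)]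
    exact mem_sup_right (mem_zpowers x)
  haveI hBn : B.Normal := by
    apply normal_of_le_normalizer_top
    rw [le_normalizer_iff_commutator_le_left]
    exact (commutator_mono hBD le_rfl).trans (hDP.trans
      ((inf_le_inf_left _ (centralizer_le_centralizer hBD)).trans hself))
  refine ⟨hBn, fun α hα h => ?_⟩
  obtain ⟨k, hk⟩ := exists_pow_coprime p α
  have h1 : α ^ p ^ k = 1 := by
    refine hfaith _ (pow_mem hα _) hk (fix_of_centralizer hP hself hk (hDi _ (pow_mem hα _))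
      fun x hx => ?_)
    have : zpowers α ≤ MulAction.stabilizer (MulAut P) x := zpowers_le.mpr (h x hx)
    exact this (pow_mem (mem_zpowers α) _)
  obtain ⟨j, -, hj⟩ := (Nat.dvd_prime_pow Fact.out).mp (orderOf_dvd_of_pow_eq_one h1)
  exact ⟨j, hj⟩

end Cfsg.Agent.S1949
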