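import Cfsg.Statements.S1952
import Cfsg.Agent.Lib.Core.Syl
import Cfsg.Agent.Lib.PGroup.Basic
-- import your own Cfsg.Agent.* helpers here

set_option autoImplicit false
open Cfsg

namespace Cfsg.Agent.S1952

open Cfsg.Agent.Lib.Core Subgroup
open scoped Pointwise commutatorElement

open Cfsg.Agent.Lib.PGroup

theorem shift_fixed {p : ℕ} [hp : Fact p.Prime] (U : AddSubgroup (ZMod p → ZMod p))
    (hU : ∀ c ∈ U, (fun i => c (i - 1)) ∈ U) (hne : U ≠ ⊥) :
    ∃ a : ZMod p, a ≠ 0 ∧ (fun _ => a) ∈ U := by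
  classical
  have hiter : ∀ (n : ℕ) (c : U), (fun i => c.1 (i - n)) ∈ U := by
    intro n c
    induction n with
    | zero => simp
    | succ n ih =>
      have := hU _ ih
      simpa [sub_sub, add_comm] using this
  let f : U → U := fun c => ⟨_, hU c.1 c.2⟩
  have hf : Function.Injective f := fun c d h => by
    ext i
    have := congrFun (congrArg Subtype.val h) (i + 1)
    simpa [f] using this
  let σ : Equiv.Perm U := Equiv.ofBijective f hf.bijective_of_finite
  have hσ : ∀ (n : ℕ) (c : U) (i : ZMod p), ((σ ^ n) c).1 i = c.1 (i - n) := by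
    intro n
    induction n with
    | zero => simp
    | succ n ih =>
      intro c i
      rw [pow_succ', Equiv.Perm.mul_apply]
      change ((σ ^ n) c).1 (i - 1) = _
      rw [ih]; simp [sub_sub, add_comm]
  obtain ⟨⟨c, hc⟩, hc0⟩ := AddSubgroup.ne_bot_iff_exists_ne_zero.mp hne
  have hdvd : p ∣ Fintype.card U := by
    have h1 : addOrderOf (⟨c, hc⟩ : U) = p := addOrderOf_eq_prime (by
      ext i; simp) hc0
    exact h1.symm.dvd.trans addOrderOf_dvd_card
  obtain ⟨b, hb, hb0⟩ := Equiv.Perm.exists_fixed_point_of_prime' (n := 1) (σ := σ) hdvd (by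
    ext c i
    rw [hσ]; simp) (a := 0) rfl
  have hconst : ∀ i, b.1 i = b.1 0 := by
    intro i
    have := hσ i.val b i
    rw [Equiv.Perm.pow_apply_eq_self_of_apply_eq_self hb] at this
    simpa using this
  refine ⟨b.1 0, fun h => hb0 ?_, ?_⟩
  · ext i; rw [hconst, h]; rfl
  · convert b.2 using 1
    ext i; rw [hconst i]

/-- Let P be a finite p-group with a normal elementary abelian subgroup A of index p, and let x ∈ A and y ∈ P with y outside A. If the product of the p conjugates y^(-i) x y^i (i = 0, …, p−1) is not the identity, then the wreath product Z_p ≀ Z_p, realised as a Sylow p-subgroup of the symmetric group of degree p², is a homomorphic image of P. -/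
theorem result {P : Type*} [Group P] [Finite P] {p : ℕ} [Fact p.Prime] (hP : IsPGroup p P) (A : Subgroup P) [A.Normal]
    (hA : Cfsg.IsElementaryAbelian p A) (hidx : A.index = p) (x y : P) (hx : x ∈ A) (hy : y ∉ A)
    (hprod : ((List.range p).map (fun i => (y ^ i)⁻¹ * x * y ^ i)).prod ≠ 1) :
    ∃ (Q : Sylow p (Equiv.Perm (Fin (p ^ 2)))) (f : P →* ↥(Q : Subgroup (Equiv.Perm (Fin (p ^ 2))))), Function.Surjective f := by
  classical
  have hp : p.Prime := Fact.out
  haveI := hA.1
  letI : CommGroup A := { (inferInstance : Group A) with mul_comm := mul_comm' }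
  have hAp : IsPGroup p A := hP.to_subgroup A
  let X : ℕ → A := fun n => ⟨(y ^ n)⁻¹ * x * y ^ n, Normal.conj_mem' inferInstance x hx _⟩
  have hN : (∏ i : ZMod p, X i.val) ≠ 1 := by
    intro h
    apply hprod
    have h1 : ∏ i : ZMod p, X i.val = ∏ i ∈ Finset.range p, X i :=
      Finset.prod_nbij' ZMod.val (fun n => (n : ZMod p))
        (fun i _ => Finset.mem_range.mpr (ZMod.val_lt i)) (fun _ _ => Finset.mem_univ _)
        (fun i _ => by simp) (fun n hn => ZMod.val_cast_of_lt (Finset.mem_range.mp hn))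
        (fun _ _ => rfl)
    have h2 : ∏ i ∈ Finset.range p, X i = ((List.range p).map X).prod := rfl
    have h3 := map_list_prod A.subtype ((List.range p).map X)
    rw [← h2, ← h1, h, map_one, List.map_map] at h3
    exact h3.symm
  have hΦ : frattini A = ⊥ := (frattini_eq_bot_iff hAp).mpr
    ⟨inferInstance, fun a => Subtype.ext (hA.2 a a.2)⟩
  obtain ⟨M, hM, hNM⟩ : ∃ M : Subgroup A, IsCoatom M ∧ (∏ i : ZMod p, X i.val) ∉ M := by
    by_contra! h
    exact hN (mem_bot.mp (hΦ ▸ mem_frattini_iff.mpr h))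
  set B := M.map A.subtype with hB
  have hBi : B.index = p ^ 2 := by
    rw [hB, index_map_subtype, coatom_index hAp hM, hidx, pow_two]
  set K := B.normalCore with hK
  have hKA : K ≤ A := B.normalCore_le.trans (map_subtype_le _)
  have hXp : ∀ a : A, a ^ p = 1 := fun a => Subtype.ext (hA.2 a a.2)
  let F : (ZMod p → ZMod p) → A := fun c => ∏ i, X i.val ^ (c i).val
  have hFadd : ∀ c d, F (c + d) = F c * F d := by
    intro c d
    rw [← Finset.prod_mul_distrib]
    refine Finset.prod_congr rfl fun i _ => ?_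
    rw [Pi.add_apply, ZMod.val_add, ← pow_eq_pow_mod _ (hXp _), pow_add]
  let ψ : Multiplicative (ZMod p → ZMod p) →* A ⧸ K.subgroupOf A :=
    (QuotientGroup.mk' _).comp (MonoidHom.mk' (fun c => F c.toAdd) fun c d => hFadd _ _)
  have hyp : y ^ p ∈ A := by rw [← hidx]; exact A.pow_index_mem y
  have hXper : ∀ n, X (n % p) = X n := by
    intro n
    apply Subtype.ext
    change (y ^ (n % p))⁻¹ * x * y ^ (n % p) = (y ^ n)⁻¹ * x * y ^ n
    conv_rhs => rw [← Nat.div_add_mod n p, pow_add, pow_mul]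
    have := setLike_mul_comm hx (pow_mem hyp (n / p))
    rw [mul_inv_rev, mul_assoc, mul_assoc, mul_assoc, ← mul_assoc x, this]
    group
  let τ : A →* A := (MulAut.conjNormal y⁻¹ : MulAut A).toMonoidHom
  have hτ : ∀ i : ZMod p, τ (X i.val) = X (i + 1).val := by
    intro i
    rw [ZMod.val_add, ZMod.val_one, hXper]
    apply Subtype.ext
    change y⁻¹ * ((y ^ i.val)⁻¹ * x * y ^ i.val) * y⁻¹⁻¹ = (y ^ (i.val + 1))⁻¹ * x * y ^ (i.val + 1)
    group
  have hinj : Function.Injective ψ := by
    rw [← MonoidHom.ker_eq_bot_iff]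
    by_contra hne
    have hmem : ∀ c, c ∈ Subgroup.toAddSubgroup' ψ.ker ↔ ((F c : A) : P) ∈ K := fun c =>
      QuotientGroup.eq_one_iff (N := K.subgroupOf A) (F c)
    obtain ⟨a, ha, haU⟩ := shift_fixed (Subgroup.toAddSubgroup' ψ.ker) (fun c hc => by
      rw [hmem] at hc ⊢
      have : F (fun i => c (i - 1)) = τ (F c) := by
        rw [map_prod]
        refine (Fintype.prod_equiv (Equiv.addRight 1) _ _ fun i => ?_).symm
        simp [hτ]
      rw [this]
      exact Normal.conj_mem inferInstance _ hc y⁻¹) (by simpa using hne)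
    rw [hmem] at haU
    obtain ⟨z, hz, e⟩ := B.normalCore_le haU
    have e' : z = (∏ i : ZMod p, X i.val) ^ a.val := by
      rw [← Finset.prod_pow]; exact Subtype.ext e
    rw [e'] at hz
    apply hNM
    obtain ⟨j, hj⟩ := exists_pow_eq_self_of_coprime (x := ∏ i : ZMod p, X i.val) (n := a.val)
      (Nat.Coprime.coprime_dvd_right (orderOf_dvd_of_pow_eq_one (hXp _))
        (Nat.coprime_comm.mp ((Nat.Prime.coprime_iff_not_dvd hp).mpr
          (Nat.not_dvd_of_pos_of_lt (ZMod.val_pos.mpr ha) (ZMod.val_lt a)))))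
    rw [← hj]
    exact pow_mem hz j
  have hKi : p ^ (p + 1) ≤ K.index := by
    have := Nat.card_le_card_of_injective ψ hinj
    rw [← relIndex_mul_index hKA, hidx, pow_succ]
    refine Nat.mul_le_mul_right _ (le_trans (le_of_eq ?_) this)
    simp
  let e : (P ⧸ B) ≃ Fin (p ^ 2) := Finite.equivFinOfCardEq hBi
  let f₀ : P →* Equiv.Perm (Fin (p ^ 2)) :=
    e.permCongrHom.toMonoidHom.comp (MulAction.toPermHom P (P ⧸ B))
  have hker : f₀.ker = K := by
    rw [hK, normalCore_eq_ker]
    ext g
    simp only [f₀, MonoidHom.mem_ker, MonoidHom.comp_apply, MulEquiv.coe_toMonoidHom,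
      map_eq_one_iff _ e.permCongrHom.injective]
  obtain ⟨Q, hQ⟩ := (hP.of_surjective _ f₀.rangeRestrict_surjective).exists_le_sylow
  have hQc : Nat.card Q = p ^ (p + 1) := by
    rw [Q.card_eq_multiplicity, Nat.card_perm, Nat.card_eq_fintype_card, Fintype.card_fin, pow_two,
      Nat.factorization_factorial_mul hp]
    have := Nat.factorization_factorial_mul (n := 1) hp
    rw [mul_one] at this
    rw [this, add_comm]; simp
  have heq : f₀.range = Q := eq_of_le_of_card_ge hQ (by rwa [hQc, ← index_ker, hker])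
  refine ⟨Q, f₀.codRestrict _ fun g => hQ ⟨g, rfl⟩, fun q => ?_⟩
  obtain ⟨g, hg⟩ : (q : Equiv.Perm (Fin (p ^ 2))) ∈ f₀.range := heq.ge q.2
  exact ⟨g, Subtype.ext hg⟩

end Cfsg.Agent.S1952
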