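import Cfsg.Statements.S1953
import Cfsg.Agent.Lib.Glaub.FusNormal

set_option autoImplicit false
open Cfsg

namespace Cfsg.Agent.S1953

/-- Let p be an odd prime and P a Sylow p-subgroup of the finite group G, and suppose that for no p-subgroup Q of G does N_G(Q)/C_G(Q) have a section isomorphic to SL₂(p). Call a subgroup Q of P centric-radical when Z(Q) is a Sylow p-subgroup of C_G(Q) and the only normal subgroup X of N_G(Q) containing Q·C_G(Q) such that the index of Q·C_G(Q) in X is a power of p is Q·C_G(Q) itself (that is, N_G(Q)/Q·C_G(Q) has no nontrivial normal p-subgroup). Then there is a centric-radical subgroup Q of P contained in every centric-radical subgroup of P; it is normal in P, and N_G(Q) controls strong fusion in P: whenever a subgroup A of P has g A g⁻¹ ≤ P, the element g is a product h c with h in N_G(Q) and c centralizing A. -/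
theorem result {G : Type*} [Group G] [Finite G] {p : ℕ} [Fact p.Prime] (hp : p ≠ 2) (P : Sylow p G)
    (hfree : ∀ Q : Subgroup G, IsPGroup p ↥Q → ¬ ∃ (H K : Subgroup G) (_ : (K.subgroupOf H).Normal),
      Subgroup.centralizer (Q : Set G) ≤ K ∧ K ≤ H ∧ H ≤ Subgroup.normalizer (Q : Set G) ∧
      Nonempty ((↥H ⧸ K.subgroupOf H) ≃* Matrix.SpecialLinearGroup (Fin 2) (ZMod p)))
    (cr : Subgroup G → Prop)
    (hcr : ∀ Q : Subgroup G, cr Q ↔ (Q ≤ (P : Subgroup G) ∧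
      (∃ R : Sylow p ↥(Subgroup.centralizer (Q : Set G)),
        (R : Subgroup ↥(Subgroup.centralizer (Q : Set G))).map (Subgroup.centralizer (Q : Set G)).subtype = Q ⊓ Subgroup.centralizer (Q : Set G)) ∧
      ∀ X : Subgroup G, X ≤ Subgroup.normalizer (Q : Set G) →
        (∀ n ∈ Subgroup.normalizer (Q : Set G), X.map (MulAut.conj n).toMonoidHom = X) →
        Q ⊔ Subgroup.centralizer (Q : Set G) ≤ X → (∃ k : ℕ, (Q ⊔ Subgroup.centralizer (Q : Set G)).relIndex X = p ^ k) →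
        X = Q ⊔ Subgroup.centralizer (Q : Set G))) :
    ∃ Q : Subgroup G, cr Q ∧ (∀ R : Subgroup G, cr R → Q ≤ R) ∧ (∀ x ∈ (P : Subgroup G), Q.map (MulAut.conj x).toMonoidHom = Q) ∧
      ∀ A : Subgroup G, A ≤ (P : Subgroup G) → ∀ g : G, A.map (MulAut.conj g).toMonoidHom ≤ (P : Subgroup G) →
        ∃ h ∈ Subgroup.normalizer (Q : Set G), ∃ c ∈ Subgroup.centralizer (A : Set G), g = h * c := by
  open Subgroup Cfsg.Agent.Lib Cfsg.Agent.Lib.Core Cfsg.Agent.Lib.Glaub in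
  (
  have hP := isSyl_sylow P
  have hq : ¬ IsSec (qd p) G := fun h => by
    obtain ⟨Q, H, ρ, h1, h2, h3, h4⟩ := exists_automizer_of_natConf h natConf_qd
    have e := subgroupOf_map_subtype_self ρ.ker
    haveI hn : ((ρ.ker.map H.subtype).subgroupOf H).Normal := e.symm ▸ inferInstance
    exact hfree Q h1 ⟨H, ρ.ker.map H.subtype, hn, h4, map_subtype_le _, h2,
      ⟨(QuotientGroup.quotientMulEquivOfEq e).trans
        (QuotientGroup.quotientKerEquivOfSurjective ρ h3)⟩⟩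
  obtain ⟨Q, hQ, hmax, hc⟩ := exists_fn_centric hp hq hP
  have hPN : (P : Subgroup G) ≤ 𝐍(Q) := hQ.sc.le_normalizer le_top
  have hCN : 𝐂(Q) ≤ 𝐍(Q) := centralizer_le_normalizer _
  have hP' := hP.mono hPN le_top
  have hnC : 𝐍(Q) ≤ 𝐍(Q ⊔ 𝐂(Q)) := le_normalizer_sup le_rfl (le_normalizer_centralizer le_rfl)
  refine ⟨Q, (hcr Q).mpr ⟨hQ.le, ?_, fun X hX hXn hQX ⟨k, hk⟩ => ?_⟩, fun R hR => ?_,
    fun x hx => map_conj_eq_iff.mpr (hPN hx), fun A hA g hg => ?_⟩
  · have := hP'.inf_normal hCN (le_normalizer_centralizer le_rfl)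
    rw [show (P : Subgroup G) ⊓ 𝐂(Q) = Q ⊓ 𝐂(Q) from
      le_antisymm (le_inf hc inf_le_right) (inf_le_inf_right _ hQ.le)] at this
    exact this.exists_sylow_map
  · have hXn' : 𝐍(Q) ≤ 𝐍(X) := fun n hn => map_conj_eq_iff.mp (hXn n hn)
    have h1 := hP'.inf_normal hX hXn'
    have h2 : X ≤ ((P : Subgroup G) ⊓ X) ⊔ (Q ⊔ 𝐂(Q)) := by
      have a : ((P : Subgroup G) ⊓ X) ⊔ (Q ⊔ 𝐂(Q)) ≤ X := sup_le inf_le_right hQX
      rw [← relIndex_eq_one]
      have b := h1.not_dvd_relIndex (K := ((P : Subgroup G) ⊓ X) ⊔ (Q ⊔ 𝐂(Q))) le_sup_left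
      have c := relIndex_dvd_of_le_left X (le_sup_right : Q ⊔ 𝐂(Q) ≤ ((P : Subgroup G) ⊓ X) ⊔ (Q ⊔ 𝐂(Q)))
      rw [hk] at c
      exact (Nat.Coprime.eq_one_of_dvd (((Nat.Prime.coprime_iff_not_dvd Fact.out).mpr b).symm.pow_right
        k) c)
    have hQC : Q ⊔ 𝐂(Q) ≤ 𝐍(Q) := sup_le le_normalizer hCN
    haveI : ((Q ⊔ 𝐂(Q)).subgroupOf 𝐍(Q)).Normal := (normal_subgroupOf_iff_le_normalizer hQC).mpr hnC
    haveI : (X.subgroupOf 𝐍(Q)).Normal := (normal_subgroupOf_iff_le_normalizer hX).mpr hXn'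
    let π := QuotientGroup.mk' ((Q ⊔ 𝐂(Q)).subgroupOf 𝐍(Q))
    have h3 : X.subgroupOf 𝐍(Q) ≤ (P : Subgroup G).subgroupOf 𝐍(Q) ⊔ 𝐂(Q.subgroupOf 𝐍(Q)) := by
      rw [← subgroupOf_centralizer_eq le_normalizer, ← subgroupOf_sup hPN hCN]
      exact comap_mono (h2.trans (sup_le (le_sup_of_le_left inf_le_left)
        (sup_le_sup_right hQ.le _)))
    haveI : ((X.subgroupOf 𝐍(Q)).map π).Normal :=
      Subgroup.Normal.map inferInstance _ (QuotientGroup.mk'_surjective _)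
    have h0 : ((X.subgroupOf 𝐍(Q)).map π).comap π = X.subgroupOf 𝐍(Q) :=
      comap_map_mk'_of_le (comap_mono hQX)
    have h4 := fn_lift π (P := (P : Subgroup G).subgroupOf 𝐍(Q)) (Q := Q.subgroupOf 𝐍(Q))
      (X := X.subgroupOf 𝐍(Q)) (by simpa using hP'.subgroupOf le_rfl) (comap_mono hQ.le) h3
      (fun x hx => by
        have : (x : G) ∈ (Q ⊔ 𝐂(Q)) ⊓ P := ⟨(QuotientGroup.eq_one_iff x).mp hx.2, hx.1⟩
        rw [sup_inf_of_le_normalizer_left hQ.le hCN, inf_comm] at this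
        exact sup_le le_rfl hc this)
      (W := (X.subgroupOf 𝐍(Q)).map π) (fn_of_le_normalizer (by
        refine (map_mono h3).trans ?_
        rw [Subgroup.map_sup, ← subgroupOf_centralizer_eq le_normalizer]
        exact sup_le le_rfl (((map_mk'_eq_bot_iff (V := (Q ⊔ 𝐂(Q)).subgroupOf 𝐍(Q))).mpr
          (comap_mono le_sup_right)).le.trans bot_le))
        le_normalizer_of_normal)
      (by rw [h0]; exact inf_le_right)
    rw [h0] at h4
    have h5 := hmax _ (hQ.of_local hPN h4)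
    refine le_antisymm (h2.trans (sup_le (fun x hx => mem_sup_left (h5 ?_)) le_rfl)) hQX
    exact ⟨⟨x, hPN hx.1⟩, hx, rfl⟩
  · obtain ⟨hRP, ⟨S, hS⟩, hrad⟩ := (hcr R).mp hR
    have h1 : (P : Subgroup G) ⊓ 𝐂(R) ≤ R := by
      have := isSyl_map_subtype S
      rw [hS] at this
      rw [this.eq_of_le (P.2.to_le inf_le_left) (inf_le_inf_right _ hRP) inf_le_right]
      exact inf_le_left
    have hRC : R ⊔ 𝐂(R) ≤ 𝐍(R) := sup_le le_normalizer (centralizer_le_normalizer _)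
    have hn : 𝐍(R) ≤ 𝐍(R ⊔ 𝐂(R)) := le_normalizer_sup le_rfl (le_normalizer_centralizer le_rfl)
    have h2 := hrad ((Q ⊓ 𝐍(R)) ⊔ (R ⊔ 𝐂(R))) (sup_le inf_le_right hRC) (fun g hg => by
      obtain ⟨n, hn', c, hc', rfl⟩ := hQ.ctrl R hRP g (mem_top g)
        (by rw [map_conj_eq_iff.mpr hg]; exact hRP)
      have hnR : n ∈ 𝐍(R) := by simpa using mul_mem hg (inv_mem (centralizer_le_normalizer _ hc'))
      exact map_conj_eq_iff.mpr (mul_mem (normalizer_inf_normalizer_le_normalizer_sup _ _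
        ⟨le_normalizer_inf (H := 𝐍(Q) ⊓ 𝐍(R)) inf_le_left (le_normalizer_of_le inf_le_right)
          ⟨hn'.2, hnR⟩, hn hnR⟩) (le_normalizer (mem_sup_right (mem_sup_right hc')))))
      le_sup_right (by
        rw [relIndex_sup_of_le_normalizer (inf_le_right.trans hn)]
        obtain ⟨k, hk⟩ := (P.2.to_le ((inf_le_left (b := 𝐍(R))).trans hQ.le)).exists_card_eq
        obtain ⟨l, -, hl⟩ := (Nat.dvd_prime_pow Fact.out).mp (hk ▸ relIndex_dvd_card (R ⊔ 𝐂(R)) _)
        exact ⟨l, hl⟩)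
    by_contra hQR
    obtain ⟨w, hw, hwR, hw'⟩ := exists_mem_normalizer_not_mem (P.2.to_le hQ.le) (P.2.to_le hRP)
      (hRP.trans hPN) hQR
    have : w ∈ (R ⊔ 𝐂(R)) ⊓ P := ⟨h2.le (mem_sup_left ⟨hw, hwR⟩), hQ.le hw⟩
    rw [sup_inf_of_le_normalizer_left hRP (centralizer_le_normalizer _), inf_comm] at this
    exact hw' (sup_le le_rfl h1 this)
  · obtain ⟨n, hn, c, hc', e⟩ := hQ.ctrl A hA g (mem_top g) hg
    exact ⟨n, hn.2, c, hc', e⟩
  )

end Cfsg.Agent.S1953
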