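import Cfsg.Statements.S1954
import Cfsg.Agent.Lib.Glaub.FusNormal

set_option autoImplicit false
open Cfsg

namespace Cfsg.Agent.S1954

/-- Let N be a normal subgroup of the finite group G, P a Sylow p-subgroup of G, and V a subgroup of P ∩ N normal in P ∩ N such that N_N(V) controls strong fusion in P ∩ N with respect to N (whenever a subgroup A of P ∩ N has n A n⁻¹ ≤ P ∩ N for some n in N, then n = h c with h in N_N(V) and c in C_N(A)). Let W be the subgroup generated by the conjugates of V under N_G(P ∩ N). Then N_G(W) controls strong fusion in P with respect to G. -/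
theorem result {G : Type*} [Group G] [Finite G] {p : ℕ} [Fact p.Prime] (N : Subgroup G) [N.Normal] (P : Sylow p G) (V : Subgroup G)
    (hV : V ≤ (P : Subgroup G) ⊓ N) (hVn : ∀ x ∈ (P : Subgroup G) ⊓ N, V.map (MulAut.conj x).toMonoidHom = V)
    (hctrl : ∀ A : Subgroup G, A ≤ (P : Subgroup G) ⊓ N → ∀ n ∈ N, A.map (MulAut.conj n).toMonoidHom ≤ (P : Subgroup G) ⊓ N →
      ∃ h ∈ N ⊓ Subgroup.normalizer (V : Set G), ∃ c ∈ N ⊓ Subgroup.centralizer (A : Set G), n = h * c)
    (W : Subgroup G) (hW : W = Subgroup.closure (⋃ x ∈ Subgroup.normalizer (((P : Subgroup G) ⊓ N : Subgroup G) : Set G),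
      ((V.map (MulAut.conj x).toMonoidHom : Subgroup G) : Set G))) :
    ∀ A : Subgroup G, A ≤ (P : Subgroup G) → ∀ g : G, A.map (MulAut.conj g).toMonoidHom ≤ (P : Subgroup G) →
        ∃ h ∈ Subgroup.normalizer (W : Set G), ∃ c ∈ Subgroup.centralizer (A : Set G), g = h * c := by
  open Subgroup Cfsg.Agent.Lib Cfsg.Agent.Lib.Core Cfsg.Agent.Lib.Glaub in
  (
  have hP := isSyl_sylow P
  have h1 : FN N (P ⊓ N) V := ⟨hV, fun A hA n hn hnA => by
    obtain ⟨h, hh, c, hc, e⟩ := hctrl A hA n hn hnA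
    exact ⟨h, hh, c, hc.2, e⟩⟩
  have hle : ∀ x ∈ 𝐍((P : Subgroup G) ⊓ N), cj(x, V) ≤ W := fun x hx y hy => by
    rw [hW]; exact subset_closure (Set.mem_biUnion hx hy)
  obtain ⟨W₀, -, ⟨h2, h3⟩, hmax⟩ := exists_maximal_subgroup
    (P := fun K => FN N (P ⊓ N) K ∧ K ≤ W) (H := ⊥)
    ⟨fn_of_le_normalizer bot_le le_normalizer_of_normal, bot_le⟩
  have h4 : W₀ = W := le_antisymm h3 (by
    rw [hW, closure_le, Set.iUnion₂_subset_iff]
    intro x hx
    exact (le_sup_right : cj(x, V) ≤ W₀ ⊔ cj(x, V)).trans (hmax _ ⟨h2.sup (h1.conj (le_normalizer_of_normal (mem_top x)) hx),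
      sup_le h3 (hle x hx)⟩ le_sup_left).le)
  subst h4
  have h5 := FN.of_normal hP le_top le_normalizer_of_normal h2 fun g hg => by
    refine mem_normalizer_of_cj_le ?_
    conv_lhs => rw [hW]
    rw [MonoidHom.map_closure, closure_le, Set.image_subset_iff, Set.iUnion₂_subset_iff]
    intro x hx y hy
    refine hle (g * x) (mul_mem hg.2 hx) ?_
    rw [← map_conj_map_conj]
    exact mem_map_of_mem _ hy
  intro A hA g hg
  obtain ⟨n, hn, c, hc, e⟩ := h5.ctrl A hA g (mem_top g) hg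
  exact ⟨n, hn.2, c, hc, e⟩
  )

end Cfsg.Agent.S1954
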