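import Cfsg.Statements.S1956
import Cfsg.Agent.Lib.Core.Syl
-- import your own Cfsg.Agent.* helpers here

set_option autoImplicit false
open Cfsg

namespace Cfsg.Agent.S1956

open Cfsg.Agent.Lib.Core Subgroup
open scoped Pointwise commutatorElement


/-- Let P be a Sylow p-subgroup of the finite group G such that every element of P of order dividing p (dividing 4 when p = 2) is central in P. Then the fusion of these elements is controlled by N_G(P): if such an element a of P has g a g⁻¹ in P, then g = n c with n normalizing P and c commuting with a. -/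
theorem result {G : Type*} [Group G] [Finite G] {p : ℕ} [Fact p.Prime] (P : Sylow p G)
    (hcen : ∀ a ∈ (P : Subgroup G), (a ^ p = 1 ∨ (p = 2 ∧ a ^ 4 = 1)) → ∀ y ∈ (P : Subgroup G), a * y = y * a) :
    ∀ a ∈ (P : Subgroup G), (a ^ p = 1 ∨ (p = 2 ∧ a ^ 4 = 1)) → ∀ g : G, g * a * g⁻¹ ∈ (P : Subgroup G) →
      ∃ n ∈ Subgroup.normalizer ((P : Subgroup G) : Set G), ∃ c : G, c * a = a * c ∧ g = n * c := by
  intro a ha hap g hg
  have hap' : (g * a * g⁻¹) ^ p = 1 ∨ (p = 2 ∧ (g * a * g⁻¹) ^ 4 = 1) := by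
    rcases hap with h | ⟨h, h'⟩
    · left; rw [conj_pow, h]; simp
    · right; refine ⟨h, ?_⟩; rw [conj_pow, h']; simp
  have h1 : (P : Subgroup G) ≤ centralizer {a} := by
    rintro x hx _ rfl
    exact hcen _ ha hap x hx
  have h2 : (P : Subgroup G).map (MulAut.conj g⁻¹).toMonoidHom ≤ centralizer {a} := by
    rw [map_conj_le_iff]
    intro x hx
    rw [mem_centralizer_singleton_iff]
    have := hcen _ hg hap' x hx
    calc _ = g⁻¹ * (x * (g * a * g⁻¹)) * g := by group
      _ = g⁻¹ * (g * a * g⁻¹ * x) * g := by rw [this]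
      _ = _ := by group
  have h3 := (isSyl_sylow P).mono h1 le_top
  have h4 := ((isSyl_sylow P).conj_of_mem_normalizer (g := g⁻¹)
    (by rw [normalizer_eq_top]; trivial)).mono h2 le_top
  obtain ⟨c, hc, hcP⟩ := h3.exists_conj h4
  have h5 : g * c ∈ normalizer ((P : Subgroup G) : Set G) := by
    rw [← map_conj_eq_iff, ← map_conj_map_conj, hcP, map_conj_map_conj_inv]
  refine ⟨g * c, h5, c⁻¹, ((inv_mem hc) a rfl).symm, by group⟩

end Cfsg.Agent.S1956
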