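import Cfsg.Statements.S2001
import Cfsg.Agent.Lib.Glaub.Control

set_option autoImplicit false
open Cfsg

namespace Cfsg.Agent.S2001

/-- Let p be a prime dividing the order of the finite group G, P a Sylow p-subgroup, W a conjugacy functor for p on G with Z(H) ≤ W(H) for every nontrivial p-subgroup H, and V a central functor: a conjugacy functor with V(H) ≤ Z(H), and V(H) ≤ V(K) whenever Z(H) ≤ Z(K), for nontrivial p-subgroups H, K. Say that W with V controls transfer in a subgroup L when some Sylow p-subgroup Q of L satisfies Q ∩ L' = (Q ∩ (N_L(W(Q)))')·(Q ∩ (C_L(V(Q)))') as a product of two subgroups. If W with V controls transfer in N_G(H) for every subgroup H with Z(P) ≤ H ≤ P, then W with V controls transfer in G. -/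
theorem result {G : Type*} [Group G] [Finite G] {p : ℕ} [Fact p.Prime] (hdiv : p ∣ Nat.card G) (P : Sylow p G) (W V : Subgroup G → Subgroup G) (hW : Cfsg.IsConjugacyFunctor p W) (hV : Cfsg.IsConjugacyFunctor p V) (hWZ : ∀ H : Subgroup G, IsPGroup p ↥H → H ⊓ Subgroup.centralizer ((H : Subgroup G) : Set G) ≤ W H) (hVZ : ∀ H : Subgroup G, IsPGroup p ↥H → V H ≤ H ⊓ Subgroup.centralizer ((H : Subgroup G) : Set G)) (hVmono : ∀ H K : Subgroup G, IsPGroup p ↥H → IsPGroup p ↥K → H ≠ ⊥ → K ≠ ⊥ → H ⊓ Subgroup.centralizer ((H : Subgroup G) : Set G) ≤ K ⊓ Subgroup.centralizer ((K : Subgroup G) : Set G) → V H ≤ V K) (hloc : ∀ H : Subgroup G, (P : Subgroup G) ⊓ Subgroup.centralizer (((P : Subgroup G) : Subgroup G) : Set G) ≤ H → H ≤ (P : Subgroup G) → ∃ Q : Subgroup G, Q ≤ Subgroup.normalizer ((H : Subgroup G) : Set G) ∧ IsPGroup p ↥Q ∧ ¬ p ∣ (Q).relIndex (Subgroup.normalizer ((H : Subgroup G)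 : Set G)) ∧ ∀ x : G, x ∈ Q ⊓ ⁅Subgroup.normalizer ((H : Subgroup G) : Set G), Subgroup.normalizer ((H : Subgroup G) : Set G)⁆ ↔ ∃ a ∈ Q ⊓ ⁅Subgroup.normalizer ((H : Subgroup G) : Set G) ⊓ Subgroup.normalizer ((W Q : Subgroup G) : Set G), Subgroup.normalizer ((H : Subgroup G) : Set G) ⊓ Subgroup.normalizer ((W Q : Subgroup G) : Set G)⁆, ∃ b ∈ Q ⊓ ⁅Subgroup.normalizer ((H : Subgroup G) : Set G) ⊓ Subgroup.centralizer ((V Q : Subgroup G) : Set G), Subgroup.normalizer ((H : Subgroup G) : Set G) ⊓ Subgroup.centralizer ((V Q : Subgroup G) : Set G)⁆, x = a * b) : ∃ Q : Subgroup G, IsPGroup p ↥Q ∧ ¬ p ∣ Q.index ∧ ∀ x : G, x ∈ Q ⊓ commutator G ↔ ∃ a ∈ Q ⊓ ⁅Subgroup.normalizer ((W Q : Subgroup G) : Set G), Subgroup.normalizer ((W Q : Subgroup G) : Set G)⁆, ∃ b ∈ Q ⊓ ⁅Subgroup.centralizer ((V Q : Subgroup G) : Set G), Subgroup.centralizer ((V Q : Subgroup G) : Set G)⁆, x = a * b := by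
  open Subgroup Cfsg.Agent.Lib.Core Cfsg.Agent.Lib.Glaub in
  (
  have hW' : ∀ L : Subgroup G, IsCF p L W := isCF_of_isConjugacyFunctor hW
  have hV' : ∀ L : Subgroup G, IsCF p L V := isCF_of_isConjugacyFunctor hV
  have hS := isSyl_sylow P
  set S : Subgroup G := (P : Subgroup G) with hSdef
  have hS1 : S ≠ ⊥ := hS.ne_bot (by rwa [card_top])
  have hZ1 : S ⊓ 𝐂(S) ≠ ⊥ := inf_centralizer_ne_bot hS.isPGroup hS.isPGroup le_normalizer hS1
  let F : Subgroup G → Subgroup G → Subgroup G := fun L T =>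
    (T ⊓ ⁅L ⊓ 𝐍(W T), L ⊓ 𝐍(W T)⁆) ⊔ (T ⊓ ⁅L ⊓ 𝐂(V T), L ⊓ 𝐂(V T)⁆)
  have hloc' : ∀ U, S ⊓ 𝐂(S) ≤ U → U ≤ S → IsSyl p (S ⊓ 𝐍(U)) 𝐍(U) →
      (S ⊓ 𝐍(U)) ⊓ ⁅𝐍(U), 𝐍(U)⁆ ≤ F 𝐍(U) (S ⊓ 𝐍(U)) := by
    intro U h1 h2 h3
    obtain ⟨Q, q1, q2, q3, q4⟩ := hloc U h1 h2
    refine transfer_transport (F := F 𝐍(U)) ⟨q1, q2, q3⟩ h3 (fun l hl => ?_) (fun x hx => ?_)
    · simp only [F]
      rw [Subgroup.map_sup, map_conj_inf, map_conj_inf, cj_commutator, cj_commutator,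
        (hW' _).cj_inf_normalizer q2 hl, (hV' _).cj_inf_centralizer q2 hl]
    · obtain ⟨a, ha, b, hb, rfl⟩ := (q4 x).mp hx
      exact mul_mem_sup ha hb
  have key := wellPlaced_induction (hW' ⊤) hS (P := fun U => S ⊓ 𝐂(S) ≤ U →
      (S ⊓ 𝐍(U)) ⊓ ⁅𝐍(U), 𝐍(U)⁆ ≤ F ⊤ S) (by
    intro U hU IH hZ
    have h3 := hU.isSyl
    rw [top_inf_eq] at h3
    have hZQ : S ⊓ 𝐂(S) ≤ (S ⊓ 𝐍(U)) ⊓ 𝐂(S ⊓ 𝐍(U)) :=
      le_inf (hZ.trans (le_inf hU.1 le_normalizer))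
        (inf_le_right.trans (centralizer_le_centralizer inf_le_left))
    have hQ1 : S ⊓ 𝐍(U) ≠ ⊥ := fun h => hZ1 (le_bot_iff.mp (h ▸ hZQ.trans inf_le_left))
    refine (hloc' U hZ hU.1 h3).trans (sup_le ?_ ?_)
    · rcases (inf_le_left : S ⊓ 𝐍(U) ≤ S).lt_or_eq with hlt | heq
      · have h1 := (lt_inf_normalizer_next (hW' ⊤) hS hlt).le
        exact (inf_le_inf h1 (commutator_mono inf_le_right inf_le_right)).trans
          (IH hlt (hZQ.trans (hWZ _ h3.isPGroup)))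
      · rw [heq]
        refine le_sup_of_le_left (inf_le_inf_left _ (commutator_mono ?_ ?_)) <;>
          exact inf_le_inf_right _ le_top
    · have h4 : 𝐍(U) ⊓ 𝐂(V (S ⊓ 𝐍(U))) ≤ ⊤ ⊓ 𝐂(V S) := inf_le_inf le_top
        (centralizer_le_centralizer (hVmono _ _ hS.isPGroup h3.isPGroup hS1 hQ1 hZQ))
      exact le_sup_of_le_right (inf_le_inf inf_le_left (commutator_mono h4 h4)))
  have main : S ⊓ ⁅(⊤ : Subgroup G), ⊤⁆ ≤ F ⊤ S := by
    refine focal_le_of_trC hS fun A hA _ => ?_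
    refine alperin_centric hS (wellPlaced_family (hW' ⊤) hS) (fusClosed_trC _)
      (fun _ _ _ _ hc => trC_of_mem_centralizer hc) 0 ?_ A hA (Nat.zero_le _)
    intro U hU hUS _ _ hcent _ g _ hgU
    exact trC_of_le inf_le_right
      (key U hU ((inf_le_inf_left _ (centralizer_le_centralizer hUS)).trans hcent))
      (le_inf hUS le_normalizer) hgU
      (by rw [map_conj_eq_iff.mpr hgU]; exact le_inf hUS le_normalizer)
  simp only [F, top_inf_eq] at main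
  refine ⟨S, hS.isPGroup, P.not_dvd_index, fun x => ⟨fun hx => ?_, ?_⟩⟩
  · have hn : S ⊓ ⁅𝐂(V S), 𝐂(V S)⁆ ≤ 𝐍(S ⊓ ⁅𝐍(W S), 𝐍(W S)⁆) := by
      have h1 : S ≤ 𝐍(𝐍(W S)) := le_normalizer_of_le ((hW' ⊤).le_normalizer hS.isPGroup le_top)
      exact inf_le_left.trans (le_normalizer_inf le_normalizer (le_normalizer_commutator h1 h1))
    obtain ⟨a, ha, b, hb, hab⟩ := (mem_sup_of_le_normalizer_left hn).mp (main hx)
    exact ⟨a, ha, b, hb, hab.symm⟩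
  · rintro ⟨a, ha, b, hb, rfl⟩
    exact ⟨S.mul_mem ha.1 hb.1, (commutator G).mul_mem (commutator_mono le_top le_top ha.2)
      (commutator_mono le_top le_top hb.2)⟩
  )

end Cfsg.Agent.S2001
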