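import Cfsg.Statements.S2002
import Cfsg.Agent.Lib.Glaub.Control

set_option autoImplicit false
open Cfsg

namespace Cfsg.Agent.S2002

section
open Subgroup Cfsg.Agent.Lib.Core Cfsg.Agent.Lib.Glaub
theorem gen_of_list {G : Type*} [Group G] {N : Set G} (hN : ∀ x ∈ N, x⁻¹ ∈ N) {T : Subgroup G}
    (l : List G) : ∀ {A : Subgroup G}, (∀ b ∈ l, b ∈ N) →
      (∀ k ≤ l.length, cj(((l.take k).prod)⁻¹, A) ≤ T) → Gen N T A (l.prod)⁻¹ := by
  induction l with
  | nil => intro A _ _; exact Gen.of_mem_centralizer (by simp)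
  | cons b l ih =>
    intro A h1 h2
    rw [List.prod_cons, mul_inv_rev]
    refine (Gen.single (hN b (h1 b (by simp))) (by simpa using h2 1 (by simp))).comp
      (ih (fun c hc => h1 c (by simp [hc])) fun k hk => ?_)
    have := h2 (k + 1) (by simpa using hk)
    rwa [List.take_succ_cons, List.prod_cons, mul_inv_rev, ← map_conj_map_conj] at this

theorem gen_exists_list {G : Type*} [Group G] {N : Set G} (hN : ∀ x ∈ N, x⁻¹ ∈ N)
    {T A : Subgroup G} (hA : A ≤ T) {g : G} (h : Gen N T A g) :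
    ∃ l : List G, (∀ b ∈ l, b ∈ N) ∧ g⁻¹ * (l.prod)⁻¹ ∈ 𝐂(A) ∧
      ∀ k, cj(((l.take k).prod)⁻¹, A) ≤ T := by
  obtain ⟨c, h1, h2⟩ := h
  suffices key : ∃ l : List G, (∀ b ∈ l, b ∈ N) ∧ c = (l.prod)⁻¹ ∧
      ∀ k, cj(((l.take k).prod)⁻¹, A) ≤ T by
    obtain ⟨l, h3, rfl, h4⟩ := key
    exact ⟨l, h3, h2, h4⟩
  clear h2
  induction h1 with
  | refl => exact ⟨[], by simp, by simp, fun k => by
      rw [List.take_nil, List.prod_nil, inv_one, map_conj_one]; exact hA⟩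
  | @tail b c _ hs ih =>
    obtain ⟨l, h3, rfl, h4⟩ := ih
    have e : c = ((l ++ [(c * (l.prod)⁻¹⁻¹)⁻¹]).prod)⁻¹ := by simp
    refine ⟨l ++ [(c * (l.prod)⁻¹⁻¹)⁻¹], ?_, e, fun k => ?_⟩
    · intro x hx
      rcases List.mem_append.mp hx with hx | hx
      · exact h3 x hx
      · rw [List.mem_singleton.mp hx]; exact hN _ hs.1
    · by_cases hk : k ≤ l.length
      · rw [List.take_append_of_le_length hk]; exact h4 k
      · rw [List.take_of_length_le (by simp; omega), ← e]; exact hs.2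
end

/-- Let p be a prime dividing the order of the finite group G, P a Sylow p-subgroup, W a conjugacy functor for p on G with Z(H) ≤ W(H) for every nontrivial p-subgroup H, and V a central functor (a conjugacy functor with V(H) ≤ Z(H), and V(H) ≤ V(K) whenever Z(H) ≤ Z(K)). Say that W with V controls strong fusion in a subgroup L when some Sylow p-subgroup Q of L has the property: whenever X ⊆ Q and a ∈ L with a⁻¹Xa ⊆ Q, then a = c b with c ∈ C_L(X) and b = b₁ ⋯ bₙ a product of elements each in N_L(W(Q)) or in C_L(V(Q)) such that every partial conjugate (b₁ ⋯ bₖ)⁻¹ X (b₁ ⋯ bₖ) lies in Q. If W with V controls strong fusion in N_G(H) for every subgroup H with Z(P) ≤ H ≤ P, then W with V controls strong fusion in G. -/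
theorem result {G : Type*} [Group G] [Finite G] {p : ℕ} [Fact p.Prime] (hdiv : p ∣ Nat.card G) (P : Sylow p G) (W V : Subgroup G → Subgroup G) (hW : Cfsg.IsConjugacyFunctor p W) (hV : Cfsg.IsConjugacyFunctor p V) (hWZ : ∀ H : Subgroup G, IsPGroup p ↥H → H ⊓ Subgroup.centralizer ((H : Subgroup G) : Set G) ≤ W H) (hVZ : ∀ H : Subgroup G, IsPGroup p ↥H → V H ≤ H ⊓ Subgroup.centralizer ((H : Subgroup G) : Set G)) (hVmono : ∀ H K : Subgroup G, IsPGroup p ↥H → IsPGroup p ↥K → H ≠ ⊥ → K ≠ ⊥ → H ⊓ Subgroup.centralizer ((H : Subgroup G) : Set G) ≤ K ⊓ Subgroup.centralizer ((K : Subgroup G) : Set G) → V H ≤ V K) (hloc : ∀ H : Subgroup G, (P : Subgroup G) ⊓ Subgroup.centralizer (((P : Subgroup G) : Subgroup G) : Set G) ≤ H → H ≤ (P : Subgroup G) → ∃ Q : Subgroup G, Q ≤ Subgroup.normalizer ((H : Subgroup G) : Set G) ∧ IsPGroup p ↥Q ∧ ¬ p ∣ (Q).relIndex (Subgroup.normalizer ((H : Subgroup G) : Set G)) ∧ ∀ (X : Set G) (a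 : G), X ⊆ Q → a ∈ Subgroup.normalizer ((H : Subgroup G) : Set G) → (fun x => a⁻¹ * x * a) '' X ⊆ Q → ∃ c ∈ Subgroup.normalizer ((H : Subgroup G) : Set G) ⊓ Subgroup.centralizer X, ∃ (n : ℕ) (b : Fin n → G), (∀ i, b i ∈ Subgroup.normalizer ((H : Subgroup G) : Set G) ⊓ Subgroup.normalizer ((W Q : Subgroup G) : Set G) ∨ b i ∈ Subgroup.normalizer ((H : Subgroup G) : Set G) ⊓ Subgroup.centralizer ((V Q : Subgroup G) : Set G)) ∧ a = c * (List.ofFn b).prod ∧ ∀ k : ℕ, k ≤ n → (fun x => (((List.ofFn b).take k).prod)⁻¹ * x * ((List.ofFn b).take k).prod) '' ((fun x => c⁻¹ * x * c) '' X) ⊆ Q) : ∃ Q : Subgroup G, IsPGroup p ↥Q ∧ ¬ p ∣ Q.index ∧ ∀ (X : Set G) (a : G), X ⊆ Q → (fun x => a⁻¹ * x * a) '' X ⊆ Q → ∃ c ∈ Subgroup.centralizer X, ∃ (n : ℕ) (b : Fin n → G), (∀ i, b i ∈ ⊤ ⊓ Subgroup.normalizer ((W Q : Subgroup G) : Set G) ∨ b i ∈ ⊤ ⊓ Subgroup.centralizer ((V Q : Subgroup G) : Set G)) ∧ a = c * (List.ofFn b).prod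 ∧ ∀ k : ℕ, k ≤ n → (fun x => (((List.ofFn b).take k).prod)⁻¹ * x * ((List.ofFn b).take k).prod) '' ((fun x => c⁻¹ * x * c) '' X) ⊆ Q := by
  open Subgroup Cfsg.Agent.Lib.Core Cfsg.Agent.Lib.Glaub in
  (
  have hW' : ∀ L : Subgroup G, IsCF p L W := isCF_of_isConjugacyFunctor hW
  have hV' : ∀ L : Subgroup G, IsCF p L V := isCF_of_isConjugacyFunctor hV
  have hS := isSyl_sylow P
  set S : Subgroup G := (P : Subgroup G) with hSdef
  have hS1 : S ≠ ⊥ := hS.ne_bot (by rwa [card_top])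
  have hZ1 : S ⊓ 𝐂(S) ≠ ⊥ := inf_centralizer_ne_bot hS.isPGroup hS.isPGroup le_normalizer hS1
  let F : Subgroup G → Subgroup G → Set G := fun L T =>
    {x | x ∈ L ⊓ 𝐍(W T) ∨ x ∈ L ⊓ 𝐂(V T)}
  have hF : ∀ L T, ∀ x ∈ F L T, x⁻¹ ∈ F L T := fun L T x hx => hx.imp inv_mem inv_mem
  have hloc' : ∀ U, S ⊓ 𝐂(S) ≤ U → U ≤ S → IsSyl p (S ⊓ 𝐍(U)) 𝐍(U) →
      Ctrl (F 𝐍(U) (S ⊓ 𝐍(U))) 𝐍(U) (S ⊓ 𝐍(U)) := by
    intro U h1 h2 h3
    obtain ⟨Q, q1, q2, q3, q4⟩ := hloc U h1 h2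
    refine ctrl_transport (𝓢 := F 𝐍(U)) ⟨q1, q2, q3⟩ h3 (fun l hl x hx => ?_)
      (fun A hA h hh hhA => ?_)
    · simp only [F, Set.mem_setOf_eq]
      rw [← (hW' _).cj_inf_normalizer q2 hl, ← (hV' _).cj_inf_centralizer q2 hl, conj_mem_map_conj,
        conj_mem_map_conj]
      exact hx
    · obtain ⟨c, hc, n, b, hb, hcb, hk⟩ := q4 A h⁻¹ hA (inv_mem hh) (by
        have := (image_conj_subset_iff (A := A) (T := Q) (h := h)).mpr (by rwa [closure_eq])
        simpa using this)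
      refine (gen_of_list (hF _ _) (List.ofFn b) (by
        intro x hx; obtain ⟨i, rfl⟩ := List.mem_ofFn.mp hx; exact hb i) fun k hk' => ?_).congr ?_
      · have := hk k (by simpa using hk')
        rw [Set.image_image] at this
        rw [map_conj_le_iff]
        intro a ha
        have h5 := this ⟨a, ha, rfl⟩
        have h6 := conj_eq_of_mem_centralizer (inv_mem hc.2) ha
        rw [inv_inv] at h6
        simpa [h6] using h5
      · rw [hcb]; simpa using hc.2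
  have key := wellPlaced_induction (hW' ⊤) hS (P := fun U => S ⊓ 𝐂(S) ≤ U →
      ∀ A ≤ S ⊓ 𝐍(U), ∀ g ∈ 𝐍(U), cj(g, A) ≤ S ⊓ 𝐍(U) → Gen (F ⊤ S) S A g) (by
    intro U hU IH hZ A hA g hg hgA
    have h3 := hU.isSyl
    rw [top_inf_eq] at h3
    have hZQ : S ⊓ 𝐂(S) ≤ (S ⊓ 𝐍(U)) ⊓ 𝐂(S ⊓ 𝐍(U)) :=
      le_inf (hZ.trans (le_inf hU.1 le_normalizer))
        (inf_le_right.trans (centralizer_le_centralizer inf_le_left))
    have hQ1 : S ⊓ 𝐍(U) ≠ ⊥ := fun h => hZ1 (le_bot_iff.mp (h ▸ hZQ.trans inf_le_left))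
    refine (hloc' U hZ hU.1 h3 A hA g hg hgA).trans_gen hA ?_
    rintro B hB - x (hx | hx) hxB
    · rcases (inf_le_left : S ⊓ 𝐍(U) ≤ S).lt_or_eq with hlt | heq
      · have h1 := (lt_inf_normalizer_next (hW' ⊤) hS hlt).le
        exact IH hlt (hZQ.trans (hWZ _ h3.isPGroup)) B (hB.trans h1) x hx.2 (hxB.trans h1)
      · rw [heq] at hx hxB
        exact Gen.single (Or.inl ⟨mem_top _, hx.2⟩) hxB
    · exact Gen.single (Or.inr ⟨mem_top _, centralizer_le_centralizer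
        (hVmono _ _ hS.isPGroup h3.isPGroup hS1 hQ1 hZQ) hx.2⟩) (hxB.trans inf_le_left))
  have main : Ctrl (F ⊤ S) ⊤ S := by
    intro A hA
    refine alperin_centric hS (wellPlaced_family (hW' ⊤) hS) (fusClosed_gen _ _)
      (fun _ _ _ _ hc => Gen.of_mem_centralizer hc) 0 ?_ A hA (Nat.zero_le _)
    intro U hU hUS _ _ hcent _ g _ hgU
    exact key U hU ((inf_le_inf_left _ (centralizer_le_centralizer hUS)).trans hcent) U
      (le_inf hUS le_normalizer) g hgU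
      (by rw [map_conj_eq_iff.mpr hgU]; exact le_inf hUS le_normalizer)
  refine ⟨S, hS.isPGroup, P.not_dvd_index, fun X a hX ha => ?_⟩
  have hX' : closure X ≤ S := (closure_le S).mpr hX
  obtain ⟨l, h1, h2, h3⟩ := gen_exists_list (hF _ _) hX'
    (main _ hX' a⁻¹ (mem_top _) (image_conj_subset_iff.mp (by simpa using ha)))
  rw [inv_inv] at h2
  have h4 : a * (l.prod)⁻¹ ∈ centralizer X := centralizer_le Subgroup.subset_closure h2
  refine ⟨_, h4, l.length, l.get, fun i => h1 _ (List.get_mem l i), by simp, fun k _ => ?_⟩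
  rw [List.ofFn_get, Set.image_image]
  rintro _ ⟨x, hx, rfl⟩
  have h6 := conj_eq_of_mem_centralizer (inv_mem h4) hx
  rw [inv_inv] at h6
  simp only [h6]
  have := map_conj_le_iff.mp (h3 k) x (Subgroup.subset_closure hx)
  simpa using this
  )

end Cfsg.Agent.S2002
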