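import Cfsg.Statements.S2553
import Cfsg.Agent.Lib.Forms.GL42
import Cfsg.Agent.Lib.Forms.SmallPerm
import Cfsg.Agent.Lib.Core.Fitting

set_option autoImplicit false
open Cfsg

namespace Cfsg.Agent.S2553

open Cfsg.Agent.Lib.Forms Module QuadraticMap

open Matrix Subgroup Cfsg.Agent.Lib.Core

abbrev V := Fin 4 → ZMod 2

def c0 : GL (Fin 4) (ZMod 2) :=
  ⟨!![1, 0, 0, 0; 0, 0, 0, 1; 0, 1, 0, 1; 0, 0, 1, 0], !![1, 0, 0, 0; 0, 1, 1, 0; 0, 0, 0, 1; 0, 1, 0, 0],
    by decide +kernel, by decide +kernel⟩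

def e0 : V := ![1, 0, 0, 0]

set_option synthInstance.maxSize 2000 in
theorem c0_trans : ∀ x y : V, x ≠ 0 → y ≠ 0 → x ≠ e0 → y ≠ e0 → x 0 = y 0 → ∃ i < 7, (c0 ^ i).1 *ᵥ x = y := by
  decide +kernel

theorem orderOf_c0 : orderOf c0 = 7 :=
  haveI := Fact.mk (show Nat.Prime 7 by norm_num)
  orderOf_eq_prime (Units.ext (by decide +kernel)) (fun h => absurd (congrArg Units.val h) (by decide +kernel))

theorem cube : ∀ (a : ZMod 2) (r c : Fin 3 → ZMod 2), (∀ i j, c i * r j = 0) →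
    ∀ M : Matrix (Fin 4) (Fin 4) (ZMod 2), M = !![a, r 0, r 1, r 2; c 0, 1, 0, 0; c 1, 0, 1, 0; c 2, 0, 0, 1] →
      M * M * M = M := by
  simp only [forall_eq]; decide +kernel

variable {H : Type*} [Group H] [Finite H]

theorem gl3_of_block [Nontrivial H] (hR : ∀ N : Subgroup H, N.Normal → Group.IsSolvable N → N = ⊥)
    {ρ : H →* GL (Fin 4) (ZMod 2)} (hρ : Function.Injective ρ)
    (h : ∀ a b (i j : Fin 3), (ρ a).1 i.succ 0 * (ρ b).1 0 j.succ = 0) : Nonempty (H ≃* GL (Fin 3) (ZMod 2)) := by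
  have hns : ¬ Group.IsSolvable H := fun _ => top_ne_bot (hR ⊤ inferInstance inferInstance)
  let f : H →* Matrix (Fin 3) (Fin 3) (ZMod 2) :=
    ⟨⟨fun a => (ρ a).1.submatrix Fin.succ Fin.succ, by simp [submatrix_one _ (Fin.succ_injective _)]⟩, fun a b => by
      ext i j
      simp [mul_apply, Fin.sum_univ_succ (n := 3), h]⟩
  have h1 : Function.Injective f.toHomUnits := by
    rw [← MonoidHom.ker_eq_bot_iff]
    refine hR _ inferInstance (isSolvable_of_isPGroup (p := 2) (isPGroup_of_forall_pow fun x hx => ⟨1, hρ ?_⟩))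
    have h2 : ∀ i j, (ρ x).1 (Fin.succ i) (Fin.succ j) = (1 : Matrix (Fin 3) (Fin 3) (ZMod 2)) i j := fun i j =>
      congrArg (fun u : GL (Fin 3) (ZMod 2) => u.1 i j) (MonoidHom.mem_ker.mp hx)
    have h3 := cube ((ρ x).1 0 0) (fun j => (ρ x).1 0 j.succ) (fun i => (ρ x).1 i.succ 0) (h x x) (ρ x).1 (by
      ext i j
      refine Fin.cases ?_ (fun i => ?_) i <;> refine Fin.cases ?_ (fun j => ?_) j
      · rfl
      · fin_cases j <;> rfl
      · fin_cases i <;> rfl
      · rw [h2]; fin_cases i <;> fin_cases j <;> rfl)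
    rw [map_pow, map_one, pow_one, pow_two]
    exact mul_eq_right.mp (Units.ext h3)
  refine ⟨MulEquiv.ofBijective _ (h1.bijective_of_nat_card_le ?_)⟩
  have h2 := card_dvd_of_injective _ h1
  rw [card_GL_three_two] at h2 ⊢
  have h7 : Nat.Prime 7 := by norm_num
  obtain ⟨k, hk⟩ := mul_dvd_card_of_not_solvable hns h7 (by norm_num) fun s hs hd => by
    have := prime_dvd_small hs hd (h2.trans (by norm_num))
    have h5 : s ≠ 5 := fun e => absurd ((e ▸ hd).trans h2) (by norm_num)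
    tauto
  by_contra h3
  haveI := Fact.mk h7
  obtain ⟨P⟩ : Nonempty (Sylow 7 H) := inferInstance
  have h4 : k = 1 ∨ k = 2 := by
    rw [hk] at h2 h3
    have : k < 4 := by omega
    interval_cases k <;> simp_all
  have h5 : Nat.card P = 7 := by
    rw [P.card_eq_multiplicity, hk]; rcases h4 with rfl | rfl <;> decide +kernel
  have h6 := (P : Subgroup H).card_mul_index
  rw [h5, hk] at h6
  have h8 := P.card_dvd_index
  have h9 := card_sylow_modEq_one 7 H
  rw [show (P : Subgroup H).index = 6 * k by omega] at h8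
  haveI : Subsingleton (Sylow 7 H) := Finite.card_le_one_iff_subsingleton.mp (by
    have := Nat.le_of_dvd (by omega) h8
    unfold Nat.ModEq at h9
    rcases h4 with rfl | rfl
    · omega
    · by_contra h10
      rw [show Nat.card (Sylow 7 H) = 8 by omega] at h8
      exact absurd h8 (by decide))
  rw [hR P P.normal_of_subsingleton (isSolvable_of_isPGroup P.isPGroup')] at h5
  simp at h5

theorem block_of_c0 {ρ : H →* GL (Fin 4) (ZMod 2)} (h5 : ¬ 5 ∣ Nat.card H) {c : H} (hc : ρ c = c0) (a b : H)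
    (i j : Fin 3) : (ρ a).1 i.succ 0 * (ρ b).1 0 j.succ = 0 := by
  letI : MulAction H V :=
    { smul := fun h v => (ρ h).1 *ᵥ v
      mul_smul := fun a b v => by
        change (ρ (a * b)).1 *ᵥ v = (ρ a).1 *ᵥ (ρ b).1 *ᵥ v
        simp
      one_smul := fun v => by change (ρ 1).1 *ᵥ v = v; simp }
  have hs : ∀ (h : H) (v : V), h • v = (ρ h).1 *ᵥ v := fun _ _ => rfl
  have h0 : ∀ (h : H) (v : V), h • v = 0 → v = 0 := fun h v e => by
    rw [← inv_smul_smul h v, e, hs, mulVec_zero]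
  have h1 : ∀ x y : V, x ≠ 0 → y ≠ 0 → x ≠ e0 → y ≠ e0 → x 0 = y 0 → x ∈ MulAction.orbit H e0 →
      y ∈ MulAction.orbit H e0 := fun x y a1 a2 a3 a4 a5 hx => by
    obtain ⟨i, -, rfl⟩ := c0_trans x y a1 a2 a3 a4 a5
    rw [← hc, ← map_pow, ← hs]
    exact MulAction.mem_orbit_of_mem_orbit _ hx
  have h2 : ∀ x y : V, x ≠ 0 → x 0 = 0 → y ≠ e0 → y 0 = 1 → x ∈ MulAction.orbit H e0 →
      y ∉ MulAction.orbit H e0 := fun x y a1 a2 a3 a4 hx hy => by
    have h2 : MulAction.orbit H e0 = {0}ᶜ := by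
      ext z
      refine ⟨fun ⟨h, e⟩ e' => absurd (h0 h _ (e.trans e')) (by decide), fun hz => ?_⟩
      by_cases h3 : z = e0
      · exact h3 ▸ MulAction.mem_orbit_self _
      · rcases (by decide : ∀ t : ZMod 2, t = 0 ∨ t = 1) (z 0) with h4 | h4
        · exact h1 x z a1 hz (by rintro rfl; exact absurd a2 (by decide)) h3 (a2.trans h4.symm) hx
        · exact h1 y z (by rintro rfl; exact absurd a4 (by decide)) hz a3 h3 (a4.trans h4.symm) hy
    have h3 := (MulAction.stabilizer H e0).index_dvd_card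
    rw [MulAction.index_stabilizer, h2, Set.ncard_compl, Set.ncard_singleton] at h3
    exact h5 ((by simp : 5 ∣ Nat.card V - 1).trans h3)
  have h3 : ∀ (h : H) (k : Fin 4), (ρ h).1 k 0 = (h • e0) k := fun h k => by
    simp [hs, mulVec, dotProduct, Fin.sum_univ_four, e0]
  by_cases h4 : a • e0 = e0
  · rw [h3, h4, show e0 i.succ = 0 by revert i; decide, zero_mul]
  have h6 : a • e0 ≠ 0 := fun e => absurd (h0 _ _ e) (by decide)
  rcases (by decide : ∀ t : ZMod 2, t = 0 ∨ t = 1) ((a • e0) 0) with h7 | h7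
  · have h8 : ∀ y : V, y ≠ e0 → y 0 = 1 → (a • y) 0 = 1 := fun y a1 a2 => by
      by_contra h8
      refine h2 _ y h6 h7 a1 a2 (MulAction.mem_orbit _ _) ?_
      rw [← inv_smul_smul a y]
      refine MulAction.mem_orbit_of_mem_orbit _ (h1 _ _ h6 (fun e => ?_) h4 (fun e => h8 (by rw [e]; rfl))
        (h7.trans ((by decide : ∀ t : ZMod 2, t ≠ 1 → 0 = t) _ h8)) (MulAction.mem_orbit _ _))
      rw [h0 _ _ e] at a2; exact absurd a2 (by decide)
    rw [show e0 = ![1, 1, 0, 0] + ![1, 0, 1, 0] + ![1, 1, 1, 0] by decide, hs, mulVec_add, mulVec_add, ← hs, ← hs, ← hs,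
      Pi.add_apply, Pi.add_apply, h8 _ (by decide) rfl, h8 _ (by decide) rfl, h8 _ (by decide) rfl] at h7
    exact absurd h7 (by decide)
  · have h8 : (ρ b).1 0 j.succ = (b • (Pi.single j.succ 1 : V)) 0 := by rw [hs, mulVec_single_one]; rfl
    rw [h8]
    refine mul_eq_zero_of_right _ (by_contra fun h9 => ?_)
    refine h2 (Pi.single j.succ 1) _ (by simp) (by simp) h4 h7 ?_ (MulAction.mem_orbit _ _)
    rw [← inv_smul_smul b (Pi.single j.succ 1 : V)]
    refine MulAction.mem_orbit_of_mem_orbit _ ?_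
    by_cases h10 : b • (Pi.single j.succ 1 : V) = e0
    · exact h10 ▸ MulAction.mem_orbit_self _
    · exact h1 _ _ h6 (fun e => h9 (by rw [e]; rfl)) h4 h10
        (h7.trans ((by decide : ∀ t : ZMod 2, t ≠ 0 → 1 = t) _ h9)) (MulAction.mem_orbit _ _)

/-- Let H be a nontrivial subgroup of GL(4,2) (a group isomorphic to the alternating group of degree 8) whose largest normal 2-subgroup and largest normal subgroup of odd order are both trivial. Then H is isomorphic to an alternating group of degree n for some 5 ≤ n ≤ 8, to the symmetric group of degree 5 or 6, or to GL(3,2). -/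
theorem result (H : Subgroup (GL (Fin 4) (ZMod 2))) (hH : H ≠ ⊥) (hO : Cfsg.pPrimeCore 2 ↥H = ⊥) (hO2 : Cfsg.pCore 2 ↥H = ⊥) :
    (∃ n : ℕ, 5 ≤ n ∧ n ≤ 8 ∧ Nonempty (↥H ≃* alternatingGroup (Fin n))) ∨
    Nonempty (↥H ≃* Equiv.Perm (Fin 5)) ∨ Nonempty (↥H ≃* Equiv.Perm (Fin 6)) ∨ Nonempty (↥H ≃* GL (Fin 3) (ZMod 2)) := by
  haveI := (nontrivial_iff_ne_bot H).mpr hH
  have hR : ∀ N : Subgroup H, N.Normal → Group.IsSolvable N → N = ⊥ := fun N hN hs => by
    by_contra h
    obtain ⟨q, hq, h1⟩ := exists_OpOf_ne_bot_of_isSolvable hs h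
    haveI := normal_of_le_normalizer_top (le_normalizer_OpOf (p := q) (K := ⊤) (H := N) (normalizer_eq_top N).ge)
    haveI := Fact.mk hq
    refine h1 (eq_bot_iff.mpr ?_)
    by_cases h2 : 2 = q
    · subst h2; exact hO2 ▸ le_pCore (OpOf_isPGroup N)
    · exact hO ▸ le_pPrimeCore (not_dvd_card_of_isPGroup (OpOf_isPGroup N) h2)
  by_cases h5 : 5 ∣ Nat.card H
  · obtain ⟨e⟩ := nonempty_A8_equiv_GL
    rcases equiv_of_five_dvd hR (φ := (alternatingGroup _).subtype.comp (e.symm.toMonoidHom.comp H.subtype))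
      (Subtype.val_injective.comp (e.symm.injective.comp Subtype.val_injective)) (fun h => (e.symm h).2) h5 with h | h | h
    exacts [.inl h, .inr (.inl h), .inr (.inr (.inl h))]
  · have h7 : Nat.Prime 7 := by norm_num
    haveI := Fact.mk h7
    have h1 := mul_dvd_card_of_not_solvable (H := H) (fun _ => top_ne_bot (hR ⊤ inferInstance inferInstance)) h7
      (by norm_num) fun s hs hd => by
        have := prime_dvd_small hs hd (card_GL_four_two ▸ H.card_subgroup_dvd_card)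
        have h5 : s ≠ 5 := fun e => h5 (e ▸ hd)
        tauto
    obtain ⟨x, hx⟩ := exists_prime_orderOf_dvd_card' (G := H) 7 ((Dvd.intro_left _ rfl).trans h1)
    have h2 : ∀ y : GL (Fin 4) (ZMod 2), orderOf y = 7 → IsSyl 7 (zpowers y) ⊤ := fun y hy => by
      refine ⟨le_top, isPGroup_zpowers (k := 1) (by rw [pow_one, ← hy, pow_orderOf_eq_one]), ?_⟩
      have := (zpowers y).card_mul_index
      rw [Nat.card_zpowers, hy, card_GL_four_two] at this
      rw [relIndex_top_right]; omega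
    obtain ⟨g, -, hg⟩ := (h2 x (by simpa using hx)).exists_conj (h2 c0 orderOf_c0)
    obtain ⟨_, ⟨k, rfl⟩, hk⟩ : c0 ∈ _ := hg ▸ mem_zpowers c0
    exact .inr (.inr (.inr (gl3_of_block hR (ρ := (MulAut.conj g).toMonoidHom.comp H.subtype)
      ((MulAut.conj g).injective.comp Subtype.val_injective) (block_of_c0 h5 (c := x ^ k) hk))))

end Cfsg.Agent.S2553
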