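import Cfsg.Statements.S2556
import Cfsg.Agent.Lib.Suz.Syl

set_option autoImplicit false
open Cfsg

namespace Cfsg.Agent.S2556

/-- Let S be a Sylow 2-subgroup of the Suzuki group Sz(q), q = 2ⁿ with n = 2m + 1 ≥ 3 (realised as 4 × 4 matrices over the field with q elements). Then the largest normal 2-subgroup of the automorphism group of S is elementary abelian of order 2^(n²), and the automorphism group of S has order 2^(n²) · n · (q − 1). -/
theorem result {S : Type*} [Group S] [Finite S] (m : ℕ) (hm : 1 ≤ m)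
    {F : Type*} [Field F] [Fintype F] (hF : Fintype.card F = 2 ^ (2 * m + 1))
    (P : Sylow 2 ↥(Cfsg.Lie.Sz F (2 ^ (m + 1)))) (hS : Nonempty (S ≃* ↥(P : Subgroup ↥(Cfsg.Lie.Sz F (2 ^ (m + 1)))))) :
    Cfsg.IsElementaryAbelian 2 (Cfsg.pCore 2 (MulAut S)) ∧ Nat.card ↥(Cfsg.pCore 2 (MulAut S)) = 2 ^ ((2 * m + 1) ^ 2) ∧
      Nat.card (MulAut S) = 2 ^ ((2 * m + 1) ^ 2) * ((2 * m + 1) * (2 ^ (2 * m + 1) - 1)) := by
  obtain ⟨e⟩ := hS
  have : CharP F 2 := ringChar.of_eq (FiniteField.even_card_iff_char_two.2 (by rw [hF, pow_succ]; simp))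
  let _ : Algebra (ZMod 2) F := ZMod.algebra F 2
  have hn : Module.finrank (ZMod 2) F = 2 * m + 1 := by
    have := Module.card_eq_pow_finrank (K := ZMod 2) (V := F)
    rw [hF, ZMod.card] at this
    exact (Nat.pow_right_injective le_rfl this).symm
  let θ := FiniteField.frobeniusAlgEquivOfAlgebraic (ZMod 2) F ^ (m + 1)
  have he : ∀ x, θ x = x ^ 2 ^ (m + 1) := fun x => by
    rw [AlgEquiv.coe_pow, FiniteField.coe_frobeniusAlgEquivOfAlgebraic_iterate, ZMod.card]
  have hθ : ∀ x, θ (θ x) = x ^ 2 := fun x => by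
    rw [he, he, ← pow_mul, ← pow_add, show m + 1 + (m + 1) = 2 * m + 1 + 1 by ring, pow_succ,
      pow_mul, ← hF, FiniteField.pow_card]
  have h4 : ∃ x : F, x ^ 4 ≠ x := by
    by_contra! H
    have h1 := FiniteField.orderOf_frobeniusAlgEquivOfAlgebraic (ZMod 2) F
    have h2 := orderOf_dvd_of_pow_eq_one (x := FiniteField.frobeniusAlgEquivOfAlgebraic (ZMod 2) F)
      (n := 2) (AlgEquiv.ext fun x => by
        rw [AlgEquiv.coe_pow, FiniteField.coe_frobeniusAlgEquivOfAlgebraic_iterate, ZMod.card]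
        exact H x)
    have := Nat.le_of_dvd two_pos h2
    omega
  obtain ⟨e'⟩ := Lib.Suz.nonempty_equiv_sylow hθ he P
  obtain ⟨⟨h1, h2⟩, h3, h5⟩ := Lib.Suz.SU.aut_result hθ h4 ⟨m, hn⟩
  let f := MulAut.congr (e.trans e').symm
  rw [hn] at h3 h5
  rw [Nat.card_eq_fintype_card (α := F), hF] at h5
  rw [← Lib.Core.pCore_map_equiv f, ← Nat.card_congr f.toEquiv]
  refine ⟨⟨inferInstance, ?_⟩, (Nat.card_congr (f.subgroupMap _).toEquiv).symm.trans h3, h5⟩
  rintro _ ⟨a, ha, rfl⟩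
  rw [← map_pow, h2 a ha, map_one]

end Cfsg.Agent.S2556
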