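import Cfsg.Statements.S2648
import Cfsg.Agent.Lib.GL.DerLen
import Cfsg.Agent.Lib.Forms.QuadMatrix

set_option autoImplicit false
open Cfsg

namespace Cfsg.Agent.S2648

open Cfsg.Agent.Lib.GL.DerLen

/-- Let q be odd, F a field with q elements and n ≥ 1. A Sylow 2-subgroup R of the symplectic group Sp_{2n}(F) has derived length exactly k + 1, where 2^k ≤ 2n < 2^{k+1}: the (k+1)-st term of its derived series is trivial and the k-th is not. -/
theorem result {F : Type*} [Field F] [Fintype F] [DecidableEq F] (q : ℕ) (hF : Fintype.card F = q) (hq : Odd q) (n : ℕ) (hn : 1 ≤ n) (R : Sylow 2 ↥(Matrix.symplecticGroup (Fin n) F)) : derivedSeries ↥(R : Subgroup ↥(Matrix.symplecticGroup (Fin n) F)) (Nat.log 2 (2 * n) + 1) = ⊥ ∧ derivedSeries ↥(R : Subgroup ↥(Matrix.symplecticGroup (Fin n) F)) (Nat.log 2 (2 * n)) ≠ ⊥ := by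
  have h2 : (2 : F) ≠ 0 := Cfsg.Agent.Lib.Forms.two_ne_zero_of_odd_card (hF ▸ hq)
  refine ⟨by_contra fun h => ?_, fun h => ?_⟩
  · have h1 := mul_pow_le (F := F) (by exact_mod_cast h2) R.isPGroup'
      ((Matrix.symplecticGroup (Fin n) F).subtype.comp (Subgroup.subtype _))
      (fun _ _ h => Subtype.ext (Subtype.ext h)) h
    rw [hF, hq.natCast_zmod_two] at h1
    exact (Nat.lt_pow_succ_log_self one_lt_two _).not_ge (by simpa [← two_mul] using h1)
  obtain ⟨k, hk⟩ := Nat.exists_eq_add_of_le' (Nat.log_pos one_lt_two (by omega : 2 ≤ 2 * n))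
  obtain ⟨G, _, φ, h3, g, h4, h5⟩ := (rep_pow h2 k).exists_hom
    (hk ▸ Nat.pow_log_le_self 2 (by omega : 2 * n ≠ 0))
  obtain ⟨R', h6⟩ := (h3.of_surjective _ φ.rangeRestrict_surjective).exists_le_sylow
  have h7 := map_derivedSeries_le_derivedSeries ((R'.equiv R).toMonoidHom.comp
    (φ.codRestrict _ fun g => h6 ⟨g, rfl⟩)) _ ⟨g, h4, rfl⟩
  rw [← hk, h, Subgroup.mem_bot] at h7
  exact h5 (congrArg Subtype.val ((map_eq_one_iff _ (R'.equiv R).injective).1 h7))

end Cfsg.Agent.S2648
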