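import Cfsg.Statements.S2688
import Cfsg.Agent.Lib.Chev.Graph7
import Cfsg.Agent.Lib.Chev.Lang7

set_option autoImplicit false
open Cfsg Cfsg.Agent.Lib.Chev

namespace Cfsg.Agent.S2688

/-- A criterion for the failure of local balance in almost simple groups whose socle is one of the Chevalley groups of type G₂, B₂, D₄, F₄, E₆, E₇, E₈ (realised as the explicit matrix group generated by root elements over a finite field F of characteristic r, assumed simple). Let A be a group of automorphisms of that group K containing all inner automorphisms, and β ∈ A an automorphism of prime order p ≠ r that is not inner-diagonal (not induced by conjugation by an element of K times a diagonal automorphism). Then the largest normal subgroup of C_A(β) of order prime to p is nontrivial if and only if β is the composite of an inner-diagonal automorphism with an entrywise field automorphism and p does not divide the number of fixed points of β on K. -/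
theorem result (D : Cfsg.Lie.ChevalleyDatum)
    (hD : D ∈ [Cfsg.Lie.chevG2, Cfsg.Lie.chevB2, Cfsg.Lie.chevD4, Cfsg.Lie.chevF4, Cfsg.Lie.chevE6, Cfsg.Lie.chevE7, Cfsg.Lie.chevE8])
    (F : Type*) [Field F] [Fintype F] (r : ℕ) [Fact r.Prime] [CharP F r] (hK : IsSimpleGroup ↥(D.group F))
    (𝒢 : Subgroup (MulAut (↥(D.group F)))) (hinn : ∀ k : ↥(D.group F), MulAut.conj k ∈ 𝒢)
    (p : ℕ) [Fact p.Prime] (hpr : p ≠ r) (β : MulAut (↥(D.group F))) (hβ : β ∈ 𝒢) (hord : orderOf β = p)
    (hnot : ¬ D.IsInnerDiagonalAutOn (D.group F) β) :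
    Cfsg.pPrimeCore p ↥(𝒢 ⊓ Subgroup.centralizer {β}) ≠ ⊥ ↔
      ((∃ γ φ : MulAut ↥(D.group F), D.IsInnerDiagonalAutOn (D.group F) γ ∧ Cfsg.Lie.IsEntrywiseFieldAutOn (D.group F) φ ∧
          β = φ.trans γ) ∧
        Nat.Coprime p (Nat.card ↥(MonoidHom.eqLocus β.toMonoidHom (MonoidHom.id (↥(D.group F)))))) := by
  have hp : p.Prime := Fact.out
  have hpr' : (p : F) ≠ 0 := fun h =>
    hpr ((Nat.prime_dvd_prime_iff_eq Fact.out hp).1 ((CharP.cast_eq_zero_iff F r p).1 h)).symm
  simp only [List.mem_cons, List.not_mem_nil, or_false] at hD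
  rcases hD with rfl | rfl | rfl | rfl | rfl | rfl | rfl
  · exact g2Cert.balance g2_sgn g2_chain g2_nonSing g2_conn hK 𝒢 hinn hpr' β hord hnot (Chv.gr_g2 _ hp hpr')
  · exact b2Cert.balance b2_sgn b2_chain b2_nonSing b2_conn hK 𝒢 hinn hpr' β hord hnot (Chv.gr_b2 _ hp hpr')
  · exact d4Cert.balance d4_sgn d4_chain d4_nonSing d4_conn hK 𝒢 hinn hpr' β hord hnot (Chv.gr_d4 _ hp hpr')
  · exact f4Cert.balance f4_sgn f4_chain f4_nonSing f4_conn hK 𝒢 hinn hpr' β hord hnot (Chv.gr_f4 _ hp hpr')
  · exact e6Cert.balance e6_sgn e6_chain e6_nonSing e6_conn hK 𝒢 hinn hpr' β hord hnot (Chv.gr_e6 _ hp hpr')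
  · exact e7Cert.balance e7_sgn e7_chain e7_nonSing e7_conn hK 𝒢 hinn hpr' β hord hnot (Chv.gr_e7 _)
  · exact e8Cert.balance e8_sgn e8_chain e8_nonSing e8_conn hK 𝒢 hinn hpr' β hord hnot (Chv.gr_e8 _)

end Cfsg.Agent.S2688
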