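import Cfsg.Statements.S2730
import Cfsg.Agent.Lib.Aut.Sp4

set_option autoImplicit false
open Cfsg

namespace Cfsg.Agent.S2730

open Cfsg.Agent.Lib.Aut Cfsg.Agent.Lib.Aut.Sp in

/-- A criterion for the failure of local balance in almost simple groups whose socle is a projective symplectic group PSp_{2m}(F) (m ≥ 2, (2m, |F|) ≠ (4, 2)). Let F be a finite field of characteristic r and K the (simple) group in question; let A be a group of automorphisms of K containing all inner automorphisms, and x ∈ A an automorphism of prime order p ≠ r that is not inner-diagonal (not induced by a conformal symplectic matrix). Then the largest normal subgroup of C_A(x) of order prime to p is nontrivial if and only if x is a field automorphism of K (conjugate under Aut(K) to a non-identity standard field automorphism) and p does not divide the number of fixed points of x on K. -/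
theorem result {F : Type*} [Field F] [Fintype F] {r : ℕ} [Fact r.Prime] [CharP F r] {m : ℕ} (hm : 2 ≤ m) (hs : m = 2 → 3 ≤ Fintype.card F) (hK : IsSimpleGroup (Cfsg.PSp m F)) (A : Subgroup (MulAut (Cfsg.PSp m F))) (hinn : ∀ k : Cfsg.PSp m F, MulAut.conj k ∈ A) {p : ℕ} [Fact p.Prime] (hpr : p ≠ r) (x : MulAut (Cfsg.PSp m F)) (hxA : x ∈ A) (hord : orderOf x = p) (hnot : ¬ Cfsg.IsInnerDiagonalAutPSp x) :
    Cfsg.pPrimeCore p ↥(A ⊓ Subgroup.centralizer {x}) ≠ ⊥ ↔ (Cfsg.IsFieldAutClassPSp x ∧ Nat.Coprime p (Nat.card ↥(MonoidHom.eqLocus x.toMonoidHom (MonoidHom.id (Cfsg.PSp m F))))) := by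
  obtain ⟨a, rfl⟩ := mem_range_of_order hm hpr hord
  have hσ := (ker hm).orderOf_right hord fun ⟨⟨g, hg⟩, h⟩ =>
    hnot ⟨g, hg, (isInduced_iff g hg _ _).mpr (h.symm.trans (ψ_eq g hg))⟩
  obtain ⟨d, hd⟩ := SemiSetup.Θ_eq_mul a (inr_mem _)
  have hc := lang hm hσ _ ⟨d, rfl⟩ (by rw [← hd, ← hord, pow_orderOf_eq_one])
  rw [← hd] at hc
  refine ((good_fld hm hpr hσ).of_isConjUnder hc).core_iff (ker hm).center_eq_bot hord hinn
    fun _ => ?_
  obtain ⟨k, -, hk⟩ := hc
  refine ⟨k⁻¹, a.1.right, fun h => ?_, (isStdField_iff _ _).mpr (by rw [hk]; group)⟩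
  rw [h] at hσ
  exact (Fact.out : p.Prime).one_lt.ne (orderOf_one.symm.trans hσ)

end Cfsg.Agent.S2730
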