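import Cfsg.Statements.S2731
import Cfsg.Agent.Lib.Forms.OrthBal

set_option autoImplicit false
open Cfsg

namespace Cfsg.Agent.S2731

open Cfsg.Agent.Lib.Forms Module QuadraticMap


/-- A criterion for the failure of local balance in almost simple groups whose socle is an odd-dimensional orthogonal group Ω_{2m+1}(F) (m ≥ 3, |F| odd; the form x₀² + Σ xᵢ yᵢ). Let F be a finite field of characteristic r and K the (simple) group in question; let A be a group of automorphisms of K containing all inner automorphisms, and x ∈ A an automorphism of prime order p ≠ r that is not inner-diagonal (not induced by a similarity of the form). Then the largest normal subgroup of C_A(x) of order prime to p is nontrivial if and only if x is a field automorphism of K (conjugate under Aut(K) to a non-identity standard field automorphism) and p does not divide the number of fixed points of x on K. -/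
theorem result {F : Type*} [Field F] [Fintype F] {r : ℕ} [Fact r.Prime] [CharP F r] (hodd : Odd (Fintype.card F)) {m : ℕ} (hm : 3 ≤ m) (hK : IsSimpleGroup (Cfsg.POmega F (Cfsg.quadFormOdd m F))) (A : Subgroup (MulAut (Cfsg.POmega F (Cfsg.quadFormOdd m F)))) (hinn : ∀ k : Cfsg.POmega F (Cfsg.quadFormOdd m F), MulAut.conj k ∈ A) {p : ℕ} [Fact p.Prime] (hpr : p ≠ r) (x : MulAut (Cfsg.POmega F (Cfsg.quadFormOdd m F))) (hxA : x ∈ A) (hord : orderOf x = p) (hnot : ¬ Cfsg.IsInnerDiagonalAutPOmegaOdd m x) :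
    Cfsg.pPrimeCore p ↥(A ⊓ Subgroup.centralizer {x}) ≠ ⊥ ↔ (Cfsg.IsFieldAutClassPOmega (Cfsg.quadFormOdd m F) x ∧ Nat.Coprime p (Nat.card ↥(MonoidHom.eqLocus x.toMonoidHom (MonoidHom.id (Cfsg.POmega F (Cfsg.quadFormOdd m F)))))) := by
  have h2 := two_ne_zero_of_odd_card hodd
  have hQ := nondeg_qOdd h2 m
  have h5 : 5 ≤ Fintype.card (Unit ⊕ (Fin m ⊕ Fin m)) := by simp; omega
  obtain ⟨s, rfl⟩ := Phi_surjective_odd h2 hm x
  have hσ : s.σ ≠ 1 := fun h => hnot (by
    obtain ⟨g, h1, -, h3⟩ := (exists_simil_iff (Q := qOdd m F) (fun _ => True) _).mpr ⟨s, h, trivial, rfl⟩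
    exact ⟨g, h1, h3⟩)
  have h3 := pow_orderOf_eq_one (Phi _ s)
  obtain ⟨h4, -⟩ := exists_normalize hQ h5 Fact.out (hord ▸ h3) hσ
  refine ((balance_field hQ h5 (Phi_surjective_odd h2 hm) hpr A hinn hσ hord).2).trans (and_iff_right ?_).symm
  exact isFieldAutClass_of_conj (qOdd_map m) hσ (conj_of_odd hQ h5 ⟨m, by simp; ring⟩ Fact.out rfl hσ (hord ▸ h3)
    (by rw [← map_pow, fieldSemi_pow _ _ (h4 ▸ pow_orderOf_eq_one _), map_one]))

end Cfsg.Agent.S2731
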