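import Cfsg.Statements.S2733
import Cfsg.Agent.Lib.Forms.OrthBal

set_option autoImplicit false
open Cfsg

namespace Cfsg.Agent.S2733

open Cfsg.Agent.Lib.Forms Module QuadraticMap


/-- A criterion for the failure of local balance in almost simple groups whose socle is a minus-type orthogonal group PΩ⁻_{2m+2}(F) (m ≥ 3; the form Σ xᵢ yᵢ + z₁² + a z₁ z₂ + b z₂² with anisotropic binary part). Let F be a finite field of characteristic r and K the (simple) group in question; let A be a group of automorphisms of K containing all inner automorphisms, and x ∈ A an automorphism of prime order p ≠ r that is not inner-diagonal (not induced by a class-preserving similarity, classes read over a quadratic extension). Then the largest normal subgroup of C_A(x) of order prime to p is nontrivial if and only if x is a field automorphism of K (conjugate under Aut(K) to a non-identity standard field automorphism) and p does not divide the number of fixed points of x on K. -/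
theorem result {F : Type*} [Field F] [Fintype F] {r : ℕ} [Fact r.Prime] [CharP F r] {m : ℕ} (hm : 3 ≤ m) (a b : F) (hab : (∀ z₁ z₂ : F, z₁ ^ 2 + a * z₁ * z₂ + b * z₂ ^ 2 = 0 → z₁ = 0 ∧ z₂ = 0)) (hK : IsSimpleGroup (Cfsg.POmega F (Cfsg.quadFormMinus m F a b))) (A : Subgroup (MulAut (Cfsg.POmega F (Cfsg.quadFormMinus m F a b)))) (hinn : ∀ k : Cfsg.POmega F (Cfsg.quadFormMinus m F a b), MulAut.conj k ∈ A) {p : ℕ} [Fact p.Prime] (hpr : p ≠ r) (x : MulAut (Cfsg.POmega F (Cfsg.quadFormMinus m F a b))) (hxA : x ∈ A) (hord : orderOf x = p) (hnot : ¬ Cfsg.IsInnerDiagonalAutPOmegaMinus m a b x) :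
    Cfsg.pPrimeCore p ↥(A ⊓ Subgroup.centralizer {x}) ≠ ⊥ ↔ (Cfsg.IsFieldAutClassPOmegaMinus m x ∧ Nat.Coprime p (Nat.card ↥(MonoidHom.eqLocus x.toMonoidHom (MonoidHom.id (Cfsg.POmega F (Cfsg.quadFormMinus m F a b)))))) := by
  have hQ := nondeg_qMinus m (disc_ne_zero_of_anisotropic hab)
  have hN := nonExc_qMinus m hab
  have h5 : 5 ≤ Fintype.card ((Fin m ⊕ Fin m) ⊕ Fin 2) := by simp; omega
  have hΦ := Phi_surjective_minus hm hab
  obtain ⟨s, rfl⟩ := hΦ x
  by_cases hσ : s.σ = 1
  · refine iff_of_false (not_not.mpr (balance_graph hQ h5 hΦ hpr A hinn hN (even_card_minus m) hσ (fun h => hnot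
      ((exists_simil_iff (Q := qMinus m F a b) (Cfsg.PreservesSingularClassesMinus m a b) _).mpr
        ⟨s, hσ, (preservesMinus_iff (by omega) hab hσ).mpr h, rfl⟩)) hord)) fun h => ?_
    obtain ⟨t, ht, h1⟩ := exists_of_fieldClassMinus hm hab h.1
    obtain ⟨c, rfl⟩ := (Phi_eq_iff hQ h5).mp h1
    exact ht (by simpa using hσ)
  · have h3 := pow_orderOf_eq_one (Phi _ s)
    exact ((balance_field hQ h5 hΦ hpr A hinn hσ hord).2).trans
      (and_iff_right (isFieldAutClassMinus (by omega) hab hσ (hord ▸ h3))).symm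

end Cfsg.Agent.S2733
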