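import Cfsg.Statements.S4365
import Cfsg.Agent.Lib.PGroup.Special
import Cfsg.Agent.Lib.Core.Basic

set_option autoImplicit false
open Cfsg

namespace Cfsg.Agent.S4365

open Subgroup Cfsg.Agent.Lib Cfsg.Agent.Lib.PGroup
open scoped commutatorElement

theorem relIndex_centralizer_eq {G : Type*} [Group G] (H : Subgroup G) (x : G) :
    (centralizer {x}).relIndex H = Set.ncard {y | ∃ h ∈ H, h * x * h⁻¹ = y} := by
  letI : MulAction H G := MulAction.compHom G ((MulAut.conj : G →* MulAut G).comp H.subtype)
  have h1 : (centralizer {x}).subgroupOf H = MulAction.stabilizer H x := by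
    ext h
    rw [mem_subgroupOf, mem_centralizer_singleton_iff, MulAction.mem_stabilizer_iff]
    change _ ↔ (h : G) * x * (h : G)⁻¹ = x
    rw [mul_inv_eq_iff_eq_mul]
  rw [relIndex, h1, MulAction.index_stabilizer]
  congr 1
  ext y
  exact ⟨fun ⟨h, hy⟩ => ⟨h, h.2, hy⟩, fun ⟨h, hh, hy⟩ => ⟨⟨h, hh⟩, hy⟩⟩

theorem mann {G : Type*} [Group G] [Finite G] {A : Subgroup G} [hA : A.Normal]
    (hAA : A ≤ centralizer (A : Set G)) {a w : G} (ha : a ∈ A) (hy : ⁅a, w⁆ ≠ 1) :
    (centralizer {⁅a, w⁆}).index < (centralizer {w}).index := by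
  set H := A ⊔ centralizer {w} with hH
  have hyA : ⁅a, w⁆ ∈ A := by
    rw [commutatorElement_def, mul_assoc, mul_assoc, ← mul_assoc w]
    exact A.mul_mem ha (hA.conj_mem _ (A.inv_mem ha) w)
  have h1 : (centralizer {⁅a, w⁆}).relIndex H < (centralizer {w}).relIndex H := by
    rw [relIndex_centralizer_eq, relIndex_centralizer_eq,
      ← Set.ncard_image_of_injective _ (mul_left_injective w)]
    refine Set.ncard_lt_ncard ⟨?_, fun h => ?_⟩ (Set.toFinite _)
    · rintro _ ⟨_, ⟨h, hh, rfl⟩, rfl⟩
      obtain ⟨b, hb, c, hc, rfl⟩ := (mem_sup_of_normal_left).mp hh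
      refine ⟨c * a, mul_mem (mem_sup_right hc) (mem_sup_left ha), ?_⟩
      have h2 := mem_centralizer_iff.mp (hAA hb) _ (hA.conj_mem _ hyA c)
      have h3 := mem_centralizer_singleton_iff.mp hc
      calc c * a * w * (c * a)⁻¹ = c * ⁅a, w⁆ * (w * c⁻¹) := by rw [commutatorElement_def]; group
        _ = c * ⁅a, w⁆ * c⁻¹ * w := by
          rw [mul_assoc (c * _), eq_comm.mp (show c⁻¹ * w = w * c⁻¹ by
            rw [inv_mul_eq_iff_eq_mul, ← mul_assoc, h3, mul_inv_cancel_right])]
        _ = b * (c * ⁅a, w⁆ * c⁻¹) * b⁻¹ * w := by rw [← h2, mul_inv_cancel_right]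
        _ = _ := by group
    · obtain ⟨_, ⟨h, -, rfl⟩, h2⟩ := h (a := w) ⟨1, one_mem _, by group⟩
      simp only [mul_eq_right, conj_eq_one_iff] at h2
      exact hy h2
  have h2 := relIndex_mul_index (le_sup_right : centralizer {w} ≤ H)
  have h3 := relIndex_mul_index (inf_le_right : centralizer {⁅a, w⁆} ⊓ H ≤ H)
  rw [inf_relIndex_right] at h3
  have h4 := index_antitone (inf_le_left : centralizer {⁅a, w⁆} ⊓ H ≤ _)
  have h5 : 0 < H.index := Nat.pos_of_ne_zero FiniteIndex.index_ne_zero
  calc _ ≤ _ := h4
    _ = _ := h3.symm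
    _ < _ := Nat.mul_lt_mul_of_pos_right h1 h5
    _ = _ := h2

/-- Let P be a finite p-group whose conjugacy class sizes are exactly 1 and pᵃ for some a ≥ 1. Then every element of P has its p-th power in the center of P (P/Z(P) has exponent p). -/
theorem result {P : Type*} [Group P] [Finite P] (p : ℕ) [Fact p.Prime]
    (hP : IsPGroup p P) (a : ℕ) (ha : 1 ≤ a)
    (hcs : {k : ℕ | ∃ x : P, (Subgroup.centralizer ({x} : Set P)).index = k} = {1, p ^ a}) (x : P) :
    x ^ p ∈ Subgroup.center P := by
  by_contra hx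
  have hidx : ∀ y : P, y ∉ center P → (centralizer {y}).index = p ^ a := by
    intro y hy
    have : (centralizer {y}).index ∈ ({1, p ^ a} : Set ℕ) := hcs ▸ ⟨y, rfl⟩
    rcases this with h | h
    · rw [index_eq_one] at h
      exact (hy (mem_center_iff.mpr fun g =>
        (mem_centralizer_singleton_iff.mp (h ▸ mem_top g : g ∈ centralizer {y})))).elim
    · exact h
  have heq : ∀ y z : P, z ∉ center P → centralizer {y} ≤ centralizer {z} →
      centralizer ({y} : Set P) = centralizer {z} := by
    intro y z hz h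
    have hy : y ∉ center P := fun hy => hz (mem_center_iff.mpr fun g =>
      mem_centralizer_singleton_iff.mp (h (mem_centralizer_singleton_iff.mpr
        (mem_center_iff.mp hy g))))
    refine eq_of_le_of_card_ge h ?_
    have h1 := (centralizer {y}).card_mul_index
    have h2 := (centralizer {z}).card_mul_index
    rw [hidx y hy] at h1
    rw [hidx z hz, ← h1] at h2
    exact (Nat.eq_of_mul_eq_mul_right (pow_pos (Fact.out : p.Prime).pos a) h2).le
  have hpow : ∀ y : P, y ^ p ∉ center P → centralizer ({y} : Set P) = centralizer {y ^ p} :=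
    fun y hy => heq _ _ hy fun g hg => mem_centralizer_singleton_iff.mpr
      ((Commute.pow_right (mem_centralizer_singleton_iff.mp hg) p))
  obtain ⟨y, -, hy, hyp, hyc⟩ := exists_central_mod hP (N := center P) (M := ⊤)
    fun h => hx (h (mem_top _))
  have hcomm : ∀ u v : P, ⁅u, v⁆ ∈ center P → v ^ p ∈ center P → u ^ p * v = v * u ^ p := by
    intro u v h1 h2
    rw [← commutatorElement_eq_one_iff_mul_comm,
      commutatorElement_pow_left (commute_of_mem_center h1 u),
      ← commutatorElement_pow_right (commute_of_mem_center h1 v),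
      commutatorElement_eq_one_iff_mul_comm]
    exact mem_center_iff.mp h2 u
  have key : ∀ u : P, u ^ p ∉ center P → centralizer ({u} : Set P) = centralizer {y} := by
    intro u hu
    have h1 : Commute u y := by
      have : y ∈ centralizer {u} := by
        rw [hpow u hu, mem_centralizer_singleton_iff]
        refine (hcomm u y ?_ hyp).symm
        rw [← commutatorElement_inv]; exact inv_mem (hyc u)
      exact (mem_centralizer_singleton_iff.mp this).symm
    have h2 : (u * y) ^ p ∉ center P := fun h => hu (by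
      rw [h1.mul_pow] at h
      exact (mul_mem_cancel_right hyp).mp h)
    refine heq _ _ hy fun g hg => ?_
    have h3 : g ∈ centralizer {u * y} := by
      rw [hpow _ h2, mem_centralizer_singleton_iff, h1.mul_pow]
      exact ((Commute.pow_right (mem_centralizer_singleton_iff.mp hg) p).mul_right
        (commute_of_mem_center hyp g).symm)
    rw [mem_centralizer_singleton_iff] at hg h3 ⊢
    rw [← mul_assoc, hg, mul_assoc, mul_assoc, mul_right_inj] at h3
    exact h3
  haveI : (centralizer ({y} : Set P)).Normal := ⟨fun g hg h => by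
    rw [mem_centralizer_singleton_iff] at hg ⊢
    have h1 : h⁻¹ * y * h = ⁅y, h⁻¹⁆⁻¹ * y := by rw [commutatorElement_def]; group
    have h2 : g * (h⁻¹ * y * h) = (h⁻¹ * y * h) * g := by
      rw [h1, ← mul_assoc, mem_center_iff.mp (inv_mem (hyc h⁻¹)) g, mul_assoc, hg, mul_assoc]
    calc h * g * h⁻¹ * y = h * (g * (h⁻¹ * y * h)) * h⁻¹ := by group
      _ = _ := by rw [h2]; group⟩
  obtain ⟨w, hw⟩ : ∃ w, w ∉ centralizer ({y} : Set P) := by
    by_contra h
    push Not at h
    exact hy (mem_center_iff.mpr fun g => mem_centralizer_singleton_iff.mp (h g))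
  have hwp : w ^ p ∈ center P := by
    by_contra h
    exact hw (key w h ▸ mem_centralizer_singleton_iff.mpr rfl)
  have hwz : w ∉ center P := fun h =>
    hw (mem_centralizer_singleton_iff.mpr (mem_center_iff.mp h y).symm)
  have hxA : x ∈ centralizer ({y} : Set P) ⊓ centralizer (centralizer ({y} : Set P) : Set P) := by
    rw [← key x hx]
    exact ⟨mem_centralizer_singleton_iff.mpr rfl, fun g hg => mem_centralizer_singleton_iff.mp hg⟩
  have h1 : ⁅x, w⁆ ∈ center P := by
    by_contra h
    have := mann (inf_le_right.trans (Core.centralizer_le_centralizer inf_le_left)) hxA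
      (w := w) fun h1 => h (h1 ▸ one_mem _)
    rw [hidx _ h, hidx _ hwz] at this
    exact lt_irrefl _ this
  refine hw ?_
  rw [← key x hx, hpow x hx, mem_centralizer_singleton_iff]
  exact (hcomm x w h1 hwp).symm

end Cfsg.Agent.S4365
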