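import Cfsg.Statements.S4370
import Cfsg.Agent.Lib.Misc.MaxPNil
import Cfsg.Agent.Lib.PGroup.MaxClass2
import Cfsg.Agent.Lib.PGroup.Rank

set_option autoImplicit false
open Cfsg

namespace Cfsg.Agent.S4370

open Subgroup Cfsg.Agent.Lib Cfsg.Agent.Lib.Core Cfsg.Agent.Lib.Glaub Cfsg.Agent.Lib.PGroup
open scoped Pointwise commutatorElement

theorem nonempty_prod {G : Type*} [Group G] [Finite G] {P H : Subgroup G} (h1 : P ≤ 𝐂(H))
    (h2 : P ⊓ H = ⊥) (h3 : P ⊔ H = ⊤) : Nonempty (G ≃* P × H) := by
  let f : P × H →* G := P.subtype.noncommCoprod H.subtype fun a b => (h1 a.2 b b.2).symm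
  refine ⟨(MulEquiv.ofBijective f ⟨(injective_iff_map_eq_one f).mpr fun ⟨a, b⟩ h => ?_,
    fun g => ?_⟩).symm⟩
  · have h4 : (a : G) * b = 1 := h
    have h5 : (a : G) ∈ P ⊓ H := ⟨a.2, by rw [eq_inv_of_mul_eq_one_left h4]; exact H.inv_mem b.2⟩
    rw [h2, mem_bot] at h5
    rw [h5, one_mul] at h4
    exact Prod.ext (Subtype.ext h5) (Subtype.ext h4)
  · obtain ⟨a, ha, b, hb, rfl⟩ := (mem_sup_of_le_normalizer_right
      (le_normalizer_of_le_centralizer h1)).mp (h3.ge (mem_top g))
    exact ⟨(⟨a, ha⟩, ⟨b, hb⟩), rfl⟩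

theorem cyc_centralizer {Q : Type*} [Group Q] [Finite Q] {a b : Q} {n : ℕ} (h : QuatForm a b n ⊤)
    {x : Q} (hx : x ∉ center Q) : IsCyclic (centralizer ({x} : Set Q)) := by
  have hz : ∀ c ∈ zpowers a, ∀ y, y ∉ zpowers a → y * c = c * y → c = 1 ∨ c = a ^ 2 ^ (n + 1) :=
    fun c hc y hy e => h.eq_of_sq_eq_one (mem_top c) (by
      have := (h.of_not_mem (mem_top y) hy).2 c hc
      rw [e, mul_inv_cancel_right] at this
      rw [pow_two]; nth_rewrite 1 [this]; exact inv_mul_cancel c)
  by_cases hxa : x ∈ zpowers a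
  · refine isCyclic_of_le (H' := zpowers a) fun y hy => ?_
    by_contra hya
    refine hx ?_
    have h1 := h.maxCl.center_eq
    rw [top_inf_eq, coe_top, centralizer_univ] at h1
    rw [h1]
    rcases hz x hxa y hya (mem_centralizer_singleton_iff.mp hy) with rfl | rfl
    · exact one_mem _
    · exact mem_zpowers _
  · have h1 : ∀ c ∈ zpowers a, x * c = c * x → c ∈ zpowers x := fun c hc e => by
      rcases hz c hc x hxa e with rfl | rfl
      · exact one_mem _
      · rw [← (h.of_not_mem (mem_top x) hxa).1]; exact pow_mem (mem_zpowers x) 2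
    refine isCyclic_of_le (H' := zpowers x) fun y hy => ?_
    have hy' := mem_centralizer_singleton_iff.mp hy
    by_cases hya : y ∈ zpowers a
    · exact h1 y hya hy'.symm
    · have hi : (zpowers a).index = 2 := by rw [← relIndex_top_right]; exact h.maxCl.relIndex
      have h2 : y * x⁻¹ ∈ zpowers a := (mul_mem_iff_of_index_two hi).mpr
        ⟨fun h => absurd h hya, fun h => absurd (inv_mem_iff.mp h) hxa⟩
      have h3 := mul_mem (h1 _ h2 (by rw [← mul_assoc, ← hy']; group)) (mem_zpowers x)
      rwa [inv_mul_cancel_right] at h3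

/-- Let G be a finite non-abelian nilpotent group. Then the centralizer of every non-central element of G is cyclic if and only if G is isomorphic to the direct product of a generalized quaternion group and a cyclic group of odd order. -/
theorem result {G : Type*} [Group G] [Finite G] (hG : Group.IsNilpotent G)
    (hna : ¬ IsMulCommutative G) :
    (∀ x : G, x ∉ Subgroup.center G → IsCyclic (Subgroup.centralizer ({x} : Set G))) ↔
      ∃ (k m : ℕ), 1 ≤ k ∧ Odd m ∧ Nonempty (G ≃* QuaternionGroup (2 ^ k) × Multiplicative (ZMod m)) := by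
  haveI : Fact (Nat.Prime 2) := ⟨Nat.prime_two⟩
  constructor
  · intro h
    obtain ⟨x, hx⟩ : ∃ x, x ∉ center G := by
      by_contra hc
      push Not at hc
      exact hna ⟨⟨fun a b => mem_center_iff.mp (hc b) a⟩⟩
    have hab : ∀ A : Subgroup G, A ≤ 𝐂(A) → IsCyclic A := fun A hA => by
      by_cases hc : A ≤ center G
      · haveI := h x hx
        exact isCyclic_of_le (hc.trans (center_le_centralizer {x}))
      · obtain ⟨a, ha, ha'⟩ := SetLike.not_le_iff_exists.mp hc
        haveI := h a ha'
        exact isCyclic_of_le (H' := centralizer {a}) fun y hy =>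
          mem_centralizer_singleton_iff.mpr (hA ha y hy)
    have hab' : ∀ {K : Type _} [Group K] (f : K →* G), Function.Injective f → ∀ A : Subgroup K,
        IsMulCommutative A → IsCyclic A := fun f hf A hA => by
      haveI := hab (A.map f) (le_centralizer _)
      exact isCyclic_of_surjective _ (A.equivMapOfInjective f hf).symm.surjective
    obtain ⟨P, hP⟩ := exists_isSyl (p := 2) (⊤ : Subgroup G)
    set H := pPrimeCore 2 G with hH
    have hPH : P ⊔ H = ⊤ := by
      have := sup_OppOf_of_hnpc (Transfer.hasNormalPComplement_top_iff.mpr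
        Transfer.hasNormalPComplement_of_isNilpotent) hP
      rwa [OppOf_top] at this
    have hH2 : ¬ 2 ∣ Nat.card H := pPrimeCore_not_dvd
    have hPC : P ≤ 𝐂(H) := fun y hy z hz => (commute_of_coprime_of_isNilpotent
      (Nat.Coprime.coprime_dvd_right (orderOf_dvd_natCard (⟨y, hy⟩ : P) |> fun h => by
        rwa [← Subgroup.orderOf_coe] at h)
        (Nat.Coprime.coprime_dvd_left (orderOf_dvd_natCard (⟨z, hz⟩ : H) |> fun h => by
          rwa [← Subgroup.orderOf_coe] at h) (coprime_card_of_isPGroup hP.isPGroup hH2).symm))).eq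
    haveI : IsZGroup H := ⟨fun q hq S => by
      haveI := Fact.mk hq
      by_contra hc
      have hq2 : q ≠ 2 := by
        rintro rfl
        refine hc (?_)
        rw [(isSyl_sylow S).eq_bot (by rwa [card_top])]
        infer_instance
      obtain ⟨E, -, hE, hE2⟩ := exists_normal_elementary_sq hq2 _ _ rfl S.isPGroup' hc
      haveI := hab' (H.subtype.comp (S : Subgroup H).subtype)
        (H.subtype_injective.comp (subtype_injective _)) E hE.1
      have := IsCyclic.exponent_eq_card (α := E)
      have h3 : Monoid.exponent E ∣ q :=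
        Monoid.exponent_dvd_of_forall_pow_eq_one fun g => Subtype.ext (hE.2 g g.2)
      rw [this, hE2] at h3
      have := Nat.le_of_dvd hq.pos h3
      have := hq.two_le
      nlinarith⟩
    have hHc : IsCyclic H := inferInstance
    obtain ⟨e⟩ := nonempty_prod hPC (inf_eq_bot_of_isPGroup_of_not_dvd hP.isPGroup hH2) hPH
    have huniq : ∀ x y : P, orderOf x = 2 → orderOf y = 2 → x = y := by
      intro x y hx hy
      obtain ⟨z, -, hz, hz2⟩ := exists_central_orderOf_eq hP.isPGroup (N := ⊤) (fun h => by
        have : x = 1 := mem_bot.mp (h ▸ mem_top x)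
        rw [this, orderOf_one] at hx; omega)
      have key : ∀ x : P, orderOf x = 2 → x = z := fun x hx => by
        have hc : zpowers x ⊔ zpowers z ≤ 𝐂(zpowers x ⊔ zpowers z) :=
          le_centralizer_sup (sup_le (le_centralizer _)
            (zpowers_le.mpr (center_le_centralizer _ hz)))
            (le_centralizer_iff.mp (zpowers_le.mpr (center_le_centralizer _ hz)))
        haveI := le_centralizer_iff_isMulCommutative.mp hc
        haveI := hab' P.subtype P.subtype_injective _ this
        have h1 := card_dvd_of_le_isCyclic (omegaIn_le (zpowers x ⊔ zpowers z) 2) fun y hy => hy.2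
        have hx2 : x ^ 2 = 1 := hx ▸ pow_orderOf_eq_one x
        have h2 : zpowers z = omegaIn (zpowers x ⊔ zpowers z) 2 := eq_of_le_of_card_ge
          (zpowers_le.mpr ⟨mem_sup_right (mem_zpowers z), hz2 ▸ pow_orderOf_eq_one z⟩)
          (by rw [Nat.card_zpowers, hz2]; exact Nat.le_of_dvd two_pos h1)
        rcases eq_one_or_eq_half_pow (n := 0) hz2 (h2.ge ⟨mem_sup_left (mem_zpowers x), hx2⟩) hx2
          with rfl | h3
        · rw [orderOf_one] at hx; omega
        · simpa using h3
      rw [key x hx, key y hy]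
    rcases isCyclic_or_quatForm_of_unique_involution hP.isPGroup huniq with hc | ⟨a, b, n, hc⟩
    · haveI : IsCyclic (P × H) := Group.isCyclic_prod_iff.mpr
        ⟨hc, hHc, coprime_card_of_isPGroup hP.isPGroup hH2⟩
      haveI : IsCyclic G := isCyclic_of_surjective _ e.symm.surjective
      exact absurd IsCyclic.isMulCommutative hna
    obtain ⟨e1⟩ := hc.nonempty_mulEquiv
    exact ⟨n + 1, Nat.card H, by omega, Nat.odd_iff.mpr (by omega),
      ⟨e.trans ((topEquiv.symm.trans e1).prodCongr (zmodCyclicMulEquiv hHc).symm)⟩⟩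
  · rintro ⟨k, m, hk, hm, ⟨e⟩⟩ x hx
    obtain ⟨n, rfl⟩ : ∃ n, k = n + 1 := ⟨k - 1, by omega⟩
    haveI : NeZero m := ⟨hm.pos.ne'⟩
    have hq := quatForm_quaternionGroup n
    have h1 : (e x).1 ∉ center _ := fun h => hx (mem_center_iff.mpr fun y => e.injective (by
      rw [map_mul, map_mul]
      exact Prod.ext (mem_center_iff.mp h _) (mul_comm _ _)))
    haveI := cyc_centralizer hq h1
    haveI : IsCyclic (centralizer ({(e x).1} : Set _) × Multiplicative (ZMod m)) := by
      refine Group.isCyclic_prod_iff.mpr ⟨inferInstance, inferInstance, ?_⟩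
      refine Nat.Coprime.coprime_dvd_left (card_subgroup_dvd_card _) ?_
      rw [← card_top, hq.maxCl.card, Nat.card_congr Multiplicative.toAdd, Nat.card_zmod]
      exact (Nat.coprime_two_left.mpr hm).pow_left _
    refine isCyclic_of_injective (G' := centralizer ({(e x).1} : Set _) × Multiplicative (ZMod m))
      ((((MonoidHom.fst _ _).comp (e.toMonoidHom.comp (Subgroup.subtype _))).codRestrict _ fun y => ?_).prod
      ((MonoidHom.snd _ _).comp (e.toMonoidHom.comp (Subgroup.subtype _)))) fun y z h => ?_
    · refine mem_centralizer_singleton_iff.mpr ?_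
      have := congrArg (fun t => (e t).1) (mem_centralizer_singleton_iff.mp y.2)
      simpa using this
    · have h2 := congrArg Prod.snd h
      have h3 := congrArg (fun t => t.1.1) h
      exact Subtype.ext (e.injective (Prod.ext h3 h2))

end Cfsg.Agent.S4370
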