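import Cfsg.Statements.S4371
import Cfsg.Agent.Lib.OD.Fin

set_option autoImplicit false
open Cfsg

namespace Cfsg.Agent.S4371

/-- Let G be a finite non-solvable group in which no prime divides three pairwise distinct element orders. Then one of the following holds, where 'a product of at most two primes' always counts primes with multiplicity: the quotient of G by its largest normal 2-subgroup is isomorphic to PSL(2, q) with q = 2ᶠ ≥ 4 and each of q + 1, q - 1 a product of at most two primes; G is isomorphic to PSL(2, q) with q > 5, q ≡ 3 or 5 (mod 8) and each of (q + 1)/2, (q - 1)/2 a product of at most two primes; G is isomorphic to PSL(2, 7), PSL(2, 9) or PSL(3, 4); or G is simple of order q²(q² + 1)(q - 1), the order of the Suzuki group Sz(q), where q = 2²ⁿ⁺¹ ≥ 8, and each of q - 1, q - r + 1, q + r + 1 (r = 2ⁿ⁺¹) is a product of at most two primes. -/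
theorem result {G : Type*} [Group G] [Finite G]
    (hG : ¬ Group.IsSolvable G) (h3 : (∀ p : ℕ, p.Prime → ∀ a b c : G, orderOf a ≠ orderOf b → orderOf b ≠ orderOf c → orderOf a ≠ orderOf c → ¬ (p ∣ orderOf a ∧ p ∣ orderOf b ∧ p ∣ orderOf c))) :
    (∃ (F : Type) (_ : Field F) (_ : Fintype F), CharP F 2 ∧ 4 ≤ Fintype.card F ∧
        (Fintype.card F + 1).primeFactorsList.length ≤ 2 ∧ (Fintype.card F - 1).primeFactorsList.length ≤ 2 ∧
        Nonempty (G ⧸ Cfsg.pCore 2 G ≃* Matrix.ProjectiveSpecialLinearGroup (Fin 2) F)) ∨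
    (∃ (F : Type) (_ : Field F) (_ : Fintype F), 5 < Fintype.card F ∧ (Fintype.card F % 8 = 3 ∨ Fintype.card F % 8 = 5) ∧
        ((Fintype.card F + 1) / 2).primeFactorsList.length ≤ 2 ∧ ((Fintype.card F - 1) / 2).primeFactorsList.length ≤ 2 ∧
        Nonempty (G ≃* Matrix.ProjectiveSpecialLinearGroup (Fin 2) F)) ∨
    (∃ (F : Type) (_ : Field F) (_ : Fintype F), (Fintype.card F = 7 ∨ Fintype.card F = 9) ∧
        Nonempty (G ≃* Matrix.ProjectiveSpecialLinearGroup (Fin 2) F)) ∨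
    (∃ (F : Type) (_ : Field F) (_ : Fintype F), Fintype.card F = 4 ∧ Nonempty (G ≃* Matrix.ProjectiveSpecialLinearGroup (Fin 3) F)) ∨
    (∃ n : ℕ, 1 ≤ n ∧ IsSimpleGroup G ∧ Nat.card G = (2 ^ (2 * n + 1)) ^ 2 * ((2 ^ (2 * n + 1)) ^ 2 + 1) * (2 ^ (2 * n + 1) - 1) ∧
        (2 ^ (2 * n + 1) - 1).primeFactorsList.length ≤ 2 ∧ (2 ^ (2 * n + 1) - 2 ^ (n + 1) + 1).primeFactorsList.length ≤ 2 ∧
        (2 ^ (2 * n + 1) + 2 ^ (n + 1) + 1).primeFactorsList.length ≤ 2) := by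
  have h : Lib.OD.H3 G := h3
  by_cases hD : Lib.Core.OpOf 2 (⊤ : Subgroup G) = ⊥
  swap
  · exact .inl (h.big hG hD)
  rcases h.core hG hD with (e | ⟨n, h1, h2, h4, w, x, y, z, -, hx, hy, hz⟩) |
    ⟨q, h1, h2, F, _, _, rfl, ⟨f⟩⟩ | ⟨-, e | e⟩
  · obtain ⟨F, _, _, h1, h2, h4, h5, ⟨f⟩⟩ := e.alt1 h
    exact .inl ⟨F, _, _, h1, h2, h4, h5, ⟨((QuotientGroup.quotientMulEquivOfEq
      (Lib.Core.OpOf_top.symm.trans hD)).trans QuotientGroup.quotientBot).trans f⟩⟩
  · exact .inr (.inr (.inr (.inr ⟨n, h1, h2, h4, hx ▸ h.omega x, hy ▸ h.omega y, hz ▸ h.omega z⟩)))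
  · obtain ⟨x, y, hx, hy⟩ := Lib.OD.tori_odd F (Nat.odd_iff.2 (by omega))
    exact .inr (.inl ⟨F, _, _, h1, h2, hx ▸ (h.iso f).omega x, hy ▸ (h.iso f).omega y, ⟨f⟩⟩)
  · exact .inr (.inr (.inl e))
  · exact .inr (.inr (.inr (.inl e)))

end Cfsg.Agent.S4371
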