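import Cfsg.Statements.S4372
import Cfsg.Agent.Lib.Base.Cop6

set_option autoImplicit false
open Cfsg

namespace Cfsg.Agent.S4372

open Cfsg.Agent.Lib.Base Cfsg.Agent.Lib.Core

/-- Let the finite solvable group A act faithfully by automorphisms on the finite group K with the orders of A and K coprime. Then there are two elements x, y of K such that only the identity of A fixes both. -/
theorem result {A K : Type*} [Group A] [Finite A] [Group K] [Finite K]
    [MulDistribMulAction A K] [FaithfulSMul A K] (hA : Group.IsSolvable A) (hcop : (Nat.card A).Coprime (Nat.card K)) :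
    ∃ x y : K, ∀ a : A, a • x = x → a • y = y → a = 1 := by
  obtain ⟨G, _, _, ι, σ, h⟩ := exists_hol (MulDistribMulAction.toMulAut A K)
  have hs := Group.isSolvable_of_surjective σ.rangeRestrict_surjective
  obtain ⟨_, ⟨x, rfl⟩, _, ⟨y, rfl⟩, h1⟩ := exists_two_cent (A := σ.range) (K := ι.range)
    ⟨by rintro _ ⟨a, rfl⟩; exact h.mem_normalizer_range a, by rwa [h.card_range_ι, h.card_range_σ], Or.inr hs⟩ hs
  refine ⟨x, y, fun a hx hy => FaithfulSMul.eq_of_smul_eq_smul (α := K) fun k => ?_⟩
  rw [one_smul]
  exact DFunLike.congr_fun (h.mem_centralizer_range_iff.mp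
    (h1 _ ⟨a, rfl⟩ (h.commute_iff.mpr hx) (h.commute_iff.mpr hy))) k

end Cfsg.Agent.S4372
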