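import Cfsg.Statements.S4373
import Cfsg.Agent.Lib.Base.Cop6

set_option autoImplicit false
open Pointwise
open Cfsg

namespace Cfsg.Agent.S4373

open Cfsg.Agent.Lib.Base Cfsg.Agent.Lib.Core

/-- Let π be a set of primes and G a finite π-solvable group: G has a chain of normal subgroups from 1 to G in which each successive index is a power of a prime in π or is divisible by no prime in π. Let H be a Hall π-subgroup of G. Then there are x, y ∈ G with H ∩ xHx⁻¹ ∩ yHy⁻¹ = O_π(G), the largest normal π-subgroup. -/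
theorem result {G : Type*} [Group G] [Finite G] (π : Set ℕ)
    (hsolv : (∃ (n : ℕ) (N : Fin (n + 1) → Subgroup G), N 0 = ⊥ ∧ N (Fin.last n) = ⊤ ∧ Monotone N ∧ (∀ i, (N i).Normal) ∧
      ∀ i : Fin n, (∃ p ∈ π, p.Prime ∧ ∃ k : ℕ, (N i.castSucc).relIndex (N i.succ) = p ^ k) ∨
        (∀ q : ℕ, q.Prime → q ∣ (N i.castSucc).relIndex (N i.succ) → q ∉ π))) (H : Subgroup G) (hH : Cfsg.IsPiHall π H) :
    ∃ x y : G, H ⊓ MulAut.conj x • H ⊓ MulAut.conj y • H = Cfsg.piCore π G := by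
  obtain ⟨n, N, h0, h1, -, h2, h3⟩ := hsolv
  have hi : PiInd π G := fun Q q0 q1 => h1 ▸ Fin.induction (motive := fun i => Q (N i)) (h0 ▸ q0)
    (fun i ih => q1 _ _ _ (h2 _) (h2 _) (fun x hx => by
      haveI := h2 i.castSucc
      exact Subgroup.pow_relIndex_mem _ hx) (h3 i) ih) (Fin.last n)
  obtain ⟨x, y, h⟩ := (hi.map _ (QuotientGroup.mk'_surjective (piCore π G))).exists_two piCore_quotient
    (IsPi.map (H := H) hH.1 (QuotientGroup.mk' _))
  obtain ⟨x, rfl⟩ := QuotientGroup.mk_surjective x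
  obtain ⟨y, rfl⟩ := QuotientGroup.mk_surjective y
  have hO : piCore π G ≤ H := le_sup_right.trans (Lib.HallSym.eq_of_hall_le hH
    (IsPi.sup (H := H) hH.1 piCore_isPi Subgroup.le_normalizer_of_normal) le_sup_left).ge
  have e : ∀ z a : G, a ∈ MulAut.conj z • H ↔ z⁻¹ * a * z ∈ H := fun z a => by
    simp [Subgroup.mem_pointwise_smul_iff_inv_smul_mem]
  exact ⟨x, y, le_antisymm (fun (a : G) ha => (QuotientGroup.eq_one_iff a).mp (h _ ⟨a, ha.1.1, rfl⟩
    ⟨_, (e x a).mp ha.1.2, rfl⟩ ⟨_, (e y a).mp ha.2, rfl⟩)) fun a ha =>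
    ⟨⟨hO ha, (e x a).mpr (hO (Subgroup.Normal.conj_mem' inferInstance a ha x))⟩,
      (e y a).mpr (hO (Subgroup.Normal.conj_mem' inferInstance a ha y))⟩⟩

end Cfsg.Agent.S4373
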