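import Cfsg.Statements.S4376
import Cfsg.Agent.Lib.OrdType.PGL
import Cfsg.Agent.Lib.OrdType.G2
import Cfsg.Agent.Lib.OrdType.G3

set_option autoImplicit false
open Cfsg

namespace Cfsg.Agent.S4376

open Cfsg.Agent.Lib.OrdType

theorem cert_prod {G H : Type} [Group G] [Group H] {v w : List ℕ}
    (h1 : (∀ g : G, g ^ 168 = 1) ∧ dv.map (ee G) = v)
    (h2 : (∀ g : H, g ^ 168 = 1) ∧ dv.map (ee H) = w) :
    (∀ g : G × H, g ^ 168 = 1) ∧ dv.map (ee (G × H)) = List.zipWith (· * ·) v w := by
  refine ⟨fun g => Prod.ext (h1.1 g.1) (h2.1 g.2), ?_⟩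
  rw [← h1.2, ← h2.2, List.zipWith_map, List.zipWith_self]
  exact List.map_congr_left fun d _ => ee_prod G H d

/-- There are finite groups G and H having the same number of elements of each order (the same order type) with G solvable and H not solvable. -/
theorem result :
    ∃ (G : Type) (_ : Group G) (_ : Finite G) (H : Type) (_ : Group H) (_ : Finite H),
      Group.IsSolvable G ∧ ¬ Group.IsSolvable H ∧ ∀ n : ℕ, Nat.card {g : G // orderOf g = n} = Nat.card {h : H // orderOf h = n} := by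
  haveI := eAG.finite
  haveI := eG2.finite
  haveI := eG3.finite
  haveI := eF21.finite
  haveI := eH3.finite
  haveI := finite_PGL
  haveI := solvable_AG
  haveI := solvable_G2
  haveI := solvable_G3
  have h23 := @cert_prod G2 G3 _ _ _ _ ee_G2 ee_G3
  have hG := @cert_prod AG (G2 × G3) _ _ _ _ ee_AG h23
  have k1 := @cert_prod (QuaternionGroup 2) H3 _ _ _ _ ee_Q8 ee_H3
  have k2 := @cert_prod (Z 12) _ _ _ _ _ ee_Z12 k1
  have k3 := @cert_prod F21 _ _ _ _ _ ee_F21 k2
  have hH := @cert_prod PGL _ _ _ _ _ ee_PGL k3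
  have hns : ¬ Group.IsSolvable (PGL × F21 × Z 12 × QuaternionGroup 2 × H3) := fun h =>
    not_solvable_PGL (solvable_of_surjective 
      (f := MonoidHom.fst PGL (F21 × Z 12 × QuaternionGroup 2 × H3)) fun x => ⟨(x, 1), rfl⟩)
  have hs : Group.IsSolvable (AG × G2 × G3) := inferInstance
  have hf1 : Finite (AG × G2 × G3) := inferInstance
  have hf2 : Finite (PGL × F21 × Z 12 × QuaternionGroup 2 × H3) := inferInstance
  refine ⟨AG × G2 × G3, inferInstance, hf1,
    PGL × F21 × Z 12 × QuaternionGroup 2 × H3, inferInstance, hf2, hs, hns,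
    orderType_eq fun n => ?_⟩
  rw [ee_gcd hG.1, ee_gcd hH.1]
  have h : dv.map (ee (AG × G2 × G3)) = dv.map (ee (PGL × F21 × Z 12 × QuaternionGroup 2 × H3)) := by
    rw [hG.2, hH.2]
    decide +kernel
  refine List.map_inj_left.1 h _ ?_
  have h1 : Nat.gcd n 168 ∈ Nat.divisors 168 := Nat.mem_divisors.2 ⟨Nat.gcd_dvd_right _ _, by norm_num⟩
  have h2 : ∀ d ∈ Nat.divisors 168, d ∈ dv := by decide +kernel
  exact h2 _ h1

end Cfsg.Agent.S4376
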