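import Cfsg.Statements.S4377
import Cfsg.Agent.Lib.PGroup.Basic

set_option autoImplicit false
open Cfsg

namespace Cfsg.Agent.S4377

theorem card_pow_eq_one (G : Type*) [Group G] [Finite G] {n : ℕ} (hn : n ≠ 0) :
    Nat.card {g : G // g ^ n = 1} = ∑ d ∈ n.divisors, Nat.card {g : G // orderOf g = d} := by
  classical
  haveI := Fintype.ofFinite G
  simp only [Nat.card_eq_fintype_card, Fintype.card_subtype]
  convert (sum_card_orderOf_eq_card_pow_eq_one (G := G) hn).symm

theorem card_eq_sum (G : Type*) [Group G] [Finite G] {n : ℕ} (hn : n ≠ 0)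
    (h : ∀ g : G, g ^ n = 1) : Nat.card {g : G // g ^ 0 = 1} = Nat.card {g : G // g ^ n = 1} :=
  Nat.card_congr (Equiv.subtypeEquivRight fun g => by simp [h g])

/-- Two finite groups have the same number of elements of each order if and only if, for every n, they have the same number of elements g with gⁿ = 1. -/
theorem result {G H : Type*} [Group G] [Finite G] [Group H] [Finite H] :
    (∀ n : ℕ, Nat.card {g : G // orderOf g = n} = Nat.card {h : H // orderOf h = n}) ↔
      ∀ n : ℕ, Nat.card {g : G // g ^ n = 1} = Nat.card {h : H // h ^ n = 1} := by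
  constructor
  · intro h n
    rcases eq_or_ne n 0 with rfl | hn
    · have hN : Nat.card G * Nat.card H ≠ 0 := mul_ne_zero Nat.card_pos.ne' Nat.card_pos.ne'
      rw [card_eq_sum G hN (fun g => by rw [pow_mul, pow_card_eq_one', one_pow]),
        card_eq_sum H hN (fun g => by rw [pow_mul', pow_card_eq_one', one_pow]),
        card_pow_eq_one G hN, card_pow_eq_one H hN]
      exact Finset.sum_congr rfl fun d _ => h d
    · rw [card_pow_eq_one G hn, card_pow_eq_one H hn]
      exact Finset.sum_congr rfl fun d _ => h d
  · intro h n
    induction n using Nat.strong_induction_on with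
    | _ n ih =>
    rcases eq_or_ne n 0 with rfl | hn
    · haveI : IsEmpty {g : G // orderOf g = 0} := ⟨fun g => (orderOf_pos g.1).ne' g.2⟩
      haveI : IsEmpty {g : H // orderOf g = 0} := ⟨fun g => (orderOf_pos g.1).ne' g.2⟩
      rw [Nat.card_of_isEmpty, Nat.card_of_isEmpty]
    · have h1 := h n
      rw [card_pow_eq_one G hn, card_pow_eq_one H hn, ← Nat.insert_self_properDivisors hn,
        Finset.sum_insert Nat.self_notMem_properDivisors,
        Finset.sum_insert Nat.self_notMem_properDivisors,
        Finset.sum_congr rfl fun d hd => ih d (Nat.mem_properDivisors.1 hd).2] at h1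
      exact Nat.add_right_cancel h1

end Cfsg.Agent.S4377
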