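import Cfsg.Statements.S4381
import Cfsg.Agent.Lib.Misc.Maschke
import Cfsg.Agent.Lib.Core.Hol
import Cfsg.Agent.Lib.PGroup.Basic

set_option autoImplicit false
open Pointwise
open Cfsg

namespace Cfsg.Agent.S4381

open Subgroup Cfsg.Agent.Lib Cfsg.Agent.Lib.Core
open scoped Pointwise

theorem exists_inv_syl {A G : Type*} [Group A] [Finite A] [Group G] [Finite G]
    [MulDistribMulAction A G] (hcop : (Nat.card A).Coprime (Nat.card G))
    (hsol : Group.IsSolvable A ∨ Group.IsSolvable G) (q : ℕ) [Fact q.Prime] :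
    ∃ Q : Subgroup G, IsSyl q Q ⊤ ∧ ∀ a : A, ∀ x ∈ Q, a • x ∈ Q := by
  obtain ⟨X, _, _, ι, σ, h⟩ := exists_hol (MulDistribMulAction.toMulAut A G)
  have hca : CoprimeAct σ.range ι.range := by
    refine ⟨?_, by rwa [h.card_range_ι, h.card_range_σ], hsol.symm.imp (fun hs => ?_) fun hs => ?_⟩
    · rintro _ ⟨a, rfl⟩; exact h.mem_normalizer_range a
    · haveI := hs
      exact solvable_of_surjective ι.rangeRestrict_surjective
    · haveI := hs
      exact solvable_of_surjective σ.rangeRestrict_surjective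
  obtain ⟨Q, h1, h2⟩ := hca.exists_isSyl q
  have e : (Q.comap ι).map ι = Q := map_comap_eq_self h1.le
  refine ⟨Q.comap ι, ⟨le_top, h1.isPGroup.comap_of_injective _ h.ι_inj, ?_⟩, fun a x hx => ?_⟩
  · rw [relIndex_comap, ← MonoidHom.range_eq_map]; exact h1.not_dvd
  · have := h.mem_normalizer_iff.mp (e.symm ▸ h2 ⟨a, rfl⟩ : σ a ∈ normalizer
      (((Q.comap ι).map ι : Subgroup X) : Set X))
    exact this.le ⟨x, hx, rfl⟩

theorem frattini_inv {A G : Type*} [Group A] [Group G] [MulDistribMulAction A G] (a : A) :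
    ∀ x ∈ frattini G, a • x ∈ frattini G := fun x hx =>
  (characteristic_iff_le_comap.mp inferInstance (MulDistribMulAction.toMulAut A G a)) hx

theorem sup_inv {A G : Type*} [Group A] [Group G] [MulDistribMulAction A G] {H K : Subgroup G}
    (hH : ∀ a : A, ∀ x ∈ H, a • x ∈ H) (hK : ∀ a : A, ∀ x ∈ K, a • x ∈ K) (a : A) :
    ∀ x ∈ H ⊔ K, a • x ∈ H ⊔ K :=
  (sup_le (fun x hx => mem_sup_left (hH a x hx)) fun x hx => mem_sup_right (hK a x hx) :
    H ⊔ K ≤ (H ⊔ K).comap (MulDistribMulAction.toMonoidHom G a))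

theorem frattini_le {A G : Type*} [Group A] [Group G] [Finite G] [MulDistribMulAction A G]
    {M : Subgroup G} (h : M ≠ ⊤ ∧ (∀ a : A, ∀ x ∈ M, a • x ∈ M) ∧
      ∀ L : Subgroup G, M < L → (∀ a : A, ∀ x ∈ L, a • x ∈ L) → L = ⊤) : frattini G ≤ M := by
  by_contra hn
  exact h.1 (frattini_nongenerating
    (h.2.2 _ (left_lt_sup.mpr hn) (sup_inv h.2.1 frattini_inv)))

theorem exists_max {A G : Type*} [Group A] [Group G] [Finite G] [MulDistribMulAction A G]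
    {H : Subgroup G} (h1 : H ≠ ⊤) (h2 : ∀ a : A, ∀ x ∈ H, a • x ∈ H) :
    ∃ M, H ≤ M ∧ M ≠ ⊤ ∧ (∀ a : A, ∀ x ∈ M, a • x ∈ M) ∧
      ∀ L : Subgroup G, M < L → (∀ a : A, ∀ x ∈ L, a • x ∈ L) → L = ⊤ := by
  obtain ⟨M, m1, m2, m3⟩ := exists_maximal_subgroup
    (P := fun M : Subgroup G => M ≠ ⊤ ∧ ∀ a : A, ∀ x ∈ M, a • x ∈ M) ⟨h1, h2⟩
  refine ⟨M, m1, m2.1, m2.2, fun L hL hL' => ?_⟩
  by_contra hn
  exact hL.ne' (m3 L ⟨hn, hL'⟩ hL.le)

/-- Let the finite group A act by automorphisms on the finite group G with the orders of A and G coprime, and assume that A or G is solvable. Call a proper A-invariant subgroup of G maximal A-invariant when no A-invariant subgroup lies strictly between it and G. Then all maximal A-invariant subgroups of G are conjugate under elements of the fixed-point subgroup C_G(A) if and only if G is a p-group for some prime p and A leaves invariant no subgroup strictly between the Frattini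 subgroup of G and G. In that case, if G is nontrivial, the Frattini subgroup is the only maximal A-invariant subgroup (a trivial G has none). -/
theorem result {A G : Type*} [Group A] [Finite A]
    [Group G] [Finite G] [MulDistribMulAction A G] (hcop : (Nat.card A).Coprime (Nat.card G)) (hsol : Group.IsSolvable A ∨ Group.IsSolvable G) :
    ((∀ M N : Subgroup G, (M ≠ ⊤ ∧ (∀ a : A, ∀ x ∈ M, a • x ∈ M) ∧ ∀ L : Subgroup G, M < L → (∀ a : A, ∀ x ∈ L, a • x ∈ L) → L = ⊤) → (N ≠ ⊤ ∧ (∀ a : A, ∀ x ∈ N, a • x ∈ N) ∧ ∀ L : Subgroup G, N < L → (∀ a : A, ∀ x ∈ L, a • x ∈ L) → L = ⊤) →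
        ∃ c : G, (∀ a : A, a • c = c) ∧ N = MulAut.conj c • M) ↔
      ((∃ p : ℕ, p.Prime ∧ IsPGroup p G) ∧ ∀ L : Subgroup G, frattini G < L → (∀ a : A, ∀ x ∈ L, a • x ∈ L) → L = ⊤)) ∧
    (((∃ p : ℕ, p.Prime ∧ IsPGroup p G) ∧ ∀ L : Subgroup G, frattini G < L → (∀ a : A, ∀ x ∈ L, a • x ∈ L) → L = ⊤) →
      ∀ M : Subgroup G, (M ≠ ⊤ ∧ (∀ a : A, ∀ x ∈ M, a • x ∈ M) ∧ ∀ L : Subgroup G, M < L → (∀ a : A, ∀ x ∈ L, a • x ∈ L) → L = ⊤) ↔ (M = frattini G ∧ M ≠ ⊤)) := by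
  have h2 : ((∃ p : ℕ, p.Prime ∧ IsPGroup p G) ∧ ∀ L : Subgroup G, frattini G < L →
      (∀ a : A, ∀ x ∈ L, a • x ∈ L) → L = ⊤) →
      ∀ M : Subgroup G, (M ≠ ⊤ ∧ (∀ a : A, ∀ x ∈ M, a • x ∈ M) ∧ ∀ L : Subgroup G, M < L →
        (∀ a : A, ∀ x ∈ L, a • x ∈ L) → L = ⊤) ↔ (M = frattini G ∧ M ≠ ⊤) := by
    rintro ⟨-, h⟩ M
    refine ⟨fun hM => ⟨?_, hM.1⟩, ?_⟩
    · by_contra hn
      exact hM.1 (h M (lt_of_le_of_ne (frattini_le hM) (Ne.symm hn)) hM.2.1)
    · rintro ⟨rfl, h1⟩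
      exact ⟨h1, frattini_inv, h⟩
  refine ⟨⟨fun h => ?_, fun h M N hM hN => ⟨1, fun a => smul_one a, ?_⟩⟩, h2⟩
  swap
  · rw [((h2 h M).mp hM).1, ((h2 h N).mp hN).1, map_one, one_smul]
  have hp : ∃ p : ℕ, p.Prime ∧ IsPGroup p G := by
    by_contra hn
    push Not at hn
    have hne : ∀ q : ℕ, q.Prime → ∀ Q : Subgroup G, IsPGroup q Q → Q ≠ ⊤ := by
      rintro q hq _ hQ rfl
      exact hn q hq (hQ.of_equiv topEquiv)
    obtain ⟨M, -, hM⟩ := exists_max (A := A) (hne 2 Nat.prime_two ⊥ IsPGroup.of_bot)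
      (fun a x hx => by rw [mem_bot.mp hx, smul_one]; exact one_mem _)
    refine hM.1 (eq_top_iff.mpr (le_of_forall_isSyl fun q hq => ?_))
    haveI := Fact.mk hq
    obtain ⟨Q, q1, q2⟩ := exists_inv_syl hcop hsol q
    obtain ⟨N, hQN, hN⟩ := exists_max (hne q hq Q q1.isPGroup) q2
    obtain ⟨c, -, hc⟩ := h N M hN hM
    refine ⟨_, q1.conj_of_mem_normalizer (le_normalizer (mem_top c)), ?_⟩
    rw [hc]
    exact map_mono hQN
  refine ⟨hp, fun L hL hL' => ?_⟩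
  obtain ⟨p, hp, hG⟩ := hp
  haveI := Fact.mk hp
  by_contra hn
  obtain ⟨M, hLM, hM⟩ := exists_max hn hL'
  have hG1 : (⊤ : Subgroup G) ≠ ⊥ := fun h => hn (eq_top_iff.mpr (h ▸ bot_le))
  have hA : ¬ p ∣ Nat.card A := fun hd => hp.one_lt.ne' (Nat.eq_one_of_dvd_coprimes hcop hd
    (card_top (G := G) ▸ dvd_card_of_isPGroup_of_ne_bot (hG.to_subgroup ⊤) hG1))
  obtain ⟨W, w1, w2, w3⟩ := Maschke.exists_compl_mod hA (MulDistribMulAction.toMonoidEnd A G)
    (PGroup.commutator_le_frattini hG) (PGroup.pow_mem_frattini hG) frattini_inv (frattini_le hM)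
    hM.2.1
  have hW : W ≠ ⊤ := by
    rintro rfl
    rw [inf_top_eq] at w2
    exact (hL.trans_le hLM).ne' w2
  obtain ⟨N, hWN, hN⟩ := exists_max hW w1
  obtain ⟨c, -, hc⟩ := h M N hM hN
  haveI : M.Normal := Normal.of_commutator_le _ ((PGroup.commutator_le_frattini hG).trans (frattini_le hM))
  rw [Normal.conj_smul_eq_self] at hc
  exact hM.1 (by rw [← w3, sup_eq_left.mpr (hc ▸ hWN)])

end Cfsg.Agent.S4381
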