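import Cfsg.Statements.S4387
import Cfsg.Agent.Lib.PGroup.Basic
import Cfsg.Agent.Lib.Transfer.Jordan

set_option autoImplicit false
open Pointwise
open Cfsg

namespace Cfsg.Agent.S4387

open Subgroup Cfsg.Agent.Lib.Transfer Cfsg.Agent.Lib.PGroup
open scoped Pointwise commutatorElement IsMulCommutative

/-- Let G be a non-trivial finite group in which any two maximal subgroups are conjugate. Then G is cyclic of prime-power order. -/
theorem result {G : Type*} [Group G] [Finite G] [Nontrivial G]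
    (h : ∀ M N : Subgroup G, IsCoatom M → IsCoatom N → ∃ g : G, N = MulAut.conj g • M) :
    IsCyclic G ∧ IsPrimePow (Nat.card G) := by
  obtain ⟨M, hM, -⟩ := exists_coatom_ge (G := G) bot_ne_top
  obtain ⟨x, hx⟩ := exists_forall_conj_not_mem hM.1
  have h1 : zpowers x = ⊤ := by
    by_contra hc
    obtain ⟨N, hN, hle⟩ := exists_coatom_ge hc
    obtain ⟨g, rfl⟩ := h M N hM hN
    have := mem_conj_smul.1 (hle (mem_zpowers x))
    exact hx g⁻¹ (by rwa [inv_inv])
  refine ⟨isCyclic_iff_exists_zpowers_eq_top.2 ⟨x, h1⟩, ?_⟩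
  have h2 : orderOf x = Nat.card G := by rw [← Nat.card_zpowers, h1, card_top]
  have key : ∀ p : ℕ, p.Prime → p ∣ Nat.card G → p = M.index := by
    intro p hp hd
    have h3 : (zpowers (x ^ p)).index = p := by
      have := (zpowers (x ^ p)).card_mul_index
      rw [Nat.card_zpowers, orderOf_pow_of_dvd hp.ne_zero (h2 ▸ hd), h2] at this
      obtain ⟨k, hk⟩ := hd
      have hk0 : 0 < k := Nat.pos_of_mul_pos_left (hk ▸ Nat.card_pos)
      rw [hk, Nat.mul_div_cancel_left _ hp.pos, mul_comm p] at this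
      exact Nat.eq_of_mul_eq_mul_left hk0 this
    obtain ⟨g, hg⟩ := h M _ hM (isCoatom_of_index_prime (h3.symm ▸ hp))
    have h4 := (zpowers (x ^ p)).card_mul_index
    rw [h3, hg, card_conj_smul, ← M.card_mul_index] at h4
    exact Nat.eq_of_mul_eq_mul_left Nat.card_pos h4
  obtain ⟨p, hp, hd⟩ := Nat.exists_prime_and_dvd (Finite.one_lt_card (α := G)).ne'
  exact isPrimePow_iff_unique_prime_dvd.2 ⟨p, ⟨hp, hd⟩, fun q hq =>
    (key q hq.1 hq.2).trans (key p hp hd).symm⟩

end Cfsg.Agent.S4387
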