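import Cfsg.Statements.S4392
import Cfsg.Agent.Lib.Car.B
import Cfsg.Agent.Lib.Core.Hol

set_option autoImplicit false
open Cfsg

namespace Cfsg.Agent.S4392

/-- Let a finite nilpotent group F act faithfully by automorphisms on a finite group G so that F fixes only the identity of G, and let N be an F-invariant normal subgroup of G. Then F fixes only the identity coset of G/N: an element g with g⁻¹·f(g) ∈ N for every f ∈ F lies in N. (The orders of F and G need not be coprime.) -/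
theorem result {G F : Type*} [Group G] [Finite G] [Group F] [Finite F] [MulDistribMulAction F G] [FaithfulSMul F G]
    (hF : Group.IsNilpotent F) (hCF : ∀ g : G, (∀ f : F, f • g = g) → g = 1) (N : Subgroup G) [N.Normal] (hN : ∀ (f : F) (n : G), n ∈ N → f • n ∈ N)
    (g : G) (hg : ∀ f : F, g⁻¹ * f • g ∈ N) : g ∈ N := by
  obtain ⟨Γ, _, _, ι, σ, K⟩ := Lib.Core.exists_hol (MulDistribMulAction.toMulAut F G)
  have hr : (⊤ : Subgroup F).map σ = σ.range := (MonoidHom.range_eq_map σ).symm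
  have h : Lib.Car.FP ι.range σ.range := by
    refine ⟨Group.nilpotent_of_surjective σ.rangeRestrict σ.rangeRestrict_surjective,
      hr ▸ K.map_le_normalizer_range ⊤, le_bot_iff.mp ?_⟩
    rintro _ ⟨⟨x, rfl⟩, hx⟩
    have : x = 1 := hCF x fun f => by
      have h1 : ι (x * (MulDistribMulAction.toMulAut F G f x)⁻¹) ∈ ι.range ⊓ σ.range := by
        refine Subgroup.mem_inf.mpr ⟨⟨_, rfl⟩, ?_⟩
        rw [← K.commutatorElement', commutatorElement_def]
        exact σ.range.mul_mem (Lib.Core.conj_mem_of_mem_normalizer hx ⟨f, rfl⟩)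
          (σ.range.inv_mem ⟨f, rfl⟩)
      rw [K.inf, Subgroup.mem_bot, ← map_one ι] at h1
      exact (mul_inv_eq_one.mp (K.ι_inj h1)).symm
    rw [this, map_one]
    exact Subgroup.one_mem _
  have hn : σ.range ≤ Subgroup.normalizer ((N.map ι : Subgroup Γ) : Set Γ) := by
    rintro _ ⟨f, rfl⟩
    refine Lib.Core.mem_normalizer_of_conj_mem ?_
    rintro _ ⟨n, hn, rfl⟩
    rw [K.conj]
    exact ⟨_, hN f n hn, rfl⟩
  have e : ∀ f : F, ι g⁻¹ * σ f * (ι g⁻¹)⁻¹ = ι (g⁻¹ * f • g) * σ f := fun f => by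
    have := K.commutatorElement' f g⁻¹
    rw [commutatorElement_def, map_inv (MulDistribMulAction.toMulAut F G f), inv_inv,
      mul_inv_eq_iff_eq_mul] at this
    exact this
  have hm : ∀ f : F, ι (g⁻¹ * f • g) ∈ N.map ι := fun f => ⟨_, hg f, rfl⟩
  obtain ⟨n, h1, h2⟩ := h.mem_of_cj (h.sub (Subgroup.map_le_range ι N) hn).bb
    (Subgroup.map_le_range ι N) (x := ι g⁻¹) ⟨_, rfl⟩ (FT.cj_le_iff.mpr (by
      rintro _ ⟨f, rfl⟩
      rw [e]
      exact Subgroup.mul_mem_sup (hm f) ⟨f, rfl⟩)) (by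
      rintro _ ⟨f, rfl⟩
      have : σ f = (ι (g⁻¹ * f • g))⁻¹ * (ι g⁻¹ * σ f * (ι g⁻¹)⁻¹) := by rw [e]; group
      rw [this]
      exact Subgroup.mul_mem_sup (Subgroup.inv_mem _ (hm f)) (FT.conj_mem_cj.mpr ⟨f, rfl⟩))
  rw [K.ι_inj h2] at h1
  exact (Subgroup.inv_mem_iff N).mp h1

end Cfsg.Agent.S4392
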