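import Cfsg.Statements.S4396
import Cfsg.Agent.Lib.Misc.FreeMod2

set_option autoImplicit false
open Cfsg

namespace Cfsg.Agent.S4396

open Subgroup Cfsg.Agent.Lib.Core Cfsg.Agent.Lib.FreeMod

/-- Let the finite group A act faithfully and linearly on a finite-dimensional vector space V over a field k, and suppose A is a Frobenius group with nilpotent kernel F (every Frobenius kernel is nilpotent) and complement H such that F fixes no nonzero vector. Then V is free as a module for H: there is a subspace W with V the direct sum of the translates hW, h ∈ H. (No assumption on the characteristic of k.) -/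
theorem result {k V A : Type*} [Field k] [AddCommGroup V] [Module k V] [FiniteDimensional k V] [Group A] [Finite A] [DecidableEq A]
    (ρ : Representation k A V) (hρ : Function.Injective ρ)
    (Fk Hc : Subgroup A) [Fk.Normal] (hHc : Cfsg.IsFrobeniusComplement Hc) (hker : Cfsg.frobeniusKernel Hc = (Fk : Set A)) (hnil : Group.IsNilpotent ↥Fk)
    (hCF : ∀ v : V, (∀ f ∈ Fk, ρ f v = v) → v = 0) :
    ∃ W : Submodule k V, DirectSum.IsInternal (fun h : ↥Hc => W.map (ρ (h : A))) := by
  classical
  obtain ⟨F, hFn, hFk, hc, hfix⟩ : ∃ F : Subgroup A, F.Normal ∧ F ≤ Fk ∧ (Nat.card F : k) ≠ 0 ∧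
      ∀ v, (∀ f ∈ F, ρ f v = v) → v = 0 := by
    obtain ⟨p, hp⟩ := CharP.exists k
    rcases CharP.char_is_prime_or_zero k p with h | rfl
    · haveI := Fact.mk h
      refine ⟨OppOf p Fk, normal_map_subtype_of_characteristic _, OppOf_le _,
        by rw [Ne, CharP.cast_eq_zero_iff k p]; exact OppOf_not_dvd _, fun v hv => ?_⟩
      by_contra hv0
      obtain ⟨u, hu, hu0, h2⟩ := exists_fixed_of_isPGroup (ρ := ρ) (OpOf_isPGroup (p := p) Fk)
        (U := Representation.invariants (ρ.comp (OppOf p Fk).subtype))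
        ((Submodule.ne_bot_iff _).mpr ⟨v, fun e => hv e e.2, hv0⟩) fun g hg u hu e => by
          have h1 : ρ e u = u := hu e
          change ρ e (ρ g u) = ρ g u
          rw [← Module.End.mul_apply, ← map_mul,
            mem_centralizer_iff.mp (OpOf_le_centralizer_OppOf Fk hg) e e.2, map_mul,
            Module.End.mul_apply, h1]
      refine hu0 (hCF u fun f hf => ?_)
      rw [← OpOf_sup_OppOf (p := p) hnil] at hf
      obtain ⟨a, ha, b, hb, rfl⟩ := (mem_sup_of_le_normalizer_right
        (le_normalizer_of_le_centralizer (OpOf_le_centralizer_OppOf Fk))).mp hf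
      have h1 : ρ b u = u := hu ⟨b, hb⟩
      rw [map_mul, Module.End.mul_apply, h1, h2 a ha]
    · haveI := CharP.charP_to_charZero k
      exact ⟨Fk, inferInstance, le_rfl, Nat.cast_ne_zero.mpr Nat.card_pos.ne', hCF⟩
  haveI := Fintype.ofFinite Hc
  haveI := Fintype.ofFinite (F.subgroupOf (F ⊔ Hc))
  have hc' : (Nat.card (F.subgroupOf (F ⊔ Hc)) : k) ≠ 0 := by rwa [card_subgroupOf le_sup_left]
  have := free_of_sum (k := k) (F := F.subgroupOf (F ⊔ Hc)) (inclusion (le_sup_right : Hc ≤ F ⊔ Hc))
    (fun g => by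
      obtain ⟨a, ha, b, hb, e⟩ := (mem_sup_of_le_normalizer_left le_normalizer_of_normal).mp g.2
      exact ⟨⟨a, mem_sup_left ha⟩, ha, ⟨b, hb⟩, Subtype.ext e⟩)
    (fun h h1 x hx e => by
      have e' : (h : A) * x = x * h := congrArg Subtype.val e
      have hx' : (x : A) ∈ frobeniusKernel Hc := hker.ge (hFk hx)
      refine Subtype.ext (hx'.resolve_right fun h2 => h1 (Subtype.ext (mem_bot.mp ?_)))
      rw [← hHc.2.2 x fun h3 => h2 1 (by simpa using h3)]
      exact ⟨h.2, h, h.2, by simp [← e']⟩)
    (haveI := isNilpotent_of_le hnil hFk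
     Group.nilpotent_of_mulEquiv (subgroupOfEquivOfLe le_sup_left).symm)
    hc' _ V (ρ.comp (F ⊔ Hc).subtype) rfl ((sum_eq_zero_iff _ hc').mpr fun v hv =>
      hfix v fun f hf => hv ⟨f, mem_sup_left hf⟩ hf)
  exact this.isInternal

end Cfsg.Agent.S4396
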