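import Cfsg.Statements.S4401
import Cfsg.Agent.Lib.PGroup.SecRank
import Cfsg.Agent.Lib.PGroup.Extraspecial2

set_option autoImplicit false
open Cfsg

namespace Cfsg.Agent.S4401

open Subgroup Cfsg.Agent.Lib Cfsg.Agent.Lib.PGroup
open scoped commutatorElement

/-- Let S be a finite 2-group of sectional 2-rank at most 4 and P a proper non-abelian subgroup whose centre has order 2. Let S₀ be the centralizer in S of Z(P) and suppose P is normal in S₀. Then either S₀ = S, or P has sectional 2-rank at most 2 and S₀ has index 2 in S. -/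
theorem result {S : Type*} [Group S] [Finite S] (h2 : IsPGroup 2 S) (hr : Cfsg.SectionalPRankLE 2 4 S)
    (P : Subgroup S) (hPlt : P ≠ ⊤) (hP : ¬ IsMulCommutative ↥P) (hZP : Nat.card ↥(Subgroup.center ↥P) = 2)
    (S₀ : Subgroup S) (hS₀ : S₀ = Subgroup.centralizer (((Subgroup.center ↥P).map P.subtype : Subgroup S) : Set S))
    (hPn : ∀ s ∈ S₀, ∀ x ∈ P, s * x * s⁻¹ ∈ P) :
    S₀ = ⊤ ∨ (Cfsg.SectionalPRankLE 2 2 ↥P ∧ S₀.index = 2) := by
  rw [map_subtype_center] at hS₀
  rw [← card_inf_centralizer] at hZP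
  rw [or_iff_not_imp_left]
  intro hT
  have hr' := sectionalPRankLE_iff.mp hr
  have hS₀p : IsPGroup 2 S₀ := h2.to_subgroup _
  obtain ⟨z, hz⟩ : ∃ z, zpowers z = P ⊓ centralizer (P : Set S) :=
    haveI := isCyclic_of_prime_card hZP
    exists_zpowers_eq_of_isCyclic _
  have hz2 : orderOf z = 2 := by rw [← Nat.card_zpowers, hz, hZP]
  have hzP : z ∈ P ⊓ centralizer (P : Set S) := hz ▸ mem_zpowers z
  have hmem : ∀ s, s ∈ S₀ ↔ s * z * s⁻¹ = z := fun s => by
    rw [hS₀, ← hz, Core.centralizer_zpowers, mem_centralizer_singleton_iff, mul_inv_eq_iff_eq_mul]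
  have hPS : P ≤ S₀ := hS₀ ▸ le_centralizer_iff.mp inf_le_right
  have hnP : S₀ ≤ normalizer (P : Set S) := fun s hs => Core.mem_normalizer_of_conj_mem (hPn s hs)
  have key : ∀ x ∈ normalizer (S₀ : Set S), x ∉ S₀ →
      P ≤ centralizer ((P.map (MulAut.conj x).toMonoidHom : Subgroup S) : Set S) ∧
      P ⊓ P.map (MulAut.conj x).toMonoidHom = ⊥ ∧
      S₀ ⊓ centralizer ((P ⊔ P.map (MulAut.conj x).toMonoidHom : Subgroup S) : Set S) ≤
        P ⊔ P.map (MulAut.conj x).toMonoidHom ∧ SecRank 2 2 P := by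
    intro x hx hxS
    have hzx : zpowers (x * z * x⁻¹) = P.map (MulAut.conj x).toMonoidHom ⊓
        centralizer ((P.map (MulAut.conj x).toMonoidHom : Subgroup S) : Set S) := by
      rw [← Core.map_conj_centralizer, ← Core.map_conj_inf, ← hz, MonoidHom.map_zpowers]; rfl
    refine two_factor hS₀p (hr'.mono le_top) hPS (Core.map_conj_le_of_le hPS hx) hnP ?_ hP ?_ hZP
      ?_ ?_
    · rw [← Core.map_conj_normalizer, ← Core.map_conj_eq_iff.mpr hx]
      exact map_mono hnP
    · intro h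
      refine hP (le_centralizer_iff_isMulCommutative.mp ?_)
      rw [← le_centralizer_iff_isMulCommutative, ← Core.map_conj_centralizer] at h
      exact (map_le_map_iff_of_injective (MulAut.conj x).injective).mp h
    · rw [← Core.map_conj_centralizer, ← Core.map_conj_inf, Core.card_map_conj, hZP]
    · rw [← hz, ← hzx]
      intro h
      rcases (mem_zpowers_iff_of_orderOf_two hz2).mp (h.symm ▸ mem_zpowers (x * z * x⁻¹)) with h | h
      · rw [conj_eq_one_iff] at h
        rw [h, orderOf_one] at hz2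
        exact absurd hz2 (by norm_num)
      · exact hxS ((hmem x).mpr h)
  obtain ⟨x, hx, hxS⟩ := SetLike.exists_of_lt
    (Core.lt_inf_normalizer_of_isPGroup (h2.to_subgroup ⊤) (lt_top_iff_ne_top.mpr hT))
  obtain ⟨k1, k2, k3, k4⟩ := key x hx.2 hxS
  refine ⟨sectionalPRankLE_subgroup_iff.mpr k4, ?_⟩
  set Q := P.map (MulAut.conj x).toMonoidHom with hQ
  set S₁ := normalizer (S₀ : Set S) with hS₁
  set z' := x * z * x⁻¹ with hz'
  have hz1 : z ≠ 1 := fun h => by rw [h, orderOf_one] at hz2; exact absurd hz2 (by norm_num)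
  have hz'1 : z' ≠ 1 := fun h => hz1 (conj_eq_one_iff.mp h)
  have hz'Q : z' ∈ Q := Core.conj_mem_map_conj.mpr hzP.1
  have hz'2 : orderOf z' = 2 := by rw [← hz2]; exact orderOf_injective (MulAut.conj x).toMonoidHom
                                    (MulAut.conj x).injective z
  have hzz : z * z = 1 := by rw [← pow_two, ← hz2, pow_orderOf_eq_one]
  have hPQ : ∀ g, g ∈ P → g ∈ Q → g = 1 := fun g h1 h2 => mem_bot.mp (k2 ▸ mem_inf.mpr ⟨h1, h2⟩)
  have hzx : zpowers z' = Q ⊓ centralizer (Q : Set S) := by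
    rw [← Core.map_conj_centralizer, ← Core.map_conj_inf, ← hz, MonoidHom.map_zpowers]; rfl
  have hQS : Q ≤ S₀ := Core.map_conj_le_of_le hPS hx.2
  have hnQ : S₀ ≤ normalizer (Q : Set S) := by
    rw [← Core.map_conj_normalizer, ← Core.map_conj_eq_iff.mpr hx.2]
    exact map_mono hnP
  have hV : ∀ w ∈ S₀, w ∈ centralizer (P : Set S) → w ∈ centralizer (Q : Set S) →
      w = 1 ∨ w = z ∨ w = z' ∨ w = z * z' := by
    intro w h1 h3 h4
    obtain ⟨a, ha, b, hb, rfl⟩ := (Core.mem_sup_of_le_normalizer_right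
      (Core.le_normalizer_of_le_centralizer k1)).mp
      (k3 ⟨h1, by rw [Core.centralizer_sup]; exact ⟨h3, h4⟩⟩)
    have h5 : a ∈ zpowers z := hz ▸ ⟨ha, (mul_mem_cancel_right (le_centralizer_iff.mp k1 hb)).mp h3⟩
    have h6 : b ∈ zpowers z' := hzx ▸ ⟨hb, (mul_mem_cancel_left (k1 ha)).mp h4⟩
    rcases (mem_zpowers_iff_of_orderOf_two hz2).mp h5 with rfl | rfl <;>
    rcases (mem_zpowers_iff_of_orderOf_two hz'2).mp h6 with rfl | rfl <;> simp
  have hV' : ∀ w ∈ S₀ ⊓ centralizer (S₀ : Set S), w = 1 ∨ w = z ∨ w = z' ∨ w = z * z' :=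
    fun w hw => hV w hw.1 (Core.centralizer_le_centralizer hPS hw.2)
      (Core.centralizer_le_centralizer hQS hw.2)
  have hnV : S₁ ≤ normalizer ((S₀ ⊓ centralizer (S₀ : Set S) : Subgroup S) : Set S) :=
    Core.le_normalizer_inf le_rfl (Core.le_normalizer_centralizer le_rfl)
  have hzV : z ∈ S₀ ⊓ centralizer (S₀ : Set S) :=
    ⟨hPS hzP.1, fun s hs => mul_inv_eq_iff_eq_mul.mp ((hmem s).mp hs)⟩
  have hZ₁ : ∀ w ∈ S₀ ⊓ centralizer (S₀ : Set S), w ∈ centralizer (S₁ : Set S) → w ≠ 1 →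
      w = z * z' := by
    intro w h1 h3 h4
    have h5 := mem_centralizer_iff.mp h3 x hx.2
    rcases hV' w h1 with h | h | h | h
    · exact (h4 h).elim
    · exact (hxS ((hmem x).mpr (by rw [← h, h5, mul_inv_cancel_right]))).elim
    · refine (hxS ((hmem x).mpr ?_)).elim
      rw [h, hz', inv_mul_cancel_right, mul_assoc, mul_right_inj, ← mul_assoc] at h5
      exact h5
    · exact h
  have ht : z * z' ∈ centralizer (S₁ : Set S) := by
    obtain ⟨⟨w, h1, h3⟩, h4⟩ := ne_bot_iff_exists_ne_one.mp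
      (Core.inf_centralizer_ne_bot (h2.to_subgroup S₁) (h2.to_subgroup _) hnV
        fun h => hz1 (mem_bot.mp (h ▸ hzV)))
    exact hZ₁ w h1 h3 (fun h => h4 (Subtype.ext h)) ▸ h3
  have htP : z * z' ∉ P := fun h => hz'1 (hPQ _ ((P.mul_mem_cancel_left hzP.1).mp h) hz'Q)
  have htQ : z * z' ∉ Q := fun h => hz1 (hPQ _ hzP.1 ((mul_mem_cancel_right hz'Q).mp h))
  have horb : ∀ s ∈ S₁, s * z * s⁻¹ = z ∨ s * z * s⁻¹ = z' := by
    intro s hs
    rcases hV' _ (Core.conj_mem_of_mem_normalizer (hnV hs) hzV) with h | h | h | h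
    · exact (hz1 (conj_eq_one_iff.mp h)).elim
    · exact Or.inl h
    · exact Or.inr h
    · rw [mul_inv_eq_iff_eq_mul, ← mem_centralizer_iff.mp ht s hs, mul_right_inj] at h
      exact (htP (h ▸ hzP.1)).elim
  have hx' : ∀ s, s * z * s⁻¹ = z' → x⁻¹ * s ∈ S₀ := fun s hs => (hmem _).mpr (by
    rw [mul_inv_rev, inv_inv, mul_assoc x⁻¹, mul_assoc x⁻¹, ← mul_assoc (s * z), hs, hz']; group)
  have hS₁top : S₁ = ⊤ := by
    by_contra hS₁top
    obtain ⟨y, hy, hyS⟩ := SetLike.exists_of_lt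
      (Core.lt_inf_normalizer_of_isPGroup (h2.to_subgroup ⊤) (lt_top_iff_ne_top.mpr hS₁top))
    have hS01 : S₀ ≤ S₁ := le_normalizer
    have hty : y * (z * z') * y⁻¹ = z * z' := by
      have h1 : y * (z * z') * y⁻¹ ∈ S₁ ⊓ centralizer (S₁ : Set S) :=
        Core.conj_mem_of_mem_normalizer
          (Core.le_normalizer_inf le_rfl (Core.le_normalizer_centralizer le_rfl) hy.2)
          ⟨hS01 (mul_mem (hPS hzP.1) (hQS hz'Q)), ht⟩
      refine hZ₁ _ ⟨(hmem _).mpr ?_, Core.centralizer_le_centralizer hS01 h1.2⟩ h1.2 fun h => ?_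
      · rw [← mem_centralizer_iff.mp h1.2 z (hS01 hzV.1), mul_inv_cancel_right]
      · exact htP (conj_eq_one_iff.mp h ▸ one_mem _)
    have hw : y * z * y⁻¹ ∈ S₁ := Core.conj_mem_of_mem_normalizer hy.2 (hS01 hzV.1)
    have hcomm : ∀ s ∈ S₁, ⁅s, y * z * y⁻¹⁆ = 1 ∨ ⁅s, y * z * y⁻¹⁆ = z * z' := by
      intro s hs
      have h1 : ⁅s, y * z * y⁻¹⁆ = y * ((y⁻¹ * s * y) * z * (y⁻¹ * s * y)⁻¹ * z⁻¹) * y⁻¹ := by
        rw [commutatorElement_def]; group
      rcases horb _ (Core.conj_mem_of_mem_normalizer' hy.2 hs) with h | h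
      · left; rw [h1, h]; group
      · right
        rw [h1, h, inv_eq_of_mul_eq_one_right hzz, mem_centralizer_iff.mp (k1 hzP.1) z' hz'Q, hty]
    set w := y * z * y⁻¹ with hwdef
    by_cases hw0 : w ∈ S₀
    · have h1 : ∀ R : Subgroup S, R ≤ S₀ → S₀ ≤ normalizer (R : Set S) → z * z' ∉ R →
          w ∈ centralizer (R : Set S) := fun R hR hn htR g hg => by
        rcases hcomm g (hS01 (hR hg)) with h | h
        · exact commutatorElement_eq_one_iff_mul_comm.mp h
        · exact (htR (h ▸ Core.commutator_le_of_le_normalizer_left hn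
            (commutator_mem_commutator hg hw0))).elim
      rcases hV w hw0 (h1 P hPS hnP htP) (h1 Q hQS hnQ htQ) with h | h | h | h
      · exact hz1 (conj_eq_one_iff.mp h)
      · exact hyS (hS01 ((hmem y).mpr h))
      · exact hyS ((S₁.mul_mem_cancel_left (S₁.inv_mem hx.2)).mp (hS01 (hx' y h)))
      · rw [← hty, hwdef, mul_left_inj, mul_right_inj] at h
        exact htP (h ▸ hzP.1)
    · have h1 := hx' w ((horb w hw).resolve_left fun h => hw0 ((hmem w).mpr h))
      refine hP (isMulCommutative_of_le (D := zpowers z) fun g hg => ?_)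
      have h3 : w * g * w⁻¹ ∈ Q := by
        rw [hQ, Core.mem_map_conj]
        have := hPn _ h1 g hg
        rwa [mul_inv_rev, inv_inv, mul_assoc x⁻¹, ← mul_assoc _ w⁻¹, mul_assoc x⁻¹] at this
      have h4 : w * g * w⁻¹ = ⁅g, w⁆⁻¹ * g := by rw [commutatorElement_def]; group
      rcases hcomm g (hS01 (hPS hg)) with h | h
      · rw [h4, h, inv_one, one_mul] at h3
        exact hPQ g hg h3 ▸ one_mem _
      · rw [h4, h, mul_inv_rev, mul_assoc, mul_mem_cancel_left (inv_mem hz'Q)] at h3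
        rw [← inv_mul_eq_one.mp (hPQ _ (mul_mem (inv_mem hzP.1) hg) h3)]
        exact mem_zpowers z
  refine index_eq_two_iff_exists_notMem_and'.mpr ⟨x⁻¹, fun h => hxS (inv_mem_iff.mp h), fun b => ?_⟩
  rcases horb b (hS₁top ▸ mem_top b) with h | h
  · exact Or.inr ((hmem b).mpr h)
  · exact Or.inl (hx' b h)

end Cfsg.Agent.S4401
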