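import Cfsg.Statements.S4402
import Cfsg.Agent.Lib.Wr.Over

set_option autoImplicit false
open Cfsg

namespace Cfsg.Agent.S4402

/-- Let S be a finite 2-group of sectional 2-rank at most 4 and P a proper subgroup isomorphic to the wreath product of the dihedral group of order 8 by a group of order 2 (equivalently, to a Sylow 2-subgroup of the symmetric group of degree 8; order 128). Then Z(S) = Z(P) has order 2, P has index 2 in its normalizer N_S(P), N_S(P)/Z(S) is again isomorphic to that wreath product, and every elementary abelian subgroup V of order 16 that is normal in P satisfies N_S(V) = P. -/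
theorem result {S : Type*} [Group S] [Finite S] (h2 : IsPGroup 2 S) (hr : Cfsg.SectionalPRankLE 2 4 S)
    (P : Subgroup S) (hPlt : P ≠ ⊤) (hP : ∃ T : Sylow 2 (Equiv.Perm (Fin 8)), Nonempty (↥P ≃* ↥(T : Subgroup (Equiv.Perm (Fin 8))))) :
    Subgroup.center S = (Subgroup.center ↥P).map P.subtype ∧ Nat.card ↥(Subgroup.center S) = 2 ∧
    P.relIndex (Subgroup.normalizer (P : Set S)) = 2 ∧
    (∃ (_ : ((Subgroup.center S).subgroupOf (Subgroup.normalizer (P : Set S))).Normal) (T : Sylow 2 (Equiv.Perm (Fin 8))),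
      Nonempty (↥(Subgroup.normalizer (P : Set S)) ⧸ (Subgroup.center S).subgroupOf (Subgroup.normalizer (P : Set S)) ≃*
        ↥(T : Subgroup (Equiv.Perm (Fin 8))))) ∧
    ∀ V : Subgroup S, V ≤ P → (∀ g ∈ P, ∀ v ∈ V, g * v * g⁻¹ ∈ V) → Cfsg.IsElementaryAbelian 2 V → Nat.card ↥V = 16 →
      Subgroup.normalizer (V : Set S) = P := by
  obtain ⟨T, ⟨e⟩⟩ := hP
  obtain ⟨e'⟩ := Lib.Wr.nonempty_equiv_W T
  have hr' := Lib.PGroup.sectionalPRankLE_iff.1 hr
  obtain ⟨ι, hι, rfl⟩ : ∃ ι : Lib.Wr.W →* S, Function.Injective ι ∧ ι.range = P :=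
    ⟨P.subtype.comp (e.trans e').symm.toMonoidHom, P.subtype_injective.comp (e.trans e').symm.injective,
      by rw [MonoidHom.range_comp, MonoidHom.range_eq_top.2 (e.trans e').symm.surjective,
        ← MonoidHom.range_eq_map, Subgroup.range_subtype]⟩
  exact ⟨Lib.Wr.center_eq hι hr' h2, Lib.Wr.card_center hι hr' h2,
    Lib.Wr.relIndex_eq_two hι hr' h2 hPlt, ⟨inferInstance, Lib.Wr.quotient_equiv hι hr' h2 hPlt⟩,
    fun _ => Lib.Wr.normalizer_eq hι hr' h2⟩

end Cfsg.Agent.S4402
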