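import Cfsg.Statements.S4403
import Cfsg.Agent.Lib.Misc.CycSylow

set_option autoImplicit false
open Cfsg

namespace Cfsg.Agent.S4403

open Subgroup Cfsg.Agent.Lib.Core Cfsg.Agent.Lib.CycSylow
open scoped commutatorElement

/-- Let K be a finite group, p a prime dividing its order with O_{p'}(K) = 1 (no nontrivial normal subgroup of order prime to p), and P a cyclic Sylow p-subgroup of K. Then either P is normal and self-centralizing in K with K/P cyclic of order dividing p − 1 (so K is the semidirect product of P by a group of automorphisms of P of order dividing p − 1), or the generalized Fitting subgroup F*(K) is a non-abelian simple group and p does not divide the index of F*(K) in K. -/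
theorem result {K : Type*} [Group K] [Finite K] (p : ℕ) [Fact p.Prime] (hp : p ∣ Nat.card K) (hO : Cfsg.pPrimeCore p K = ⊥)
    (P : Sylow p K) (hP : IsCyclic ↥(P : Subgroup K)) :
    ((P : Subgroup K).Normal ∧ Subgroup.centralizer ((P : Subgroup K) : Set K) = (P : Subgroup K) ∧
      (∀ (_ : (P : Subgroup K).Normal), IsCyclic (K ⧸ (P : Subgroup K))) ∧ (P : Subgroup K).index ∣ p - 1) ∨
    (IsSimpleGroup ↥(Cfsg.generalizedFittingSubgroup K) ∧ ¬ IsMulCommutative ↥(Cfsg.generalizedFittingSubgroup K) ∧
      ¬ p ∣ (Cfsg.generalizedFittingSubgroup K).index) := by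
  rename_i hpp
  have hS := isSyl_sylow P
  by_cases hZ : pCore p K = ⊥
  · right
    have hF : fittingSubgroup K = ⊥ := by rw [fittingSubgroup_eq_pCore hO, hZ]
    have hF' : fittingOf (⊤ : Subgroup K) = ⊥ := by rw [fittingOf_top, hF]
    have hO' : OppOf p (⊤ : Subgroup K) = ⊥ := by rw [OppOf_top, hO]
    have hE : generalizedFittingSubgroup K = EOf ⊤ := by
      rw [← FstarOf_top, FstarOf_eq, hF', sup_bot_eq]
    have hP1 : (P : Subgroup K) ≠ ⊥ := hS.ne_bot (by rwa [card_top])
    have hK1 : (⊤ : Subgroup K) ≠ ⊥ := fun h => hP1 (eq_bot_iff.mpr (h ▸ le_top))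
    obtain ⟨L, hL⟩ : ∃ L : Subgroup K, Comp ⊤ L := by
      by_contra h
      push Not at h
      exact FstarOf_ne_bot hK1 (by rw [FstarOf_top, hE]; exact EOf_eq_bot_iff.mpr h)
    have hC : ∀ M : Subgroup K, Comp ⊤ M → M ⊓ centralizer (M : Set K) = ⊥ := fun M hM =>
      eq_bot_iff.mpr (hF' ▸ hM.inf_centralizer_le_fittingOf)
    have huniq : ∀ M : Subgroup K, Comp ⊤ M → M = L := by
      intro M hM
      by_contra hne
      have hc := hM.le_centralizer_of_ne hL hne
      obtain ⟨x, hx, hxp⟩ := exists_orderOf_eq_of_dvd (hM.dvd_card_of_OppOf_eq_bot hO')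
      obtain ⟨y, hy, hyp⟩ := exists_orderOf_eq_of_dvd (hL.dvd_card_of_OppOf_eq_bot hO')
      have hx1 : IsPGroup p (zpowers x) := isPGroup_zpowers (k := 1) (by rw [pow_one, ← hxp, pow_orderOf_eq_one])
      have hy1 : IsPGroup p (zpowers y) := isPGroup_zpowers (k := 1) (by rw [pow_one, ← hyp, pow_orderOf_eq_one])
      have hxy : IsPGroup p ↥(zpowers x ⊔ zpowers y) := isPGroup_sup_of_le_normalizer hx1 hy1
        (le_normalizer_of_le_centralizer (((zpowers_le.mpr hx).trans hc).trans
          (centralizer_le_centralizer (zpowers_le.mpr hy))))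
      obtain ⟨g, -, hg⟩ := hS.exists_conj_le hxy le_top
      haveI : IsCyclic ↥((zpowers x ⊔ zpowers y).map (MulAut.conj g).toMonoidHom) := isCyclic_of_le hg
      haveI : IsCyclic ↥(zpowers x ⊔ zpowers y) := isCyclic_of_surjective _
        ((zpowers x ⊔ zpowers y).equivMapOfInjective (MulAut.conj g).toMonoidHom (MulAut.conj g).injective).symm.surjective
      have h1 := mem_zpowers_of_isCyclic (C := zpowers x ⊔ zpowers y) (mem_sup_left (mem_zpowers x))
        (mem_sup_right (mem_zpowers y)) (by rw [← hxp, pow_orderOf_eq_one]) hyp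
      have h2 : x ∈ L ⊓ centralizer (L : Set K) := ⟨zpowers_le.mpr hy h1, hc hx⟩
      rw [hC L hL, mem_bot] at h2
      rw [h2, orderOf_one] at hxp
      exact hpp.out.one_lt.ne hxp
    have hEL : generalizedFittingSubgroup K = L := by
      rw [hE]; exact le_antisymm (EOf_le_iff.mpr fun M hM => (huniq M hM).le) hL.le_EOf
    haveI hLn : L.Normal := hEL ▸ inferInstance
    rw [hEL]
    have hsimp : ∀ N : Subgroup K, N ≤ L → L ≤ normalizer (N : Set K) → N = ⊥ ∨ N = L := by
      intro N h1 h2
      rcases hL.qs.dichotomy N h1 h2 with h | h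
      · exact Or.inl (eq_bot_iff.mpr (hC L hL ▸ le_inf h1 h))
      · exact Or.inr h
    refine ⟨?_, fun h => hL.qs.not_le_centralizer (le_centralizer L), ?_⟩
    · haveI : Nontrivial L := (nontrivial_iff_ne_bot L).mpr hL.qs.ne_bot
      refine ⟨fun N hN => ?_⟩
      rcases hsimp (N.map L.subtype) (map_subtype_le _) (le_normalizer_map_subtype_of_normal N) with h | h
      · exact Or.inl ((map_eq_bot_iff_of_injective _ L.subtype_injective).mp h)
      · refine Or.inr (Subgroup.map_injective L.subtype_injective ?_)
        rw [h, ← MonoidHom.range_eq_map, range_subtype]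
    · have hPL : (P : Subgroup K) ≤ L := by
        rcases dichotomy (hS.mono (le_sup_left : (P : Subgroup K) ≤ (P : Subgroup K) ⊔ L) le_top) with h | ⟨h, -⟩
        · exfalso
          have h1 := Cfsg.Agent.Lib.Transfer.hasNormalPComplement_of_le h le_sup_right
          obtain ⟨Q, hQ⟩ := exists_isSyl p L
          have h2 := Cfsg.Agent.Lib.Glaub.sup_OppOf_of_hnpc h1 hQ
          rcases hsimp (OppOf p L) (OppOf_le L) (le_normalizer_OppOf le_normalizer) with h3 | h3
          · rw [h3, sup_bot_eq] at h2
            exact hL.qs.not_isSolvable (h2 ▸ isSolvable_of_isPGroup hQ.isPGroup)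
          · exact OppOf_not_dvd (p := p) L (by rw [h3]; exact hL.dvd_card_of_OppOf_eq_bot hO')
        · refine h.trans ?_
          haveI : IsMulCommutative (P : Subgroup K) := IsCyclic.isMulCommutative
          rw [commutator_le_iff_map_le_centralizer, Subgroup.map_sup,
            (map_eq_bot_iff L).mpr (QuotientGroup.ker_mk' L).ge, sup_bot_eq]
          exact le_centralizer _
      rw [← relIndex_top_right]
      exact hS.not_dvd_relIndex hPL
  · left
    have h1 := centralizer_eq hS hO pCore_isPGroup hZ
    haveI hPn : (P : Subgroup K).Normal := h1 ▸ inferInstance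
    obtain ⟨z, hz, hzp⟩ := exists_orderOf_eq_of_dvd
      (dvd_card_of_isPGroup_of_ne_bot hS.isPGroup (hS.ne_bot (by rwa [card_top])))
    haveI hZn : (zpowers z).Normal := ⟨fun x hx g => by
      refine mem_zpowers_of_isCyclic (C := (P : Subgroup K)) (hPn.conj_mem _ (zpowers_le.mpr hz hx) g) hz ?_ hzp
      obtain ⟨k, rfl⟩ := hx
      rw [conj_pow, ← zpow_natCast, ← zpow_mul, mul_comm k, zpow_mul, zpow_natCast, ← hzp,
        pow_orderOf_eq_one, one_zpow, mul_one, mul_inv_cancel]⟩
    have hcz : Nat.card (zpowers z) = p := by rw [Nat.card_zpowers, hzp]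
    have h2 := centralizer_eq hS hO (hS.isPGroup.to_le (zpowers_le.mpr hz)) (by
      rw [Ne, zpowers_eq_bot]; rintro rfl; rw [orderOf_one] at hzp; exact hpp.out.one_lt.ne hzp)
    have hker : (MulAut.conjNormal : K →* MulAut (zpowers z)).ker = P := by
      rw [← h2]; ext g
      simp only [MonoidHom.mem_ker, mem_centralizer_iff, SetLike.mem_coe]
      constructor
      · intro h x hx
        have := congrArg (fun f : MulAut (zpowers z) => ((f ⟨x, hx⟩ : zpowers z) : K)) h
        simp only [MulAut.conjNormal_apply, MulAut.one_apply] at this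
        rw [mul_inv_eq_iff_eq_mul] at this; exact this.symm
      · intro h
        ext x
        simp [← h x x.2]
    let f : K ⧸ (P : Subgroup K) →* MulAut (zpowers z) :=
      QuotientGroup.lift _ MulAut.conjNormal hker.ge
    have hf : Function.Injective f := by
      rw [injective_iff_map_eq_one]
      intro x hx
      obtain ⟨g, rfl⟩ := QuotientGroup.mk_surjective x
      exact (QuotientGroup.eq_one_iff g).mpr (hker.le hx)
    haveI : IsCyclic (ZMod (Nat.card (zpowers z)))ˣ := by
      rw [hcz]; exact ZMod.isCyclic_units_prime hpp.out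
    haveI : IsCyclic (MulAut (zpowers z)) :=
      isCyclic_of_surjective _ (IsCyclic.mulAutMulEquiv (zpowers z)).symm.surjective
    refine ⟨hPn, ?_, fun _ => isCyclic_of_injective f hf, ?_⟩
    · exact centralizer_eq hS hO hS.isPGroup (hS.ne_bot (by rwa [card_top]))
    · have := card_dvd_of_injective f hf
      rwa [IsCyclic.card_mulAut, hcz, Nat.totient_prime hpp.out] at this

end Cfsg.Agent.S4403
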