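import Cfsg.Statements.S4405
import Cfsg.Agent.Lib.Glaub.Burnside
import Cfsg.Agent.Lib.Core.Components
import Cfsg.Agent.Lib.PGroup.Extraspecial2
import Cfsg.Agent.Lib.Invol.BaerSuzuki

set_option autoImplicit false
open Cfsg

namespace Cfsg.Agent.S4405

open Subgroup Cfsg.Agent.Lib.Core Cfsg.Agent.Lib.PGroup

theorem sq_eq_one {K : Type*} [Group K] [Finite K] (hex : IsExtraspecial 2 K) (h32 : Nat.card K = 32)
    {φ τ : MulAut K} (hφ1 : φ ≠ 1) (hφ : φ ^ 5 = 1) (hτ : τ * τ = 1) (hτφ : τ * φ = φ⁻¹ * τ)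
    {h : K} (hh : τ h = h) : h ^ 2 = 1 := by
  haveI : Fact (Nat.Prime 2) := ⟨Nat.prime_two⟩
  haveI : Fact (Nat.Prime 5) := ⟨by norm_num⟩
  have hZ : ∀ (a : MulAut K), ∀ c ∈ center K, a c = c := by
    intro a c hc
    by_cases h1 : c = 1
    · rw [h1, map_one]
    have h2 := zpowers_eq_of_card_prime hex.2 hc h1
    have h3 : a c ∈ center K := by
      have := (characteristic_iff_map_le.mp (inferInstance : (center K).Characteristic)) a
      exact this (mem_map_of_mem _ hc)
    have h4 : orderOf c = 2 := by rw [← Nat.card_zpowers, h2, hex.2]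
    rw [← h2, mem_zpowers_iff_of_orderOf_two h4] at h3
    exact h3.resolve_left (by rwa [map_eq_one_iff _ a.injective])
  let F : Subgroup K := φ.toMonoidHom.eqLocus (MonoidHom.id K)
  have hZF : center K ≤ F := fun c hc => hZ φ c hc
  have hF : F = center K := by
    have h5 : IsPGroup 5 (zpowers φ) := isPGroup_zpowers (k := 1) (by rw [pow_one, hφ])
    have h1 := h5.card_modEq_card_fixedPoints K
    have h2 : Nat.card (MulAction.fixedPoints (zpowers φ) K) = Nat.card F := by
      refine Nat.card_congr (Equiv.subtypeEquivRight fun a => ⟨fun h => h ⟨φ, mem_zpowers φ⟩, fun h => ?_⟩)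
      rintro ⟨g, hg⟩
      have : zpowers φ ≤ MulAction.stabilizer (MulAut K) a := zpowers_le.mpr h
      exact this hg
    have h3 : Nat.card F ∣ 2 ^ 5 := by rw [show 2 ^ 5 = 32 from rfl, ← h32]; exact card_subgroup_dvd_card F
    have h4 : Nat.card F ≠ 32 := fun h => hφ1 (by
      have : F = ⊤ := eq_top_of_card_eq F (h.trans h32.symm)
      ext a; exact this.ge (mem_top a))
    refine (eq_of_le_of_card_ge hZF ?_).symm
    rw [h2, h32] at h1
    obtain ⟨k, hk, hk'⟩ := (Nat.dvd_prime_pow Nat.prime_two).mp h3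
    rw [hex.2]
    rw [hk'] at h1 h4 ⊢
    interval_cases k <;> simp_all [Nat.ModEq]
  have hfix : ∀ a, a⁻¹ * φ a ∈ center K → a ∈ center K := fun a ha => by
    obtain ⟨n, hn, hn'⟩ := exists_fixed_in_coset (q := 5) (N := center K) (k := 1)
      (by rw [hex.2]; norm_num) (by rw [pow_one, hφ]) (fun n hn => by rwa [hZ φ n hn]) ha
    have : a * n ∈ center K := hF.le hn'
    exact (mul_mem_cancel_right hn).mp this
  let π := QuotientGroup.mk' (center K)
  have hπ : ∀ a, π a = 1 ↔ a ∈ center K := fun a => QuotientGroup.eq_one_iff a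
  haveI : IsMulCommutative (K ⧸ center K) :=
    Subgroup.Normal.quotient_commutative_iff_commutator_le.mpr hex.1.2.2.le
  haveI : Std.Commutative (α := K ⧸ center K) (· * ·) := IsMulCommutative.is_comm
  have h2 : ∀ a, π a * π a = 1 := fun a => by
    rw [← map_mul, hπ, ← sq]; exact special_pow_mem_center hex.1 a
  have h5 : φ (φ (φ (φ (φ h)))) = h := congrArg (fun f : MulAut K => f h) hφ
  have hn : π h * π (φ h) * π (φ (φ h)) * π (φ (φ (φ h))) * π (φ (φ (φ (φ h)))) = 1 := by
    simp only [← map_mul π]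
    rw [hπ]
    refine hfix _ ((hπ _).mp ?_)
    simp only [map_mul, map_inv, h5]
    rw [inv_mul_eq_one]; ac_rfl
  have e : ∀ a, φ (τ (φ a)) = τ a := fun a => by
    have := congrArg (fun f : MulAut K => φ (f a)) hτφ
    simpa using this
  have e1 : τ (φ h) = φ (φ (φ (φ h))) := φ.injective (by rw [e, h5, hh])
  have e2 : τ (φ (φ h)) = φ (φ (φ h)) := φ.injective (by rw [e, e1])
  set k := φ h * φ (φ h) with hk
  have hw : h⁻¹ * (k⁻¹ * τ k) ∈ center K := by
    rw [← hπ, ← hn]
    simp only [hk, map_mul, map_inv, e1, e2, inv_eq_of_mul_eq_one_right (h2 _), mul_inv_rev]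
    ac_rfl
  have hτw : τ (k⁻¹ * τ k) = (k⁻¹ * τ k)⁻¹ := by
    have : τ (τ k) = k := congrArg (fun f : MulAut K => f k) hτ
    rw [map_mul, map_inv, this]; group
  set w := k⁻¹ * τ k
  have hτw' : τ w = w := by
    have := hZ τ _ hw
    rwa [map_mul, map_inv, hh, mul_right_inj] at this
  rw [hτw', eq_inv_iff_mul_eq_one] at hτw
  have hc := special_center_pow_eq_one hex.1 hw
  have hcm : Commute h (h⁻¹ * w) := (commute_of_mem_center hw h).symm
  have := hcm.mul_pow 2
  rw [hc, mul_one, mul_inv_cancel_left, sq, hτw] at this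
  exact this.symm

/-- Let G be a finite group of order 320 = 64·5 whose largest normal 2-subgroup H = O₂(G) equals the Fitting subgroup F(G) and is extraspecial of order 32 containing no elementary abelian subgroup of order 8 (so H is the central product of a quaternion group and a dihedral group of order 8). If T is an involution of G outside H whose centralizer in H contains an elementary abelian subgroup of order 4, then C_H(T) itself is elementary abelian of order 4. -/
theorem result {G : Type*} [Group G] [Finite G]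
    (hG : Nat.card G = 320) (hHF : Cfsg.pCore 2 G = Cfsg.fittingSubgroup G)
    (hex : Cfsg.IsExtraspecial 2 ↥(Cfsg.pCore 2 G)) (h32 : Nat.card ↥(Cfsg.pCore 2 G) = 32)
    (hminus : ∀ A : Subgroup G, A ≤ Cfsg.pCore 2 G → Cfsg.IsElementaryAbelian 2 A → Nat.card ↥A ≤ 4)
    (T : G) (hT : orderOf T = 2) (hTH : T ∉ Cfsg.pCore 2 G)
    (V : Subgroup G) (hV : V ≤ Cfsg.pCore 2 G ⊓ Subgroup.centralizer ({T} : Set G)) (hV4 : Nat.card ↥V = 4) (hVe : Cfsg.IsElementaryAbelian 2 V) :
    Nat.card ↥(Cfsg.pCore 2 G ⊓ Subgroup.centralizer ({T} : Set G)) = 4 ∧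
      Cfsg.IsElementaryAbelian 2 (Cfsg.pCore 2 G ⊓ Subgroup.centralizer ({T} : Set G)) := by
  haveI : Fact (Nat.Prime 2) := ⟨Nat.prime_two⟩
  set H := pCore 2 G
  have hprime : ∀ r : ℕ, r.Prime → r ∣ Nat.card G → r = 2 ∨ r = 5 := fun r hr h => by
    rw [hG, show 320 = 2 ^ 6 * 5 from rfl] at h
    rcases (hr.dvd_mul).mp h with h | h
    · exact Or.inl ((Nat.prime_dvd_prime_iff_eq hr Nat.prime_two).mp (hr.dvd_of_dvd_pow h))
    · exact Or.inr ((Nat.prime_dvd_prime_iff_eq hr (by norm_num)).mp h)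
  haveI := Cfsg.Agent.Lib.Glaub.isSolvable_of_two_primes Nat.prime_two (by norm_num) G hprime
  have hC := inf_centralizer_fittingOf_le_of_isSolvable (H := (⊤ : Subgroup G)) inferInstance
  rw [fittingOf_top, top_inf_eq, ← hHF] at hC
  obtain ⟨x, hxp, hxo, hxT⟩ := Cfsg.Agent.Lib.Invol.exists_odd_prime_inverted T hT
    fun N hN hN2 h => hTH (le_pCore hN2 h)
  have hx5 : orderOf x = 5 := (hprime _ hxp (orderOf_dvd_natCard x)).resolve_left fun h => by
    rw [h] at hxo; exact absurd hxo (by decide)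
  have key : ∀ h ∈ H ⊓ centralizer ({T} : Set G), h ^ 2 = 1 := by
    intro h hh
    have := sq_eq_one hex h32 (φ := MulAut.conjNormal x) (τ := MulAut.conjNormal T) (h := ⟨h, hh.1⟩)
      (fun e => by
        have h1 : x ∈ H := hC (mem_centralizer_iff.mpr fun y hy => by
          have := congrArg (fun f : MulAut H => ((f ⟨y, hy⟩ : H) : G)) e
          simp only [MulAut.conjNormal_apply, MulAut.one_apply] at this
          rw [mul_inv_eq_iff_eq_mul] at this; exact this.symm)
        have := Subgroup.orderOf_dvd_natCard _ h1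
        rw [hx5, h32] at this; omega)
      (by rw [← map_pow, ← hx5, pow_orderOf_eq_one, map_one])
      (by rw [← map_mul, Cfsg.Agent.Lib.Invol.mul_self_of_orderOf_two hT, map_one])
      (by rw [← map_inv, ← map_mul, ← map_mul, ← hxT, inv_mul_cancel_right])
      (Subtype.ext (by
        rw [MulAut.conjNormal_apply, mul_inv_eq_iff_eq_mul]
        exact (mem_centralizer_singleton_iff.mp hh.2).symm))
    exact congrArg Subtype.val this
  have hel : IsElementaryAbelian 2 (H ⊓ centralizer ({T} : Set G)) := by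
    refine ⟨⟨⟨fun a b => Subtype.ext ?_⟩⟩, key⟩
    have ha := key _ a.2
    have hb := key _ b.2
    have hab := key _ (a * b).2
    rw [sq, ← eq_inv_iff_mul_eq_one] at ha hb hab
    rw [hab, Subgroup.coe_mul, mul_inv_rev, ← ha, ← hb, Subgroup.coe_mul]
  exact ⟨le_antisymm (hminus _ inf_le_left hel) (hV4 ▸ card_le_of_le hV), hel⟩

end Cfsg.Agent.S4405
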