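import Cfsg.Statements.S4406
import Cfsg.Agent.Lib.PGroup.PHom

set_option autoImplicit false
open Cfsg

namespace Cfsg.Agent.S4406

open Subgroup Cfsg.Agent.Lib.Transfer Cfsg.Agent.Lib.PGroup
open scoped Pointwise commutatorElement IsMulCommutative

theorem fact1 : ∀ s a : alternatingGroup (Fin 4), s ^ 3 = 1 → s ≠ 1 → a ^ 2 = 1 → a ≠ 1 →
    s * a * s⁻¹ ≠ a ∧ s * (s * a * s⁻¹) * s⁻¹ = a * (s * a * s⁻¹) := by decide +kernel

set_option synthInstance.maxSize 1024 in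
theorem fact2 : ∀ t a b : alternatingGroup (Fin 4), t ^ 3 = 1 → t ≠ 1 → a ^ 2 = 1 → a ≠ 1 →
    b ^ 2 = 1 → b ≠ 1 → a ≠ b → t * a * t⁻¹ = b ∨ t⁻¹ * a * t⁻¹⁻¹ = b := by decide +kernel

theorem fact3 : ∀ a : alternatingGroup (Fin 4), a ^ 2 = 1 ∨ a ^ 3 = 1 := by decide +kernel

set_option synthInstance.maxSize 1024 in
theorem fact4 : ∀ a b c : alternatingGroup (Fin 4), a ^ 2 = 1 → a ≠ 1 → b ^ 2 = 1 → b ≠ 1 →
    c ^ 2 = 1 → c ≠ 1 → b ≠ a → c ≠ a → b = c ∨ b = a * c := by decide +kernel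

theorem card_alt : Nat.card (alternatingGroup (Fin 4)) = 12 := by
  rw [Nat.card_eq_fintype_card]; decide +kernel

theorem sq_of {a : alternatingGroup (Fin 4)} {k : ℕ} (h : a ^ 2 ^ k = 1) : a ^ 2 = 1 :=
  (fact3 a).elim id fun h3 => by
    rw [eq_one_of_coprime_of_pow_eq_one h ((by norm_num : Nat.Coprime 3 2).coprime_dvd_left
      (orderOf_dvd_of_pow_eq_one h3)), one_pow]

theorem cube_of {a : alternatingGroup (Fin 4)} {k : ℕ} (h : a ^ 3 ^ k = 1) : a ^ 3 = 1 :=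
  (fact3 a).elim (fun h3 => by
    rw [eq_one_of_coprime_of_pow_eq_one h ((by norm_num : Nat.Coprime 2 3).coprime_dvd_left
      (orderOf_dvd_of_pow_eq_one h3)), one_pow]) id

theorem exists_mem {G : Type*} [Group G] [Finite G] (Q : Sylow 3 G) (N : Subgroup G) [N.Normal]
    (h : 3 ∣ Nat.card N) : ∃ x ∈ (Q : Subgroup G), x ∈ N ∧ x ≠ 1 := by
  haveI := Fact.mk Nat.prime_three
  by_contra hc
  push Not at hc
  have h1 := (isSylowIn_sylow_inf_normal Q N).not_dvd_relIndex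
  rw [(eq_bot_iff_forall _).2 fun x (hx : x ∈ (Q : Subgroup G) ⊓ N) => hc x hx.1 hx.2,
    relIndex_bot_left] at h1
  exact h1 h

/-- In the direct product P = A₄ × A₄, let X be the Sylow 2-subgroup, X₁ and X₂ its intersections with the two direct factors, Q a Sylow 3-subgroup and Q₁, Q₂ its intersections with the two factors. Then every subgroup B of X of order 4 either meets X₁ or X₂ nontrivially, or is normalized by one of the two subgroups of Q of order 3 other than Q₁ and Q₂. -/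
theorem result
    (X : Sylow 2 (↥(alternatingGroup (Fin 4)) × ↥(alternatingGroup (Fin 4))))
    (Q : Sylow 3 (↥(alternatingGroup (Fin 4)) × ↥(alternatingGroup (Fin 4))))
    (B : Subgroup (↥(alternatingGroup (Fin 4)) × ↥(alternatingGroup (Fin 4)))) (hBX : B ≤ (X : Subgroup _)) (hB4 : Nat.card ↥B = 4) :
    B ⊓ ((X : Subgroup _) ⊓ Subgroup.prod ⊤ ⊥) ≠ ⊥ ∨ B ⊓ ((X : Subgroup _) ⊓ Subgroup.prod ⊥ ⊤) ≠ ⊥ ∨
      ∃ R : Subgroup (↥(alternatingGroup (Fin 4)) × ↥(alternatingGroup (Fin 4))), R ≤ (Q : Subgroup _) ∧ Nat.card ↥R = 3 ∧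
        R ≠ (Q : Subgroup _) ⊓ Subgroup.prod ⊤ ⊥ ∧ R ≠ (Q : Subgroup _) ⊓ Subgroup.prod ⊥ ⊤ ∧ R ≤ Subgroup.normalizer (B : Set _) := by
  by_contra hc
  simp only [not_or, not_not] at hc
  obtain ⟨h1, h2, h3⟩ := hc
  have hsq : ∀ w ∈ B, w.1 ^ 2 = 1 ∧ w.2 ^ 2 = 1 := fun w hw => by
    obtain ⟨k, hk⟩ := pow_eq_one_of_mem_isPGroup X.isPGroup' (hBX hw)
    exact ⟨sq_of (congrArg Prod.fst hk), sq_of (congrArg Prod.snd hk)⟩
  have hne : ∀ w ∈ B, w ≠ 1 → w.1 ≠ 1 ∧ w.2 ≠ 1 := fun w hw hw1 =>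
    ⟨fun e => hw1 ((eq_bot_iff_forall _).1 h2 w ⟨hw, hBX hw, e, mem_top _⟩),
      fun e => hw1 ((eq_bot_iff_forall _).1 h1 w ⟨hw, hBX hw, mem_top _, e⟩)⟩
  have hne' : ∀ w ∈ B, ∀ v ∈ B, w ≠ v → w.1 ≠ v.1 ∧ w.2 ≠ v.2 := fun w hw v hv h => by
    have := hne _ (mul_mem (inv_mem hw) hv) (fun e => h (inv_mul_eq_one.1 e))
    exact ⟨fun e => this.1 (inv_mul_eq_one.2 e), fun e => this.2 (inv_mul_eq_one.2 e)⟩
  obtain ⟨s, hs, hs1, hs2⟩ := exists_mem Q (Subgroup.prod ⊤ ⊥) (by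
    rw [Nat.card_congr (prodEquiv _ _).toEquiv, Nat.card_prod, card_top, card_bot, card_alt]
    norm_num)
  obtain ⟨t, ht, ht1, ht2⟩ := exists_mem Q (Subgroup.prod ⊥ ⊤) (by
    rw [Nat.card_congr (prodEquiv _ _).toEquiv, Nat.card_prod, card_top, card_bot, card_alt]
    norm_num)
  have hs3 : s.1 ^ 3 = 1 := by
    obtain ⟨k, hk⟩ := pow_eq_one_of_mem_isPGroup Q.isPGroup' hs
    exact cube_of (congrArg Prod.fst hk)
  have ht3 : t.2 ^ 3 = 1 := by
    obtain ⟨k, hk⟩ := pow_eq_one_of_mem_isPGroup Q.isPGroup' ht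
    exact cube_of (congrArg Prod.snd hk)
  have hs4 : s.1 ≠ 1 := fun e => hs2 (Prod.ext e hs1.2)
  have ht4 : t.2 ≠ 1 := fun e => ht2 (Prod.ext ht1.1 e)
  obtain ⟨⟨u, hu⟩, hu1⟩ := ne_bot_iff_exists_ne_one.1 (show B ≠ ⊥ from fun e => by
    rw [e, card_bot] at hB4; omega)
  replace hu1 : u ≠ 1 := fun e => hu1 (Subtype.ext e)
  have hu2 : u ^ 2 = 1 := Prod.ext (hsq u hu).1 (hsq u hu).2
  have huo : orderOf u = 2 := orderOf_eq_prime hu2 hu1
  obtain ⟨w, hw, hwu⟩ := SetLike.exists_of_lt (lt_of_le_of_ne (zpowers_le_of_mem hu) fun e => by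
    rw [← e, Nat.card_zpowers, huo] at hB4; omega)
  rw [mem_zpowers_iff_of_orderOf_two huo, not_or] at hwu
  obtain ⟨f1, f2⟩ := fact1 s.1 u.1 hs3 hs4 (hsq u hu).1 (hne u hu hu1).1
  obtain ⟨v, hv, hv1⟩ : ∃ v ∈ B, s.1 * u.1 * s.1⁻¹ = v.1 := by
    rcases fact4 u.1 (s.1 * u.1 * s.1⁻¹) w.1 (hsq u hu).1 (hne u hu hu1).1
      (by rw [conj_pow, (hsq u hu).1, mul_one, mul_inv_cancel])
      (fun e => (hne u hu hu1).1 (by rwa [mul_inv_eq_one, mul_eq_left] at e)) (hsq w hw).1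
      (hne w hw hwu.1).1 f1 (hne' w hw u hu hwu.2).1 with e | e
    · exact ⟨w, hw, e⟩
    · exact ⟨u * w, mul_mem hu hw, e⟩
  have hv2 : v ≠ 1 := fun e => (hne u hu hu1).1 (by
    rw [e, Prod.fst_one, mul_inv_eq_one, mul_eq_left] at hv1; exact hv1)
  have hv3 : v ≠ u := fun e => f1 (by rw [hv1, e])
  have hB : zpowers u ⊔ zpowers v = B := by
    refine eq_of_le_of_card_ge (sup_le (zpowers_le_of_mem hu) (zpowers_le_of_mem hv)) ?_
    rw [card_sup_zpowers (p := 2) (mem_normalizer_zpowers ?_)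
      (by rw [mem_zpowers_iff_of_orderOf_two huo, not_or]; exact ⟨hv2, hv3⟩)
      (by rw [show v ^ 2 = 1 from Prod.ext (hsq v hv).1 (hsq v hv).2]; exact one_mem _),
      Nat.card_zpowers, huo, hB4]
    haveI : IsMulCommutative B := IsPGroup.isMulCommutative_of_card_eq_prime_sq (p := 2) hB4
    rw [setLike_mul_comm hv hu, mul_inv_cancel_right]
    exact mem_zpowers u
  have key : ∀ r : alternatingGroup (Fin 4), ((1 : alternatingGroup (Fin 4)), r) ∈ (Q : Subgroup _) → r ^ 3 = 1 → r ≠ 1 →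
      r * u.2 * r⁻¹ ≠ v.2 := by
    intro r hr hr3 hr1 e
    obtain ⟨-, g2⟩ := fact1 r u.2 hr3 hr1 (hsq u hu).2 (hne u hu hu1).2
    have hsr : (s.1, r) ∈ (Q : Subgroup _) := by
      have : (s.1, r) = s * (1, r) := Prod.ext (mul_one _).symm (by
        rw [Prod.snd_mul, show s.2 = 1 from hs1.2, one_mul])
      rw [this]; exact mul_mem hs hr
    haveI := Fact.mk Nat.prime_three
    refine h3 ⟨zpowers (s.1, r), zpowers_le_of_mem hsr, ?_, fun e' => hr1 ?_, fun e' => hs4 ?_,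
      zpowers_le_of_mem ?_⟩
    · rw [Nat.card_zpowers]
      exact orderOf_eq_prime (Prod.ext hs3 hr3) fun e' => hr1 (congrArg Prod.snd e')
    · exact (e'.le (mem_zpowers _)).2.2
    · exact (e'.le (mem_zpowers _)).2.1
    · rw [← hB]
      refine mem_normalizer_sup_zpowers_of_mem ?_ ?_
      · rw [show (s.1, r) * u * (s.1, r)⁻¹ = v from Prod.ext hv1 e]
        exact mem_sup_right (mem_zpowers _)
      · rw [show (s.1, r) * v * (s.1, r)⁻¹ = u * v from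
          Prod.ext (by rw [hv1] at f2; exact f2) (by rw [e] at g2; exact g2)]
        exact mul_mem (mem_sup_left (mem_zpowers _)) (mem_sup_right (mem_zpowers _))
  have ht5 : (1, t.2) = t := Prod.ext ht1.1.symm rfl
  rcases fact2 t.2 u.2 v.2 ht3 ht4 (hsq u hu).2 (hne u hu hu1).2 (hsq v hv).2 (hne v hv hv2).2
    (hne' v hv u hu hv3).2.symm with e | e
  · exact key _ (ht5 ▸ ht) ht3 ht4 e
  · refine key _ ?_ (by rw [inv_pow, ht3, inv_one]) (inv_ne_one.2 ht4) e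
    have := inv_mem (ht5 ▸ ht : ((1 : alternatingGroup (Fin 4)), t.2) ∈ (Q : Subgroup _))
    rwa [Prod.inv_mk, inv_one] at this

end Cfsg.Agent.S4406
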