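import Cfsg.Statements.S4407
import Cfsg.Agent.Lib.Misc.DihAut
import Cfsg.Agent.Lib.PGroup.PIso
import Cfsg.Agent.Lib.PGroup.Extraspecial

set_option autoImplicit false
open Cfsg

namespace Cfsg.Agent.S4407

open Subgroup Cfsg.Agent.Lib.Core DihedralGroup
open Cfsg.Agent.Lib.PGroup (card_sup_zpowers mem_sup_zpowers_iff zpowers_eq_of_card_prime)

abbrev D := DihedralGroup 4

def K (i : ZMod 4) : Subgroup D where
  carrier := {x | x = 1 ∨ x = r 2 ∨ x = sr i ∨ x = sr (i + 2)}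
  one_mem' := Or.inl rfl
  mul_mem' := by revert i; simp only [Set.mem_setOf_eq]; decide
  inv_mem' := by revert i; simp only [Set.mem_setOf_eq]; decide

theorem mem_K {i : ZMod 4} {x : D} : x ∈ K i ↔ x = 1 ∨ x = r 2 ∨ x = sr i ∨ x = sr (i + 2) := Iff.rfl

set_option synthInstance.maxSize 2000 in
set_option synthInstance.maxHeartbeats 200000 in
theorem dec1 : ∀ s : Finset D, (∀ x ∈ s, ∀ y ∈ s, x * y ∈ s) → (∀ x ∈ s, x * x = 1) →
    s.card = 4 → (∀ x, x ∈ s ↔ x = 1 ∨ x = r 2 ∨ x = sr 0 ∨ x = sr (0 + 2)) ∨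
      (∀ x, x ∈ s ↔ x = 1 ∨ x = r 2 ∨ x = sr 1 ∨ x = sr (1 + 2)) := by decide +kernel

theorem eq_K (B : Subgroup D) (h4 : Nat.card B = 4) (h2 : ∀ b ∈ B, b ^ 2 = 1) : B = K 0 ∨ B = K 1 := by
  classical
  have := dec1 (Finset.univ.filter (· ∈ B))
    (by simpa using fun x hx y hy => mul_mem hx hy) (by simpa [sq] using h2)
    (by rw [← Fintype.card_subtype, ← Nat.card_eq_fintype_card]; exact h4)
  exact this.imp (fun h => Subgroup.ext fun x => by simpa [mem_K] using h x)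
    fun h => Subgroup.ext fun x => by simpa [mem_K] using h x

theorem card_K1 : Nat.card (K 1) = 4 := by
  haveI : DecidablePred (· ∈ K 1) := fun x =>
    inferInstanceAs (Decidable (x = 1 ∨ x = r 2 ∨ x = sr 1 ∨ x = sr (1 + 2)))
  rw [Nat.card_congr (Equiv.subtypeEquivRight fun x => mem_K), Nat.card_eq_fintype_card]
  decide

def θf : D → D
  | r i => r (-i)
  | sr i => sr (1 - i)

def θ : D →* D := MonoidHom.mk' θf (by decide)

theorem tb' {S : Type*} [Group S] {t s z a : S} (ts : t * s = s * (t * z)) (hta : t * a = a * t)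
    (za : z * a = a * (a * z)) : t * (s * a * s⁻¹) = s * a * s⁻¹ * (s * a * s⁻¹ * t) := by
  have h : ∀ x, t * (a * x) = a * (t * x) := fun x => by rw [← mul_assoc, hta, mul_assoc]
  calc t * (s * a * s⁻¹) = t * s * a * s⁻¹ := by group
    _ = s * (t * (a * (a * z))) * s⁻¹ := by rw [ts, mul_assoc s, mul_assoc t, za]
    _ = s * a * a * s⁻¹ * (s * (t * z)) * s⁻¹ := by rw [h, h]; group
    _ = _ := by rw [← ts]; group

theorem gen {S : Type*} [Group S] [Finite S] {A : Subgroup S} (hA : IsElementaryAbelian 3 A)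
    (hA9 : Nat.card A = 9) {a b : S} (ha : a ∈ A) (hb : b ∈ A) (ha1 : a ≠ 1) (hba : b ∉ zpowers a) :
    zpowers a ⊔ zpowers b = A := by
  haveI : Fact (Nat.Prime 3) := ⟨Nat.prime_three⟩
  haveI := hA.1
  have ab : a * b = b * a := setLike_mul_comm ha hb
  refine eq_of_le_of_card_ge (sup_le (zpowers_le.mpr ha) (zpowers_le.mpr hb)) ?_
  rw [card_sup_zpowers (p := 3) (centralizer_le_normalizer _ (by
    rw [centralizer_zpowers, mem_centralizer_singleton_iff, ab])) hba
    (by rw [hA.2 b hb]; exact one_mem _), Nat.card_zpowers, orderOf_eq_prime (hA.2 a ha) ha1, hA9]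

theorem zpow3 {S : Type*} [Group S] {w : S} (h : w ^ 3 = 1) (k : ℤ) :
    w ^ k = 1 ∨ w ^ k = w ∨ w ^ k = w⁻¹ := by
  have h3 : w ^ (3 : ℤ) = 1 := by exact_mod_cast h
  obtain ⟨q, rfl | rfl | rfl⟩ : ∃ q, k = 3 * q ∨ k = 3 * q + 1 ∨ k = 3 * q + -1 := by
    refine ⟨(k + 1) / 3, ?_⟩; omega
  all_goals simp [zpow_add, zpow_mul, h3]

theorem inverts {S : Type*} [Group S] [Finite S] {A : Subgroup S} [A.Normal]
    (hA : IsElementaryAbelian 3 A) (hA9 : Nat.card A = 9) {g : S} (h4 : g * g * (g * g) = 1)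
    (hg : ∃ y ∈ A, g * g * y * (g * g)⁻¹ ≠ y) : ∀ x ∈ A, g * g * x * (g * g)⁻¹ = x⁻¹ := by
  haveI := hA.1
  obtain ⟨y, hy, hy1⟩ := hg
  intro x hx
  by_contra hne
  obtain ⟨T, hT⟩ : ∃ T, T = MulAut.conj g := ⟨_, rfl⟩
  have e : ∀ x, g * g * x * (g * g)⁻¹ = T (T x) := fun x => by simp [hT, mul_assoc]
  have e4 : ∀ x, T (T (T (T x))) = x := fun x => by
    rw [← e, ← e]
    calc _ = g * g * (g * g) * x * (g * g * (g * g))⁻¹ := by group
      _ = x := by rw [h4]; simp
  have TA : ∀ x ∈ A, T x ∈ A := fun x hx => hT ▸ Normal.conj_mem inferInstance x hx g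
  have sq1 : ∀ x ∈ A, x = x⁻¹ → x = 1 := fun x hx h => by
    have := hA.2 x hx
    rwa [pow_three', eq_inv_iff_mul_eq_one.mp h, one_mul] at this
  rw [e] at hy1 hne
  have hu : x * T (T x) ∈ A := mul_mem hx (TA _ (TA _ hx))
  have hw : y * (T (T y))⁻¹ ∈ A := mul_mem hy (inv_mem (TA _ (TA _ hy)))
  have u1 : x * T (T x) ≠ 1 := fun h => hne (eq_inv_of_mul_eq_one_right h)
  have w1 : y * (T (T y))⁻¹ ≠ 1 := fun h => hy1 (mul_inv_eq_one.mp h).symm
  have Tu : T (T (x * T (T x))) = x * T (T x) := by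
    rw [map_mul, map_mul, e4]; exact setLike_mul_comm (TA _ (TA _ hx)) hx
  have Tw : T (T (y * (T (T y))⁻¹)) = (y * (T (T y))⁻¹)⁻¹ := by
    simp only [map_mul, map_inv, e4, mul_inv_rev, inv_inv]
  generalize x * T (T x) = u at hu u1 Tu
  generalize y * (T (T y))⁻¹ = w at hw w1 Tw
  have hwu : w ∉ zpowers u := by
    rintro ⟨k, rfl⟩
    refine w1 (sq1 _ hw ?_)
    rw [← Tw, map_zpow, map_zpow, Tu]
  have h := TA w hw
  rw [← gen hA hA9 hu hw u1 hwu, mem_sup_zpowers_iff (centralizer_le_normalizer _ (by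
    rw [centralizer_zpowers, mem_centralizer_singleton_iff, setLike_mul_comm hu hw]))] at h
  obtain ⟨_, ⟨i, rfl⟩, j, h⟩ := h
  replace h : u ^ i * w ^ j = T w := h
  have h1 : T (T (T w)) = (T w)⁻¹ := by rw [Tw, map_inv]
  rw [← h, map_mul, map_mul, map_zpow, map_zpow, map_zpow, map_zpow, Tu, Tw,
    setLike_mul_comm (zpow_mem hu i) (zpow_mem hw j), mul_inv_rev, inv_zpow, mul_left_inj] at h1
  rw [sq1 _ (zpow_mem hu i) h1, one_mul] at h
  refine w1 (sq1 _ hw ?_)
  rw [← Tw]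
  rcases zpow3 (hA.2 w hw) j with h2 | h2 | h2 <;> rw [h2] at h
  · exact absurd (by simpa using h.symm) w1
  · rw [← h, ← h]
  · rw [← h, map_inv, ← h, inv_inv]

section
variable {M : Type*} [AddCommGroup M] [Module (ZMod 2) M]

theorem add_self' (v : M) : v + v = 0 := by
  rw [← two_smul (ZMod 2), show (2 : ZMod 2) = 0 from rfl, zero_smul]

variable {S : Type*} [Group S] [Finite S] {ρ : Representation (ZMod 2) S M}

theorem exists_fix {U : Submodule (ZMod 2) M} {t : S} (ht : t * t = 1) (hU : ∀ m ∈ U, ρ t m ∈ U)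
    (h : ∃ m ∈ U, m ≠ 0) : ∃ m ∈ U, m ≠ 0 ∧ ρ t m = m := by
  obtain ⟨m, hm, hm0⟩ := h
  by_cases h1 : ρ t m = m
  · exact ⟨m, hm, hm0, h1⟩
  refine ⟨m + ρ t m, add_mem hm (hU m hm), fun h => h1 ?_, ?_⟩
  · have := add_self' m; grind
  · rw [map_add, ← Module.End.mul_apply, ← map_mul, ht, map_one, add_comm]; rfl

theorem main {A X : Subgroup S} [A.Normal] (hA : IsElementaryAbelian 3 A) (hA9 : Nat.card A = 9)
    (hAX : A ⊔ X = ⊤) [Finite M]
    (hirr : ∀ N : Submodule (ZMod 2) M, (∀ s : S, ∀ m ∈ N, ρ s m ∈ N) → N = ⊥ ∨ N = ⊤)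
    (hfix : ∀ m, (∀ x ∈ A, ρ x m = m) → m = 0) (σ : D →* S) (hσ : Function.Injective σ)
    (hX : σ.range = X) (hz : ∀ x ∈ A, σ (r 2) * x * (σ (r 2))⁻¹ = x⁻¹) {a : S} (ha : a ∈ A)
    (ha1 : a ≠ 1) (hta : σ (sr 0) * a = a * σ (sr 0)) (hm : ∃ m, m ≠ 0 ∧ ρ a m = m) :
    Nat.card M = 16 ∧ ∃! B : Subgroup S, B ≤ X ∧ Nat.card ↥B = 4 ∧ (∀ b ∈ B, b ^ 2 = 1) ∧
        Nat.card {m : M // ∀ b ∈ B, ρ b m = m} = 2 := by
  haveI : Fact (Nat.Prime 3) := ⟨Nat.prime_three⟩
  haveI := hA.1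
  have R : ∀ x y (m : M), ρ x (ρ y m) = ρ (x * y) m := fun x y m => by rw [map_mul]; rfl
  obtain ⟨t, ht⟩ : ∃ t, t = σ (sr 0) := ⟨_, rfl⟩
  obtain ⟨s, hs⟩ : ∃ s, s = σ (sr 1) := ⟨_, rfl⟩
  obtain ⟨z, hz'⟩ : ∃ z, z = σ (r 2) := ⟨_, rfl⟩
  rw [← ht] at hta
  rw [← hz'] at hz
  have tt : t * t = 1 := by rw [ht, ← map_mul, ← map_one σ]; rfl
  have ss : s * s = 1 := by rw [hs, ← map_mul, ← map_one σ]; rfl
  have zz : z * z = 1 := by rw [hz', ← map_mul, ← map_one σ]; rfl
  have tz : t * z = z * t := by rw [ht, hz', ← map_mul, ← map_mul]; rfl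
  have zs : z * s = s * z := by rw [hs, hz', ← map_mul, ← map_mul]; rfl
  have ts : t * s = s * (t * z) := by rw [ht, hs, hz', ← map_mul, ← map_mul, ← map_mul]; rfl
  obtain ⟨b, hb'⟩ : ∃ b, b = s * a * s⁻¹ := ⟨_, rfl⟩
  have hb : b ∈ A := hb' ▸ Normal.conj_mem inferInstance _ ha _
  have sa : s * a = b * s := by rw [hb']; group
  have sb : s * b = a * s := by
    rw [hb', ← mul_assoc, ← mul_assoc, ss, one_mul, inv_eq_of_mul_eq_one_right ss]
  have cube : ∀ x ∈ A, x * x * x = 1 := fun x hx => by rw [← hA.2 x hx, pow_three']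
  have zx : ∀ x ∈ A, z * x = x * (x * z) := fun x hx => by
    rw [← mul_assoc, ← mul_inv_eq_iff_eq_mul, hz x hx, inv_eq_iff_mul_eq_one, ← mul_assoc, cube x hx]
  have tb : t * b = b * (b * t) := hb' ▸ tb' ts hta (zx a ha)
  have ab : a * b = b * a := setLike_mul_comm ha hb
  have hba : b ∉ zpowers a := by
    rintro ⟨k, hk⟩
    have h1 : t * b = b * t := by rw [← hk]; exact (Commute.zpow_right hta k)
    rw [tb, mul_right_inj, mul_eq_right, hb', mul_inv_eq_one, mul_eq_left] at h1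
    exact ha1 h1
  have hgen : zpowers a ⊔ zpowers b = A := gen hA hA9 ha hb ha1 hba
  have hfix' : ∀ m, ρ a m = m → ρ b m = m → m = 0 := fun m h1 h2 => hfix m fun x hx => by
    rw [← hgen, zpowers_eq_closure, zpowers_eq_closure, ← Subgroup.closure_union] at hx
    induction hx using closure_induction with
    | mem x hx => rcases hx with rfl | rfl <;> assumption
    | one => simp
    | mul x y _ _ h1 h2 => rw [← R, h2, h1]
    | inv x _ h => rw [← h, R, inv_mul_cancel, h]; simp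
  obtain ⟨v, ⟨av, zv⟩, hv0, tv⟩ : ∃ v ∈ LinearMap.eqLocus (ρ a) LinearMap.id ⊓
      LinearMap.eqLocus (ρ z) LinearMap.id, v ≠ 0 ∧ ρ t v = v := by
    refine exists_fix tt (fun m ⟨h1, h2⟩ => ⟨?_, ?_⟩) ?_
    · change ρ a (ρ t m) = ρ t m
      rw [R, ← hta, ← R, show ρ a m = m from h1]
    · change ρ z (ρ t m) = ρ t m
      rw [R, ← tz, ← R, show ρ z m = m from h2]
    · obtain ⟨m, h1, h2, h3⟩ := exists_fix (ρ := ρ) (U := LinearMap.eqLocus (ρ a) LinearMap.id) zz
        (fun m h1 => by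
          change ρ a (ρ z m) = ρ z m
          have h2 : ρ a m = m := h1
          have : a * z = z * (a * a) := by
            rw [← mul_assoc, zx a ha, mul_assoc, mul_assoc, zx a ha, ← mul_assoc, ← mul_assoc,
              ← mul_assoc, cube a ha, one_mul]
          rw [R, this, ← R, ← R, h2, h2]) (hm.imp fun m h => ⟨h.2, h.1⟩)
      exact ⟨m, ⟨h1, h3⟩, h2⟩
  replace av : ρ a v = v := av
  replace zv : ρ z v = v := zv
  obtain ⟨w, hw⟩ : ∃ w, w = ρ s v := ⟨_, rfl⟩
  have sv : ρ s v = w := hw.symm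
  have sw : ρ s w = v := by rw [hw, R, ss]; simp
  have bw : ρ b w = w := by rw [hw, R, ← sa, ← R, av]
  have zw : ρ z w = w := by rw [hw, R, zs, ← R, zv]
  have tw : ρ t w = w := by rw [hw, R, ts, ← R, ← R, zv, tv]
  obtain ⟨v', hv'⟩ : ∃ v', v' = ρ b v := ⟨_, rfl⟩
  obtain ⟨w', hw'⟩ : ∃ w', w' = ρ a w := ⟨_, rfl⟩
  have bv : ρ b v = v' := hv'.symm
  have aw : ρ a w = w' := hw'.symm
  have av' : ρ a v' = v' := by rw [hv', R, ab, ← R, av]
  have bw' : ρ b w' = w' := by rw [hw', R, ← ab, ← R, bw]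
  have bv' : ρ b v' = v + v' := by
    have e : ρ b (ρ b v') = v := by rw [hv', R, R, cube b hb]; simp
    have := hfix' (v + v' + ρ b v') (by rw [map_add, map_add, av, av', R, ab, ← R, av'])
      (by rw [map_add, map_add, bv, e]; abel)
    have := add_self' (ρ b v'); grind
  have aw' : ρ a w' = w + w' := by
    have e : ρ a (ρ a w') = w := by rw [hw', R, R, cube a ha]; simp
    have := hfix' (w + w' + ρ a w') (by rw [map_add, map_add, aw, e]; abel)
      (by rw [map_add, map_add, bw, bw', R, ← ab, ← R, bw'])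
    have := add_self' (ρ a w'); grind
  have tv' : ρ t v' = v + v' := by rw [hv', R, tb, ← R, ← R, tv, bv, bv']
  have tw' : ρ t w' = w' := by rw [hw', R, hta, ← R, tw]
  have sv' : ρ s v' = w' := by rw [hv', R, sb, ← R, sv, aw]
  have sw' : ρ s w' = v' := by rw [hw', R, sa, ← R, sw, bv]
  have zv' : ρ z v' = v + v' := by rw [hv', R, zx b hb, ← R, ← R, zv, bv, bv']
  have zw' : ρ z w' = w + w' := by rw [hw', R, zx a ha, ← R, ← R, zw, aw, aw']
  have hw0 : w ≠ 0 := fun h => hv0 (by rw [← sw, h, map_zero])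
  have hvw : v ≠ w := fun h => hv0 (hfix' v av (by rw [h, bw]))
  let F : (ZMod 2 × ZMod 2 × ZMod 2 × ZMod 2) →ₗ[ZMod 2] M :=
    (LinearMap.toSpanSingleton _ _ v).coprod ((LinearMap.toSpanSingleton _ _ v').coprod
      ((LinearMap.toSpanSingleton _ _ w).coprod (LinearMap.toSpanSingleton _ _ w')))
  have hF : ∀ α β γ δ, F (α, β, γ, δ) = α • v + (β • v' + (γ • w + δ • w')) := fun _ _ _ _ => rfl
  have z2 : ∀ α : ZMod 2, α = 0 ∨ α = 1 := by decide
  have hinj : Function.Injective F := by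
    rw [injective_iff_map_eq_zero]
    rintro ⟨α, β, γ, δ⟩ h
    rw [hF, ← add_assoc] at h
    have h1 : α • v + β • v' = γ • w + δ • w' := by
      have := add_self' (γ • w + δ • w'); grind
    have h2 := hfix' (α • v + β • v') (by simp [av, av']) (by rw [h1]; simp [bw, bw'])
    rw [h2] at h1
    have n1 : v' ≠ 0 := fun h => hv0 (by simpa [h] using bv'.symm)
    have n2 : v + v' ≠ 0 := fun h => by
      have := add_self' v
      have e : v' = v := by grind
      exact hv0 (hfix' v av (by rw [bv, e]))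
    have n3 : w' ≠ 0 := fun h => n1 (by rw [← sw', h, map_zero])
    have n4 : w + w' ≠ 0 := fun h => n2 (by rw [← sw', ← sw, ← map_add, h, map_zero])
    have k1 : α = 0 ∧ β = 0 := by
      rcases z2 α with rfl | rfl <;> rcases z2 β with rfl | rfl <;> simp [hv0, n1, n2] at h2 ⊢
    have k2 : γ = 0 ∧ δ = 0 := by
      replace h1 := h1.symm
      rcases z2 γ with rfl | rfl <;> rcases z2 δ with rfl | rfl <;> simp [hw0, n3, n4] at h1 ⊢
    rw [k1.1, k1.2, k2.1, k2.2]; rfl
  have hsurj : Function.Surjective F := by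
    rw [← LinearMap.range_eq_top]
    have m1 : v ∈ LinearMap.range F := ⟨(1, 0, 0, 0), by simp [hF]⟩
    have m2 : v' ∈ LinearMap.range F := ⟨(0, 1, 0, 0), by simp [hF]⟩
    have m3 : w ∈ LinearMap.range F := ⟨(0, 0, 1, 0), by simp [hF]⟩
    have m4 : w' ∈ LinearMap.range F := ⟨(0, 0, 0, 1), by simp [hF]⟩
    let Γ : Subgroup S :=
      { carrier := {g | ∀ m, ρ g m ∈ LinearMap.range F ↔ m ∈ LinearMap.range F}
        one_mem' := fun m => by simp
        mul_mem' := fun {x y} hx hy m => by rw [← R, hx, hy]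
        inv_mem' := fun {x} hx m => by rw [← hx, R, mul_inv_cancel]; simp }
    have key : ∀ g, ∀ n, g ^ (n + 1) = 1 → ρ g v ∈ LinearMap.range F → ρ g v' ∈ LinearMap.range F →
        ρ g w ∈ LinearMap.range F → ρ g w' ∈ LinearMap.range F → g ∈ Γ := by
      intro g n hn h1 h2 h3 h4
      have h5 : ∀ m ∈ LinearMap.range F, ρ g m ∈ LinearMap.range F := by
        rintro _ ⟨⟨α, β, γ, δ⟩, rfl⟩
        simp only [hF, map_add, map_smul]
        exact add_mem (Submodule.smul_mem _ _ h1) (add_mem (Submodule.smul_mem _ _ h2)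
          (add_mem (Submodule.smul_mem _ _ h3) (Submodule.smul_mem _ _ h4)))
      have h6 : ∀ k, ∀ m ∈ LinearMap.range F, ρ (g ^ k) m ∈ LinearMap.range F := fun k m hm => by
        induction k with
        | zero => simpa using hm
        | succ k ih => rw [pow_succ', ← R]; exact h5 _ ih
      refine fun m => ⟨fun h => ?_, h5 m⟩
      have := h6 n _ h
      rwa [R, ← pow_succ, hn, map_one] at this
    have ga := key a 2 (hA.2 a ha) (av.symm ▸ m1) (av'.symm ▸ m2) (aw.symm ▸ m4) (aw'.symm ▸ add_mem m3 m4)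
    have gb := key b 2 (hA.2 b hb) (bv.symm ▸ m2) (bv'.symm ▸ add_mem m1 m2) (bw.symm ▸ m3) (bw'.symm ▸ m4)
    have gt := key t 1 (by rw [← tt, pow_succ, pow_one]) (tv.symm ▸ m1) (tv'.symm ▸ add_mem m1 m2)
      (tw.symm ▸ m3) (tw'.symm ▸ m4)
    have gs := key s 1 (by rw [← ss, pow_succ, pow_one]) (sv.symm ▸ m3) (sv'.symm ▸ m4)
      (sw.symm ▸ m1) (sw'.symm ▸ m2)
    have hΓ : ⊤ ≤ Γ := by
      rw [← hAX, ← hgen, ← hX]
      refine sup_le (sup_le (zpowers_le.mpr ga) (zpowers_le.mpr gb)) ?_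
      rintro _ ⟨d, rfl⟩
      obtain ⟨i, h | h⟩ := (by decide : ∀ d : D, ∃ i : Fin 4, d = (sr 0 * sr 1) ^ (i : ℕ) ∨
        d = sr 0 * (sr 0 * sr 1) ^ (i : ℕ)) d <;> rw [h] <;> simp only [map_mul, map_pow, ← ht, ← hs]
      exacts [pow_mem (mul_mem gt gs) _, mul_mem gt (pow_mem (mul_mem gt gs) _)]
    exact (hirr _ fun g m hm => (hΓ (mem_top g) m).mpr hm).resolve_left fun h =>
      hv0 ((Submodule.mem_bot _).mp (h.le m1))
  refine ⟨by rw [← Nat.card_eq_of_bijective F ⟨hinj, hsurj⟩]; simp, (K 1).map σ,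
    ⟨hX ▸ map_le_range _ _, by rw [card_map_of_injective hσ, card_K1], ?_, ?_⟩, ?_⟩
  · rintro _ ⟨d, hd, rfl⟩
    rw [← map_pow, ← map_one σ]; congr 1
    rcases hd with rfl | rfl | rfl | rfl <;> rfl
  · have : ∀ m, (∀ b ∈ (K 1).map σ, ρ b m = m) ↔ m ∈ ({0, v + w} : Set M) := by
      refine fun m => ⟨fun h => ?_, ?_⟩
      · obtain ⟨⟨α, β, γ, δ⟩, rfl⟩ := hsurj m
        have h1 := h _ (mem_map_of_mem σ (Or.inr (Or.inl rfl)))
        have h2 := h _ (mem_map_of_mem σ (Or.inr (Or.inr (Or.inl rfl))))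
        rw [← hz'] at h1
        rw [← hs] at h2
        have h3 : F (α + β, β, γ + δ, δ) = F (α, β, γ, δ) := by
          rw [← h1]; simp only [hF, map_add, map_smul, zv, zv', zw, zw']; module
        have h4 : F (γ, δ, α, β) = F (α, β, γ, δ) := by
          rw [← h2]; simp only [hF, map_add, map_smul, sv, sv', sw, sw']; module
        have h5 := hinj h3
        have h6 := hinj h4
        simp only [Prod.mk.injEq, add_eq_left] at h5 h6
        obtain ⟨rfl, -, rfl, -⟩ := h5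
        obtain ⟨rfl, -⟩ := h6
        rcases z2 γ with rfl | rfl <;> simp [hF]
      · rintro (rfl | rfl)
        · simp
        rintro _ ⟨d, rfl | rfl | rfl | rfl, rfl⟩
        · simp
        · rw [← hz', map_add, zv, zw]
        · rw [← hs, map_add, sv, sw, add_comm]
        · rw [show (sr (1 + 2) : D) = sr 1 * r 2 from rfl, map_mul, ← hs, ← hz', map_mul,
            Module.End.mul_apply, map_add, zv, zw, map_add, sv, sw, add_comm]
    rw [Nat.card_congr (Equiv.subtypeEquivRight this)]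
    refine Set.ncard_pair fun h => hvw ?_
    have := add_self' w; grind
  · rintro B ⟨h1, h2, h3, h4⟩
    have e : (B.comap σ).map σ = B := map_comap_eq_self (hX ▸ h1)
    rcases eq_K (B.comap σ) (by rw [← card_map_of_injective hσ, e, h2])
      (fun d hd => hσ (by rw [map_pow, h3 _ hd, map_one])) with h | h
    · exfalso
      have key : ∀ m, ρ z m = m → ρ t m = m → ∀ b ∈ B, ρ b m = m := by
        intro m m1 m2
        rw [← e, h]
        rintro _ ⟨d, rfl | rfl | rfl | rfl, rfl⟩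
        · simp
        · rwa [← hz']
        · rwa [← ht]
        · rw [show (sr (0 + 2) : D) = sr 0 * r 2 from rfl, map_mul, ← ht, ← hz', ← R, m1, m2]
      let g : Fin 3 → {m : M // ∀ b ∈ B, ρ b m = m} := ![⟨0, by simp⟩, ⟨v, key v zv tv⟩, ⟨w, key w zw tw⟩]
      have hg : Function.Injective g := by
        intro i j hij
        have := congrArg Subtype.val hij
        fin_cases i <;> fin_cases j <;>
          simp [g, hv0, hw0, hvw, hv0.symm, hw0.symm, hvw.symm] at this ⊢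
      have := Nat.card_le_card_of_injective g hg
      simp [h4] at this
    · rw [← e, h]
end

/-- Let S be a finite group with a normal elementary abelian subgroup A of order 9 that is self-centralizing (C_S(A) = A), and a dihedral subgroup X of order 8 with S = AX. Let M be a finite-dimensional module for S over the field with two elements that is faithful and irreducible. Then M has 16 elements, and X contains exactly one subgroup B of order 4 and exponent 2 whose fixed points on M form a subspace with exactly 2 elements (equivalently, M is free of rank one over the group algebra of B). -/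
theorem result {S : Type*} [Group S] [Finite S]
    (A : Subgroup S) [A.Normal] (hA : Cfsg.IsElementaryAbelian 3 A) (hA9 : Nat.card ↥A = 9)
    (hAC : Subgroup.centralizer (A : Set S) = A) (X : Subgroup S) (hX : Nonempty (↥X ≃* DihedralGroup 4)) (hAX : A ⊔ X = ⊤)
    {M : Type*} [AddCommGroup M] [Module (ZMod 2) M] [Finite M] (ρ : Representation (ZMod 2) S M)
    (hfaith : Function.Injective ρ)
    (hirr : ∀ N : Submodule (ZMod 2) M, (∀ s : S, ∀ m ∈ N, ρ s m ∈ N) → N = ⊥ ∨ N = ⊤) (hM : Nontrivial M) :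
    Nat.card M = 16 ∧
      ∃! B : Subgroup S, B ≤ X ∧ Nat.card ↥B = 4 ∧ (∀ b ∈ B, b ^ 2 = 1) ∧
        Nat.card {m : M // ∀ b ∈ B, ρ b m = m} = 2 := by
  obtain ⟨e⟩ := hX
  haveI := hA.1
  have R : ∀ x y (m : M), ρ x (ρ y m) = ρ (x * y) m := fun x y m => by rw [map_mul]; rfl
  obtain ⟨σ, hσ, hr⟩ : ∃ σ : D →* S, Function.Injective σ ∧ σ.range = X :=
    ⟨X.subtype.comp e.symm.toMonoidHom, X.subtype_injective.comp e.symm.injective, by
      rw [MonoidHom.range_comp, MonoidHom.range_eq_top.mpr e.symm.surjective, ← MonoidHom.range_eq_map,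
        range_subtype]⟩
  have faith : ∀ d : D, d ≠ 1 → d ^ 3 ≠ 1 → ∃ y ∈ A, σ d * y * (σ d)⁻¹ ≠ y := fun d _ hd => by
    by_contra! h
    refine hd (hσ ?_)
    rw [map_pow, map_one]
    refine hA.2 _ (hAC ▸ fun y hy => ?_)
    rw [← mul_inv_eq_iff_eq_mul.mp (h y hy)]
  have hz : ∀ x ∈ A, σ (r 2) * x * (σ (r 2))⁻¹ = x⁻¹ := by
    have e2 : σ (r 2) = σ (r 1) * σ (r 1) := by rw [← map_mul]; rfl
    rw [e2]
    refine inverts hA hA9 (by rw [← e2, ← map_mul, ← map_one σ]; rfl) ?_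
    rw [← e2]; exact faith _ (by decide) (by decide)
  have hfix : ∀ m, (∀ x ∈ A, ρ x m = m) → m = 0 := by
    let N : Submodule (ZMod 2) M :=
      { carrier := {m | ∀ x ∈ A, ρ x m = m}
        zero_mem' := fun x _ => map_zero _
        add_mem' := fun h1 h2 x hx => by rw [map_add, h1 x hx, h2 x hx]
        smul_mem' := fun c m h x hx => by rw [map_smul, h x hx] }
    rcases hirr N (fun s m hm x hx => by
      rw [R, show x * s = s * (s⁻¹ * x * s⁻¹⁻¹) by group, ← R,
        hm _ (Normal.conj_mem inferInstance x hx _)]) with h | h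
    · exact fun m hm => (Submodule.mem_bot _).mp (h.le hm)
    · obtain ⟨y, hy, hne⟩ := faith (r 2) (by decide) (by decide)
      have : y = 1 := hfaith (by ext m; rw [map_one]; exact h.ge Submodule.mem_top y hy)
      simp [this] at hne
  obtain ⟨t, ht⟩ : ∃ t, t = σ (sr 0) := ⟨_, rfl⟩
  obtain ⟨s, hs⟩ : ∃ s, s = σ (sr 1) := ⟨_, rfl⟩
  obtain ⟨z, hz'⟩ : ∃ z, z = σ (r 2) := ⟨_, rfl⟩
  have tt : t * t = 1 := by rw [ht, ← map_mul, ← map_one σ]; rfl
  have ss : s * s = 1 := by rw [hs, ← map_mul, ← map_one σ]; rfl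
  have ts : t * s = s * (t * z) := by rw [ht, hs, hz', ← map_mul, ← map_mul, ← map_mul]; rfl
  have cube : ∀ x ∈ A, x * x * x = 1 := fun x hx => by rw [← hA.2 x hx, pow_three']
  have zx : ∀ x ∈ A, z * x = x * (x * z) := fun x hx => by
    rw [← mul_assoc, ← mul_inv_eq_iff_eq_mul, hz', hz x hx, inv_eq_iff_mul_eq_one, ← mul_assoc, cube x hx]
  obtain ⟨a, ha, ha1, hta⟩ : ∃ a ∈ A, a ≠ 1 ∧ t * a = a * t := by
    obtain ⟨y, hy, hne⟩ := faith (sr 0 * r 2) (by decide) (by decide)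
    have hy' : t * y * t⁻¹ ∈ A := Normal.conj_mem inferInstance y hy t
    refine ⟨y * (t * y * t⁻¹), mul_mem hy hy', fun h => hne ?_, ?_⟩
    · rw [map_mul, ← ht, show t * σ (r 2) * y * (t * σ (r 2))⁻¹ = t * (σ (r 2) * y * (σ (r 2))⁻¹) * t⁻¹ by
        group, hz y hy, eq_inv_of_mul_eq_one_left h]
      rw [← eq_inv_of_mul_eq_one_left h]
      calc _ = (t * y * t⁻¹)⁻¹ := by group
        _ = y := (eq_inv_of_mul_eq_one_left h).symm
    · nth_rw 1 [setLike_mul_comm hy hy']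
      rw [inv_eq_of_mul_eq_one_right tt]
      simp only [← mul_assoc, tt, one_mul]
      rw [mul_assoc _ t t, tt, mul_one]
  obtain ⟨b, hb'⟩ : ∃ b, b = s * a * s⁻¹ := ⟨_, rfl⟩
  have hb : b ∈ A := hb' ▸ Normal.conj_mem inferInstance _ ha _
  have tb : t * b = b * (b * t) := hb' ▸ tb' ts hta (zx a ha)
  have sa : s * a = b * s := by rw [hb']; group
  have sb : s * b = a * s := by
    rw [hb', ← mul_assoc, ← mul_assoc, ss, one_mul, inv_eq_of_mul_eq_one_right ss]
  have ab : a * b = b * a := setLike_mul_comm ha hb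
  have inj0 : ∀ g m, m ≠ 0 → ρ g m ≠ 0 := fun g m hm h => hm (by
    have := congrArg (ρ g⁻¹) h
    rwa [R, inv_mul_cancel, map_one, map_zero] at this)
  by_cases h1 : ∃ m, m ≠ 0 ∧ ρ a m = m
  · exact main hA hA9 hAX hirr hfix σ hσ hr hz ha ha1 (ht ▸ hta) h1
  have hθ : Function.Bijective θ := by decide
  refine main hA hA9 hAX hirr hfix (σ.comp θ) (hσ.comp hθ.1) (by
    rw [MonoidHom.range_comp, MonoidHom.range_eq_top.mpr hθ.2, ← MonoidHom.range_eq_map, hr]) hz
    (mul_mem ha hb) (fun h => ?_) ?_ ?_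
  · have h1 : t * b = b * t := by
      rw [eq_inv_of_mul_eq_one_right h]; exact Commute.inv_right hta
    rw [tb, mul_right_inj, mul_eq_right, hb', mul_inv_eq_one, mul_eq_left] at h1
    exact ha1 h1
  · change σ (sr 1) * _ = _ * σ (sr 1)
    rw [← hs, ← mul_assoc, sa, mul_assoc, sb, ← mul_assoc, ab]
  by_contra h2
  push_neg at h1 h2
  have k : ∀ x ∈ A, (∀ m, m ≠ 0 → ρ x m ≠ m) → ∀ m, ρ x (ρ x m) = m + ρ x m := fun x hx h m => by
    have : m + ρ x m + ρ x (ρ x m) = 0 := by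
      by_contra h0
      refine h _ h0 ?_
      rw [map_add, map_add, R, R, ← mul_assoc, cube x hx, map_one, Module.End.one_apply]; abel
    have := add_self' (ρ x (ρ x m)); grind
  have ka := k a ha h1
  have kb := k b hb fun m hm h => h1 (ρ s m) (inj0 _ _ hm) (by rw [R, ← sb, ← R, h])
  have kc := k _ (mul_mem ha hb) h2
  obtain ⟨m, hm⟩ := exists_ne (0 : M)
  have e1 : ρ a m = ρ b m := by
    have := kc m
    rw [← R a b, ← R a b, R b a, ← ab, ← R a b, ka, kb, map_add] at this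
    have := add_self' (ρ a m); have := add_self' (ρ b m); grind
  refine h2 (ρ t m) (inj0 _ _ hm) ?_
  rw [← R, R b t, show b * t = t * (b * b) from ?_, ← R, ← R, R a t, ← hta, ← R, ← e1, R b a, ← ab, ← R, ← e1, R, R, R, mul_assoc, mul_assoc, ← mul_assoc a, cube a ha]
  · simp
  · rw [← mul_assoc, tb, mul_assoc, mul_assoc, tb, ← mul_assoc, ← mul_assoc, ← mul_assoc, cube b hb, one_mul]

end Cfsg.Agent.S4407
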