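import Cfsg.Statements.S4408
import Cfsg.Agent.Lib.Misc.DihLemma
import Cfsg.Agent.Lib.Core.Components

set_option autoImplicit false
open Cfsg

namespace Cfsg.Agent.S4408

open Subgroup Cfsg.Agent.Lib.Core Cfsg.Agent.Lib.DihLemma

/-- Let S be a finite solvable group whose Fitting subgroup F(S) has odd order, and let I be an elementary abelian 2-subgroup of S of order 2ⁿ with n ≥ 1. Then F(S) contains subgroups A₁, …, Aₙ of prime order, each normalized by I, pairwise commuting and generating a subgroup A of order |A₁|⋯|Aₙ| (their internal direct product), such that no non-identity element of I centralizes A. -/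
theorem result {S : Type*} [Group S] [Finite S]
    [Group.IsSolvable S] (hF : Odd (Nat.card ↥(Cfsg.fittingSubgroup S)))
    (I : Subgroup S) (hI : Cfsg.IsElementaryAbelian 2 I) (n : ℕ) (hn : 1 ≤ n) (hIn : Nat.card ↥I = 2 ^ n) :
    ∃ f : Fin n → Subgroup S, (∀ i, (Nat.card ↥(f i)).Prime) ∧ (∀ i, f i ≤ Cfsg.fittingSubgroup S) ∧
      (∀ i, I ≤ Subgroup.normalizer ((f i) : Set S)) ∧ (∀ i j, i ≠ j → ∀ a ∈ f i, ∀ b ∈ f j, a * b = b * a) ∧
      Nat.card ↥(⨆ i, f i) = ∏ i, Nat.card ↥(f i) ∧ I ⊓ Subgroup.centralizer ((⨆ i, f i : Subgroup S) : Set S) = ⊥ := by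
  haveI : Fact (Nat.Prime 2) := ⟨Nat.prime_two⟩
  have hodd : ¬ 2 ∣ Nat.card (fittingSubgroup S) := by
    have := Nat.odd_iff.mp hF; omega
  have hC := inf_centralizer_fittingOf_le_of_isSolvable (H := (⊤ : Subgroup S)) inferInstance
  rw [fittingOf_top, top_inf_eq] at hC
  obtain ⟨f, h1, h2, h3, h4, h5, -, h7⟩ := exists_family fittingSubgroup_isNilpotent hodd hI
    le_normalizer_of_normal (eq_bot_iff.mpr ((inf_le_inf_left I hC).trans
      (inf_eq_bot_of_isPGroup_of_not_dvd (isPGroup_of_isElementaryAbelian hI) hodd).le)) hIn n le_rfl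
  refine ⟨f, h1, h2, h3, h4, h5, card_eq_one.mp ?_⟩
  exact Nat.eq_of_mul_eq_mul_right (by positivity) (h7.trans (one_mul _).symm)

end Cfsg.Agent.S4408
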