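import Cfsg.Statements.S4409
import Cfsg.Agent.Lib.Two.NC8
import Cfsg.Agent.Lib.Char.BrauerSuzuki
-- import your own Cfsg.Agent.* helpers here

set_option autoImplicit false
open Cfsg

namespace Cfsg.Agent.S4409

open Cfsg.Agent.Lib.Core Subgroup
open scoped Pointwise commutatorElement

open Cfsg.Agent.Lib.Two Cfsg.Agent.Lib.PGroup
open scoped IsMulCommutative

variable {G : Type*} [Group G] [Finite G]

theorem quat_change {a b u : G} {Q : Subgroup G} (h : QuatForm a b 0 Q) (hu : u ∈ Q)
    (huz : u ∉ zpowers (a ^ 2 ^ (0 + 1))) : ∃ v, QuatForm u v 0 Q ∧ u ^ 2 = a ^ 2 ^ (0 + 1) := by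
  by_cases h1 : u ∈ zpowers a
  · have h2 : u ∉ zpowers b := fun ⟨k, hk⟩ =>
      huz (h.maxCl.mem_of_commute h1 (hk ▸ (Commute.refl b).zpow_left k))
    have h3 := Lib.Char.quat_swap h h.maxCl.b_mem h.not_mem
    exact ⟨b, Lib.Char.quat_swap h3 hu h2, by rw [(h3.of_not_mem hu h2).1]; exact h.sq⟩
  · exact ⟨a, Lib.Char.quat_swap h hu h1, (h.of_not_mem hu h1).1⟩

theorem pow_four_of_nc {A : Subgroup G} (h1 : ¬ IsCyclic A) (h2 : Nat.card A = 8) {t : G}
    (ht : t ∈ A) : t ^ 4 = 1 := by
  have := Fact.mk Nat.prime_two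
  by_contra h
  refine h1 (isCyclic_of_orderOf_eq_card ⟨t, ht⟩ ?_)
  rw [h2, ← orderOf_coe]
  refine orderOf_eq_prime_pow (p := 2) (n := 2) h ?_
  exact orderOf_dvd_iff_pow_eq_one.mp ((A.orderOf_dvd_natCard ht).trans h2.dvd)

theorem not_nc8_of_four {Q : Subgroup G} [Q.Normal] (hQ : IsPGroup 2 Q)
    (hc : centralizer (Q : Set G) ≤ Q) (h : Four Q ∨ ∃ a b, QuatForm a b 0 Q) : ¬ NC8 (⊤ : Subgroup G) := by
  have := Fact.mk Nat.prime_two
  rintro ⟨A, -, h1, h2, h3⟩
  have hT : IsPGroup 2 (A ⊔ Q : Subgroup G) := isPGroup_sup_of_le_normalizer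
    (IsPGroup.of_card (n := 3) h3) hQ le_normalizer_of_normal
  have key : ∀ k, Nat.card Q = 2 ^ k → Nat.card (A ⊔ Q : Subgroup G) ≤
      Nat.card (centralizer (Q : Set G)) * 2 ^ k.choose 2 := fun k hk => by
    have := index_centralizer_normal_le hT k (Q.subgroupOf (A ⊔ Q))
      (by rw [card_subgroupOf le_sup_right, hk])
    rw [← subgroupOf_centralizer_eq le_sup_right] at this
    rw [← card_mul_relIndex (hc.trans le_sup_right)]
    exact Nat.mul_le_mul_left _ this
  rcases h with h | ⟨a, b, h⟩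
  · have k1 := key 2 h.card
    have k2 := card_le_of_le hc
    rw [h.card] at k2
    have k3 : A = A ⊔ Q := eq_of_le_of_card_ge le_sup_left (by simp at k1; omega)
    have := card_le_of_le ((le_centralizer A).trans ((centralizer_le_centralizer
      (k3 ▸ le_sup_right)).trans hc))
    rw [h3, h.card] at this
    omega
  have k1 := key 3 h.maxCl.card
  have k2 := h.maxCl.center_eq
  have hz := orderOf_half_pow h.ord
  rw [inf_eq_right.mpr hc] at k2
  rw [k2, Nat.card_zpowers, hz] at k1
  have k3 := Lib.Core.card_sup_mul_card_inf (H := A) (N := Q) le_normalizer_of_normal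
  rw [h3, h.maxCl.card] at k3
  have k4 : 4 ≤ Nat.card (A ⊓ Q : Subgroup G) := by
    by_contra e
    have := Nat.mul_le_mul k1 (show Nat.card (A ⊓ Q : Subgroup G) ≤ 3 by omega)
    rw [k3] at this
    simp [Nat.choose] at this
  obtain ⟨u, ⟨huA, huQ⟩, hu⟩ : ∃ u ∈ A ⊓ Q, u ∉ zpowers (a ^ 2 ^ (0 + 1)) := by
    by_contra e
    push Not at e
    have := card_le_of_le (show A ⊓ Q ≤ _ from e)
    rw [Nat.card_zpowers, hz] at this
    omega
  obtain ⟨v, h, -⟩ := quat_change h huQ hu
  clear hz k1 k2 hu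
  obtain ⟨t, htA, htQ⟩ : ∃ t ∈ A, t ∉ Q := by
    by_contra e
    push Not at e
    have e' : A = Q := eq_of_le_of_card_ge e (by rw [h3, h.maxCl.card]; rfl)
    exact h.maxCl.not_commute (setLike_mul_comm (s := A) huA (e' ▸ h.maxCl.b_mem))
  have htu : Commute t u := setLike_mul_comm (s := A) htA huA
  have cen : ∀ s, Commute s u → Commute s v → s ∈ Q := fun s k1 k2 => hc (le_centralizer_iff.mp
    (h.sup.ge.trans (sup_le (zpowers_le.mpr (mem_centralizer_singleton_iff.mpr k1.symm))
      (zpowers_le.mpr (mem_centralizer_singleton_iff.mpr k2.symm))) |>.trans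
        (centralizer_zpowers s).ge) (mem_zpowers s))
  have hz := h.maxCl.commute_z
  have k5 : (zpowers u).relIndex A = 2 := by
    have := card_mul_relIndex (zpowers_le.mpr huA)
    rw [Nat.card_zpowers, h.ord, h3] at this
    omega
  have k6 : t ^ 2 ∈ zpowers u := by
    simpa [mem_subgroupOf] using sq_mem_of_index_two (H := (zpowers u).subgroupOf A) k5 ⟨t, htA⟩
  have k7 : Commute (t ^ 2) v := by
    rcases eq_one_or_eq_half_pow h.ord k6 (by rw [← pow_mul]; exact pow_four_of_nc h2 h3 htA)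
      with e | e <;> rw [e]
    exacts [Commute.one_left _, hz]
  obtain ⟨c, hc1, hc2⟩ := (h.maxCl.mem_iff.mp (Normal.conj_mem inferInstance v h.maxCl.b_mem
    t)).resolve_left fun e => h.not_mem (by
      have := conj_mem_of_mem_normalizer' (mem_normalizer_zpowers (x := u) (y := t)
        (by rw [htu.eq, mul_inv_cancel_right]; exact mem_zpowers u)) e
      simpa [mul_assoc] using this)
  have htc : Commute t c := by
    obtain ⟨k, rfl⟩ := hc1
    exact htu.zpow_right k
  have k8 : c ^ 2 = 1 := by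
    have e1 : t ^ 2 * v * (t ^ 2)⁻¹ = c ^ 2 * v := by
      calc t ^ 2 * v * (t ^ 2)⁻¹ = t * (t * v * t⁻¹) * t⁻¹ := by rw [pow_two]; group
        _ = (t * c) * v * t⁻¹ := by rw [hc2, mul_assoc t c]
        _ = c * (t * v * t⁻¹) := by rw [htc.eq]; group
        _ = c ^ 2 * v := by rw [hc2, pow_two, mul_assoc]
    rw [k7.eq, mul_inv_cancel_right] at e1
    exact mul_eq_right.mp e1.symm
  rcases eq_one_or_eq_half_pow h.ord hc1 k8 with e | e
  · rw [e, one_mul, mul_inv_eq_iff_eq_mul] at hc2
    exact htQ (cen t htu hc2)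
  · refine htQ ((Q.mul_mem_cancel_left huQ).mp (cen (u * t) ((Commute.refl u).mul_left htu) ?_))
    have e1 : u * v * u⁻¹ = c * v := by
      have := h.conj
      calc u * v * u⁻¹ = u * (v * u * v⁻¹)⁻¹ * v := by group
        _ = c * v := by rw [this, e, inv_inv]; simp [pow_two]
    have e2 : Commute u c := e ▸ (Commute.refl u).pow_right _
    calc u * t * v = u * (t * v * t⁻¹) * t := by group
      _ = (u * c) * v * u⁻¹ * u * t := by rw [hc2]; group
      _ = c * (u * v * u⁻¹) * u * t := by rw [e2.eq]; group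
      _ = c ^ 2 * v * (u * t) := by rw [e1, pow_two]; group
      _ = v * (u * t) := by rw [k8, one_mul]

theorem special_of_four {H X V : Subgroup G} (hX : IsPGroup 2 X) (hH : ¬ 2 ∣ Nat.card H)
    (hHX : H ≤ normalizer (X : Set G)) (h8 : NC8 X)
    (hmin : ∀ Y ≤ X, H ≤ normalizer (Y : Set G) → NC8 Y → Y = X) (hna : ¬ IsMulCommutative X)
    (hV : Four V) (hVX : V ≤ X) (hn : X ≤ normalizer (V : Set G)) (hHV : H ≤ normalizer (V : Set G))
    (hc : ¬ H ≤ centralizer (V : Set G)) : IsSpecial 2 X ∧ Nat.card (center X) = 4 := by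
  have := Fact.mk Nat.prime_two
  have := hV.comm
  have ext : ∀ Y ≤ X, H ≤ normalizer (Y : Set G) → V ≤ Y → Y ≤ centralizer (V : Set G) → Y ≠ X →
      Y = V := fun Y h1 h2 h3 h4 h5 => by
    by_contra e
    exact h5 (hmin Y h1 h2 (hV.nc8 (hX.to_le h1) (lt_of_le_of_ne h3 (Ne.symm e)) h4))
  have h1 : X ≤ centralizer (V : Set G) := by
    by_contra e
    have k1 := ext (centralizer (V : Set G) ⊓ X) inf_le_right (le_normalizer_inf
      (le_normalizer_centralizer hHV) hHX) (le_inf (le_centralizer V) hVX) inf_le_left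
      fun k => e (inf_eq_right.mp k)
    have : (V.subgroupOf X).Normal := (normal_subgroupOf_iff_le_normalizer hVX).mpr hn
    have k2 := index_centralizer_normal_le hX 2 (V.subgroupOf X)
      (by rw [card_subgroupOf hVX, hV.card]; rfl)
    rw [← subgroupOf_centralizer_eq hVX] at k2
    have k3 := Lib.Core.card_inf_mul_relIndex (centralizer (V : Set G)) X
    rw [k1, hV.card] at k3
    obtain ⟨A, a1, a2, -, a3⟩ := h8
    change (centralizer (V : Set G)).relIndex X ≤ _ at k2
    exact hna (eq_of_le_of_card_ge a1 (by simp at k2; omega) ▸ a2)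
  have h2 : X ⊓ centralizer (X : Set G) = V := ext _ inf_le_left (le_normalizer_inf hHX
    (le_normalizer_centralizer hHX)) (le_inf hVX (le_centralizer_iff.mp h1)) (inf_le_left.trans h1)
    fun e => hna (le_centralizer_iff_isMulCommutative.mp (inf_eq_left.mp e))
  have h3 : (frattini X).map X.subtype ≤ V := by
    refine le_sup_left.trans (ext ((frattini X).map X.subtype ⊔ V) (sup_le (map_subtype_le _) hVX)
      (le_normalizer_sup (hHX.trans (normalizer_le_normalizer_map_subtype_of_characteristic _)) hHV)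
      le_sup_right (sup_le ((map_subtype_le _).trans h1) (le_centralizer V)) fun e => ?_).le
    have : V.subgroupOf X = ⊤ := frattini_nongenerating (map_injective X.subtype_injective (by
      rw [Subgroup.map_sup, subgroupOf_map_subtype, inf_eq_left.mpr hVX, sup_comm, e,
        ← MonoidHom.range_eq_map, range_subtype]))
    exact hna (le_antisymm hVX (subgroupOf_eq_top.mp this) ▸ hV.comm)
  have h4 : ⁅X, X⁆ = V := by
    have k1 := (commutator_le_map_subtype_frattini hX).trans h3
    by_contra e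
    have k2 : ⁅X, X⁆ ≠ ⊥ := fun k => hna (le_centralizer_iff_isMulCommutative.mp
      (commutator_eq_bot_iff_le_centralizer.mp k))
    have k3 := card_lt_of_lt (lt_of_le_of_ne k1 e)
    have k4 := dvd_card_of_isPGroup_of_ne_bot (hX.to_le (k1.trans hVX)) k2
    have k5 : 0 < Nat.card (⁅X, X⁆ : Subgroup G) := Nat.card_pos
    have k6 := card_mul_relIndex k1
    rw [hV.card] at k3 k6
    have k7 : Nat.card (⁅X, X⁆ : Subgroup G) = 2 := by omega
    have hn' := le_normalizer_commutator hHX hHX
    rw [k7] at k6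
    exact hc (le_centralizer_iff.mp ((coprimeAct_of_isPGroup_right hH (hX.to_le hVX)
      hHV).le_centralizer ((commutator_le_of_relIndex_two (by omega) hHV hn').trans
        (le_centralizer_iff.mp (le_centralizer_of_isCyclic (hX.to_le (k1.trans hVX))
          (isCyclic_of_prime_card k7) hH hn')))))
  rw [← Lib.Core.map_subtype_center] at h2
  have h5 : commutator X = center X := map_injective X.subtype_injective (by
    rw [map_subtype_commutator, h4, h2])
  refine ⟨⟨hX, le_antisymm ?_ (h5 ▸ commutator_le_frattini hX), h5⟩, ?_⟩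
  · exact (map_le_map_iff_of_injective X.subtype_injective).mp (h2 ▸ h3)
  · rw [← card_map_subtype, h2, hV.card]

theorem classify {H X : Subgroup G} (hX : IsPGroup 2 X) (hH : ¬ 2 ∣ Nat.card H)
    (hHX : H ≤ normalizer (X : Set G)) (h8 : NC8 X)
    (hmin : ∀ Y ≤ X, H ≤ normalizer (Y : Set G) → NC8 Y → Y = X) (hna : ¬ IsMulCommutative X) :
    (IsExtraspecial 2 X ∧ 32 ≤ Nat.card X) ∨
      (∃ (X₀ : Subgroup G) (k : ℕ), X₀ ≤ X ∧ X₀.relIndex X = 2 ∧
        Nonempty (X₀ ≃* QuaternionGroup (2 ^ (k + 1))) ∧ X₀ ⊔ (X ⊓ centralizer (X₀ : Set G)) = X) ∨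
      (IsSpecial 2 X ∧ Nat.card (center X) = 4) := by
  have := Fact.mk Nat.prime_two
  have hca := coprimeAct_of_isPGroup_right hH hX hHX
  have hc : ¬ H ≤ centralizer (X : Set G) := fun e => by
    obtain ⟨A, a1, a2, a3⟩ := h8
    exact hna (hmin A a1 (le_normalizer_of_le_centralizer (e.trans (centralizer_le_centralizer a1)))
      ⟨A, le_rfl, a2, a3⟩ ▸ a2)
  have cases : ∀ Y ≤ X, H ≤ normalizer (Y : Set G) → Y ≠ X → ¬ H ≤ centralizer (Y : Set G) →
      Four Y ∨ ∃ a b, QuatForm a b 0 Y := fun Y h1 h2 h3 h4 =>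
    cases_of_not_le_centralizer (hX.to_le h1) (fun e => h3 (hmin Y h1 h2 e)) hH h2 h4
  have hYX : ⁅X, H⁆ ≤ X := commutator_le_of_le_normalizer_left hHX
  have hHY : H ≤ normalizer ((⁅X, H⁆ : Subgroup G) : Set G) :=
    le_normalizer_commutator hHX le_normalizer
  have hXY : X ≤ normalizer ((⁅X, H⁆ : Subgroup G) : Set G) := normalizer_commutator_ge_left _ _
  have hcY : ¬ H ≤ centralizer ((⁅X, H⁆ : Subgroup G) : Set G) := fun e =>
    hc (le_centralizer_iff.mp (hca.le_centralizer (le_centralizer_iff.mp e)))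
  by_cases hY : ⁅X, H⁆ = X
  · by_cases hch : ∃ B : Subgroup X, B.Characteristic ∧ IsMulCommutative B ∧
        ¬ H ≤ centralizer ((B.map X.subtype : Subgroup G) : Set G)
    · obtain ⟨B, b1, b2, b3⟩ := hch
      have b4 := normalizer_le_normalizer_map_subtype_of_characteristic B
      have b5 : IsMulCommutative (B.map X.subtype) := inferInstance
      rcases cases _ (map_subtype_le B) (hHX.trans b4) (fun e => hna (e ▸ b5)) b3 with h | ⟨a, b, h⟩
      · exact Or.inr (Or.inr (special_of_four hX hH hHX h8 hmin hna h (map_subtype_le B)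
          (le_normalizer.trans b4) (hHX.trans b4) b3))
      · exact absurd (setLike_mul_comm h.maxCl.a_mem h.maxCl.b_mem) h.maxCl.not_commute
    push Not at hch
    let φ := X.normalizerMonoidHom.comp (inclusion hHX)
    obtain ⟨hs, -⟩ := special_of_coprime_action hX (A := φ.range)
      (Nat.Coprime.coprime_dvd_left (card_range_dvd φ)
        ((Nat.Prime.coprime_iff_not_dvd Nat.prime_two).mpr hH).symm)
      (map_injective X.subtype_injective (by
        rw [← MonoidHom.range_eq_map, range_subtype]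
        refine (map_subtype_le _).antisymm (hY.ge.trans (commutator_le.mpr fun x hx g hg => ?_))
        exact ⟨_, subset_closure ⟨⟨x, hx⟩⁻¹, _, ⟨⟨g, hg⟩, rfl⟩, rfl⟩, by
          simp [φ, commutatorElement_def, mul_assoc]⟩))
      (by
        rintro B b1 b2 _ ⟨g, rfl⟩ x hx
        refine Subtype.ext ?_
        have := hch B b1 b2 g.2 _ ⟨x, hx, rfl⟩
        simp only [φ, MonoidHom.comp_apply, normalizerMonoidHom_apply_apply_coe, coe_inclusion]
        rw [mul_inv_eq_iff_eq_mul]
        exact this.symm)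
    by_cases hZ : IsCyclic (center X)
    · have k1 := card_dvd_of_le_isCyclic (C := center X) le_rfl (n := 2)
        fun x hx => special_center_pow_eq_one hs hx
      have k2 : Nat.card (center X) ≠ 1 := fun e => hna (by
        rw [card_eq_one, ← hs.2.2, commutator_eq_bot_iff_center_eq_top, center_eq_top_iff] at e
        exact e)
      have he : IsExtraspecial 2 X := ⟨hs, ((Nat.dvd_prime Nat.prime_two).mp k1).resolve_left k2⟩
      obtain ⟨n, h1, h2⟩ := extraspecial_card he
      refine Or.inl ⟨he, ?_⟩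
      rcases h1.eq_or_lt with rfl | h1
      · obtain ⟨A, a1, a2, -, a3⟩ := h8
        exact absurd (eq_of_le_of_card_ge a1 (by rw [h2, a3]; rfl) ▸ a2) hna
      · rw [h2]
        exact Nat.pow_le_pow_right two_pos (n := 2) (show 5 ≤ 2 * n + 1 by omega)
    · have b5 : IsMulCommutative ((center X).map X.subtype) := inferInstance
      refine Or.inr (Or.inr ⟨hs, ?_⟩)
      rw [← card_map_subtype]
      exact (four_of_comm ((hX.to_subgroup _).map _) b5 (fun e => hZ (isCyclic_of_surjective _
        ((center X).equivMapOfInjective _ X.subtype_injective).symm.surjective)) fun e =>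
        hna (hmin _ (map_subtype_le _) (hHX.trans
          (normalizer_le_normalizer_map_subtype_of_characteristic _)) e ▸ b5)).card
  rcases cases _ hYX hHY hY hcY with h | ⟨a, b, h⟩
  · exact Or.inr (Or.inr (special_of_four hX hH hHX h8 hmin hna h hYX hXY hHY hcY))
  have hsup := hca.inf_centralizer_sup_commutator
  generalize ⁅X, H⁆ = Y at *
  set C := X ⊓ centralizer (H : Set G) with hC
  have hCY : Y ≤ centralizer (C : Set G) := by
    have k1 : ¬ Y ⊓ centralizer (C : Set G) ≤ centralizer (H : Set G) := fun e =>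
      hcY (le_centralizer_iff.mp (thompson_A_times_B (hX.to_le hYX) (hX.to_le inf_le_left) hH
        (inf_le_left.trans hXY) hHY inf_le_right e))
    have k2 : Nat.card (Y ⊓ centralizer (C : Set G) : Subgroup G) = 8 ∨
        Four (Y ⊓ centralizer (C : Set G)) := by
      rcases cases (Y ⊓ centralizer (C : Set G)) (inf_le_left.trans hYX) (le_normalizer_inf hHY
        (le_normalizer_centralizer (le_normalizer_of_le_centralizer
          (le_centralizer_iff.mp inf_le_right))))
        (fun e => hY (hYX.antisymm (e.ge.trans inf_le_left))) (fun e => k1 (le_centralizer_iff.mp e))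
        with k | ⟨_, _, k⟩
      exacts [Or.inr k, Or.inl k.maxCl.card]
    rcases k2 with k | k
    · exact inf_eq_left.mp (eq_of_le_of_card_ge inf_le_left (by rw [k, h.maxCl.card]; rfl))
    · refine absurd (Lib.Invol.isCyclic_of_comm_of_unique_involution
        (hX.to_le (inf_le_left.trans hYX)) (fun u v => (k.comm).is_comm.comm u v)
        fun u v hu hv => Subtype.ext ?_) k.nc
      rw [← orderOf_coe] at hu hv
      have t : ∀ w ∈ Y, orderOf w = 2 → w = a ^ 2 ^ (0 + 1) := fun w h1 h2 =>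
        (h.eq_of_sq_eq_one h1 (h2 ▸ pow_orderOf_eq_one w)).resolve_left fun e => by
          rw [e, orderOf_one] at h2; omega
      rw [t _ u.2.1 hu, t _ v.2.1 hv]
  have hz := orderOf_half_pow h.ord
  have hCY' := le_centralizer_iff.mp hCY
  obtain ⟨c, hc1, hc2, hc3⟩ : ∃ c ∈ C, c ∉ Y ∧ c ^ 2 ∈ Y := by
    obtain ⟨x, hx, hxY⟩ := SetLike.not_le_iff_exists.mp fun e : C ≤ Y =>
      hY (by rw [← hsup, sup_eq_right.mpr e])
    obtain ⟨k, hk⟩ := pow_eq_one_of_isPGroup hX hx.1
    by_contra hcon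
    push Not at hcon
    have : ∀ j, x ^ 2 ^ j ∉ Y := fun j => by
      induction j with
      | zero => simpa using hxY
      | succ j ih => rw [pow_succ, pow_mul]; exact hcon _ (pow_mem hx _) ih
    exact this k (hk ▸ one_mem Y)
  have hc4 : c ^ 2 ∈ zpowers (a ^ 2 ^ (0 + 1)) :=
    h.maxCl.center_eq ▸ (⟨hc3, hCY' (pow_mem hc1 2)⟩ : c ^ 2 ∈ Y ⊓ _)
  have hac : c ∈ centralizer ((zpowers a : Subgroup G) : Set G) :=
    centralizer_le_centralizer (zpowers_le.mpr h.maxCl.a_mem) (hCY' hc1)
  have hcard : Nat.card (zpowers a ⊔ zpowers c : Subgroup G) = 8 := by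
    rw [card_sup_zpowers (p := 2) (centralizer_le_normalizer _ hac)
      (fun e => hc2 (zpowers_le.mpr h.maxCl.a_mem e))
      (zpowers_le.mpr (pow_mem (mem_zpowers a) _) hc4), Nat.card_zpowers, h.ord]
    rfl
  have hX0 : Y ⊔ zpowers c = X := hmin _ (sup_le hYX (zpowers_le.mpr hc1.1)) (le_normalizer_sup hHY
    (le_normalizer_of_le_centralizer (le_centralizer_iff.mp (zpowers_le.mpr hc1.2))))
    ⟨zpowers a ⊔ zpowers c, sup_le_sup_right (zpowers_le.mpr h.maxCl.a_mem) _,
      isMulCommutative_sup_zpowers hac, fun e => by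
        have := card_dvd_of_le_isCyclic (C := zpowers a ⊔ zpowers c) le_rfl (n := 4) fun x hx => by
          obtain ⟨u, hu, _, ⟨k, rfl⟩, rfl⟩ := (mem_sup_of_le_normalizer_left
            (zpowers_le.mpr (centralizer_le_normalizer _ hac))).mp hx
          have a1 := orderOf_dvd_of_mem_zpowers hu
          have a2 := orderOf_dvd_of_mem_zpowers hc4
          rw [h.ord, orderOf_dvd_iff_pow_eq_one] at a1
          rw [hz, orderOf_dvd_iff_pow_eq_one, ← pow_mul] at a2
          rw [Commute.mul_pow (Commute.zpow_right (hac u hu) k), show u ^ 4 = 1 from a1, one_mul,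
            ← zpow_natCast, ← zpow_mul, mul_comm, zpow_mul, zpow_natCast, show c ^ 4 = 1 from a2,
            one_zpow]
        rw [hcard] at this
        omega, hcard⟩
  refine Or.inr (Or.inl ⟨Y, 0, hYX, ?_, h.nonempty_mulEquiv, ?_⟩)
  · rw [← hX0]
    exact relIndex_sup_zpowers (centralizer_le_normalizer _ (hCY' hc1)) hc2 hc3
  · exact (sup_le hYX inf_le_left).antisymm (hX0.ge.trans (sup_le_sup_left
      (zpowers_le.mpr (mem_inf.mpr ⟨hc1.1, hCY' hc1⟩)) _))

/-- Let S be a finite solvable group with O_{2'}(S) = 1 that contains a non-cyclic abelian subgroup of order 8, while no proper subgroup of S of 2-power index contains one. Then a Sylow 2-subgroup X of S is normal in S, and one of the following holds: X is abelian; X is extraspecial of order at least 32; X has a generalized quaternion subgroup X₀ of index 2 with X = X₀·C_X(X₀); or X is special with centre of order 4. -/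
theorem result {S : Type*} [Group S] [Finite S]
    [Group.IsSolvable S] (hO : Cfsg.pPrimeCore 2 S = ⊥)
    (h8 : ∃ A : Subgroup S, IsMulCommutative ↥A ∧ ¬ IsCyclic ↥A ∧ Nat.card ↥A = 8)
    (hmin : ∀ R : Subgroup S, R ≠ ⊤ → (∃ k : ℕ, R.index = 2 ^ k) →
      ¬ ∃ A : Subgroup S, A ≤ R ∧ IsMulCommutative ↥A ∧ ¬ IsCyclic ↥A ∧ Nat.card ↥A = 8)
    (X : Sylow 2 S) :
    (X : Subgroup S).Normal ∧
      (IsMulCommutative ↥X ∨
        (Cfsg.IsExtraspecial 2 ↥X ∧ 32 ≤ Nat.card ↥X) ∨
        (∃ (X₀ : Subgroup S) (k : ℕ), X₀ ≤ (X : Subgroup S) ∧ X₀.relIndex (X : Subgroup S) = 2 ∧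
          Nonempty (↥X₀ ≃* QuaternionGroup (2 ^ (k + 1))) ∧ X₀ ⊔ ((X : Subgroup S) ⊓ Subgroup.centralizer (X₀ : Set S)) = (X : Subgroup S)) ∨
        (Cfsg.IsSpecial 2 ↥X ∧ Nat.card ↥(Subgroup.center ↥X) = 4)) := by
  have := Fact.mk Nat.prime_two
  obtain ⟨H, hH, k, hk⟩ := exists_hall_compl 2 S inferInstance
  have h8' : NC8 (⊤ : Subgroup S) := let ⟨A, h⟩ := h8; ⟨A, le_top, h⟩
  have hcQ := (psolv_of_isSolvable (p := 2) (H := (⊤ : Subgroup S))
    inferInstance).centralizer_pCore_le hO
  have key : ∀ Y : Subgroup S, H ≤ normalizer (Y : Set S) → NC8 Y →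
      Nat.card (X : Subgroup S) ∣ Nat.card Y := fun Y h1 h2 => by
    have h3 : H ⊔ Y = ⊤ := by
      by_contra e
      obtain ⟨j, -, hj⟩ := (Nat.dvd_prime_pow Nat.prime_two).mp (hk ▸ index_dvd_of_le
        (le_sup_left : H ≤ H ⊔ Y))
      exact hmin _ e ⟨j, hj⟩ (h2.mono le_sup_right)
    have h4 := (card_dvd_of_le (le_top.trans h3.ge : (X : Subgroup S) ≤ _)).trans (card_sup_dvd h1)
    obtain ⟨n, hn⟩ := IsPGroup.iff_card.mp X.isPGroup'
    rw [hn] at h4 ⊢
    exact (((Nat.Prime.coprime_iff_not_dvd Nat.prime_two).mpr hH).pow_left n).dvd_of_dvd_mul_left h4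
  have hQ : NC8 (pCore 2 S) := by
    by_contra e
    refine not_nc8_of_four pCore_isPGroup hcQ (cases_of_not_le_centralizer pCore_isPGroup e hH
      le_normalizer_of_normal fun e' => e ?_) h8'
    have h1 : H = ⊥ := eq_bot_of_isPGroup_of_not_dvd (pCore_isPGroup.to_le (e'.trans hcQ)) hH
    rw [h1, index_bot] at hk
    exact h8'.mono (le_pCore ((IsPGroup.of_card hk).to_subgroup ⊤))
  have hX : pCore 2 S = X := eq_of_le_of_card_ge (pCore_le_sylow X)
    (Nat.le_of_dvd Nat.card_pos (key _ le_normalizer_of_normal hQ))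
  have hn : (X : Subgroup S).Normal := hX ▸ inferInstance
  refine ⟨hn, or_iff_not_imp_left.mpr fun hna => ?_⟩
  exact classify X.isPGroup' hH le_normalizer_of_normal (hX ▸ hQ) (fun Y h1 h2 h3 =>
    eq_of_le_of_card_ge h1 (Nat.le_of_dvd Nat.card_pos (key Y h2 h3))) hna

end Cfsg.Agent.S4409
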