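import Cfsg.Statements.S4410
import Cfsg.Agent.Lib.Misc.DihLemma
import Cfsg.Agent.Lib.Core.Components

set_option autoImplicit false
open Cfsg

namespace Cfsg.Agent.S4410

open Subgroup Cfsg.Agent.Lib.Core Cfsg.Agent.Lib.DihLemma

section
variable {V : Type*} [AddCommGroup V] [Module (ZMod 2) V]

theorem add_self' (v : V) : v + v = 0 := by
  rw [← two_smul (ZMod 2), show (2 : ZMod 2) = 0 from rfl, zero_smul]

/-- `s` is a transvection with direction `a` (or trivial). -/
def Tv (s : V ≃ₗ[ZMod 2] V) (a : V) : Prop := ∀ v, s v = v ∨ s v = v + a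

theorem Tv.self {s : V ≃ₗ[ZMod 2] V} {a : V} (h : Tv s a) : s a = a := by
  rcases h a with h | h
  · exact h
  · rw [add_self', map_eq_zero_iff _ s.injective] at h; rw [h, map_zero]

theorem Tv.conj {s : V ≃ₗ[ZMod 2] V} {a : V} (h : Tv s a) (c : V ≃ₗ[ZMod 2] V) :
    Tv (c * s * c⁻¹) (c a) := fun v => by
  rcases h (c⁻¹ v) with h | h
  · left; simp only [LinearEquiv.mul_apply, h]; simp
  · right; simp only [LinearEquiv.mul_apply, h]; simp

theorem pow_four {s r : V ≃ₗ[ZMod 2] V} {a b : V} (hs : Tv s a) (hr : Tv r b) (h : s b = b) :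
    (s * r) ^ 4 = 1 := by
  have h1 := hs.self
  have h2 := hr.self
  have ha := add_self' a
  have hb := add_self' b
  have key : ∀ v, s (r (s (r v))) = v ∨ (s (r (s (r v))) = v + b) := by
    intro v
    rcases hs v with e1 | e1 <;> rcases hr v with e2 | e2 <;> rcases hr a with e3 | e3 <;>
      simp only [e1, e2, e3, h, h1, h2, map_add, true_or, or_true, add_assoc, ha, hb, add_zero] <;>
      simp only [add_comm, add_left_comm, ha, hb, add_zero, ← add_assoc, zero_add, true_or, or_true] <;>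
      first
      | done
      | (left; grind)
      | (right; grind)
  ext v
  change s (r (s (r (s (r (s (r v))))))) = v
  rcases key v with e | e
  · rw [e, e]
  · rw [e, map_add, map_add, map_add, map_add, e, h2, h, h2, h, add_assoc, hb, add_zero]

theorem apply_eq {s r : V ≃ₗ[ZMod 2] V} {a b : V} (hs : Tv s a) (hr : Tv r b)
    (h : ¬ 2 ∣ orderOf (s * r)) (h1 : s * r ≠ 1) : s b = b + a := by
  rcases hs b with e | e
  · have := orderOf_dvd_of_pow_eq_one (pow_four hs hr e)
    obtain ⟨k, hk, hk'⟩ := (Nat.dvd_prime_pow Nat.prime_two (m := 2)).mp this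
    cases k with
    | zero => exact absurd (orderOf_eq_one_iff.mp hk') h1
    | succ k => exact absurd (hk' ▸ Dvd.intro_left _ (pow_succ 2 k).symm) h
  · exact e

theorem apply_eq' {s r : V ≃ₗ[ZMod 2] V} {a b : V} (hs : Tv s a) (hr : Tv r b)
    (h : ¬ 2 ∣ orderOf (s * r)) (h1 : s * r ≠ 1) : r a = a + b := by
  have e : r * s = r * (s * r) * r⁻¹ := by group
  refine apply_eq hr hs ?_ fun h => h1 ?_
  · rwa [e, ← MulAut.conj_apply, MulEquiv.orderOf_eq]
  · rw [e, mul_inv_eq_one, mul_eq_left] at h; exact h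
end

/-- Let V be a finite-dimensional vector space over the field with two elements and S a solvable group of linear automorphisms of V with O₂(S) = 1. If P ∈ S has order 4 and (P − 1)³ = 0 on V, then the image of (P − 1)² has at least 4 elements; equivalently, in the decomposition of V into indecomposable modules for the cyclic group generated by P, at least two summands have dimension 3. -/
theorem result
    {V : Type*} [AddCommGroup V] [Module (ZMod 2) V] [Finite V]
    (S : Subgroup (V ≃ₗ[ZMod 2] V)) (hS : Group.IsSolvable ↥S) (hO2 : Cfsg.pCore 2 ↥S = ⊥)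
    (P : V ≃ₗ[ZMod 2] V) (hPS : P ∈ S) (hP4 : orderOf P = 4)
    (hcub : ((P : V →ₗ[ZMod 2] V) - LinearMap.id) ^ 3 = 0) :
    4 ≤ Nat.card ↥(LinearMap.range (((P : V →ₗ[ZMod 2] V) - LinearMap.id) ^ 2)) := by
  haveI : Fact (Nat.Prime 2) := ⟨Nat.prime_two⟩
  haveI : Finite (V ≃ₗ[ZMod 2] V) := Finite.of_injective _ (DFunLike.coe_injective (F := V ≃ₗ[ZMod 2] V))
  by_contra hlt
  have hsq : ∀ v, (((P : V →ₗ[ZMod 2] V) - LinearMap.id) ^ 2 : V →ₗ[ZMod 2] V) v = P (P v) + v := by
    intro v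
    simp only [sq, Module.End.mul_apply, LinearMap.sub_apply, LinearEquiv.coe_coe, LinearMap.id_apply,
      map_sub]
    have := add_self' (P v)
    grind
  have hP2 : P * P ≠ 1 := fun h => by
    have := orderOf_dvd_of_pow_eq_one (show P ^ 2 = 1 by rw [sq, h]); rw [hP4] at this; omega
  have hP4' : P ^ 4 = 1 := hP4 ▸ pow_orderOf_eq_one P
  obtain ⟨w, hw⟩ : ∃ w, P (P w) ≠ w := by
    by_contra h; push Not at h; exact hP2 (LinearEquiv.ext h)
  set u := P (P w) + w with hu
  have hu0 : u ≠ 0 := fun h => hw (by have := add_self' w; grind)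
  have ht : Tv (P * P) u := by
    intro v
    by_contra h
    push Not at h
    refine hlt ?_
    set R := LinearMap.range (((P : V →ₗ[ZMod 2] V) - LinearMap.id) ^ 2)
    have m1 : u ∈ R := ⟨w, hsq w⟩
    have m2 : P (P v) + v ∈ R := ⟨v, hsq v⟩
    set y := P (P v) + v with hy
    have y0 : y ≠ 0 := fun h' => h.1 (by change P (P v) = v; have := add_self' v; grind)
    have yu : y ≠ u := fun h' => h.2 (by change P (P v) = v + u; have := add_self' v; grind)
    let g : Fin 4 → R := ![0, ⟨u, m1⟩, ⟨y, m2⟩, ⟨u + y, add_mem m1 m2⟩]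
    have hg : Function.Injective g := by
      have := add_self' u
      have := add_self' y
      intro i j hij
      have := congrArg Subtype.val hij
      fin_cases i <;> fin_cases j <;> simp [g] at this ⊢ <;> grind
    simpa using Nat.card_le_card_of_injective g hg
  have hPu : P u = u := by
    have h1 := congrArg (fun f : V →ₗ[ZMod 2] V => f w) hcub
    rw [pow_succ', Module.End.mul_apply, hsq, ← hu] at h1
    simpa [sub_eq_zero] using h1
  set F := fittingSubgroup S
  have hodd : ¬ 2 ∣ Nat.card F := by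
    have := (isSyl_OpOf_fittingOf (p := 2) (⊤ : Subgroup S)).not_dvd
    rwa [OpOf_top, hO2, relIndex_bot_left, fittingOf_top] at this
  have hodd' : ∀ x ∈ F, ¬ 2 ∣ orderOf (x : V ≃ₗ[ZMod 2] V) := fun x hx h =>
    hodd (h.trans (by rw [Subgroup.orderOf_coe]; exact Subgroup.orderOf_dvd_natCard _ hx))
  have hC := inf_centralizer_fittingOf_le_of_isSolvable (H := (⊤ : Subgroup S)) inferInstance
  rw [fittingOf_top, top_inf_eq] at hC
  let Q : S := ⟨P, hPS⟩
  have hQ4 : (Q * Q) ^ 2 = 1 := Subtype.ext (by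
    change (P * P) ^ 2 = 1
    rw [← sq, ← pow_mul]; exact hP4')
  obtain ⟨z, hz, hzp, hzt⟩ := exists_inverted (E := F) hQ4 (le_normalizer_of_normal (mem_top _)) (by
    intro h
    rw [← centralizer_zpowers, le_centralizer_iff] at h
    refine hodd' _ (hC (h (mem_zpowers _))) ?_
    rw [orderOf_eq_prime (p := 2) (congrArg Subtype.val hQ4) hP2])
  have hz1 : z ≠ 1 := fun h => by rw [h, orderOf_one] at hzp; exact Nat.not_prime_one hzp
  have hzo := hodd' z hz
  rw [Subgroup.orderOf_coe] at hzo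
  obtain ⟨k, hk⟩ : ∃ k, orderOf z = 2 * k + 1 := ⟨orderOf z / 2, by omega⟩
  have hQQ : (Q * Q)⁻¹ = Q * Q := by rw [inv_eq_iff_mul_eq_one, ← sq, hQ4]
  have hs : Q * Q * z = z ^ k * (Q * Q) * (z ^ k)⁻¹ := by
    have h1 : Q * Q * z ^ k * (Q * Q)⁻¹ = (z ^ k)⁻¹ := by rw [← conj_pow, hzt, inv_pow]
    have h2 : z ^ k * z ^ k * z = 1 := by
      rw [← pow_orderOf_eq_one z, hk, ← pow_add, ← pow_succ]; congr 1; ring
    calc Q * Q * z = Q * Q * ((z ^ k)⁻¹ * (z ^ k)⁻¹) := by
          congr 1; rw [← mul_inv_rev, eq_inv_iff_mul_eq_one, ← h2]; group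
      _ = (Q * Q * z ^ k * (Q * Q)⁻¹)⁻¹ * (Q * Q) * (z ^ k)⁻¹ := by generalize Q * Q = T; group
      _ = _ := by rw [h1, inv_inv]
  set a := ((z ^ k : S) : V ≃ₗ[ZMod 2] V) u with ha
  have hsv : Tv (P * P * (z : V ≃ₗ[ZMod 2] V)) a := by
    have := ht.conj ((z ^ k : S) : V ≃ₗ[ZMod 2] V)
    have e : P * P * (z : V ≃ₗ[ZMod 2] V) = _ := congrArg Subtype.val hs
    rw [e]; exact this
  have hrv := hsv.conj P
  have e1 : P * P * (P * P * z) = (z : V ≃ₗ[ZMod 2] V) := by
    rw [← mul_assoc, show P * P * (P * P) = P ^ 4 by simp [pow_succ, mul_assoc], hP4', one_mul]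
  have f1 := apply_eq ht hsv (by rw [e1]; exact hodd' z hz) (by rw [e1]; exact fun h => hz1 (Subtype.ext h))
  have f2 := apply_eq' ht hsv (by rw [e1]; exact hodd' z hz) (by rw [e1]; exact fun h => hz1 (Subtype.ext h))
  have e2 : P * P * z * (P * (P * P * z) * P⁻¹) = ((z⁻¹ * (Q * z * Q⁻¹) : S) : V ≃ₗ[ZMod 2] V) := by
    rw [← hzt, hQQ]; simp only [Subgroup.coe_mul, Subgroup.coe_inv, Q]; group
  have hm : z⁻¹ * (Q * z * Q⁻¹) ∈ F := mul_mem (inv_mem hz) (Normal.conj_mem inferInstance _ hz _)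
  have hne : z⁻¹ * (Q * z * Q⁻¹) ≠ 1 := by
    intro h
    rw [inv_mul_eq_one] at h
    have : z⁻¹ = z := by
      rw [← hzt]
      calc Q * Q * z * (Q * Q)⁻¹ = Q * (Q * z * Q⁻¹) * Q⁻¹ := by group
        _ = z := by rw [← h, ← h]
    rw [inv_eq_iff_mul_eq_one, ← sq] at this
    exact hzo (dvd_of_eq ((Nat.prime_dvd_prime_iff_eq hzp Nat.prime_two).mp
      (orderOf_dvd_of_pow_eq_one this)).symm)
  have g1 := apply_eq hsv hrv (e2 ▸ hodd' _ hm) (by rw [e2]; exact fun h => hne (Subtype.ext h))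
  have g2 := apply_eq' hsv hrv (e2 ▸ hodd' _ hm) (by rw [e2]; exact fun h => hne (Subtype.ext h))
  have g3 : P⁻¹ a = P a + u := by
    have : P⁻¹ = P * (P * P) := by rw [inv_eq_iff_mul_eq_one, ← hP4']; simp [pow_succ, mul_assoc]
    rw [this, LinearEquiv.mul_apply, f1, map_add, hPu]
  rw [LinearEquiv.mul_apply, LinearEquiv.mul_apply, g3, map_add, g1, f2] at g2
  have g4 : P (P a) = a + u := f1
  simp only [map_add, g4, hPu] at g2
  have := add_self' a
  have := add_self' u
  have := add_self' (P a)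
  have g5 : P a = 0 := by grind
  rw [g5, map_zero] at g4
  rw [map_eq_zero_iff _ P.injective] at g5
  exact hu0 (by grind)

end Cfsg.Agent.S4410
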