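import Cfsg.Statements.S4411
import Cfsg.Agent.Lib.Autz.Main

set_option autoImplicit false
open Cfsg

namespace Cfsg.Agent.S4411

/-- Let p and q be distinct primes with {p, q} ≠ {2, 3}, and let G be a finite group such that for every p-subgroup H of G the automizer N_G(H)/C_G(H) is p-solvable. If q divides the order of N_G(H)/C_G(H) for some p-subgroup H, then a Sylow p-subgroup of G has a normal subgroup K (normal in the Sylow subgroup) such that q divides the order of N_G(K)/C_G(K). -/
theorem result {G : Type*} [Group G] [Finite G]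
    (p q : ℕ) [Fact p.Prime] [Fact q.Prime] (hpq : p ≠ q) (h23 : ¬ ((p = 2 ∧ q = 3) ∨ (p = 3 ∧ q = 2)))
    (hsol : ∀ H : Subgroup G, IsPGroup p ↥H →
      Cfsg.IsPSolvable p (↥(Subgroup.normalizer (H : Set G)) ⧸ (Subgroup.centralizer (H : Set G)).subgroupOf (Subgroup.normalizer (H : Set G))))
    (H : Subgroup G) (hH : IsPGroup p ↥H)
    (hq : q ∣ ((Subgroup.centralizer (H : Set G)).subgroupOf (Subgroup.normalizer (H : Set G))).index)
    (Gp : Sylow p G) :
    ∃ K : Subgroup G, K ≤ (Gp : Subgroup G) ∧ (Gp : Subgroup G) ≤ Subgroup.normalizer (K : Set G) ∧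
      q ∣ ((Subgroup.centralizer (K : Set G)).subgroupOf (Subgroup.normalizer (K : Set G))).index := by
  open Subgroup Cfsg.Agent.Lib Cfsg.Agent.Lib.Core Cfsg.Agent.Lib.Autz in
  have hA : AS p G := fun H K hH hK h1 h2 => by
    have h3 := psolv_of_isPSolvable (hsol H hH)
    have h4 : (K.subgroupOf (normalizer (H : Set G))).map (QuotientGroup.mk' _) = ⊥ :=
      h3 _ le_top (by rw [← map_commutator, ← subgroupOf_commutator hK hK, h1])
        (by rw [← map_OupOf, OupOf_subgroupOf hK, h2])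
    rw [Subgroup.map_eq_bot_iff, QuotientGroup.ker_mk'] at h4
    exact (subgroupOf_le_subgroupOf_iff hK).mp h4
  open Subgroup Cfsg.Agent.Lib Cfsg.Agent.Lib.Core Cfsg.Agent.Lib.Autz in
  obtain ⟨K, S, h1, h2, h3, R, h4, h5, h6⟩ := main hpq h23 G hA H hH (exists_not_le hq)
  open Subgroup Cfsg.Agent.Lib Cfsg.Agent.Lib.Core Cfsg.Agent.Lib.Autz in
  obtain ⟨g, -, hg⟩ := h1.exists_conj (isSyl_sylow Gp)
  open Subgroup Cfsg.Agent.Lib Cfsg.Agent.Lib.Core Cfsg.Agent.Lib.Autz in
  refine ⟨K.map (MulAut.conj g).toMonoidHom, hg ▸ map_mono h2, by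
    rw [← map_conj_normalizer, ← hg]; exact map_mono h3,
    dvd_relIndex_of_not_le (le_normalizer_centralizer le_rfl) (h4.map (MulAut.conj g).toMonoidHom)
      (by rw [← map_conj_normalizer]; exact map_mono h5) fun h => h6 ?_⟩
  exact (Cfsg.Agent.Lib.Glaub.map_le_centralizer_iff (MulAut.conj g).injective).mp h

end Cfsg.Agent.S4411
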