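import Cfsg.Statements.S4412
import Cfsg.Agent.Lib.Misc.DihAut
import Cfsg.Agent.Lib.PGroup.PIso

set_option autoImplicit false
open Cfsg

namespace Cfsg.Agent.S4412

open Subgroup Cfsg.Agent.Lib.Core Cfsg.Agent.Lib.DihLemma Cfsg.Agent.Lib.CycSylow

section
variable {P : Type*} [Group P] [Finite P] {p : ℕ} [hp : Fact p.Prime]

theorem eq_one_or (hP : IsPGroup p P) (hodd : ¬ 2 ∣ Nat.card P) {T : MulAut P} {a u v : P}
    (hu : u ∈ zpowers a) (hv : v ∈ zpowers a) (h1 : T u = u) (h2 : T v = v⁻¹) : u = 1 ∨ v = 1 := by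
  by_contra h
  push Not at h
  obtain ⟨⟨w, ⟨k, hk⟩, l, hl⟩, hw⟩ := (ne_bot_iff_exists_ne_one).mp
    (inf_ne_bot_of_isCyclic (hP.to_subgroup (zpowers a)) (zpowers_le.mpr hu) (zpowers_le.mpr hv)
      (by simpa using h.1) (by simpa using h.2))
  refine hw (Subtype.ext (eq_one_of_eq_inv hodd ?_))
  have e1 : T w = w := by rw [← hk, map_zpow, h1]
  have e2 : T w = w⁻¹ := by rw [← hl, map_zpow, h2, inv_zpow]
  exact e1.symm.trans e2

theorem act (hP : IsPGroup p P) (hodd : ¬ 2 ∣ Nat.card P) {S T : MulAut P} {a x : P}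
    (hS : ∀ y, S y = y ↔ y ∈ zpowers a) (hST : S * T = T * S) (hT : T ^ 2 = 1) (hx : S x = x)
    (hx1 : x ≠ 1) : (T x = x → T a = a) ∧ (T x = x⁻¹ → T a = a⁻¹) := by
  have ha : S a = a := (hS a).mpr (mem_zpowers a)
  have h1 : T a ∈ zpowers a := (hS _).mp (by
    have := congrArg (fun f : MulAut P => f a) hST
    simpa [ha] using this)
  have h2 : T (T a) = a := congrArg (fun f : MulAut P => f a) hT
  have hc : Commute a (T a) := by obtain ⟨k, hk⟩ := h1; rw [← hk]; exact (Commute.refl a).zpow_right k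
  refine ⟨fun h => ?_, fun h => ?_⟩
  · have := (eq_one_or hP hodd ((hS x).mp hx) (mul_mem (inv_mem (mem_zpowers a)) h1) h (by
      rw [map_mul, map_inv, h2]; group)).resolve_left hx1
    exact (inv_mul_eq_one.mp this).symm
  · have := (eq_one_or hP hodd (mul_mem (mem_zpowers a) h1) ((hS x).mp hx) (by
      rw [map_mul, h2, hc.eq]) h).resolve_right hx1
    exact eq_inv_of_mul_eq_one_right this

theorem comm_of (hP : IsPGroup p P) (hodd : ¬ 2 ∣ Nat.card P) {S T : MulAut P} {a b c : P}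
    (hS : ∀ y, S y = y ↔ y ∈ zpowers c) (hST : S * T = T * S) (hS2 : S ^ 2 = 1)
    (hc : T c = c⁻¹) (ha : T a = a) (hb : T b = b) (ha' : S a = a⁻¹) (hb' : S b = b⁻¹) :
    a * b = b * a := by
  have := inverts_of_fpf hodd hS2 (D := T.toMonoidHom.eqLocus (MonoidHom.id P)) (fun d hd => by
      have h1 : T d = d := hd
      have := congrArg (fun f : MulAut P => f d) hST
      exact show T (S d) = S d by simpa [h1] using this.symm) (fun d hd h => by
      obtain ⟨k, rfl⟩ := (hS d).mp h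
      have h1 : T (c ^ k) = c ^ k := hd
      rw [map_zpow, hc, inv_zpow] at h1
      exact eq_one_of_eq_inv hodd h1.symm) (e := a * b) (show T (a * b) = a * b by rw [map_mul, ha, hb])
  rw [map_mul, ha', hb', ← mul_inv_rev, inv_inj] at this
  exact this.symm
end

/-- Let p be an odd prime, P a finite p-group and I an elementary abelian subgroup of order 8 of Aut(P). Call T ∈ I, T ≠ 1, broad when its fixed-point subgroup C_P(T) is not cyclic. Suppose I has a proper subgroup I₀ containing no broad element such that the product of any two broad elements lies in I₀. Then P is abelian of rank exactly 3 (generated by three elements but not by two), there are exactly three broad elements and they generate I, and I₀ is exactly the set of products of two broad elements. -/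
theorem result
    {P : Type*} [Group P] [Finite P] (p : ℕ) (hp : p.Prime) (hp2 : p ≠ 2) (hP : IsPGroup p P)
    (I : Subgroup (MulAut P)) (hI : Cfsg.IsElementaryAbelian 2 I) (hI8 : Nat.card ↥I = 8)
    (I₀ : Subgroup (MulAut P)) (hI₀ : I₀ < I)
    (hdisj : ∀ T ∈ I₀, T ≠ 1 → ∃ g : P, ∀ x : P, (T x = x ↔ x ∈ Subgroup.zpowers g))
    (hprod : ∀ T ∈ I, ∀ T' ∈ I, T ≠ 1 → T' ≠ 1 → (¬ ∃ g : P, ∀ x : P, (T x = x ↔ x ∈ Subgroup.zpowers g)) →
      (¬ ∃ g : P, ∀ x : P, (T' x = x ↔ x ∈ Subgroup.zpowers g)) → T * T' ∈ I₀) :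
    IsMulCommutative P ∧ (∃ a b c : P, Subgroup.closure {a, b, c} = ⊤) ∧ (¬ ∃ a b : P, Subgroup.closure {a, b} = ⊤) ∧
      Nat.card {T : MulAut P // T ∈ I ∧ T ≠ 1 ∧ ¬ ∃ g : P, ∀ x : P, (T x = x ↔ x ∈ Subgroup.zpowers g)} = 3 ∧
      Subgroup.closure {T : MulAut P | T ∈ I ∧ T ≠ 1 ∧ ¬ ∃ g : P, ∀ x : P, (T x = x ↔ x ∈ Subgroup.zpowers g)} = I ∧
      (I₀ : Set (MulAut P)) = {S : MulAut P | ∃ T T' : MulAut P, T ∈ I ∧ T' ∈ I ∧ T ≠ 1 ∧ T' ≠ 1 ∧
        (¬ ∃ g : P, ∀ x : P, (T x = x ↔ x ∈ Subgroup.zpowers g)) ∧ (¬ ∃ g : P, ∀ x : P, (T' x = x ↔ x ∈ Subgroup.zpowers g)) ∧ S = T * T'} := by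
  haveI := Fact.mk hp
  haveI : Fact (Nat.Prime 2) := ⟨Nat.prime_two⟩
  have hodd : ¬ 2 ∣ Nat.card P := not_dvd_card_of_isPGroup hP hp2.symm
  obtain ⟨x, hxo, hxc, hxT, hxf⟩ := exists_elems hP.isNilpotent hodd hI (n := 3) hI8
  have hx1 : ∀ i, x i ≠ 1 := fun i h => by
    have := hxo i; rw [h, orderOf_one] at this; exact Nat.not_prime_one this
  have hxi : ∀ i, x i ≠ (x i)⁻¹ := fun i h => hx1 i (eq_one_of_eq_inv hodd h)
  have hxp : ∀ i, orderOf (x i) = p := fun i => by
    obtain ⟨k, hk⟩ := hP (x i)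
    exact (Nat.prime_dvd_prime_iff_eq (hxo i) hp).mp
      ((hxo i).dvd_of_dvd_pow (orderOf_dvd_of_pow_eq_one hk))
  have hcm : ∀ S ∈ I, ∀ T ∈ I, S * T = T * S := fun S hS T hT =>
    haveI := hI.1; setLike_mul_comm hS hT
  have hext : ∀ S ∈ I, ∀ T ∈ I, (∀ i, S (x i) = T (x i)) → S = T := fun S hS T hT h =>
    (inv_mul_eq_one.mp (hxf _ (mul_mem (inv_mem hT) hS) fun i => by simp [h])).symm
  classical
  let ε : I → (Fin 3 → Bool) := fun T i => decide (T.1 (x i) = x i)
  have hε : Function.Bijective ε := by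
    refine (Nat.bijective_iff_injective_and_card ε).mpr ⟨fun S T h => Subtype.ext
      (hext _ S.2 _ T.2 fun i => ?_), by simp [hI8]⟩
    have a3 : S.1 (x i) = x i ↔ T.1 (x i) = x i := by simpa [ε] using congrFun h i
    by_cases a4 : S.1 (x i) = x i
    · rw [a4, a3.mp a4]
    · rw [(hxT _ S.2 i).resolve_left a4, (hxT _ T.2 i).resolve_left (mt a3.mpr a4)]
  have hT : ∀ j, ∃ T ∈ I, T (x j) = (x j)⁻¹ ∧ ∀ i, i ≠ j → T (x i) = x i := fun j => by
    obtain ⟨T, hT⟩ := hε.2 fun i => decide (i ≠ j)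
    refine ⟨T, T.2, (hxT _ T.2 j).resolve_left (by simpa [ε] using congrFun hT j), fun i hi => ?_⟩
    simpa [ε, hi] using congrFun hT i
  choose T hTI hT1 hT2 using hT
  have t00 := hT1 0
  have t11 := hT1 1
  have t22 := hT1 2
  have t01 := hT2 0 1 (by decide)
  have t02 := hT2 0 2 (by decide)
  have t10 := hT2 1 0 (by decide)
  have t12 := hT2 1 2 (by decide)
  have t20 := hT2 2 0 (by decide)
  have t21 := hT2 2 1 (by decide)
  have hne : ∀ j, T j ≠ 1 := fun j h => hxi j (by rw [← hT1, h]; rfl)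
  have hbr : ∀ j, ¬ ∃ g : P, ∀ y : P, (T j y = y ↔ y ∈ zpowers g) := by
    have key : ∀ j i k, i ≠ j → k ≠ j → i ≠ k → ¬ ∃ g : P, ∀ y : P, (T j y = y ↔ y ∈ zpowers g) := by
      rintro j i k h1 h2 h3 ⟨g, hg⟩
      exact (eq_one_or hP hodd ((hg _).mp (hT2 j i h1)) ((hg _).mp (hT2 j k h2)) (hT2 k i h3)
        (hT1 k)).elim (hx1 i) (hx1 k)
    intro j
    fin_cases j
    · exact key 0 1 2 (by decide) (by decide) (by decide)
    · exact key 1 0 2 (by decide) (by decide) (by decide)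
    · exact key 2 0 1 (by decide) (by decide) (by decide)
  have hI0 : ∀ i j, T i * T j ∈ I₀ := fun i j =>
    hprod _ (hTI i) _ (hTI j) (hne i) (hne j) (hbr i) (hbr j)
  have hnI0 : ∀ i, T i ∉ I₀ := fun i h => hbr i (hdisj _ h (hne i))
  have hall : ∀ S ∈ I, S = 1 ∨ S = T 0 ∨ S = T 1 ∨ S = T 2 ∨ S = T 0 * T 1 ∨ S = T 0 * T 2 ∨
      S = T 1 * T 2 ∨ S = T 0 * T 1 * T 2 := by
    intro S hS
    have e : ∀ U ∈ I, S (x 0) = U (x 0) → S (x 1) = U (x 1) → S (x 2) = U (x 2) → S = U :=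
      fun U hU a b c => hext S hS U hU fun i => by fin_cases i <;> assumption
    have m0 := hTI 0
    have m1 := hTI 1
    have m2 := hTI 2
    rcases hxT S hS 0 with a | a <;> rcases hxT S hS 1 with b | b <;> rcases hxT S hS 2 with c | c
    · exact Or.inl (e 1 (one_mem _) a b c)
    · exact Or.inr (Or.inr (Or.inr (Or.inl (e _ m2 (by simp [*]) (by simp [*]) (by simp [*])))))
    · exact Or.inr (Or.inr (Or.inl (e _ m1 (by simp [*]) (by simp [*]) (by simp [*]))))
    · exact Or.inr (Or.inr (Or.inr (Or.inr (Or.inr (Or.inr (Or.inl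
        (e _ (mul_mem m1 m2) (by simp [*]) (by simp [*]) (by simp [*]))))))))
    · exact Or.inr (Or.inl (e _ m0 (by simp [*]) (by simp [*]) (by simp [*])))
    · exact Or.inr (Or.inr (Or.inr (Or.inr (Or.inr (Or.inl
        (e _ (mul_mem m0 m2) (by simp [*]) (by simp [*]) (by simp [*])))))))
    · exact Or.inr (Or.inr (Or.inr (Or.inr (Or.inl
        (e _ (mul_mem m0 m1) (by simp [*]) (by simp [*]) (by simp [*]))))))
    · exact Or.inr (Or.inr (Or.inr (Or.inr (Or.inr (Or.inr (Or.inr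
        (e _ (mul_mem (mul_mem m0 m1) m2) (by simp [*]) (by simp [*]) (by simp [*]))))))))
  have hall0 : ∀ S ∈ I₀, S = 1 ∨ S = T 0 * T 1 ∨ S = T 0 * T 2 ∨ S = T 1 * T 2 := by
    intro S hS
    rcases hall S (hI₀.le hS) with h | h | h | h | h | h | h | h
    · exact Or.inl h
    · exact absurd (h ▸ hS) (hnI0 0)
    · exact absurd (h ▸ hS) (hnI0 1)
    · exact absurd (h ▸ hS) (hnI0 2)
    · exact Or.inr (Or.inl h)
    · exact Or.inr (Or.inr (Or.inl h))
    · exact Or.inr (Or.inr (Or.inr h))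
    · exact absurd ((mul_mem_cancel_left (hI0 0 1)).mp (h ▸ hS)) (hnI0 2)
  have n12 : T 1 * T 2 ≠ 1 := fun h => hxi 1 (by simpa [t11, t21] using (congrArg (· (x 1)) h).symm)
  have n02 : T 0 * T 2 ≠ 1 := fun h => hxi 0 (by simpa [t00, t20] using (congrArg (· (x 0)) h).symm)
  have n01 : T 0 * T 1 ≠ 1 := fun h => hxi 0 (by simpa [t00, t10] using (congrArg (· (x 0)) h).symm)
  obtain ⟨a, ha⟩ := hdisj _ (hI0 1 2) n12
  obtain ⟨b, hb⟩ := hdisj _ (hI0 0 2) n02
  obtain ⟨c, hc⟩ := hdisj _ (hI0 0 1) n01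
  have sq : ∀ S ∈ I, S ^ 2 = 1 := hI.2
  have A := fun j => act hP hodd ha (hcm _ (hI₀.le (hI0 1 2)) _ (hTI j)) (sq _ (hTI j)) (x := x 0)
    (by simp [*]) (hx1 0)
  have B := fun j => act hP hodd hb (hcm _ (hI₀.le (hI0 0 2)) _ (hTI j)) (sq _ (hTI j)) (x := x 1)
    (by simp [*]) (hx1 1)
  have C := fun j => act hP hodd hc (hcm _ (hI₀.le (hI0 0 1)) _ (hTI j)) (sq _ (hTI j)) (x := x 2)
    (by simp [*]) (hx1 2)
  have a0 := (A 0).2 t00
  have a1 := (A 1).1 t10
  have a2 := (A 2).1 t20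
  have b0 := (B 0).1 t01
  have b1 := (B 1).2 t11
  have b2 := (B 2).1 t21
  have c0 := (C 0).1 t02
  have c1 := (C 1).1 t12
  have c2 := (C 2).2 t22
  clear A B C
  have hab : a * b = b * a := comm_of hP hodd hc (hcm _ (hI₀.le (hI0 0 1)) _ (hTI 2))
    (sq _ (hI₀.le (hI0 0 1))) c2 a2 b2 (by simp [a0, a1]) (by simp [b0, b1])
  have hac : a * c = c * a := comm_of hP hodd hb (hcm _ (hI₀.le (hI0 0 2)) _ (hTI 1))
    (sq _ (hI₀.le (hI0 0 2))) b1 a1 c1 (by simp [a0, a2]) (by simp [c0, c2])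
  have hbc : b * c = c * b := comm_of hP hodd ha (hcm _ (hI₀.le (hI0 1 2)) _ (hTI 0))
    (sq _ (hI₀.le (hI0 1 2))) a0 b0 c0 (by simp [b1, b2]) (by simp [c1, c2])
  have hI0e := IsElementaryAbelian_of_le hI hI₀.le
  have hgen : closure {a, b, c} = ⊤ := by
    refine eq_top_of_fixed hI0e.1 (fun h => ?_) (coprime_card_of_isPGroup
      (isPGroup_of_isElementaryAbelian hI0e) hodd) fun S hS h1 y hy => ?_
    · have h1 := card_le_of_isCyclic_of_isElementaryAbelian hI0e h
      let g : Fin 3 → I₀ := ![1, ⟨_, hI0 0 1⟩, ⟨_, hI0 0 2⟩]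
      have n : T 1 ≠ T 2 := fun h => hxi 1 (by rw [← t11, h, t21])
      have hg : Function.Injective g := by
        intro i j hij
        have := congrArg Subtype.val hij
        fin_cases i <;> fin_cases j <;> simp [g, n01, n02, n01.symm, n02.symm, n, n.symm] at this ⊢
      have := Nat.card_le_card_of_injective g hg
      simp at this; omega
    · rcases hall0 S hS with h | rfl | rfl | rfl
      · exact absurd h h1
      · exact zpowers_le.mpr (subset_closure (by simp)) ((hc y).mp hy)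
      · exact zpowers_le.mpr (subset_closure (by simp)) ((hb y).mp hy)
      · exact zpowers_le.mpr (subset_closure (by simp)) ((ha y).mp hy)
  have hcomm : IsMulCommutative P := by
    have := isMulCommutative_closure (k := ({a, b, c} : Set P)) (by
      rintro u (rfl | rfl | rfl) v (rfl | rfl | rfl) <;>
        first | rfl | assumption | (symm; assumption))
    rw [hgen] at this
    exact ⟨⟨fun u v => setLike_mul_comm (mem_top u) (mem_top v)⟩⟩
  have hset : ∀ S, (S ∈ I ∧ S ≠ 1 ∧ ¬ ∃ g : P, ∀ y : P, (S y = y ↔ y ∈ zpowers g)) ↔ S ∈ Set.range T := by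
    refine fun S => ⟨fun ⟨h1, h2, h3⟩ => ?_, by rintro ⟨j, rfl⟩; exact ⟨hTI j, hne j, hbr j⟩⟩
    rcases hall S h1 with h | h | h | h | h | h | h | h
    · exact absurd h h2
    · exact ⟨0, h.symm⟩
    · exact ⟨1, h.symm⟩
    · exact ⟨2, h.symm⟩
    · exact absurd (h ▸ ⟨c, hc⟩) h3
    · exact absurd (h ▸ ⟨b, hb⟩) h3
    · exact absurd (h ▸ ⟨a, ha⟩) h3
    · refine absurd ⟨1, fun y => ⟨fun hy => ?_, fun hy => ?_⟩⟩ h3
      · have : ∀ u, S u = u⁻¹ := fun u => by
          have hu : u ∈ closure {a, b, c} := hgen ▸ mem_top u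
          induction hu using closure_induction with
          | mem u hu => rcases hu with rfl | rfl | rfl <;> simp [h, a0, a1, a2, b0, b1, b2, c0, c1, c2]
          | one => simp
          | mul u v _ _ h1 h2 => rw [map_mul, h1, h2, ← mul_inv_rev, mul_comm' v u]
          | inv u _ h1 => rw [map_inv, h1]
        rw [eq_one_of_eq_inv hodd (hy.symm.trans (this y))]; exact one_mem _
      · rw [zpowers_one_eq_bot, mem_bot] at hy; rw [hy, map_one]
  refine ⟨hcomm, ⟨a, b, c, hgen⟩, ?_, ?_, ?_, ?_⟩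
  · rintro ⟨u, v, huv⟩
    letI : CommGroup P := { (inferInstance : Group P) with mul_comm := mul_comm' }
    let f : P →* P := powMonoidHom p
    have h1 : Nat.card f.ker = f.range.index := by
      have a1 := f.ker.card_mul_index
      have a2 := f.range.card_mul_index
      rw [index_ker, ← a2, mul_comm] at a1
      exact Nat.eq_of_mul_eq_mul_left Nat.card_pos a1
    have h2 : f.range.index ≤ p * p := by
      let π := QuotientGroup.mk' f.range
      have b1 : zpowers (π u) ⊔ zpowers (π v) = ⊤ := by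
        rw [← MonoidHom.map_zpowers, ← MonoidHom.map_zpowers, ← Subgroup.map_sup, zpowers_eq_closure,
          zpowers_eq_closure, ← Subgroup.closure_union, Set.singleton_union, huv,
          map_top_of_surjective _ (QuotientGroup.mk'_surjective _)]
      have b2 : ∀ w, Nat.card (zpowers (π w)) ∣ p := fun w => by
        rw [Nat.card_zpowers, orderOf_dvd_iff_pow_eq_one, ← map_pow]
        exact (QuotientGroup.eq_one_iff _).mpr ⟨w, rfl⟩
      have b3 := card_sup_dvd (H := zpowers (π u)) (N := zpowers (π v)) le_normalizer_of_normal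
      rw [b1, card_top] at b3
      exact Nat.le_of_dvd (Nat.mul_pos hp.pos hp.pos) (b3.trans (mul_dvd_mul (b2 u) (b2 v)))
    have hxp' : ∀ i, x i ^ p = 1 := fun i => by rw [← hxp i, pow_orderOf_eq_one]
    have h3 : zpowers (x 0) ⊔ zpowers (x 1) ⊔ zpowers (x 2) ≤ f.ker :=
      sup_le (sup_le (zpowers_le.mpr (hxp' 0)) (zpowers_le.mpr (hxp' 1))) (zpowers_le.mpr (hxp' 2))
    have c1 := Cfsg.Agent.Lib.PGroup.card_sup_zpowers (p := p) (N := zpowers (x 0)) (x := x 1)
      (le_normalizer_of_normal (mem_top _)) (fun h => hxi 1 (by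
        have : zpowers (x 0) ≤ (T 1).toMonoidHom.eqLocus (MonoidHom.id P) := zpowers_le.mpr t10
        exact (show T 1 (x 1) = x 1 from this h).symm.trans t11)) (by rw [hxp']; exact one_mem _)
    have c2 := Cfsg.Agent.Lib.PGroup.card_sup_zpowers (p := p) (N := zpowers (x 0) ⊔ zpowers (x 1))
      (x := x 2) (le_normalizer_of_normal (mem_top _)) (fun h => hxi 2 (by
        have : zpowers (x 0) ⊔ zpowers (x 1) ≤ (T 2).toMonoidHom.eqLocus (MonoidHom.id P) :=
          sup_le (zpowers_le.mpr t20) (zpowers_le.mpr t21)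
        exact (show T 2 (x 2) = x 2 from this h).symm.trans t22)) (by rw [hxp']; exact one_mem _)
    have h4 := card_le_of_le h3
    rw [c2, c1, Nat.card_zpowers, hxp, h1] at h4
    have := hp.one_lt
    nlinarith [Nat.mul_pos hp.pos hp.pos]
  · have hinj : Function.Injective T := fun i j h => by
      by_contra hij
      exact hxi i (by rw [← hT1, h, hT2 j i hij])
    rw [Nat.card_congr (Equiv.subtypeEquivRight hset), Nat.card_range_of_injective hinj]
    simp
  · refine le_antisymm ((closure_le _).mpr fun S hS => hS.1) fun S hS => ?_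
    have m : ∀ j, T j ∈ closure {S : MulAut P | S ∈ I ∧ S ≠ 1 ∧
        ¬ ∃ g : P, ∀ y : P, (S y = y ↔ y ∈ zpowers g)} := fun j => subset_closure ⟨hTI j, hne j, hbr j⟩
    rcases hall S hS with rfl | rfl | rfl | rfl | rfl | rfl | rfl | rfl
    exacts [one_mem _, m 0, m 1, m 2, mul_mem (m 0) (m 1), mul_mem (m 0) (m 2), mul_mem (m 1) (m 2),
      mul_mem (mul_mem (m 0) (m 1)) (m 2)]
  · ext S
    refine ⟨fun hS => ?_, ?_⟩
    · have m : ∀ i j, T i * T j ∈ {S : MulAut P | ∃ T T' : MulAut P, T ∈ I ∧ T' ∈ I ∧ T ≠ 1 ∧ T' ≠ 1 ∧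
          (¬ ∃ g : P, ∀ x : P, (T x = x ↔ x ∈ Subgroup.zpowers g)) ∧
          (¬ ∃ g : P, ∀ x : P, (T' x = x ↔ x ∈ Subgroup.zpowers g)) ∧ S = T * T'} := fun i j =>
        ⟨_, _, hTI i, hTI j, hne i, hne j, hbr i, hbr j, rfl⟩
      rcases hall0 S hS with rfl | rfl | rfl | rfl
      · have := m 0 0
        rwa [← pow_two, sq _ (hTI 0)] at this
      exacts [m 0 1, m 0 2, m 1 2]
    · rintro ⟨U, U', h1, h2, h3, h4, h5, h6, rfl⟩
      exact hprod _ h1 _ h2 h3 h4 h5 h6

end Cfsg.Agent.S4412
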