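import Cfsg.Statements.S4413
import Cfsg.Agent.Lib.PGroup.Extraspecial2
import Cfsg.Agent.Lib.Core.Basic

set_option autoImplicit false
open Cfsg

namespace Cfsg.Agent.S4413

open Subgroup Cfsg.Agent.Lib.PGroup
open scoped commutatorElement

/-- The Clifford group of order `32`. -/
@[ext] structure E where
  s : Bool
  a : Bool
  b : Bool
  c : Bool
  d : Bool
  deriving DecidableEq, Fintype

instance decForallE (P : E → Prop) [DecidablePred P] : Decidable (∀ x, P x) :=
  decidable_of_iff (∀ s a b c d, P ⟨s, a, b, c, d⟩) ⟨fun h x => h _ _ _ _ _, fun h _ _ _ _ _ => h _⟩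

def bet (x y : E) : Bool := (x.b && y.a) ^^ (x.c && (y.a ^^ y.b)) ^^ (x.d && (y.a ^^ y.b ^^ y.c))

instance mulE : Mul E := ⟨fun x y => ⟨x.s ^^ y.s ^^ bet x y, x.a ^^ y.a, x.b ^^ y.b, x.c ^^ y.c, x.d ^^ y.d⟩⟩
instance oneE : One E := ⟨⟨false, false, false, false, false⟩⟩
instance invE : Inv E := ⟨fun x => ⟨x.s ^^ bet x x, x.a, x.b, x.c, x.d⟩⟩

instance groupE : Group E :=
  Group.ofLeftAxioms (by decide +kernel) (by decide +kernel) (by decide +kernel)

def z : E := ⟨true, false, false, false, false⟩

def gen : Fin 5 → E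
  | 0 => ⟨false, true, false, false, false⟩
  | 1 => ⟨false, false, true, false, false⟩
  | 2 => ⟨false, false, false, true, false⟩
  | 3 => ⟨false, false, false, false, true⟩
  | 4 => ⟨false, true, true, true, true⟩

def idx (x : E) : Fin 5 :=
  if x.a && x.b then 4 else if x.a then 0 else if x.b then 1 else if x.c then 2 else 3

theorem ord_z : orderOf z = 2 := orderOf_eq_prime (by decide +kernel) (by decide +kernel)

theorem isES : IsES 2 z ⊤ where
  mem := mem_top _
  ord := ord_z
  comm x _ y _ := (mem_zpowers_iff_of_orderOf_two ord_z).mpr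
    ((by decide +kernel : ∀ x y : E, x * y * x⁻¹ * y⁻¹ = 1 ∨ x * y * x⁻¹ * y⁻¹ = z) x y)
  pow x _ := (mem_zpowers_iff_of_orderOf_two ord_z).mpr
    (by rw [sq]; exact (by decide +kernel : ∀ x : E, x * x = 1 ∨ x * x = z) x)
  center := by
    ext x
    rw [mem_zpowers_iff_of_orderOf_two ord_z, top_inf_eq, mem_centralizer_iff]
    have := (by decide +kernel : ∀ x : E, (∀ y, y * x = x * y) ↔ x = 1 ∨ x = z) x
    simpa using this

theorem card_E : Nat.card E = 32 := by rw [Nat.card_eq_fintype_card]; rfl

theorem invCount_E : invCount (⊤ : Subgroup E) = 12 := by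
  rw [invCount_top, Nat.card_eq_fintype_card]
  simp only [sq]
  decide +kernel

theorem map_z (φ : MulAut E) : φ z = z := by
  have h1 : φ z ≠ 1 := by rw [Ne, map_eq_one_iff _ φ.injective]; decide
  refine ((by decide +kernel : ∀ x : E, (∀ y, y * x = x * y) → x = 1 ∨ x = z) _ fun y => ?_).resolve_left h1
  obtain ⟨y, rfl⟩ := φ.surjective y
  rw [← map_mul, ← map_mul, (by decide +kernel : ∀ y : E, y * z = z * y) y]

theorem map_gen (φ : MulAut E) (i : Fin 5) :
    φ (gen i) = gen (idx (φ (gen i))) ∨ φ (gen i) = gen (idx (φ (gen i))) * z := by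
  refine (by decide +kernel : ∀ x : E, x * x = 1 → x ≠ 1 → x ≠ z →
    x = gen (idx x) ∨ x = gen (idx x) * z) _ ?_ ?_ ?_
  · rw [← map_mul, (by decide +kernel : ∀ i, gen i * gen i = 1) i, map_one]
  · rw [Ne, map_eq_one_iff _ φ.injective]; exact (by decide +kernel : ∀ i, gen i ≠ 1) i
  · nth_rewrite 1 [← map_z φ]
    rw [Ne, φ.injective.eq_iff]; exact (by decide +kernel : ∀ i, gen i ≠ z) i

@[reducible] def act : MulAction (MulAut E) (Fin 5) where
  smul φ i := idx (φ (gen i))
  one_smul i := (by decide +kernel : ∀ i, idx (gen i) = i) i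
  mul_smul φ ψ i := by
    change idx (φ (ψ (gen i))) = idx (φ (gen (idx (ψ (gen i)))))
    rcases map_gen ψ i with h | h
    · rw [← h]
    · nth_rewrite 1 [h]
      rw [map_mul, map_z, (by decide +kernel : ∀ x : E, idx (x * z) = idx x)]

def toS5 : MulAut E →* Equiv.Perm (Fin 5) := @MulAction.toPermHom _ _ _ act

theorem toS5_apply (φ : MulAut E) (i : Fin 5) : toS5 φ i = idx (φ (gen i)) := rfl

def lift (σ : Fin 5 → Fin 5) (x : E) : E :=
  (if x.s then z else 1) * (if x.a then gen (σ 0) else 1) * (if x.b then gen (σ 1) else 1) *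
    (if x.c then gen (σ 2) else 1) * (if x.d then gen (σ 3) else 1)

theorem exists_aut (σ : Equiv.Perm (Fin 5)) (h1 : ∀ x y, lift σ (x * y) = lift σ x * lift σ y)
    (h2 : ∀ x y, lift σ x = lift σ y → x = y) (h3 : ∀ i, idx (lift σ (gen i)) = σ i) :
    σ ∈ toS5.range :=
  ⟨MulEquiv.ofBijective (MonoidHom.mk' (lift σ) h1) (Finite.injective_iff_bijective.mp h2),
    Equiv.ext h3⟩

theorem toS5_surj : Function.Surjective toS5 := by
  rw [← MonoidHom.range_eq_top, eq_top_iff,
    ← Equiv.Perm.closure_cycle_adjacent_swap (isCycle_finRotate (n := 3)) support_finRotate 0,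
    closure_le]
  rintro _ (rfl | rfl)
  · exact exists_aut _ (by decide +kernel) (by decide +kernel) (by decide +kernel)
  · exact exists_aut _ (by decide +kernel) (by decide +kernel) (by decide +kernel)

theorem card_ker : Nat.card toS5.ker ≤ 16 := by
  let f : toS5.ker → (Fin 4 → Bool) := fun φ i => decide (φ.1 (gen i.castSucc) = gen i.castSucc)
  have hf : Function.Injective f := by
    rintro ⟨φ, hφ⟩ ⟨ψ, hψ⟩ h
    have h1 : ∀ i : Fin 4, φ (gen i.castSucc) = ψ (gen i.castSucc) := fun i => by
      have a1 := map_gen φ i.castSucc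
      have a2 := map_gen ψ i.castSucc
      rw [← toS5_apply, MonoidHom.mem_ker.mp hφ, Equiv.Perm.one_apply] at a1
      rw [← toS5_apply, MonoidHom.mem_ker.mp hψ, Equiv.Perm.one_apply] at a2
      have a3 : φ (gen i.castSucc) = gen i.castSucc ↔ ψ (gen i.castSucc) = gen i.castSucc := by
        simpa [f] using congrFun h i
      by_cases a4 : φ (gen i.castSucc) = gen i.castSucc
      · rw [a4, a3.mp a4]
      · rw [a1.resolve_left a4, a2.resolve_left (mt a3.mpr a4)]
    refine Subtype.ext (MulEquiv.ext fun x => ?_)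
    have h0 : φ (gen 0) = ψ (gen 0) := h1 0
    have h1' : φ (gen 1) = ψ (gen 1) := h1 1
    have h2 : φ (gen 2) = ψ (gen 2) := h1 2
    have h3 : φ (gen 3) = ψ (gen 3) := h1 3
    rw [← (by decide +kernel : ∀ x : E, lift id x = x) x]
    simp only [lift, map_mul, apply_ite φ, apply_ite ψ, map_one, map_z, id, h0, h1', h2, h3]
  simpa using Nat.card_le_card_of_injective f hf

theorem invCount_eq {P : Type*} [Group P] [Finite P] {z : P} (hz : IsES 2 z ⊤) (h32 : Nat.card P = 32)
    (hminus : ∀ A : Subgroup P, IsElementaryAbelian 2 A → Nat.card ↥A ≤ 4) :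
    invCount (⊤ : Subgroup P) = 12 := by
  haveI : Fact (Nat.Prime 2) := ⟨Nat.prime_two⟩
  obtain ⟨m, h1, h2⟩ := hz.exists_invCount
  rw [card_top, h32] at h1
  obtain rfl : m = 2 := by
    have := Nat.pow_right_injective le_rfl (show 2 ^ 5 = 2 ^ (2 * m + 1) from h1)
    omega
  rcases h2 with h2 | h2
  swap
  · omega
  exfalso
  obtain ⟨x, -, hx2, hx⟩ : ∃ x ∈ (⊤ : Subgroup P), x ^ 2 = 1 ∧ x ∉ zpowers z := by
    by_contra h; push Not at h
    have := hz.invCount_eq_two h; omega
  obtain ⟨C, y, hs, hy⟩ := hz.exists_step_plus (mem_top x) hx hx2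
  have h3 := hs.invCount_plus hz hx2 hy
  have h4 := hs.card
  rw [card_top, h32] at h4
  obtain ⟨w, hwC, hw2, hw⟩ : ∃ w ∈ C, w ^ 2 = 1 ∧ w ∉ zpowers z := by
    by_contra h; push Not at h
    have := hs.es.invCount_eq_two h; omega
  have hzw : zpowers z ⊔ zpowers w ≤ C := sup_le hs.es.zpowers_le (zpowers_le.mpr hwC)
  have hc1 : w ∈ centralizer ((zpowers z : Subgroup P) : Set P) :=
    mem_centralizer_iff.mpr fun c hc => hs.es.commute hc hwC
  have hc2 : x ∈ centralizer ((zpowers z ⊔ zpowers w : Subgroup P) : Set P) :=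
    centralizer_le (SetLike.coe_subset_coe.mpr hzw) hs.x_cent
  have c1 := card_sup_zpowers (p := 2) (centralizer_le_normalizer _ hc1) hw (by rw [hw2]; exact one_mem _)
  have c2 := card_sup_zpowers (p := 2) (centralizer_le_normalizer _ hc2) (fun h => hs.x_not (hzw h))
    (by rw [hx2]; exact one_mem _)
  rw [c1, hz.card_zpowers] at c2
  have hz2 : z ^ 2 = 1 := by rw [sq, hz.mul_self]
  have hzx : Commute z x := hz.commute (mem_zpowers z) (mem_top x)
  have hzw' : Commute z w := hz.commute (mem_zpowers z) (mem_top w)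
  have hwx : Commute w x := mem_centralizer_iff.mp hs.x_cent w hwC
  have hA : zpowers z ⊔ zpowers w ⊔ zpowers x = closure {z, w, x} := by
    rw [zpowers_eq_closure, zpowers_eq_closure, zpowers_eq_closure, ← Subgroup.closure_union,
      ← Subgroup.closure_union, Set.union_assoc]; rfl
  have hcomm : IsMulCommutative (closure {z, w, x} : Subgroup P) := isMulCommutative_closure (by
    rintro a (rfl | rfl | rfl) b (rfl | rfl | rfl) <;>
      first | rfl | exact hzx | exact hzw' | exact hwx | exact hzx.symm | exact hzw'.symm | exact hwx.symm)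
  have := hminus _ ⟨hcomm, fun a ha => ?_⟩
  · rw [← hA, c2] at this; omega
  · induction ha using closure_induction with
    | mem a ha => rcases ha with rfl | rfl | rfl <;> assumption
    | one => simp
    | mul a b ha hb iha ihb =>
      have : Commute a b := setLike_mul_comm ha hb
      rw [this.mul_pow, iha, ihb, one_mul]
    | inv a _ ih => rw [inv_pow, ih, inv_one]

/-- Let P be an extraspecial 2-group of order 32 with no elementary abelian subgroup of order 8 (the central product of a dihedral and a quaternion group of order 8). Then the inner automorphism group of P has order 16 and the outer automorphism group Aut(P)/Inn(P) is isomorphic to the symmetric group of degree 5; in particular Aut(P) has order 1920. -/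
theorem result {P : Type*} [Group P] [Finite P]
    (hex : Cfsg.IsExtraspecial 2 P) (h32 : Nat.card P = 32)
    (hminus : ∀ A : Subgroup P, Cfsg.IsElementaryAbelian 2 A → Nat.card ↥A ≤ 4)
    [(MulAut.conj : P →* MulAut P).range.Normal] :
    Nat.card ↥(MulAut.conj : P →* MulAut P).range = 16 ∧ Nat.card (MulAut P) = 1920 ∧
      Nonempty ((MulAut P ⧸ (MulAut.conj : P →* MulAut P).range) ≃* Equiv.Perm (Fin 5)) := by
  haveI : Fact (Nat.Prime 2) := ⟨Nat.prime_two⟩
  obtain ⟨zP, hz⟩ := exists_isES_top hex
  obtain ⟨Γ, hΓ, -⟩ := hz.exists_pIso_two isES (by rw [card_top, card_top, h32, card_E])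
    (by rw [invCount_eq hz h32 hminus, invCount_E])
  obtain ⟨e, -⟩ := hΓ.exists_mulEquiv_top
  have h1 : Nat.card (MulAut.conj : P →* MulAut P).range = 16 := by
    have a1 : (MulAut.conj : P →* MulAut P).ker = center P := by
      ext g
      simp only [MonoidHom.mem_ker, mem_center_iff, MulEquiv.ext_iff, MulAut.conj_apply, MulAut.one_apply,
        mul_inv_eq_iff_eq_mul]
      exact forall_congr' fun _ => eq_comm
    have a2 := (center P).card_mul_index
    rw [← index_ker, a1]
    rw [hex.2, h32] at a2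
    omega
  let f : MulAut P →* Equiv.Perm (Fin 5) := toS5.comp (MulAut.congr e).toMonoidHom
  have hf : Function.Surjective f := toS5_surj.comp (MulAut.congr e).surjective
  have h2 : (MulAut.conj : P →* MulAut P).range = f.ker := by
    refine eq_of_le_of_card_ge ?_ ?_
    · rintro _ ⟨g, rfl⟩
      refine Equiv.ext fun i => ?_
      have := (by decide +kernel : ∀ (g : E) (i : Fin 5), idx (g * gen i * g⁻¹) = i) (e g) i
      simpa [f, toS5_apply] using this
    · rw [h1]
      refine le_trans (Nat.card_le_card_of_injective (fun φ : f.ker => (⟨MulAut.congr e φ.1, φ.2⟩ : toS5.ker))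
        fun φ ψ h => Subtype.ext ((MulAut.congr e).injective (congrArg Subtype.val h))) card_ker
  refine ⟨h1, ?_, ⟨(QuotientGroup.quotientMulEquivOfEq h2).trans
    (QuotientGroup.quotientKerEquivOfSurjective f hf)⟩⟩
  rw [← f.ker.card_mul_index, index_ker, MonoidHom.range_eq_top.mpr hf, card_top, ← h2, h1,
    Nat.card_perm, Nat.card_fin]
  rfl

end Cfsg.Agent.S4413
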