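import Cfsg.Statements.S4414
import Cfsg.Agent.Lib.Core.Weights
-- import your own Cfsg.Agent.* helpers here

set_option autoImplicit false
open Cfsg

namespace Cfsg.Agent.S4414

open Cfsg.Agent.Lib.Core Subgroup
open scoped Pointwise commutatorElement

open Cfsg.Agent.Lib.Core.Wt TensorProduct

/-- Let S be a finite solvable group whose order is divisible only by the primes 2, p, q (p, q distinct odd primes), with a Sylow system S₂, S_p, S_q (pairwise permutable Sylow subgroups) such that: S_p is a minimal normal subgroup of S of order p or p²; S_q has order q and [S_p, S_q] = S_p; and O₂(S) = 1. Let E be an irreducible module for S over the field with two elements on which S_p acts faithfully, and E₀ the subspace of fixed points of S₂. Then either E₀ has at least 8 elements, or E₀ has exactly 4 elements and S_q does not leave E₀ invariant. -/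
theorem result {S : Type*} [Group S] [Finite S]
    [Group.IsSolvable S] (p q : ℕ) (hp : p.Prime) (hq : q.Prime) (hp2 : p ≠ 2) (hq2 : q ≠ 2) (hpq : p ≠ q)
    (hπ : ∀ r : ℕ, r.Prime → r ∣ Nat.card S → r = 2 ∨ r = p ∨ r = q)
    (S₂ : Sylow 2 S) (Sp : Sylow p S) (Sq : Sylow q S)
    (h2q : Nat.card ↥((S₂ : Subgroup S) ⊔ (Sq : Subgroup S)) = Nat.card ↥S₂ * Nat.card ↥Sq)
    (h2p : Nat.card ↥((S₂ : Subgroup S) ⊔ (Sp : Subgroup S)) = Nat.card ↥S₂ * Nat.card ↥Sp)
    (hpq' : Nat.card ↥((Sp : Subgroup S) ⊔ (Sq : Subgroup S)) = Nat.card ↥Sp * Nat.card ↥Sq)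
    (hSpN : (Sp : Subgroup S).Normal) (hSpmin : ∀ N : Subgroup S, N.Normal → N ≤ (Sp : Subgroup S) → N = ⊥ ∨ N = (Sp : Subgroup S))
    (hSpcard : Nat.card ↥Sp = p ∨ Nat.card ↥Sp = p ^ 2)
    (hSq : Nat.card ↥Sq = q) (hcomm : ⁅(Sp : Subgroup S), (Sq : Subgroup S)⁆ = (Sp : Subgroup S))
    (hO2 : Cfsg.pCore 2 S = ⊥)
    {E : Type*} [AddCommGroup E] [Module (ZMod 2) E] [Finite E] (ρ : Representation (ZMod 2) S E) (hE : Nontrivial E)
    (hirr : ∀ N : Submodule (ZMod 2) E, (∀ s : S, ∀ m ∈ N, ρ s m ∈ N) → N = ⊥ ∨ N = ⊤)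
    (hfaith : ∀ x ∈ (Sp : Subgroup S), ρ x = 1 → x = 1) :
    8 ≤ Nat.card {v : E // ∀ s ∈ (S₂ : Subgroup S), ρ s v = v} ∨
      (Nat.card {v : E // ∀ s ∈ (S₂ : Subgroup S), ρ s v = v} = 4 ∧
        ∃ x ∈ (Sq : Subgroup S), ∃ v : E, (∀ s ∈ (S₂ : Subgroup S), ρ s v = v) ∧ ¬ ∀ s ∈ (S₂ : Subgroup S), ρ s (ρ x v) = ρ x v) := by
  classical
  change Nat.card (Sp : Subgroup S) = p ∨ Nat.card (Sp : Subgroup S) = p ^ 2 at hSpcard
  change Nat.card (Sq : Subgroup S) = q at hSq
  have := Fact.mk hp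
  have := Fact.mk hq
  have := Fact.mk Nat.prime_two
  have := Fintype.ofFinite (Sp : Subgroup S)
  have hcm : IsMulCommutative (Sp : Subgroup S) := by
    rcases hSpcard with h | h
    · have := isCyclic_of_prime_card h
      infer_instance
    · exact IsPGroup.isMulCommutative_of_card_eq_prime_sq h
  let K := AlgebraicClosure (ZMod 2)
  let σ := bc K ρ
  have hP : (Nat.card (Sp : Subgroup S) : K) ≠ 0 := by
    rw [Ne, CharP.cast_eq_zero_iff K 2]
    intro h
    have : 2 ∣ p := by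
      rcases hSpcard with e | e <;> rw [e] at h
      exacts [h, Nat.prime_two.dvd_of_dvd_pow h]
    exact hp2 ((Nat.prime_dvd_prime_iff_eq Nat.prime_two hp).mp this).symm
  -- no invariant orbit
  have orb : ∀ (l : (Sp : Subgroup S) →* Kˣ) (x : S), x ∈ (Sq : Subgroup S) → x ≠ 1 → l ≠ 1 →
      ¬ ∀ m ∈ MulAction.orbit (S₂ : Subgroup S) l, x • m ∈ MulAction.orbit (S₂ : Subgroup S) l := by
    intro l x hx hx1 hl h
    have hfin : (MulAction.orbit (S₂ : Subgroup S) l).Finite := Set.finite_range _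
    have := hfin.fintype
    have hxq : x ^ q = 1 := by
      rw [← hSq]; exact congrArg Subtype.val (pow_card_eq_one' (x := (⟨x, hx⟩ : (Sq : Subgroup S))))
    have hz : zpowers x = Sq := eq_of_le_of_card_ge (zpowers_le.mpr hx) (by
      rw [Nat.card_zpowers, orderOf_eq_prime hxq hx1]; exact hSq.le)
    have hpow : ∀ n : ℕ, ∀ m ∈ MulAction.orbit (S₂ : Subgroup S) l,
        x ^ n • m ∈ MulAction.orbit (S₂ : Subgroup S) l := fun n m hm => by
      induction n with
      | zero => simpa using hm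
      | succ n ih => rw [pow_succ', mul_smul]; exact h _ ih
    let τ : Equiv.Perm (MulAction.orbit (S₂ : Subgroup S) l) :=
      (MulAction.toPerm x).subtypePerm fun m => ⟨fun hm => by
        have := hpow (q - 1) _ hm
        rwa [MulAction.toPerm_apply, ← mul_smul, pow_sub_one_mul hq.ne_zero, hxq,
          one_smul] at this, h m⟩
    obtain ⟨⟨m, hm⟩, hm2⟩ := Equiv.Perm.exists_fixed_point_of_prime (p := q) (n := 1) (σ := τ)
      (fun e => by
        obtain ⟨j, hj⟩ := S₂.isPGroup'.card_orbit l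
        rw [← Nat.card_eq_fintype_card, hj] at e
        exact hq2 ((Nat.prime_dvd_prime_iff_eq hq Nat.prime_two).mp (hq.dvd_of_dvd_pow e)))
      (by
        refine Equiv.ext fun m => Subtype.ext ?_
        rw [pow_one, Equiv.Perm.subtypePerm_pow, Equiv.Perm.subtypePerm_apply]
        change (MulAction.toPermHom S _ x ^ q) m.1 = m.1
        rw [← map_pow, hxq, map_one]
        rfl)
    have hm3 : x • m = m := congrArg Subtype.val hm2
    have hm4 : (Sq : Subgroup S) ≤ MulAction.stabilizer S m := hz ▸ zpowers_le.mpr hm3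
    obtain ⟨t, rfl⟩ := hm
    refine hl (smul_left_cancel (t : S) (((t : S) • l).ker_eq_top_iff.mp ?_))
    refine map_injective (Sp : Subgroup S).subtype_injective ?_
    rw [← MonoidHom.range_eq_map, range_subtype]
    refine (map_subtype_le _).antisymm (hcomm.ge.trans (commutator_le.mpr fun a ha y hy => ?_))
    refine ⟨⟨a, ha⟩ * (MulAut.conjNormal y⁻¹⁻¹ ⟨a, ha⟩)⁻¹, ?_, by simp [commutatorElement_def, mul_assoc]⟩
    have := DFunLike.congr_fun (hm4 (inv_mem hy)) ⟨a, ha⟩
    rw [Wt.smul_apply] at this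
    change ((t : S) • l) _ = 1
    rw [map_mul, map_inv]
    exact mul_inv_eq_one.mpr this.symm
  obtain ⟨l, u, hl1, hl⟩ : ∃ (l : (Sp : Subgroup S) →* Kˣ) (u : K ⊗[ZMod 2] E), l ≠ 1 ∧
      l ∈ supp σ Sp u := by
    have : Nontrivial (Sp : Subgroup S) := Finite.one_lt_card_iff_nontrivial.mp (by
      rcases hSpcard with e | e <;> rw [e]
      exacts [hp.one_lt, one_lt_pow₀ hp.one_lt two_ne_zero])
    obtain ⟨a, ha⟩ := exists_ne (1 : (Sp : Subgroup S))
    obtain ⟨e, he⟩ : ∃ e, ρ a e ≠ e := not_forall.mp fun h =>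
      ha (Subtype.ext (hfaith a a.2 (LinearMap.ext h)))
    obtain ⟨l, hl⟩ := supp_nonempty σ hP (v := (1 : K) ⊗ₜ[ZMod 2] (ρ a e - e)) fun h =>
      he (sub_eq_zero.mp (by simpa using h))
    refine ⟨l, _, ?_, hl⟩
    rintro rfl
    refine hl ?_
    rw [tmul_sub, map_sub, ← bc_tmul, sub_eq_zero]
    have h1 := pr_conj σ (a : S) (1 : (Sp : Subgroup S) →* Kˣ) ((1 : K) ⊗ₜ[ZMod 2] e)
    rw [smul_one', apply_pr] at h1
    simpa using h1.symm
  have hcard : Nat.card {v : E // ∀ s ∈ (S₂ : Subgroup S), ρ s v = v} =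
      2 ^ Module.finrank (ZMod 2) (fix ρ S₂) := by
    have := Module.natCard_eq_pow_finrank (K := ZMod 2) (V := fix ρ S₂)
    rw [Nat.card_zmod] at this
    exact (Nat.card_congr (Equiv.subtypeEquivRight fun v => (mem_fix ρ).symm)).trans this
  have hind : ∀ {n : ℕ} (v : Fin n → K ⊗[ZMod 2] E), (∀ i, v i ∈ fix σ S₂) →
      (∀ i, (supp σ Sp (v i)).Nonempty) →
      (Pairwise fun i j => Disjoint (supp σ Sp (v i)) (supp σ Sp (v j))) →
      n ≤ Module.finrank (ZMod 2) (fix ρ S₂) := fun {n} v h1 h2 h3 => by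
    refine le_trans ?_ (finrank_fix_bc K ρ _)
    simpa using (LinearIndependent.of_comp (fix σ S₂).subtype (v := fun i => ⟨v i, h1 i⟩)
      (linearIndependent_of_supp σ h2 h3)).fintype_card_le_finrank
  obtain ⟨v, hv1, hv2⟩ := exists_fixed_supp σ hP S₂.isPGroup' hl
  obtain ⟨⟨x, hx⟩, hx1⟩ := exists_prime_orderOf_dvd_card' (G := (Sq : Subgroup S)) q hSq.symm.dvd
  rw [← orderOf_coe] at hx1
  rw [hcard]
  by_cases hn : ∀ w ∈ fix ρ S₂, ρ x w ∈ fix ρ S₂
  · left
    have h1 : ∀ n : ℕ, σ (x ^ n) v ∈ fix σ S₂ := fun n => by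
      induction n with
      | zero => simpa using (mem_fix σ).mpr hv1
      | succ n ih => rw [pow_succ', map_mul]; exact bc_mem_fix K ρ _ hn ih
    have h2 : ∀ n : ℕ, 0 < n → n < 3 → Disjoint (supp σ Sp v) (supp σ Sp (σ (x ^ n) v)) := by
      intro n h0 h3
      rw [Set.disjoint_left]
      intro m k1 k2
      refine orb l (x ^ n)⁻¹ (inv_mem (pow_mem hx n)) (inv_ne_one.mpr
        (pow_ne_one_of_lt_orderOf h0.ne' ?_)) hl1 fun m' hm' => ?_
      · have := hq.two_le
        change n < orderOf x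
        change orderOf x = q at hx1
        omega
      · rw [hv2] at k1
        rw [← MulAction.orbit_eq_iff.mpr k1] at hm'
        obtain ⟨t, rfl⟩ := hm'
        rw [← hv2, ← smul_mem_supp σ (g := x ^ n), smul_inv_smul, ← (mem_fix σ).mp (h1 n) t t.2]
        exact (smul_mem_supp σ).mpr k2
    have h3 : ∀ i j : Fin 3, i < j →
        Disjoint (supp σ Sp (σ (x ^ i.1) v)) (supp σ Sp (σ (x ^ j.1) v)) := fun i j h => by
      have := h2 (j - i) (by omega) (by omega)
      rwa [← Set.disjoint_smul_set (a := x ^ i.1), ← supp_smul, ← supp_smul,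
        ← Module.End.mul_apply, ← map_mul, ← pow_add, Nat.add_sub_cancel' (by omega)] at this
    refine Nat.pow_le_pow_right two_pos (hind (fun i : Fin 3 => σ (x ^ i.1) v) (fun i => h1 i)
      (fun i => ?_) fun i j h => ?_)
    · rw [supp_smul, hv2]; exact (MulAction.nonempty_orbit l).smul_set
    · rcases lt_or_gt_of_ne h with h | h
      exacts [h3 i j h, (h3 j i h).symm]
  obtain ⟨m, k1, k2⟩ := not_forall₂.mp (orb l x hx (by
    rintro rfl
    simp only [OneMemClass.coe_one, orderOf_one] at hx1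
    exact hq.one_lt.ne hx1) hl1)
  obtain ⟨w, hw1, hw2⟩ := exists_fixed_supp σ hP S₂.isPGroup' (l := x • m) (u := σ x v)
    ((smul_mem_supp σ).mpr (hv2 ▸ k1))
  have hd : Disjoint (supp σ Sp v) (supp σ Sp w) := by
    rw [hv2, hw2]
    exact (MulAction.orbit.eq_or_disjoint _ _).resolve_left fun e =>
      k2 (e ▸ MulAction.mem_orbit_self _)
  have h2 := hind ![v, w] (fun i => by
      fin_cases i
      exacts [(mem_fix σ).mpr hv1, (mem_fix σ).mpr hw1]) (fun i => by
      fin_cases i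
      exacts [hv2 ▸ MulAction.nonempty_orbit l, hw2 ▸ MulAction.nonempty_orbit _]) fun i j h => by
    fin_cases i <;> fin_cases j
    exacts [absurd rfl h, hd, hd.symm, absurd rfl h]
  rcases h2.eq_or_lt with h | h
  · push Not at hn
    obtain ⟨e, he1, he2⟩ := hn
    exact Or.inr ⟨by rw [← h]; rfl, x, hx, e, (mem_fix ρ).mp he1, fun k => he2 ((mem_fix ρ).mpr k)⟩
  · exact Or.inl (Nat.pow_le_pow_right two_pos (n := 2) h)

end Cfsg.Agent.S4414
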