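import Cfsg.Statements.S4415
import Cfsg.Agent.Lib.Wr.Cubic4

set_option autoImplicit false
open Cfsg

namespace Cfsg.Agent.S4415

open Subgroup Cfsg.Agent.Lib.Core Cfsg.Agent.Lib.Wr Module

/-- Let S be a finite solvable group acting faithfully on a finite-dimensional space E over the field with three elements, with O₃(S) = 1. Let B ≤ S have order 3 and suppose: E = E₀ ⊕ E₁ with B fixing E₁ pointwise, E₀ B-invariant of order 27 and indecomposable under B (a generator of B has a single Jordan block on E₀); B normalizes but does not centralize some subgroup Q of S that is elementary abelian of order 4; and B is the centre of a Sylow 3-subgroup of S. Put R = [O_{3'}(S), B]. Then R is elementary abelian of order 4 or extraspecial of order 32 containing an elementary abelian subgroup of order 8 (a central product of two quaternion groups), and E is the direct sum of a subspace fixed pointwise by R and an RB-invariant subspace on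 which the subgroup RB acts faithfully and irreducibly. -/
theorem result {S : Type*} [Group S] [Finite S]
    [Group.IsSolvable S] {E : Type*} [AddCommGroup E] [Module (ZMod 3) E] [Finite E] (ρ : Representation (ZMod 3) S E)
    (hfaith : Function.Injective ρ) (hO3 : Cfsg.pCore 3 S = ⊥)
    (B : Subgroup S) (hB : Nat.card ↥B = 3) (b : S) (hb : Subgroup.zpowers b = B)
    (E₀ E₁ : Submodule (ZMod 3) E) (hE01 : E₀ ⊓ E₁ = ⊥) (hE01' : E₀ ⊔ E₁ = ⊤)
    (hE1 : ∀ v ∈ E₁, ρ b v = v) (hE0inv : ∀ v ∈ E₀, ρ b v ∈ E₀) (hE0 : Nat.card ↥E₀ = 27)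
    (hind : ∃ v ∈ E₀, ρ b (ρ b v - v) - (ρ b v - v) ≠ 0)
    (Q : Subgroup S) (hQ : Cfsg.IsElementaryAbelian 2 Q) (hQ4 : Nat.card ↥Q = 4)
    (hBQ : B ≤ Subgroup.normalizer (Q : Set S)) (hBQ' : ¬ B ≤ Subgroup.centralizer (Q : Set S))
    (P : Sylow 3 S) (hBZ : (Subgroup.center ↥(P : Subgroup S)).map (P : Subgroup S).subtype = B) :
    ((Cfsg.IsElementaryAbelian 2 ⁅Cfsg.pPrimeCore 3 S, B⁆ ∧ Nat.card ↥⁅Cfsg.pPrimeCore 3 S, B⁆ = 4) ∨
      (Cfsg.IsExtraspecial 2 ↥⁅Cfsg.pPrimeCore 3 S, B⁆ ∧ Nat.card ↥⁅Cfsg.pPrimeCore 3 S, B⁆ = 32 ∧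
        ∃ A : Subgroup S, A ≤ ⁅Cfsg.pPrimeCore 3 S, B⁆ ∧ Cfsg.IsElementaryAbelian 2 A ∧ Nat.card ↥A = 8)) ∧
    ∃ F₀ F₁ : Submodule (ZMod 3) E, F₀ ⊓ F₁ = ⊥ ∧ F₀ ⊔ F₁ = ⊤ ∧
      (∀ r ∈ ⁅Cfsg.pPrimeCore 3 S, B⁆, ∀ v ∈ F₁, ρ r v = v) ∧ (∀ r ∈ ⁅Cfsg.pPrimeCore 3 S, B⁆ ⊔ B, ∀ v ∈ F₀, ρ r v ∈ F₀) ∧
      (∀ r ∈ ⁅Cfsg.pPrimeCore 3 S, B⁆ ⊔ B, (∀ v ∈ F₀, ρ r v = v) → r = 1) ∧
      (∀ N : Submodule (ZMod 3) E, N ≤ F₀ → (∀ r ∈ ⁅Cfsg.pPrimeCore 3 S, B⁆ ⊔ B, ∀ v ∈ N, ρ r v ∈ N) → N = ⊥ ∨ N = F₀) := by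
  subst hb
  have : Fact (Nat.Prime 3) := ⟨Nat.prime_three⟩
  have hb3 : b ^ 3 = 1 := by rw [← hB, Nat.card_zpowers, pow_orderOf_eq_one]
  have hO : (pPrimeCore 3 S).Normal := inferInstance
  have hN : (pPrimePCore 3 S).Normal := pPrimePCore_normal
  have hca : CoprimeAct (zpowers b) (pPrimeCore 3 S) := coprimeAct_of_isPGroup_left (p := 3)
    (isPGroup_zpowers (k := 1) hb3) pPrimeCore_not_dvd (by simp [normalizer_eq_top])
  have hR := commutator_le_left (pPrimeCore 3 S) (zpowers b)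
  have h : Ctx ρ b ⁅pPrimeCore 3 S, zpowers b⁆ := by
    refine ⟨hfaith, hb3, ?_, fun h =>
      pPrimeCore_not_dvd (h.trans (card_dvd_of_le hR)), hca.commutator.le_norm (mem_zpowers b),
      fun X hX => hca.commutator_commutator.ge.trans (commutator_le.2 ?_)⟩
    · have h1 : LinearMap.range (ρ b - 1) ≤ LinearMap.range ((ρ b - 1).domRestrict E₀) := by
        rintro _ ⟨v, rfl⟩
        obtain ⟨x, hx, y, hy, rfl⟩ := Submodule.mem_sup.1 (hE01'.ge (Submodule.mem_top (x := v)))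
        exact ⟨⟨x, hx⟩, by simp [hE1 y hy]⟩
      have h2 := LinearMap.finrank_range_add_finrank_ker ((ρ b - 1).domRestrict E₀)
      have h3 : finrank (ZMod 3) E₀ = 3 := Nat.pow_right_injective (le_refl 2 |>.trans (by decide : 2 ≤ 3))
        (by simpa [hE0] using (natCard_eq_pow_finrank (K := ZMod 3) (V := E₀)).symm)
      obtain ⟨v, hv, h4⟩ := hind
      have h5 := sub_mem (hE0inv v hv) hv
      have h6 : LinearMap.ker ((ρ b - 1).domRestrict E₀) ≠ ⊥ := fun e => h4 (congrArg Subtype.val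
        (e.le (x := ⟨_, sub_mem (hE0inv _ h5) h5⟩) (by
          simp only [LinearMap.mem_ker, LinearMap.domRestrict_apply, LinearMap.sub_apply, map_sub,
            rho_b3 hb3, End.one_apply]
          linear_combination (norm := abel1) add_three (ρ b v) - add_three (ρ b (ρ b v)))))
      have h7 := Submodule.finrank_mono h1
      have h8 := Submodule.finrank_eq_zero.not.2 h6
      omega
    · rintro r hr _ ⟨i, rfl⟩
      rw [commutatorElement_def, ← conj_zpow]
      exact mul_mem (zpow_mem (hX r hr) i) (inv_mem (zpow_mem (by simpa using hX 1 (one_mem _)) i))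
  have hbN : zpowers b ≤ pPrimePCore 3 S := by
    have := inf_centralizer_le_OppPOf (p := 3) (H := ⊤) (psolv_of_isSolvable inferInstance).LOf_eq_bot
      ((isSyl_sylow P).inf_normal le_top (self_le_normalizer_OppPOf ⊤))
    rw [OppPOf_top, top_inf_eq] at this
    refine le_trans ?_ ((centralizer_le inf_le_left).trans this)
    rw [← hBZ]
    rintro _ ⟨c, hc, rfl⟩ x hx
    exact congrArg Subtype.val (mem_center_iff.1 hc ⟨x, hx⟩)
  obtain ⟨q, hq, f⟩ := Ctx.exists_fr_of_comm hb3 hQ.1 (isPGroup_of_forall_pow fun x hx => ⟨1, hQ.2 x hx⟩) hBQ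
    (by rwa [le_centralizer_iff])
  have hq1 : q ∈ pPrimeCore 3 S := by
    obtain ⟨k, hk⟩ := pow_eq_one_of_isPGroup (pCore_isPGroup (p := 3)) (map_pPrimePCore_mk.le
      (mem_map_of_mem _ (((commutator_mono le_rfl hbN).trans (commutator_le_right _ _)) hq)))
    refine (QuotientGroup.eq_one_iff q).1 ((pow_eq_one_iff_of_coprime
      (Nat.Coprime.pow_right k (by decide : Nat.Coprime 2 3))).1 ⟨?_, hk⟩)
    rw [← QuotientGroup.mk_pow, sq, f.sq, QuotientGroup.mk_one]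
  have hq2 : q ∈ ⁅pPrimeCore 3 S, zpowers b⁆ := by
    convert commutator_mem_commutator (hO.conj_mem q hq1 b) (mem_zpowers b) using 1
    rw [commutatorElement_def, inv_eq_of_mul_eq_one_right f.sq', mul_assoc, mul_assoc,
      ← mul_assoc b (b * q * b⁻¹), ← f.mul, f.comm.eq, ← mul_assoc, f.sq', one_mul]
  obtain ⟨e, fr⟩ := f.exists_frm h.inj h.b3 h.rk
  have hc := isCompl_F0 (ρ := ρ) h.nd
  exact ⟨h.structure_thm inferInstance f hq2, _, _, hc.inf_eq_bot, hc.sup_eq_top,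
    fun r hr v hv => mem_F1.1 hv r hr,
    fun r hr v hv => map_mem_F0 (sup_le le_normalizer h.coprimeAct.le_norm hr) hv,
    fun r hr h1 => h.eq_one_of_fix f hq2 hr h1, fun N hN h1 => h.irred fr hq2 hN
      (fun r hr => h1 r (mem_sup_left hr)) (h1 b (mem_sup_right (mem_zpowers b)))⟩

end Cfsg.Agent.S4415
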