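import Cfsg.Statements.S4417
import Cfsg.Agent.Lib.GL.DerLen

set_option autoImplicit false
open Cfsg

namespace Cfsg.Agent.S4417

open Cfsg.Agent.Lib.GL.DerLen

/-- Let F be a field with q elements, p a prime not dividing q, and e the multiplicative order of q modulo p; assume e ≤ n. Then every p-subgroup of GL_n(F) has derived length at most ⌊log₂(n/e)⌋ + 1: that term of its derived series is trivial (n/e is the integer quotient). -/
theorem result {F : Type*} [Field F] [Fintype F] (q : ℕ) (hF : Fintype.card F = q) (p : ℕ) [Fact p.Prime] (hpq : ¬ p ∣ q) (n e : ℕ) (he : e = orderOf (q : ZMod p)) (hen : e ≤ n) (P : Subgroup (GL (Fin n) F)) (hP : IsPGroup p P) : derivedSeries ↥P (Nat.log 2 (n / e) + 1) = ⊥ := by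
  by_contra h
  have h1 := mul_pow_le (F := F) (fun h0 => hpq (by
    have := (CharP.charP_iff_prime_eq_zero Fact.out).2 h0
    obtain ⟨k, -, hk⟩ := FiniteField.card F p
    exact hF ▸ hk ▸ dvd_pow_self p k.ne_zero)) hP ((Units.coeHom _).comp P.subtype)
    (Units.val_injective.comp Subtype.val_injective) h
  rw [hF, ← he, Fintype.card_fin] at h1
  have h2 : 0 < e := he ▸ orderOf_pos_iff.2 (isOfFinOrder_iff_pow_eq_one.2 ⟨p - 1,
    Nat.sub_pos_of_lt (Fact.out : p.Prime).one_lt,
    ZMod.pow_card_sub_one_eq_one (mt (ZMod.natCast_eq_zero_iff _ _).1 hpq)⟩)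
  exact (Nat.lt_pow_succ_log_self one_lt_two _).not_ge ((Nat.le_div_iff_mul_le h2).2
    ((Nat.mul_le_mul_right _ (Nat.pow_le_pow_left (Fact.out : p.Prime).two_le _)).trans
      (mul_comm e _ ▸ h1)))

end Cfsg.Agent.S4417
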