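import Cfsg.Statements.S4420
import Cfsg.Agent.Lib.PGroup.Basic

set_option autoImplicit false
open Cfsg

namespace Cfsg.Agent.S4420

open Subgroup Cfsg.Agent.Lib.Transfer Cfsg.Agent.Lib.PGroup
open scoped Pointwise commutatorElement IsMulCommutative

/-- Structure of groups in which every element outside some proper subgroup has square 1. Let H be a finite group with a proper subgroup A such that every element outside A has square 1. Then H has an abelian normal subgroup B of index 2 such that every element outside B is an involution inverting every element of B; and if H is not an elementary abelian 2-group, B is the only abelian normal subgroup of index 2 with this property. -/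
theorem result {H : Type*} [Group H] [Finite H] (A : Subgroup H) (hA : A ≠ ⊤) (hD : ∀ x : H, x ∉ A → x ^ 2 = 1) :
    ∃ B : Subgroup H, B.Normal ∧ IsMulCommutative ↥B ∧ B.index = 2 ∧
      (∀ x : H, x ∉ B → x ^ 2 = 1 ∧ ∀ b ∈ B, x * b * x⁻¹ = b⁻¹) ∧
      (¬ (IsMulCommutative H ∧ ∀ x : H, x ^ 2 = 1) →
        ∀ B' : Subgroup H, B'.Normal → IsMulCommutative ↥B' → B'.index = 2 →
          (∀ x : H, x ∉ B' → x ^ 2 = 1 ∧ ∀ b ∈ B', x * b * x⁻¹ = b⁻¹) → B' = B) := by
  have comm : (∀ x : H, x ^ 2 = 1) → IsMulCommutative H := fun hc => ⟨⟨fun x y =>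
    (Commute.of_orderOf_dvd_two (fun g => orderOf_dvd_of_pow_eq_one (hc g)) x y).eq⟩⟩
  have inv : ∀ A : Subgroup H, (∀ x : H, x ∉ A → x ^ 2 = 1) → ∀ x ∉ A, ∀ a ∈ A,
      x * a * x⁻¹ = a⁻¹ := by
    intro A hD x hx a ha
    have h1 := hD (x * a) (fun e => hx ((A.mul_mem_cancel_right ha).1 e))
    calc x * a * x⁻¹ = (x * a) ^ 2 * a⁻¹ * (x ^ 2)⁻¹ := by rw [sq, sq]; group
      _ = a⁻¹ := by rw [h1, hD x hx]; group
  obtain ⟨B, hB1, hB2⟩ : ∃ B : Subgroup H, B.index = 2 ∧ ∀ x : H, x ∉ B → x ^ 2 = 1 := by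
    by_cases h2 : A.index = 2
    · exact ⟨A, h2, hD⟩
    obtain ⟨x, -, hx⟩ := SetLike.exists_of_lt (lt_top_iff_ne_top.2 hA)
    obtain ⟨y, hy, hxy⟩ : ∃ y, y ∉ A ∧ y * x ∉ A := by
      by_contra hc
      push Not at hc
      refine h2 (index_eq_two_iff.2 ⟨x, fun y => ?_⟩)
      by_cases hy : y ∈ A
      · exact Or.inr ⟨hy, fun e => hx ((A.mul_mem_cancel_left hy).1 e)⟩
      · exact Or.inl ⟨hc y hy, hy⟩
    have h3 : ∀ g : H, g ^ 2 = 1 := fun g => by
      by_cases hg : g ∈ A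
      · have h4 := inv A hD _ hxy g hg
        rw [show y * x * g * (y * x)⁻¹ = y * (x * g * x⁻¹) * y⁻¹ by group, inv A hD x hx g hg,
          inv A hD y hy _ (inv_mem hg), inv_inv] at h4
        rw [sq, ← eq_inv_iff_mul_eq_one]; exact h4
      · exact hD g hg
    have hP : IsPGroup 2 H := fun g => ⟨1, h3 g⟩
    obtain ⟨M, hM, -⟩ := exists_coatom_ge hA
    exact ⟨M, coatom_index hP hM, fun x _ => h3 x⟩
  obtain ⟨x, -, hx⟩ := SetLike.exists_of_lt (lt_top_iff_ne_top.2
    (show B ≠ ⊤ from fun e => by rw [e, index_top] at hB1; omega))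
  have hBc : IsMulCommutative B := ⟨⟨fun a b => Subtype.ext (by
    have h1 := inv B hB2 x hx _ (mul_mem a.2 b.2)
    rw [show x * ((a : H) * b) * x⁻¹ = (x * a * x⁻¹) * (x * b * x⁻¹) by group,
      inv B hB2 x hx _ a.2, inv B hB2 x hx _ b.2, ← mul_inv_rev, inv_inj] at h1
    exact h1.symm)⟩⟩
  refine ⟨B, normal_of_index_eq_two hB1, hBc, hB1, fun x hx => ⟨hB2 x hx, inv B hB2 x hx⟩,
    fun hne B' _ _ h1 h2 => ?_⟩
  by_contra hc
  have h3 : ¬ B ≤ B' := fun e => hc (eq_of_le_of_card_ge e (by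
    have a1 := B.card_mul_index
    have a2 := B'.card_mul_index
    rw [hB1] at a1
    rw [h1] at a2
    omega)).symm
  obtain ⟨b, hb, hb'⟩ := SetLike.not_le_iff_exists.1 h3
  have h4 : ∀ g : H, g ^ 2 = 1 := fun g => by
    by_cases hg : g ∈ B
    · by_cases hg' : g ∈ B'
      · have h5 := (h2 b hb').2 g hg'
        rw [setLike_mul_comm hb hg, mul_inv_cancel_right] at h5
        rw [sq, ← eq_inv_iff_mul_eq_one]; exact h5
      · exact (h2 g hg').1
    · exact hB2 g hg
  exact hne ⟨comm h4, h4⟩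

end Cfsg.Agent.S4420
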