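import Cfsg.Statements.S5075
import Cfsg.Agent.Lib.Root.McL4

set_option autoImplicit false
open Cfsg

namespace Cfsg.Agent.S5075

open Cfsg.Agent.Lib.Root

/-- Let p be an odd prime, V a finite-dimensional vector space over the field with p elements, and H a group of linear automorphisms of V generated by transvections (elements of order p fixing a hyperplane pointwise) and having no nontrivial normal p-subgroup. Then for some n ≥ 1 there are a decomposition V = V₀ ⊕ V₁ ⊕ ⋯ ⊕ Vₙ into H-invariant subspaces and a decomposition of H as the internal direct product of normal subgroups H₁, …, Hₙ such that Hⱼ acts trivially on every Vᵢ with i ≠ j, and Hⱼ induces on Vⱼ exactly the special linear group of Vⱼ or exactly the isometry group of a non-degenerate alternating form on Vⱼ. -/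
theorem result {p : ℕ} [Fact p.Prime] (hp : Odd p) {V : Type*} [AddCommGroup V] [Module (ZMod p) V] [Finite V]
    (H : Subgroup (V ≃ₗ[ZMod p] V)) (T : Set (V ≃ₗ[ZMod p] V)) (hHT : H = Subgroup.closure T)
    (hT : ∀ t ∈ T, orderOf t = p ∧
      Module.finrank (ZMod p) ↥(LinearMap.ker ((t : V →ₗ[ZMod p] V) - LinearMap.id)) + 1 =
        Module.finrank (ZMod p) V)
    (hOp : Cfsg.pCore p ↥H = ⊥) :
    ∃ (n : ℕ) (W : Fin (n + 1) → Submodule (ZMod p) V) (K : Fin n → Subgroup (V ≃ₗ[ZMod p] V)),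
      1 ≤ n ∧ DirectSum.IsInternal W ∧
      (∀ h ∈ H, ∀ i, (W i).map (h : V →ₗ[ZMod p] V) = W i) ∧
      (∀ j, K j ≤ H ∧ ((K j).subgroupOf H).Normal) ∧ ⨆ j, K j = H ∧
      (∀ j, K j ⊓ (⨆ j' ∈ {j' : Fin n | j' ≠ j}, K j') = ⊥) ∧
      (∀ j j', j ≠ j' → ∀ a ∈ K j, ∀ b ∈ K j', a * b = b * a) ∧
      (∀ j, ∀ h ∈ K j, ∀ i : Fin (n + 1), i ≠ j.succ → ∀ v ∈ W i, h v = v) ∧
      (∀ j, ∃ ρ : ↥(K j) →* (↥(W j.succ) ≃ₗ[ZMod p] ↥(W j.succ)),
        (∀ (h : ↥(K j)) (v : ↥(W j.succ)), ((ρ h v : ↥(W j.succ)) : V) = (h : V ≃ₗ[ZMod p] V) (v : V)) ∧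
        ((ρ.range : Set (↥(W j.succ) ≃ₗ[ZMod p] ↥(W j.succ))) =
            {f : ↥(W j.succ) ≃ₗ[ZMod p] ↥(W j.succ) | LinearMap.det (f : ↥(W j.succ) →ₗ[ZMod p] ↥(W j.succ)) = 1} ∨
          ∃ B : LinearMap.BilinForm (ZMod p) ↥(W j.succ), B.IsAlt ∧ B.Nondegenerate ∧
            (ρ.range : Set (↥(W j.succ) ≃ₗ[ZMod p] ↥(W j.succ))) = {f : ↥(W j.succ) ≃ₗ[ZMod p] ↥(W j.succ) | ∀ x y, B (f x) (f y) = B x y})) := by
  have hp3 : 3 ≤ p := by
    have h2 := (Fact.out : p.Prime).two_le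
    obtain ⟨k, hk⟩ := hp
    omega
  have : FiniteDimensional (ZMod p) V := Module.Finite.of_finite
  have hT' : ∀ t ∈ T, ∃ (v : V) (φ : Module.Dual (ZMod p) V) (h : φ v = 0), v ≠ 0 ∧ φ ≠ 0 ∧
      t = LinearEquiv.transvection h := by
    intro t ht
    obtain ⟨h1, h2⟩ := hT t ht
    have h3 := LinearMap.finrank_range_add_finrank_ker ((t : V →ₗ[ZMod p] V) - LinearMap.id)
    obtain ⟨φ, v, h4⟩ := LinearEquiv.mem_dilatransvections_iff_finrank.2
      (show Module.finrank (ZMod p) (LinearMap.range ((t : V →ₗ[ZMod p] V) - LinearMap.id)) ≤ 1 by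
        omega)
    have h5 : φ v = 0 := by
      have h6 := congrArg (fun g => ((LinearEquiv.det g : (ZMod p)ˣ) : ZMod p)) (pow_orderOf_eq_one t)
      simp only [h1, map_pow, Units.val_pow_eq_pow_val, ZMod.pow_card, map_one, Units.val_one,
        LinearEquiv.coe_det, h4, LinearMap.transvection.det] at h6
      simpa using h6
    have h6 : t = LinearEquiv.transvection h5 := LinearEquiv.toLinearMap_injective h4
    have h7 : t ≠ 1 := by
      rintro rfl
      rw [orderOf_one] at h1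
      omega
    refine ⟨v, φ, h5, ?_, ?_, h6⟩
    · rintro rfl
      exact h7 (h6.trans (by ext x; simp [McL.tv_apply]))
    · rintro rfl
      exact h7 (h6.trans (by ext x; simp [McL.tv_apply]))
  have hG : McL.Gen H := by
    intro P h1 h2 h3 g hg
    have hH : ∀ t ∈ T, t ∈ H := fun t ht => hHT ▸ Subgroup.subset_closure ht
    rw [hHT] at hg
    induction hg using Subgroup.closure_induction'' with
    | mem t ht =>
      obtain ⟨v, φ, h, hv, hφ, rfl⟩ := hT' t ht
      exact h3 v φ h hv hφ (hH _ ht)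
    | inv_mem t ht =>
      obtain ⟨v, φ, h, hv, hφ, rfl⟩ := hT' t ht
      have h' : φ (-v) = 0 := by simp [h]
      have h4 := LinearEquiv.transvection.inv_eq h h'
      rw [h4]
      exact h3 (-v) φ h' (neg_ne_zero.2 hv) hφ (h4 ▸ H.inv_mem (hH _ ht))
    | one => exact h1
    | mul x y _ _ hx hy => exact h2 x y hx hy
  have hTS := McL.ts_XH hp3 hOp
  have : Finite (Module.Dual (ZMod p) V) := DFunLike.finite _
  let S := Set.range (McL.comp (LinearMap.id : Module.Dual (ZMod p) V →ₗ[ZMod p] V →ₗ[ZMod p] ZMod p)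
    (McL.XH H))
  have : Nonempty S := ⟨⟨_, (0, 0), rfl⟩⟩
  let e := (Finite.equivFin S).symm
  let C : Fin (Nat.card S) → V → Module.Dual (ZMod p) V → Prop := fun j => (e j).1
  have hC : ∀ j, McL.Comp LinearMap.id (McL.XH H) (C j) := fun j => by
    obtain ⟨x, hx⟩ := (e j).2
    simp only [C, ← hx]
    exact McL.comp_isComp _ _ x
  have hgood := fun j => McL.good hp3 hOp hG hTS (hC j)
  obtain ⟨h1, h2, h3, h4, h5, h6, h7⟩ := McL.assemble hG C hC
    (Subtype.val_injective.comp e.injective) (fun v φ h1 h2 h3 => ⟨e.symm ⟨_, (v, φ), rfl⟩, by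
      simp only [C, Equiv.apply_symm_apply]
      exact ⟨⟨h1, h2, h3⟩, .refl⟩⟩) (fun j => (hgood j).1)
    (Fin.cons (⨅ j, McL.CC (C j)) fun j => McL.WC (C j)) rfl (fun _ => rfl)
  exact ⟨_, _, fun j => McL.KC (C j), Nat.card_pos, h1, h2, h3, h4, h5, h6, h7,
    fun j => ⟨McL.rho (C j), fun _ _ => rfl, (hgood j).2⟩⟩

end Cfsg.Agent.S5075
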